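import Mathlib
import Cfsg.Agent.Perm.LinReg

/-! Soluble groups regular on the non-zero vectors of a finite module. -/

set_option autoImplicit false

namespace Cfsg.Agent.Perm

open Subgroup GT.Frob

variable {G V : Type*} [Group G] [AddCommGroup V] [DistribMulAction G V]

theorem FieldData.finrank_eq_one [Finite V] [Nontrivial V] {A : Subgroup G} {K : Type*} [Field K]
    [Module K V] (D : FieldData V A K)
    (h : ∀ W : AddSubgroup V, (∀ a ∈ A, ∀ v ∈ W, a • v ∈ W) → W = ⊥ ∨ W = ⊤) :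
    Module.finrank K V = 1 := by
  obtain ⟨v, hv⟩ := exists_ne (0 : V)
  rcases h (K ∙ v).toAddSubgroup (fun a ha x hx => by
    rw [D.smul_eq ⟨a, ha⟩]
    exact Submodule.smul_mem _ _ hx) with e | e
  · have : v ∈ (K ∙ v).toAddSubgroup := Submodule.mem_span_singleton_self v
    rw [e] at this
    exact absurd this hv
  · have e' : (K ∙ v) = ⊤ := Submodule.toAddSubgroup_injective e
    rw [← finrank_top, ← e', finrank_span_singleton hv]

theorem faithful_of_free [Nontrivial V]
    (hfree : ∀ (g : G) (v : V), v ≠ 0 → g • v = v → g = 1) : FaithfulSMul G V := by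
  obtain ⟨v, hv⟩ := exists_ne (0 : V)
  exact ⟨fun {a b} h => (inv_mul_eq_one.1 (hfree _ v hv (by
    rw [mul_smul, ← h, inv_smul_smul])))⟩

theorem hasFpfAction_of_free [Finite G] [Nontrivial V]
    (hfree : ∀ (g : G) (v : V), v ≠ 0 → g • v = v → g = 1) : HasFpfAction G :=
  hasFpfAction_of_distribMulAction V fun a ha v h => by
    by_contra hv
    exact ha (hfree a v hv h)

/-- With no irreducible cyclic normal subgroup there is a minimal non-abelian normal subgroup
centralising a maximal normal abelian one. -/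
theorem exists_minNonab [Finite V] [Nontrivial V] [Finite G] [FaithfulSMul G V]
    (htr : ∀ v w : V, v ≠ 0 → w ≠ 0 → ∃ g : G, g • v = w)
    (hI : ∀ A : Subgroup G, A.Normal → IsCyclic A →
      ∃ W : AddSubgroup V, W ≠ ⊥ ∧ W ≠ ⊤ ∧ ∀ a ∈ A, ∀ v ∈ W, a • v ∈ W) :
    ∃ A N : Subgroup G, MinNonab A N := by
  obtain ⟨A, hAn, hAc, hmax⟩ := exists_maximal_normal_comm (G := G)
  obtain ⟨K, _, _, _, ⟨D⟩⟩ := exists_fieldData htr A
  obtain ⟨W, h0, h1, hW⟩ := hI A hAn D.isCyclic
  have h := D.not_centralizer_le htr (D.one_lt_finrank W hW h0 h1)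
  obtain ⟨N, h1, h2, h3, h4⟩ := exists_minimal_normal_not_comm (centralizer (A : Set G))
    fun hc => h (hmax _ inferInstance hc (le_centralizer A)).le
  exact ⟨A, N, hAn, hAc, hmax, h1, h2, h3, h4⟩

theorem exceptional_of_reg_of_isSolvable [Finite V] [Nontrivial V] [Finite G] [Group.IsSolvable G]
    {p : ℕ} (hp : p.Prime) (hV : ∀ v : V, p • v = 0)
    (htr : ∀ v w : V, v ≠ 0 → w ≠ 0 → ∃ g : G, g • v = w)
    (hfree : ∀ (g : G) (v : V), v ≠ 0 → g • v = v → g = 1)
    (hI : ∀ A : Subgroup G, A.Normal → IsCyclic A →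
      ∃ W : AddSubgroup V, W ≠ ⊥ ∧ W ≠ ⊤ ∧ ∀ a ∈ A, ∀ v ∈ W, a • v ∈ W) :
    Nat.card V = p ^ 2 ∧ (p = 5 ∨ p = 7 ∨ p = 11 ∨ p = 23) ∧
      ∃ N : Subgroup G, N.Normal ∧ Nonempty (N ≃* QuaternionGroup 2) ∧
        Nat.card (centralizer (N : Set G)) ∣ p - 1 ∧
        ∃ W : AddSubgroup V, Nat.card W = p ∧
          ∀ g ∈ centralizer (N : Set G), ∀ v ∈ W, g • v ∈ W := by
  haveI := faithful_of_free hfree
  obtain ⟨A, N, h⟩ := exists_minNonab htr hI
  haveI := h.nN
  obtain ⟨e⟩ := h.quaternion_of_isSolvable (hasFpfAction_of_free hfree)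
  obtain ⟨h1, h2, h3, h4⟩ := exists_line_of_reg hp hV htr hfree (Or.inl ⟨e⟩)
  refine ⟨h1, ?_, N, h.nN, ⟨e⟩, h3, h4⟩
  have hG := card_eq_card_sub_one_of_reg htr hfree
  have hN : Nat.card N = 8 := by
    rw [Nat.card_congr e.toEquiv, Nat.card_eq_fintype_card, QuaternionGroup.card]
  have h5 := h2.trans (index_centralizer_dvd_of_quaternion e)
  have h6 := card_subgroup_dvd_card N
  rw [hG, h1, hN] at h6
  have h3' : p ≠ 3 := by
    rintro rfl
    let i : G := e.symm (QuaternionGroup.a 1)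
    have hi : orderOf i = 4 := by
      rw [orderOf_coe, MulEquiv.orderOf_eq, QuaternionGroup.orderOf_a_one]
    have hB : Nat.card (zpowers i) = 4 := by rw [Nat.card_zpowers, hi]
    have hind : (zpowers i).index = 2 := by
      have := card_mul_index (zpowers i)
      rw [hB, hG, h1] at this
      omega
    obtain ⟨W, h0, htop, hW⟩ := hI (zpowers i) (normal_of_index_eq_two hind) inferInstance
    have e1 := card_dvd_card_sub_one_of_invariant _ W hW fun c _ v _ => hfree c v
    have e2 := AddSubgroup.card_addSubgroup_dvd_card W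
    rw [h1, Nat.dvd_prime_pow hp] at e2
    obtain ⟨k, hk, e2⟩ := e2
    interval_cases k
    · exact h0 (AddSubgroup.card_eq_one.1 (by simpa using e2))
    · rw [hB, e2] at e1
      norm_num at e1
    · exact htop (AddSubgroup.eq_top_of_card_eq W (e2.trans h1.symm))
  have h7 := Nat.le_of_dvd (by norm_num) h5
  have h8 := hp.two_le
  have : p ≤ 23 := by omega
  interval_cases p <;> first | omega | (exfalso; revert hp; norm_num)

end Cfsg.Agent.Perm
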