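import Mathlib

/-! Linear-algebra helpers for closures of affine groups. -/

set_option autoImplicit false

namespace Cfsg.Agent.Perm

/-- a linear automorphism carrying one linearly independent family to another -/
theorem exists_linearEquiv_of_linearIndependent {K V : Type*} [Field K] [AddCommGroup V]
    [Module K V] {ι : Type*} [Finite ι] (u u' : ι → V) (h : LinearIndependent K u)
    (h' : LinearIndependent K u') : ∃ A : V ≃ₗ[K] V, ∀ i, A (u i) = u' i := by
  haveI : FiniteDimensional K (Submodule.span K (Set.range u)) :=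
    FiniteDimensional.span_of_finite K (Set.finite_range _)
  let f := h.linearCombinationEquiv.symm ≪≫ₗ h'.linearCombinationEquiv
  obtain ⟨A, hA⟩ := Submodule.exists_linearEquiv_restrict_eq f
  refine ⟨A, fun i => ?_⟩
  have q : (h.linearCombinationEquiv (Finsupp.single i 1) : V) = u i := by simp
  have q' : (h'.linearCombinationEquiv (Finsupp.single i 1) : V) = u' i := by simp
  rw [← q, ← hA, ← q']
  simp [f]

/-- a linear automorphism of prescribed determinant fixing a proper subspace pointwise -/
theorem exists_linearEquiv_det_eq_fix {K V : Type*} [Field K] [AddCommGroup V]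
    [Module K V] [FiniteDimensional K V] (W : Submodule K V) (hW : W ≠ ⊤) (c : K) (hc : c ≠ 0) :
    ∃ B : V ≃ₗ[K] V, LinearMap.det (B : V →ₗ[K] V) = c ∧ ∀ w ∈ W, B w = w := by
  obtain ⟨v, hv⟩ : ∃ v, v ∉ W := by
    by_contra h
    push Not at h
    exact hW (eq_top_iff.2 fun x _ => h x)
  obtain ⟨φ, hφ, hφW⟩ := W.exists_dual_map_eq_bot_of_notMem hv inferInstance
  have hd : (LinearMap.transvection φ (((c - 1) * (φ v)⁻¹) • v)).det = c := by
    rw [LinearMap.transvection.det, map_smul, smul_eq_mul, mul_assoc, inv_mul_cancel₀ hφ]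
    ring
  have hu : IsUnit (LinearMap.transvection φ (((c - 1) * (φ v)⁻¹) • v)) := by
    rw [LinearMap.isUnit_iff_isUnit_det, hd]
    exact hc.isUnit
  refine ⟨LinearEquiv.ofBijective _ ((Module.End.isUnit_iff _).1 hu), hd, fun w hw => ?_⟩
  have : φ w = 0 := by
    have : φ w ∈ W.map φ := Submodule.mem_map_of_mem hw
    rwa [hφW, Submodule.mem_bot] at this
  simp [LinearMap.transvection.apply, this]

/-- a permutation of a vector space in odd characteristic agreeing on all triples with affine
maps is affine -/
theorem affine_of_triples {K V : Type*} [Field K] [AddCommGroup V] [Module K V]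
    (h2 : (2 : K) ≠ 0) (σ : Equiv.Perm V)
    (hσ : ∀ t : Fin 3 → V, ∃ (A : V ≃ₗ[K] V) (b : V), ∀ i, σ (t i) = A (t i) + b) :
    ∃ (A : V ≃ₗ[K] V) (b : V), ∀ x, σ x = A x + b := by
  have key : ∀ (x y : V) (c : K), σ (x + c • (y - x)) = σ x + c • (σ y - σ x) := by
    intro x y c
    obtain ⟨A, b, h⟩ := hσ ![x, y, x + c • (y - x)]
    have h0 := h 0
    have h1 := h 1
    have h2 := h 2
    simp only [Matrix.cons_val_zero, Matrix.cons_val_one, Matrix.cons_val] at h0 h1 h2
    rw [h0, h1, h2]
    simp only [map_add, map_smul, map_sub]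
    module
  have hsmul : ∀ (c : K) (y : V), σ (c • y) - σ 0 = c • (σ y - σ 0) := by
    intro c y
    have := key 0 y c
    simp only [zero_add, sub_zero] at this
    rw [this]; abel
  have hadd : ∀ x y : V, σ (x + y) - σ 0 = (σ x - σ 0) + (σ y - σ 0) := by
    intro x y
    have e1 := key x y 2⁻¹
    have e2 := hsmul 2 (x + (2⁻¹ : K) • (y - x))
    have e3 : (2 : K) • (x + (2⁻¹ : K) • (y - x)) = x + y := by
      rw [smul_add, smul_smul, mul_inv_cancel₀ h2, one_smul, two_smul]; abel
    rw [e3, e1, smul_sub, smul_add, smul_smul, mul_inv_cancel₀ h2, one_smul, two_smul,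
      two_smul] at e2
    rw [e2]; abel
  let L : V →ₗ[K] V :=
    { toFun := fun x => σ x - σ 0
      map_add' := hadd
      map_smul' := hsmul }
  have hL : Function.Bijective L := by
    have : (L : V → V) = (Equiv.subRight (σ 0)) ∘ σ := by ext x; simp [L]
    rw [this]
    exact (Equiv.bijective _).comp σ.bijective
  exact ⟨LinearEquiv.ofBijective L hL, σ 0, fun x => by simp [L]⟩

end Cfsg.Agent.Perm
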