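import Mathlib
import Cfsg.Agent.Perm.BGroup

/-! Schur's theorem: cyclic groups of composite order are B-groups. -/

set_option autoImplicit false

namespace Cfsg.Agent.Perm

open Cfsg MulAction

/-- **Schur**: a primitive group with a regular cyclic subgroup of composite order is doubly
transitive. -/
theorem two_pretransitive_of_regular_cyclic {G : Type*} [Group G] {Ω : Type*} [MulAction G Ω]
    [Finite Ω] (hG : IsPreprimitive G Ω) (C : Subgroup G) [IsCyclic C] [IsPretransitive C Ω]
    (a : Ω) (ha : stabilizer C a = ⊥) {p : ℕ} (hp : p.Prime) (hpn : p ∣ Nat.card Ω)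
    (hn : p ≠ Nat.card Ω) : IsMultiplyPretransitive G Ω 2 := by
  haveI : Nonempty Ω := ⟨a⟩
  letI : CommGroup C := IsCyclic.commGroup
  have hcard : Nat.card C = Nat.card Ω := card_eq_of_regular a ha
  haveI : Finite C := Nat.finite_of_card_ne_zero (by rw [hcard]; exact Nat.card_pos.ne')
  refine two_pretransitive_of_regular_comm hG C.subtype a ⟨fun h k e => ?_, fun x => ?_⟩ hp ?_ ?_
  · have : k⁻¹ * h ∈ stabilizer C a := by
      rw [mem_stabilizer_iff, mul_smul, inv_smul_eq_iff]
      exact e
    rw [ha, Subgroup.mem_bot] at this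
    exact (inv_mul_eq_one.1 this).symm
  · exact exists_smul_eq C a x
  · have := IsCyclic.card_powMonoidHom_ker C p
    rw [hcard, Nat.gcd_eq_right hpn] at this
    exact this
  · rw [hcard]
    exact lt_of_le_of_ne (Nat.le_of_dvd Nat.card_pos hpn) hn

end Cfsg.Agent.Perm
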