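import Mathlib
import Cfsg.Agent.Perm.Basic
import Cfsg.Agent.Sym.Basic

/-! # Babai's bound on the distinguishing sets of a primitive group, and minimal degrees -/

set_option autoImplicit false
open Finset MulAction

namespace Cfsg.Agent.Perm.Babai

variable {G Ω : Type*} [Group G] [MulAction G Ω] [Fintype Ω]

open Classical in
/-- The points `z` whose stabiliser does not carry `a` to `b`. -/
noncomputable def psi (G : Type*) [Group G] [MulAction G Ω] (a b : Ω) : Finset Ω :=
  univ.filter fun z => ¬ ∃ h : G, h • z = z ∧ h • a = b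

theorem mem_psi {a b z : Ω} : z ∈ psi G a b ↔ ∀ h : G, h • z = z → h • a ≠ b := by
  simp [psi]

theorem psi_symm (a b : Ω) : psi G a b ⊆ psi G b a := fun z hz =>
  mem_psi.2 fun h h1 h2 => mem_psi.1 hz h⁻¹ (inv_smul_eq_iff.2 h1.symm) (inv_smul_eq_iff.2 h2.symm)

theorem card_psi_le (a b c : Ω) : #(psi G a c) ≤ #(psi G a b) + #(psi G b c) := by
  classical
  refine (card_le_card fun z hz => ?_).trans (card_union_le _ _)
  by_contra hc
  simp only [mem_union, mem_psi, not_or, not_forall, not_not] at hc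
  obtain ⟨⟨h, h1, h2⟩, k, k1, k2⟩ := hc
  exact mem_psi.1 hz (k * h) (by rw [mul_smul, h1, k1]) (by rw [mul_smul, h2, k2])

theorem card_psi_smul (h : G) (a b : Ω) : #(psi G (h • a) (h • b)) ≤ #(psi G a b) :=
  card_le_card_of_injOn (h⁻¹ • ·) (fun z hz => mem_coe.2 (mem_psi.2 fun k k1 k2 =>
    mem_psi.1 hz (h * k * h⁻¹) (by rw [mul_smul, mul_smul, k1, smul_inv_smul])
      (by rw [mul_smul, mul_smul, inv_smul_smul, k2]))) (MulAction.injective _).injOn

theorem card_filter_le (R : Ω → Ω → Prop) [DecidableRel R] (hR : ∀ (h : G) u v, R u v → R (h • u) (h • v))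
    [IsPretransitive G Ω] (a b : Ω) : #(univ.filter (R a)) ≤ #(univ.filter (R b)) := by
  obtain ⟨h, rfl⟩ := exists_smul_eq G a b
  exact card_le_card_of_injOn (h • ·) (fun z hz => by simpa using hR h _ _ (by simpa using hz))
    (MulAction.injective _).injOn

open Classical in
theorem card_le_compl_suborbit [Finite G] (hprim : IsPreprimitive G Ω)
    (h2 : ¬ IsMultiplyPretransitive G Ω 2) (z a : Ω) :
    Fintype.card Ω ≤ (#(univ.filter fun b => ¬ ∃ h : G, h • z = z ∧ h • a = b) + 1) ^ 2 := by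
  have hc := card_filter_add_card_filter_not (s := univ) fun b => ∃ h : G, h • z = z ∧ h • a = b
  rw [card_univ] at hc
  by_cases haz : a = z
  · have : #(univ.filter fun b => ∃ h : G, h • z = z ∧ h • a = b) ≤ 1 :=
      card_le_one.2 (by
        simp only [mem_filter, haz]
        rintro _ ⟨-, h, h1, rfl⟩ _ ⟨-, k, k1, rfl⟩
        rw [h1, k1])
    nlinarith
  let R : Ω → Ω → Prop := fun u v => ¬ ∃ h : G, h • z = u ∧ h • a = v
  have hR : ∀ (h : G) u v, R u v → R (h • u) (h • v) := fun h u v H ⟨k, k1, k2⟩ =>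
    H ⟨h⁻¹ * k, by rw [mul_smul, k1, inv_smul_smul], by rw [mul_smul, k2, inv_smul_smul]⟩
  by_cases ht : ∀ u v w, R u v → R v w → R u w
  · let S : Submonoid G := ⟨⟨{h | R z (h • z)}, fun {h k} h1 k1 =>
      ht _ _ _ h1 (by simpa [mul_smul] using hR h _ _ k1)⟩, fun ⟨k, k1, k2⟩ =>
        haz (smul_left_cancel k (k2.trans ((one_smul _ _).trans k1.symm)))⟩
    let H : Subgroup G := ⟨S, fun {h} hh => Submonoid.powers_le.2 hh
      (mem_powers_iff_mem_zpowers.2 (inv_mem (Subgroup.mem_zpowers h)))⟩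
    have hH : ∀ h, h ∈ H ↔ R z (h • z) := fun _ => Iff.rfl
    exfalso
    rcases eq_stabilizer_or_eq_top hprim z (H := H) fun h hh => (hH h).2 (by
      simpa [mem_stabilizer_iff.1 hh] using (hH 1).1 (one_mem H)) with h | h
    · have key : ∀ u v, u ≠ v → ∃ k : G, k • z = u ∧ k • a = v := fun u v huv => by
        obtain ⟨k, rfl⟩ := exists_smul_eq G z u
        obtain ⟨l, rfl⟩ := exists_smul_eq G z v
        by_contra hc
        have := hR k⁻¹ _ _ hc
        rw [inv_smul_smul, smul_smul, ← hH, h, mem_stabilizer_iff, mul_smul, inv_smul_eq_iff] at this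
        exact huv this.symm
      refine h2 (is_two_pretransitive_iff.2 fun {u v u' v'} h1 h3 => ?_)
      obtain ⟨k, rfl, rfl⟩ := key u v h1
      obtain ⟨l, rfl, rfl⟩ := key u' v' h3
      exact ⟨l * k⁻¹, by simp [mul_smul], by simp [mul_smul]⟩
    · obtain ⟨k, rfl⟩ := exists_smul_eq G z a
      exact (hH k).1 (h ▸ trivial) ⟨1, by simp⟩
  push Not at ht
  obtain ⟨u, v, w, h1, h3, h4⟩ := ht
  obtain ⟨k, rfl, rfl⟩ := not_not.1 h4
  have : #(univ.filter fun b => ∃ h : G, h • z = z ∧ h • a = b) ≤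
      #(univ.filter (R z)) * #(univ.filter (R z)) := by
    refine (card_le_card (t := (univ.filter (R z)).biUnion fun c => univ.filter (R c))
      fun b hb => ?_).trans (card_biUnion_le_card_mul _ _ _ fun c _ => card_filter_le R hR c z)
    obtain ⟨l, l1, rfl⟩ := (mem_filter.1 hb).2
    have e1 := hR (l * k⁻¹) _ _ h1
    have e2 := hR (l * k⁻¹) _ _ h3
    simp only [mul_smul, inv_smul_smul, l1] at e1 e2
    exact mem_biUnion.2 ⟨_, mem_filter.2 ⟨mem_univ _, e1⟩, mem_filter.2 ⟨mem_univ _, e2⟩⟩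
  change _ + #(univ.filter (R z)) = _ at hc
  change _ ≤ (#(univ.filter (R z)) + 1) ^ 2
  nlinarith

/-- Babai's bound: in a primitive, not doubly transitive group of degree `n`, two points are
distinguished by at least `(√n - 1) / 2` points. -/
theorem card_le_psi [Finite G] (hprim : IsPreprimitive G Ω) (h2 : ¬ IsMultiplyPretransitive G Ω 2)
    {x y : Ω} (hxy : x ≠ y) : Fintype.card Ω ≤ (2 * #(psi G x y) + 1) ^ 2 := by
  classical
  let A : Ω → Ω → Prop := fun a b => ∃ h : G, (h • x = a ∧ h • y = b) ∨ (h • x = b ∧ h • y = a)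
  have hA : ∀ (h : G) u v, A u v → A (h • u) (h • v) := fun h u v ⟨k, hk⟩ =>
    ⟨h * k, by simpa [mul_smul] using hk⟩
  have hAs : ∀ {u v}, A u v → A v u := fun ⟨k, hk⟩ => ⟨k, hk.symm⟩
  have hD : ∀ {a b}, A a b → #(psi G a b) ≤ #(psi G x y) := by
    rintro _ _ ⟨h, ⟨rfl, rfl⟩ | ⟨rfl, rfl⟩⟩
    · exact card_psi_smul h x y
    · exact (card_le_card (psi_symm _ _)).trans (card_psi_smul h x y)
  have hconn : ∀ T : Ω → Prop, (∀ u v, T u → A u v → T v) → ∀ u v, T u → T v := by
    intro T hT u v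
    rcases prim_rel hprim (fun u v => ∀ T : Ω → Prop, (∀ u v, T u → A u v → T v) → (T u ↔ T v))
      ⟨fun _ _ _ => Iff.rfl, fun h T hT => (h T hT).symm, fun h k T hT => (h T hT).trans (k T hT)⟩
      (fun g u v h T hT => h (fun w => T (g • w)) fun _ _ h1 h3 => hT _ _ h1 (hA g _ _ h3)) with h | h
    · exact absurd (h x y fun T hT => ⟨fun h => hT _ _ h ⟨1, by simp⟩,
        fun h => hT _ _ h ⟨1, by simp⟩⟩) hxy
    · exact (h u v T hT).1
  by_cases hd : ∀ b, b = x ∨ A x b ∨ ∃ c, A x c ∧ A c b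
  · have h3 : ∀ b, #(psi G x b) ≤ 2 * #(psi G x y) := fun b => by
      rcases hd b with rfl | h | ⟨c, h, k⟩
      · rw [show psi G b b = ∅ from eq_empty_of_forall_notMem fun z hz =>
          mem_psi.1 hz 1 (by simp) (by simp)]
        simp
      · have := hD h
        omega
      · have := card_psi_le (G := G) x c b
        have := hD h
        have := hD k
        omega
    obtain ⟨z, -, hz⟩ := exists_le_of_sum_le (s := univ) ⟨x, mem_univ x⟩
      (f := fun z => #(univ.filter fun b => ¬ ∃ h : G, h • z = z ∧ h • x = b))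
      (g := fun _ => 2 * #(psi G x y)) (le_trans (by
        simp only [psi, card_filter]
        exact (sum_comm).le) (sum_le_sum fun b _ => h3 b))
    exact (card_le_compl_suborbit hprim h2 z x).trans (Nat.pow_le_pow_left (by omega) 2)
  obtain ⟨c, b, hc, hcb, hb⟩ : ∃ c b, (c = x ∨ A x c ∨ ∃ d, A x d ∧ A d c) ∧ A c b ∧
      ¬ (b = x ∨ A x b ∨ ∃ d, A x d ∧ A d b) := by
    by_contra hc
    push Not at hc
    exact hd fun b => hconn (fun b => b = x ∨ A x b ∨ ∃ c, A x c ∧ A c b)
      hc x b (Or.inl rfl)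
  push Not at hb
  obtain ⟨d, hd1, hd2⟩ := (hc.resolve_left fun h => hb.2.1 (h ▸ hcb)).resolve_left
    fun h => hb.2.2 c h hcb
  have h3 : #(univ.filter (A x)) + #(univ.filter (A b)) ≤ #(psi G x b) := by
    rw [← card_union_of_disjoint (disjoint_filter.2 fun z _ h1 h3 => hb.2.2 z h1 (hAs h3))]
    refine card_le_card fun z hz => mem_psi.2 fun h h1 h3 => ?_
    rcases mem_union.1 hz with hz | hz
    · exact hb.2.2 z (mem_filter.1 hz).2 (hAs (h1 ▸ h3 ▸ hA h _ _ (mem_filter.1 hz).2))
    · refine hb.2.2 z ?_ (hAs (mem_filter.1 hz).2)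
      have := hA h⁻¹ _ _ (mem_filter.1 hz).2
      rwa [inv_smul_eq_iff.2 h1.symm, inv_smul_eq_iff.2 h3.symm] at this
  have h4 := card_filter_le A hA x b
  have h5 := card_psi_le (G := G) x d b
  have h6 := card_psi_le (G := G) d c b
  have := hD hd1
  have := hD hd2
  have := hD hcb
  have h7 : #(univ.erase x) ≤ #(univ.filter (A x)) * #(psi G x y) := by
    refine (card_le_card (t := (univ.filter (A x)).biUnion fun c => psi G x c)
      fun z hz => ?_).trans (card_biUnion_le_card_mul _ _ _ fun c hc => hD (mem_filter.1 hc).2)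
    by_contra hz'
    simp only [mem_biUnion, mem_filter, mem_univ, true_and, mem_psi, not_exists, not_and,
      not_forall, not_not] at hz'
    obtain ⟨h, h1, h8⟩ := hconn (fun u => ∃ h : G, h • z = z ∧ h • x = u) (by
      rintro _ v ⟨h, h1, rfl⟩ h8
      obtain ⟨k, k1, k2⟩ := hz' (h⁻¹ • v) (by simpa using hA h⁻¹ _ _ h8)
      exact ⟨h * k, by rw [mul_smul, k1, h1], by rw [mul_smul, k2, smul_inv_smul]⟩) x z ⟨1, by simp⟩
    exact (mem_erase.1 hz).1 (smul_left_cancel h (h1.trans h8.symm))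
  rw [card_erase_of_mem (mem_univ x), card_univ] at h7
  have h8 : Fintype.card Ω ≤ #(univ.filter (A x)) * #(psi G x y) + 1 := by omega
  nlinarith

open Classical in
/-- A doubly transitive group not containing the alternating group has minimal degree at least
`√(n - 1) + 1`. -/
theorem card_le_of_two_trans [DecidableEq Ω] [Finite G] (h2 : IsMultiplyPretransitive G Ω 2)
    (hA : ¬ alternatingGroup Ω ≤ (toPermHom G Ω).range) {g : G} {a : Ω} (ha : g • a ≠ a) :
    Fintype.card Ω - 1 ≤ (#(univ.filter fun x : Ω => g • x ≠ x) - 1) ^ 2 := by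
  haveI := Fintype.ofFinite G
  set Δ := (univ.filter fun x : Ω => g • x ≠ x).erase a
  let T : Ω → Ω → Finset G := fun b c => univ.filter fun h => h • a = a ∧ h • b = c
  have hT : ∀ b c b' c', b ≠ a → c ≠ a → b' ≠ a → c' ≠ a → #(T b c) ≤ #(T b' c') := by
    intro b c b' c' hb hc hb' hc'
    obtain ⟨k, k1, k2⟩ := exists_smul_eq_two h2 hb'.symm hb.symm
    obtain ⟨l, l1, l2⟩ := exists_smul_eq_two h2 hc.symm hc'.symm
    exact card_le_card_of_injOn (l * · * k) (fun h hh => by
      simp only [T, coe_filter, mem_univ, true_and, Set.mem_ofPred_eq] at hh ⊢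
      simp [mul_smul, k1, k2, l1, l2, hh.1, hh.2]) fun _ _ _ _ e => by simpa using e
  have h1 : #(univ.filter fun h : G => h • a = a) ≤ #(Δ ×ˢ Δ) * #(T (g • a) (g • a)) := by
    refine (card_le_card (t := (Δ ×ˢ Δ).biUnion fun p => T p.1 p.2) fun h hh => ?_).trans
      (card_biUnion_le_card_mul _ _ _ fun p hp => hT _ _ _ _ (mem_erase.1 (mem_product.1 hp).1).1
        (mem_erase.1 (mem_product.1 hp).2).1 ha ha)
    have hh := (mem_filter.1 hh).2
    by_contra hc
    have h3 := (Sym.isThreeCycle_commutator_of_inter (g := toPermHom G Ω g)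
      (h := toPermHom G Ω (h⁻¹ * g * h)) (a := a) ha
      (by simpa [mul_smul, hh, inv_smul_eq_iff] using ha) fun x h1 h3 => by_contra fun hx => hc
        (mem_biUnion.2 ⟨(x, h • x), by
          simpa [Δ, hx, mul_smul, inv_smul_eq_iff] using ⟨h1, fun e => hx
            (smul_left_cancel h (e.trans hh.symm)), by
              simpa [mul_smul, inv_smul_eq_iff] using h3⟩, by simp [T, hh]⟩)).2
    haveI := h2
    refine hA (Equiv.Perm.alternatingGroup_le_of_isPreprimitive_of_isThreeCycle_mem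
      (isPreprimitive_range_iff.2 (isPreprimitive_of_is_two_pretransitive h2)) h3 ?_)
    exact mul_mem (mul_mem (mul_mem ⟨_, rfl⟩ ⟨_, rfl⟩) (inv_mem ⟨_, rfl⟩)) (inv_mem ⟨_, rfl⟩)
  have h3 : #(univ.erase a) * #(T (g • a) (g • a)) ≤ #(univ.filter fun h : G => h • a = a) := by
    rw [card_eq_sum_card_fiberwise (f := fun h : G => h • g • a) (t := univ.erase a)
      (s := univ.filter fun h : G => h • a = a) fun h hh => by
        simpa using fun e => ha (smul_left_cancel h (e.trans (mem_filter.1 hh).2.symm)),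
      ← smul_eq_mul]
    refine card_nsmul_le_sum _ _ _ fun c hc => (hT _ _ _ _ ha ha ha (mem_erase.1 hc).1).trans ?_
    simp [T, filter_filter]
  have h4 := Nat.le_of_mul_le_mul_right (h3.trans h1) (card_pos.2 ⟨1, by simp [T]⟩)
  rwa [card_erase_of_mem (mem_univ a), card_univ, card_product, card_erase_of_mem (by simpa),
    ← sq] at h4

end Cfsg.Agent.Perm.Babai
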