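import Mathlib

/-!
# Binary affine groups: reflections

A finite group `H` acts on a finite abelian group `V` so that `V ⋊ H` is binary.  The elements of
`H` with a maximal space of fixed points behave like reflections.
-/

set_option autoImplicit false

namespace Cfsg.Agent.Perm.BA

variable {H : Type*} (V : Type*) [Group H] [AddCommGroup V] [DistribMulAction H V]

/-- `v ↦ v - g v`. -/
def dd (g : H) : V →+ V := AddMonoidHom.id V - DistribSMul.toAddMonoidHom V g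

/-- Fixed points. -/
def fx (g : H) : AddSubgroup V := (dd V g).ker

/-- The roots of `g`. -/
def mv (g : H) : AddSubgroup V := (dd V g).range

/-- Elements with a maximal fixed space. -/
def Rf (r : H) : Prop := r ≠ 1 ∧ ∀ g : H, g ≠ 1 → fx V r ≤ fx V g → fx V g ≤ fx V r

variable (H) in
/-- What is used of the binary property. -/
structure Hyp : Prop where
  bin : ∀ (k : H) (y : V), ∃ h : H, h • y = k • y ∧
    ∀ (g : H) (v : V), v - g • v = y - k • y → h • (y - v) = y - v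
  two : (∀ v : V, v + v = 0) ∨ ∀ v : V, v + v = 0 → v = 0
  faith : ∀ g : H, (∀ v : V, g • v = v) → g = 1

variable {V} {r s g k : H} {v w y : V}

theorem dd_apply (g : H) (v : V) : dd V g v = v - g • v := rfl

theorem mem_fx : v ∈ fx V g ↔ g • v = v := by
  rw [fx, AddMonoidHom.mem_ker, dd_apply, sub_eq_zero, eq_comm]

theorem mem_mv : w ∈ mv V g ↔ ∃ v, v - g • v = w := Iff.rfl

theorem sub_mem_mv (g : H) (v : V) : v - g • v ∈ mv V g := ⟨v, rfl⟩

theorem card_mv (g : H) : Nat.card (mv V g) = (fx V g).index := (AddSubgroup.index_ker _).symm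

theorem fx_mul (h1 : v ∈ fx V g) (h2 : v ∈ fx V k) : v ∈ fx V (g * k) := by
  rw [mem_fx] at *; rw [mul_smul, h2, h1]

theorem fx_inv (h1 : v ∈ fx V g) : v ∈ fx V g⁻¹ := by
  rw [mem_fx] at *; rw [inv_smul_eq_iff, h1]

theorem conj_mem_mv (g : H) (h : w ∈ mv V r) : g • w ∈ mv V (g * r * g⁻¹) := by
  obtain ⟨v, rfl⟩ := mem_mv.mp h
  exact ⟨g • v, by simp [dd_apply, mul_smul, smul_sub]⟩

theorem smul_mem_fx_conj : g • v ∈ fx V (g * r * g⁻¹) ↔ v ∈ fx V r := by
  simp [mem_fx, mul_smul]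

theorem smul_mem_mv (hc : Commute g r) (h : w ∈ mv V r) : g • w ∈ mv V r := by
  have := conj_mem_mv g h
  rwa [hc.eq, mul_inv_cancel_right] at this

theorem card_sup_of_disjoint {A B : AddSubgroup V} (h : A ⊓ B = ⊥) :
    Nat.card ↥(A ⊔ B) = Nat.card A * Nat.card B := by
  have h1 : ∀ {A B : AddSubgroup V}, A ≤ B → A.relIndex B * Nat.card A = Nat.card B := by
    intro A B h
    have := (A.addSubgroupOf B).index_mul_card
    rw [AddSubgroup.relIndex, ← this,
      Nat.card_congr (AddSubgroup.addSubgroupOfEquivOfLe h).toEquiv]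
  rw [← h1 (le_sup_right : B ≤ A ⊔ B), AddSubgroup.relIndex_sup_right,
    ← AddSubgroup.inf_relIndex_left, h, AddSubgroup.relIndex_bot_left]

theorem Rf.eq_one (hr : Rf V r) (h : fx V r ≤ fx V g) (hy : y ∉ fx V r) (hg : y ∈ fx V g) :
    g = 1 := by
  by_contra h1
  exact hy (hr.2 g h1 h hg)

theorem Rf.conj (hr : Rf V r) (g : H) : Rf V (g * r * g⁻¹) := by
  refine ⟨fun h => hr.1 (by simpa using h), fun k hk h v hv => ?_⟩
  have h1 : fx V r ≤ fx V (g⁻¹ * k * g⁻¹⁻¹) := fun x hx => by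
    rw [← inv_smul_smul g x]
    exact smul_mem_fx_conj.mpr (h (smul_mem_fx_conj.mpr hx))
  rw [← smul_inv_smul g v]
  exact smul_mem_fx_conj.mpr (hr.2 _ (fun h => hk (conj_eq_one_iff.mp h)) h1 (smul_mem_fx_conj.mpr hv))

theorem Rf.of_le (hr : Rf V r) (hg : g ≠ 1) (h : fx V r ≤ fx V g) : Rf V g :=
  ⟨hg, fun k hk h1 => (hr.2 k hk (h.trans h1)).trans h⟩

theorem exists_rf [Finite V] (hg : g ≠ 1) : ∃ r : H, Rf V r ∧ fx V g ≤ fx V r := by
  obtain ⟨X, ⟨r, ⟨h1, h2⟩, rfl⟩, h3⟩ := (Set.toFinite (fx V '' {r : H | r ≠ 1 ∧ fx V g ≤ fx V r})).exists_maximal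
    ⟨_, g, ⟨hg, le_rfl⟩, rfl⟩
  exact ⟨r, ⟨h1, fun k hk h => h3 ⟨k, ⟨hk, h2.trans h⟩, rfl⟩ h⟩, h2⟩

namespace Hyp

variable (hy : Hyp H V)
include hy

theorem ex (k : H) (y : V) : ∃ h : H, h • y = k • y ∧ h • k • y = y ∧
    (∀ (g : H) (v : V), v - g • v = y - k • y → h • (y - v) = y - v) ∧
    ∀ (g : H) (v : V), v - g • v = y - k • y → fx V g ≤ fx V h := by
  obtain ⟨h, h1, h2⟩ := hy.bin k y
  refine ⟨h, h1, ?_, h2, fun g v e c hc => ?_⟩
  · have := h2 k⁻¹ (-(k • y)) (by simp; abel)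
    rw [sub_neg_eq_add, smul_add, h1, add_comm] at this
    exact add_right_cancel this
  · have h3 := h2 g (v - c) (by rw [smul_sub, mem_fx.mp hc, ← e]; abel)
    rw [show y - (v - c) = y - v + c by abel, smul_add, h2 g v e] at h3
    exact mem_fx.mpr (add_left_cancel h3)

theorem exists_not_mem (hg : g ≠ 1) : ∃ y, y ∉ fx V g := by
  by_contra! h
  exact hg (hy.faith g fun v => mem_fx.mp (h v))

theorem exists_root (hg : g ≠ 1) : ∃ w ∈ mv V g, w ≠ 0 := by
  obtain ⟨y, h⟩ := hy.exists_not_mem hg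
  exact ⟨_, sub_mem_mv g y, fun e => h (mem_fx.mpr (sub_eq_zero.mp e).symm)⟩

theorem key' (hr : Rf V r) (h : y ∉ fx V r) : r • r • y = y ∧
    ∀ (g : H) (v : V), v - g • v = y - r • y → g • v = r • v ∧ fx V g ≤ fx V r := by
  obtain ⟨k, h1, h2, h3, h4⟩ := hy.ex r y
  obtain rfl : r = k := inv_mul_eq_one.mp (hr.eq_one
    (fun c hc => fx_mul (fx_inv hc) (h4 r y rfl hc)) h (by rw [mem_fx, mul_smul, h1, inv_smul_smul]))
  refine ⟨h2, fun g v e => ⟨?_, h4 g v e⟩⟩
  have := h3 g v e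
  rw [smul_sub] at this
  linear_combination (norm := abel1) this - e

theorem sq (hr : Rf V r) : r * r = 1 := by
  obtain ⟨y, h⟩ := hy.exists_not_mem hr.1
  exact hr.eq_one (fun c hc => fx_mul hc hc) h (by rw [mem_fx, mul_smul, (hy.key' hr h).1])

theorem inv_eq (hr : Rf V r) : r⁻¹ = r := inv_eq_of_mul_eq_one_right (hy.sq hr)

theorem smul_smul_eq (hr : Rf V r) (v : V) : r • r • v = v := by
  rw [← mul_smul, hy.sq hr, one_smul]

/-- A vector moved by a root of `r` is moved by `r`. -/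
theorem key (hr : Rf V r) (h : v - g • v ∈ mv V r) (h0 : g • v ≠ v) :
    g • v = r • v ∧ fx V g ≤ fx V r := by
  obtain ⟨y, e⟩ := mem_mv.mp h
  refine (hy.key' hr fun h1 => h0 ?_).2 g v e.symm
  rw [mem_fx.mp h1, sub_self] at e
  exact (sub_eq_zero.mp e.symm).symm

theorem eq_of_root (hr : Rf V r) (hs : Rf V s) (h1 : w ∈ mv V r) (h2 : w ∈ mv V s) (h0 : w ≠ 0) :
    r = s := by
  obtain ⟨v, rfl⟩ := mem_mv.mp h2
  have h3 : s • v ≠ v := fun e => h0 (by rw [e, sub_self])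
  obtain ⟨h4, h5⟩ := hy.key hr h1 h3
  exact inv_mul_eq_one.mp (hs.eq_one (fun c hc => fx_mul (fx_inv (h5 hc)) hc)
    (fun e => h3 (mem_fx.mp e)) (by rw [mem_fx, mul_smul, h4, inv_smul_smul]))

theorem commute_of_fix (hr : Rf V r) (h1 : w ∈ mv V r) (h0 : w ≠ 0) (h : w ∈ fx V g) :
    Commute g r := by
  have := conj_mem_mv g h1
  rw [mem_fx.mp h] at this
  exact mul_inv_eq_iff_eq_mul.mp (hy.eq_of_root (hr.conj g) hr this h1 h0)

theorem smul_root (hr : Rf V r) (h1 : w ∈ mv V r) : r • w = -w := by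
  obtain ⟨v, rfl⟩ := mem_mv.mp h1
  rw [smul_sub, hy.smul_smul_eq hr, neg_sub]

theorem smul_eq_or (hr : Rf V r) (h1 : w ∈ mv V r) (h2 : g • w ∈ mv V r) :
    g • w = w ∨ g • w = -w := by
  by_cases h : g • w = w
  · exact Or.inl h
  · exact Or.inr ((hy.key hr (sub_mem h1 h2) h).1.trans (hy.smul_root hr h1))

theorem mv_le_of_fix (hr : Rf V r) (h1 : w ∈ mv V r) (h0 : w ≠ 0) (h : w ∈ fx V g) :
    mv V r ≤ fx V g := fun x hx => by
  have hc := hy.commute_of_fix hr h1 h0 h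
  rw [mem_fx] at h ⊢
  rcases hy.smul_eq_or hr hx (smul_mem_mv hc hx) with e | e
  · exact e
  have h2 : x + x = 0 := by
    rcases hy.smul_eq_or hr (add_mem h1 hx) (smul_mem_mv hc (add_mem h1 hx)) with e' | e'
    · rw [smul_add, h, e] at e'
      linear_combination (norm := abel1) -e'
    · rw [smul_add, h, e] at e'
      exact hy.two.elim (fun h => h x) fun h3 => (h0 (h3 w (by linear_combination (norm := abel1) e'))).elim
  rw [e, neg_eq_iff_add_eq_zero, h2]

theorem mv_le_of_commute (hr : Rf V r) (hs : Rf V s) (hne : r ≠ s) (hc : Commute s r) :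
    mv V r ≤ fx V s := fun x hx => by
  rw [mem_fx]
  rcases hy.smul_eq_or hr hx (smul_mem_mv hc hx) with e | e
  · exact e
  by_contra h
  refine hne (hy.eq_of_root hr hs (w := x - s • x) (by rw [e]; exact sub_mem hx (neg_mem hx))
    (sub_mem_mv s x) fun e => h (sub_eq_zero.mp e).symm)

theorem fx_mul_le (hr : Rf V r) (h : ¬ fx V s ≤ fx V r) : fx V (r * s) ≤ fx V r ⊓ fx V s :=
  fun v hv => by
  have h1 : s • v = r • v := by
    rw [← hy.smul_smul_eq hr (s • v), ← mul_smul r s, mem_fx.mp hv]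
  have h2 : s • v = v := by
    by_contra h2
    exact h (hy.key hr (h1 ▸ sub_mem_mv r v) h2).2
  exact ⟨mem_fx.mpr (h1 ▸ h2), mem_fx.mpr h2⟩

theorem commute_of_le (hr : Rf V r) (hs : Rf V s) (h : fx V r ≤ fx V s) : Commute r s := by
  have h1 : r * s * (r * s) = 1 := by
    by_cases h1 : r * s = 1
    · rw [h1, mul_one]
    · exact hy.sq (hr.of_le h1 fun c hc => fx_mul hc (h hc))
  rw [Commute, SemiconjBy, ← inv_eq_of_mul_eq_one_right h1, mul_inv_rev, hy.inv_eq hr, hy.inv_eq hs]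

theorem eq_of_odd (h2 : ∀ v : V, v + v = 0 → v = 0) (hr : Rf V r) (hs : Rf V s)
    (h : fx V r ≤ fx V s) : r = s := by
  by_contra hne
  obtain ⟨w, h1, h0⟩ := hy.exists_root hs.1
  have h3 := mem_fx.mp (h (hy.mv_le_of_commute hs hr (Ne.symm hne) (hy.commute_of_le hr hs h) h1))
  rw [hy.smul_root hs h1, neg_eq_iff_add_eq_zero] at h3
  exact h0 (h2 w h3)

theorem mv_le_fx (h2 : ∀ v : V, v + v = 0) (hr : Rf V r) : mv V r ≤ fx V r := fun w h => by
  rw [mem_fx, hy.smul_root hr h, neg_eq_iff_add_eq_zero, h2]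

end Hyp

end Cfsg.Agent.Perm.BA
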