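import Mathlib
import Cfsg.Agent.Perm.BinAffA

/-!
# Binary affine groups: the plane of two non-commuting reflections
-/

set_option autoImplicit false
set_option linter.unusedSectionVars false

namespace Cfsg.Agent.Perm.BA

variable {H : Type*} (V : Type*) [Group H] [AddCommGroup V] [DistribMulAction H V]

/-- Two non-commuting reflections. -/
structure NC (r s : H) : Prop where
  hy : Hyp H V
  hr : Rf V r
  hs : Rf V s
  nc : ¬ Commute r s

/-- The plane spanned by the roots. -/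
def pl (r s : H) : AddSubgroup V := mv V r ⊔ mv V s

/-- The common fixed points. -/
def fu (r s : H) : AddSubgroup V := fx V r ⊓ fx V s

variable {V} {r s g k a b : H} {u v w y : V}

theorem smul_mem_of_mv_le {X : AddSubgroup V} (h : mv V g ≤ X) (hv : v ∈ X) : g • v ∈ X := by
  simpa using sub_mem hv (h (sub_mem_mv g v))

theorem exists_dd_eq [Finite V] {X : AddSubgroup V} (h1 : ∀ v ∈ X, g • v ∈ X)
    (h2 : ∀ v ∈ X, v ∈ fx V g → v = 0) (hy : y ∈ X) : ∃ x ∈ X, x - g • x = y := by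
  let f : X → X := fun x => ⟨x - g • (x : V), sub_mem x.2 (h1 x x.2)⟩
  have : Function.Injective f := fun x x' e => Subtype.ext (sub_eq_zero.mp
    (h2 _ (sub_mem x.2 x'.2) (mem_fx.mpr (by
      have := congrArg Subtype.val e
      simp only [f] at this
      rw [smul_sub]; linear_combination (norm := abel1) -this))))
  obtain ⟨x, e⟩ := Finite.injective_iff_surjective.mp this ⟨y, hy⟩
  exact ⟨x, x.2, congrArg Subtype.val e⟩

namespace NC

variable (h : NC V r s)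
include h

theorem symm : NC V s r := ⟨h.hy, h.hs, h.hr, fun e => h.nc e.symm⟩

theorem ne : r ≠ s := fun e => h.nc (e ▸ Commute.refl r)

theorem not_le : ¬ fx V r ≤ fx V s := fun e => h.nc (h.hy.commute_of_le h.hr h.hs e)

theorem root_eq_zero (h1 : w ∈ mv V r) (h2 : w ∈ fx V s) : w = 0 := by
  by_contra h0
  exact h.nc (h.hy.commute_of_fix h.hr h1 h0 h2).symm

theorem fx_rho : fx V (r * s) ≤ fu V r s := h.hy.fx_mul_le h.hr h.symm.not_le

theorem rho_sq : r * s * (r * s) ≠ 1 := fun e => h.nc (by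
  rw [Commute, SemiconjBy, ← inv_eq_of_mul_eq_one_right e, mul_inv_rev, h.hy.inv_eq h.hr,
    h.hy.inv_eq h.hs])

theorem le_fx_rho : fu V r s ≤ fx V (r * s) := fun _ h1 => fx_mul h1.1 h1.2

theorem rho_mem (h1 : y ∈ pl V r s) : (r * s) • y ∈ pl V r s := by
  rw [mul_smul]
  exact smul_mem_of_mv_le le_sup_left (smul_mem_of_mv_le le_sup_right h1)

theorem eq_zero (h1 : u ∈ pl V r s) (h2 : u ∈ fu V r s) : u = 0 := by
  obtain ⟨a, ha, b, hb, rfl⟩ := AddSubgroup.mem_sup.mp h1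
  have e1 := mem_fx.mp h2.1
  have e2 := mem_fx.mp h2.2
  rw [smul_add, h.hy.smul_root h.hr ha] at e1
  rw [smul_add, h.hy.smul_root h.hs hb] at e2
  rcases h.hy.two with h3 | h3
  · rw [h.root_eq_zero ha (mem_fx.mpr (by linear_combination (norm := abel1) e2 + h3 b)),
      h.symm.root_eq_zero hb (mem_fx.mpr (by linear_combination (norm := abel1) e1 + h3 a)), add_zero]
  have e3 : (r * s) • a = a + ((a + b) + (a + b)) := by
    rw [mul_smul, show s • a = a + b + b by linear_combination (norm := abel1) e2, smul_add,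
      mem_fx.mp h2.1]
    linear_combination (norm := abel1) e1
  obtain ⟨k, h4, h5⟩ := h.hy.bin (r * s) a
  have e4 : (r * s)⁻¹ • a = a - ((a + b) + (a + b)) := by
    rw [inv_smul_eq_iff, smul_sub, e3, mem_fx.mp (h.le_fx_rho (add_mem h2 h2))]; abel
  have h6 := h5 (r * s)⁻¹ (-a) (by rw [smul_neg, e4, e3]; abel)
  rw [sub_neg_eq_add, smul_add, h4, e3] at h6
  exact h3 _ (h3 _ (by linear_combination (norm := abel1) h6))

variable [Finite V]

theorem card_eq : Nat.card (mv V r) = Nat.card (mv V s) := by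
  have key : ∀ {r s : H}, NC V r s → Nat.card (mv V r) ≤ Nat.card (mv V s) := fun {r s} h =>
    Nat.card_le_card_of_injective (fun x => ⟨_, sub_mem_mv s (x : V)⟩) fun x x' e => Subtype.ext
      (sub_eq_zero.mp (h.root_eq_zero (sub_mem x.2 x'.2) (mem_fx.mpr (by
        have := congrArg Subtype.val e
        simp only at this
        rw [smul_sub]; linear_combination (norm := abel1) -this))))
  exact le_antisymm (key h) (key h.symm)

theorem card_pl : Nat.card (pl V r s) = Nat.card (mv V r) ^ 2 := by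
  rw [pl, card_sup_of_disjoint (eq_bot_iff.mpr fun w hw => by
    by_contra h0
    exact h.ne (h.hy.eq_of_root h.hr h.hs hw.1 hw.2 h0)), ← h.card_eq, sq]

theorem two_le : 2 ≤ Nat.card (mv V r) := by
  obtain ⟨w, h1, h0⟩ := h.hy.exists_root h.hr.1
  exact Finite.one_lt_card_iff_nontrivial.mpr ⟨⟨w, h1⟩, 0, fun e => h0 (congrArg Subtype.val e)⟩

theorem card_V : Nat.card V = Nat.card (fu V r s) * Nat.card (mv V r) ^ 2 ∧
    fu V r s ⊔ pl V r s = ⊤ := by
  have h1 := card_sup_of_disjoint (A := fu V r s) (B := pl V r s)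
    (eq_bot_iff.mpr fun u hu => h.eq_zero hu.2 hu.1)
  rw [h.card_pl] at h1
  have h2 : Nat.card V ≤ Nat.card ↥(fu V r s ⊔ pl V r s) := by
    rw [h1, ← (fu V r s).card_mul_index, sq]
    refine Nat.mul_le_mul_left _ (AddSubgroup.index_inf_le.trans ?_)
    rw [← card_mv, ← card_mv, ← h.card_eq]
  have h3 := AddSubgroup.eq_top_of_le_card _ h2
  exact ⟨by rw [← h1, h3, AddSubgroup.card_top], h3⟩

theorem exists_dec (v : V) : ∃ u ∈ fu V r s, ∃ y ∈ pl V r s, u + y = v :=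
  AddSubgroup.mem_sup.mp (h.card_V.2 ▸ AddSubgroup.mem_top v)

theorem eq_one (h1 : fu V r s ≤ fx V g) (h2 : pl V r s ≤ fx V g) : g = 1 :=
  h.hy.faith g fun v => mem_fx.mp (sup_le h1 h2 (h.card_V.2 ▸ AddSubgroup.mem_top v))

theorem nc_or (ha : Rf V a) (hP : fu V r s ≤ fx V a) : NC V a r ∨ NC V a s := by
  by_contra! h1
  have h2 : Commute a r := not_not.mp fun e => h1.1 ⟨h.hy, ha, h.hr, e⟩
  have h3 : Commute a s := not_not.mp fun e => h1.2 ⟨h.hy, ha, h.hs, e⟩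
  exact ha.1 (h.eq_one hP (sup_le
    (h.hy.mv_le_of_commute h.hr ha (fun e => h.nc (e ▸ h3)) h2)
    (h.hy.mv_le_of_commute h.hs ha (fun e => h.nc (e ▸ h2).symm) h3)))

theorem card_mv_eq (ha : Rf V a) (hP : fu V r s ≤ fx V a) :
    Nat.card (mv V a) = Nat.card (mv V r) :=
  (h.nc_or ha hP).elim (fun h1 => h1.card_eq) fun h1 => h1.card_eq.trans h.card_eq.symm

theorem root_fu (ha : Rf V a) (hP : fu V r s ≤ fx V a) (h1 : w ∈ mv V a) (h2 : w ∈ fu V r s) :
    w = 0 :=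
  (h.nc_or ha hP).elim (fun h => h.root_eq_zero h1 h2.1) fun h => h.root_eq_zero h1 h2.2

theorem card_fx (ha : Rf V a) (hP : fu V r s ≤ fx V a) :
    Nat.card (fx V a) = Nat.card (fu V r s) * Nat.card (mv V r) := by
  have := (fx V a).card_mul_index
  rw [← card_mv, h.card_mv_eq ha hP, h.card_V.1, sq, ← mul_assoc] at this
  exact Nat.eq_of_mul_eq_mul_right Nat.card_pos this

theorem sup_eq (ha : Rf V a) (hP : fu V r s ≤ fx V a) (hb : Rf V b) (hP' : fu V r s ≤ fx V b)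
    (h1 : mv V a ≤ fx V b) : fu V r s ⊔ mv V a = fx V b :=
  AddSubgroup.eq_of_le_of_card_ge (sup_le hP' h1) (by
    rw [h.card_fx hb hP', card_sup_of_disjoint (eq_bot_iff.mpr fun w hw => h.root_fu ha hP hw.2 hw.1),
      h.card_mv_eq ha hP])

theorem fx_le (ha : Rf V a) (hP : fu V r s ≤ fx V a) (hb : Rf V b) (hP' : fu V r s ≤ fx V b)
    (h1 : y ∈ fx V a) (h2 : y ∈ fx V b) (h3 : y ∉ fu V r s) : fx V b ≤ fx V a := by
  by_cases hc : Commute b a
  · by_cases hne : a = b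
    · rw [hne]
    have h4 := h.sup_eq ha hP hb hP' (h.hy.mv_le_of_commute ha hb hne hc)
    obtain ⟨u, hu, w, hw, rfl⟩ := AddSubgroup.mem_sup.mp (h4 ▸ h2)
    rw [← h4]
    exact sup_le hP (h.hy.mv_le_of_fix ha hw (fun e => h3 (by simpa [e] using hu))
      (by simpa using sub_mem h1 (hP hu)))
  have h4 : NC V b a := ⟨h.hy, hb, ha, hc⟩
  have h5 := h4.card_V.1
  rw [h.card_V.1, h.card_mv_eq hb hP'] at h5
  exact (h3 ((AddSubgroup.eq_of_le_of_card_ge (le_inf hP' hP : _ ≤ fu V b a)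
    (Nat.eq_of_mul_eq_mul_right (pow_pos Nat.card_pos _) h5).ge).ge ⟨h2, h1⟩)).elim

theorem exists_fix (y : V) : ∃ a : H, Rf V a ∧ fu V r s ≤ fx V a ∧ y ∈ fx V a := by
  obtain ⟨k, h1, h2, -, h3⟩ := h.hy.ex (r * s) y
  have h4 := h.le_fx_rho.trans (h3 _ y rfl)
  have key : ∀ g : H, g ≠ 1 → fu V r s ≤ fx V g → g • y = y → _ := fun g h5 h6 h7 =>
    (exists_rf h5).imp fun a ha => (⟨ha.1, h6.trans ha.2, ha.2 (mem_fx.mpr h7)⟩ :
      Rf V a ∧ fu V r s ≤ fx V a ∧ y ∈ fx V a)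
  by_cases e : k⁻¹ * (r * s) = 1
  · rw [inv_mul_eq_one.mp e] at h2
    exact key _ h.rho_sq (fun c hc => fx_mul (h.le_fx_rho hc) (h.le_fx_rho hc)) (by rw [mul_smul, h2])
  · exact key _ e (fun c hc => fx_mul (fx_inv (h4 hc)) (h.le_fx_rho hc))
      (by rw [mul_smul, ← h1, inv_smul_smul])

theorem fx_le_of_fix (ha : Rf V a) (hP : fu V r s ≤ fx V a) (h1 : y ∈ fx V a) (h3 : y ∉ fu V r s)
    (hk : fu V r s ≤ fx V k) (h2 : y ∈ fx V k) : fx V a ≤ fx V k := by
  have h4 : ∀ g : H, g ≠ 1 → fu V r s ≤ fx V g → y ∈ fx V g → fx V g ≤ fx V a := fun g h4 h5 h6 => by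
    obtain ⟨b, hb, h7⟩ := exists_rf (V := V) h4
    exact h7.trans (h.fx_le ha hP hb (h5.trans h7) h1 (h7 h6) h3)
  obtain ⟨v, hv⟩ := h.hy.exists_not_mem ha.1
  have h5 : ∀ g : H, fu V r s ≤ fx V g → y ∈ fx V g → g * g = 1 := fun g h5 h6 => by
    obtain ⟨k, h7, h8, -, h9⟩ := h.hy.ex g v
    have h10 := h9 g v rfl
    obtain rfl : k = g := inv_mul_eq_one.mp (not_not.mp fun e => hv (h4 _ e
      (fun c hc => fx_mul (fx_inv (h10 (h5 hc))) (h5 hc)) (fx_mul (fx_inv (h10 h6)) h6)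
      (by rw [mem_fx, mul_smul, ← h7, inv_smul_smul])))
    exact not_not.mp fun e => hv (h4 _ e (fun c hc => fx_mul (h5 hc) (h5 hc)) (fx_mul h6 h6)
      (by rw [mem_fx, mul_smul, h8]))
  have h6 : Commute k a := by
    rw [Commute, SemiconjBy, ← inv_eq_of_mul_eq_one_right (h5 (k * a)
      (fun c hc => fx_mul (hk hc) (hP hc)) (fx_mul h2 h1)), mul_inv_rev, h.hy.inv_eq ha,
      inv_eq_of_mul_eq_one_right (h5 k hk h2)]
  obtain ⟨w, h7, h0⟩ := h.hy.exists_root ha.1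
  have h8 : ∀ g : H, fu V r s ≤ fx V g → y ∈ fx V g → g • w = w → fx V a ≤ fx V g := by
    intro g h8 h9 h10
    by_cases e : g = 1
    · exact fun c _ => by rw [mem_fx, e, one_smul]
    have h11 := h.hy.mv_le_of_fix ha h7 h0 (mem_fx.mpr h10)
    rw [← h.sup_eq ha hP ha hP (h11.trans (h4 g e h8 h9))]
    exact sup_le h8 h11
  rcases h.hy.smul_eq_or ha h7 (smul_mem_mv h6 h7) with e | e
  · exact h8 k hk h2 e
  · intro c hc
    have := fx_mul (h8 (k * a) (fun c hc => fx_mul (hk hc) (hP hc)) (fx_mul h2 h1)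
      (by rw [mul_smul, h.hy.smul_root ha h7, smul_neg, e, neg_neg]) hc) (fx_inv hc)
    rwa [mul_inv_cancel_right] at this

theorem rf_of_fix (hk : fu V r s ≤ fx V k) (h1 : k ≠ 1) (h2 : y ∈ fx V k) (h3 : y ∉ fu V r s) :
    Rf V k := by
  obtain ⟨a, ha, hP, h4⟩ := h.exists_fix y
  exact ha.of_le h1 (h.fx_le_of_fix ha hP h4 h3 hk h2)

/-- A vector of the plane is not conjugate to a translate by a fixed vector. -/
theorem eq_zero_of_smul (h1 : y ∈ pl V r s) (h2 : u ∈ fu V r s) (e : g • y = y + u) : u = 0 := by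
  obtain ⟨k, h3, h4⟩ := h.hy.bin g y
  have h5 : ∀ j : ℕ, y - (r * s) ^ j • y ∈ fx V k := fun j => mem_fx.mpr (h4
    ((r * s) ^ j * g * ((r * s) ^ j)⁻¹) _ (by
      have : (r * s) ^ j • u = u :=
        (MulAction.stabilizer H u).pow_mem (mem_fx.mp (h.le_fx_rho h2)) j
      rw [mul_smul, inv_smul_smul, mul_smul, e, smul_add, this]; abel))
  let X : AddSubgroup V := pl V r s ⊓ ⨅ j : ℕ, (fx V k).comap (DistribSMul.toAddMonoidHom V ((r * s) ^ j))
  have hX : ∀ v, v ∈ X ↔ v ∈ pl V r s ∧ ∀ j : ℕ, (r * s) ^ j • v ∈ fx V k := fun v => by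
    simp [X, AddSubgroup.mem_iInf]
  obtain ⟨x, h6, h7⟩ := exists_dd_eq (X := X) (g := r * s) (y := y - (r * s) • y)
    (fun v hv => (hX _).mpr ⟨h.rho_mem hv.1, fun j => by
      rw [← mul_smul, ← pow_succ]; exact ((hX v).mp hv).2 _⟩)
    (fun v hv h6 => h.eq_zero hv.1 (h.fx_rho h6)) ((hX _).mpr ⟨sub_mem h1 (h.rho_mem h1), fun j => by
      rw [smul_sub, ← mul_smul, ← pow_succ]
      simpa using sub_mem (h5 (j + 1)) (h5 j)⟩)
  obtain rfl : x = y := sub_eq_zero.mp (h.eq_zero (sub_mem h6.1 h1) (h.fx_rho (mem_fx.mpr (by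
    rw [smul_sub]; linear_combination (norm := abel1) -h7))))
  have h8 := ((hX x).mp h6).2 0
  rw [pow_zero, one_smul, mem_fx, h3, e] at h8
  simpa using h8

theorem eq_one_of_sub (hk : fu V r s ≤ fx V k) (h1 : ∀ v, k • v - v ∈ fu V r s) : k = 1 :=
  h.eq_one hk fun y hy => mem_fx.mpr (sub_eq_zero.mp (h.eq_zero_of_smul (g := k) hy (h1 y) (by abel)))

end NC

end Cfsg.Agent.Perm.BA
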