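import Mathlib
import Cfsg.Agent.Perm.BinAffB

/-!
# Binary affine groups: the dihedral group of a plane
-/

set_option autoImplicit false
set_option linter.unusedSectionVars false

namespace Cfsg.Agent.Perm.BA

variable {H : Type*} {V : Type*} [Group H] [AddCommGroup V] [DistribMulAction H V]

variable {r s g k a b : H} {u v w y : V}

namespace NC

variable [Finite V] (h : NC V r s)
include h

theorem exists_fx_not_fu (ha : Rf V a) (hP : fu V r s ≤ fx V a) : ∃ y ∈ fx V a, y ∉ fu V r s := by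
  by_contra! h1
  exact h.not_le ((ha.2 r h.hr.1 fun c hc => (h1 c hc).1).trans fun c hc => (h1 c hc).2)

theorem dich (hk : fu V r s ≤ fx V k) (hk' : fx V k ≤ fu V r s) (h1 : y ∉ fu V r s) :
    (∃ c : H, Rf V c ∧ fu V r s ≤ fx V c ∧ c • y = k • y) ∨
      k * k = 1 ∧ ∀ v, v + k • v ∈ fu V r s := by
  obtain ⟨c, h2, h3, -, h4⟩ := h.hy.ex k y
  have h5 := hk.trans (h4 k y rfl)
  by_cases h6 : y + k • y ∈ fu V r s
  swap
  · refine Or.inl ⟨c, h.rf_of_fix h5 (fun e => h1 (hk' (mem_fx.mpr ?_)))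
      (mem_fx.mpr (by rw [smul_add, h2, h3, add_comm])) h6, h5, h2⟩
    rw [← h2, e, one_smul]
  have h7 : k * k = 1 := by
    by_contra e
    have h7 := mem_fx.mp (hk h6)
    rw [smul_add, add_comm y, ← mul_smul] at h7
    have h8 : fu V r s ≤ fx V (k * k) := fun c hc => fx_mul (hk hc) (hk hc)
    have h9 := h.rf_of_fix h8 e (mem_fx.mpr (add_left_cancel h7)) h1
    obtain ⟨w, h10, h0⟩ := h.hy.exists_root e
    refine h0 (h.root_fu h9 h8 h10 (hk' (mem_fx.mpr ?_)))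
    rcases h.hy.smul_eq_or h9 h10 (smul_mem_mv (Commute.mul_right rfl rfl) h10) with e | e
    · exact e
    · rw [e, ← h.hy.smul_root h9 h10, mul_smul, e, smul_neg, e, neg_neg]
  exact Or.inr ⟨h7, fun v => hk' (mem_fx.mpr (by rw [smul_add, ← mul_smul, h7, one_smul, add_comm]))⟩

theorem eq_of_fx_le [Finite H] (ha : Rf V a) (hP : fu V r s ≤ fx V a) (hb : Rf V b)
    (h1 : fx V a ≤ fx V b) : a = b := by
  rcases h.hy.two with h2 | h2
  swap
  · exact h.hy.eq_of_odd h2 ha hb h1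
  obtain ⟨c, hc, hcP, hcp, h3⟩ : ∃ c : H, Rf V c ∧ fu V r s ≤ fx V c ∧ mv V c ≤ pl V r s ∧
      ¬ fx V a ≤ fx V c := by
    by_cases e : fx V a ≤ fx V r
    · exact ⟨s, h.hs, inf_le_right, le_sup_right, fun e' => h.not_le ((ha.2 r h.hr.1 e).trans e')⟩
    · exact ⟨r, h.hr, inf_le_left, le_sup_left, e⟩
  obtain ⟨y, h4, h0⟩ := h.hy.exists_root (V := V) hc.1
  have h5 : y ∉ fu V r s := fun e => h0 (h.root_fu hc hcP h4 e)
  have h6 := h.hy.mv_le_fx h2 hc h4
  have hZ : ∀ k : H, fu V r s ≤ fx V k → k • y ∈ fx V c → k • y = y := fun k hk h7 => by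
    obtain ⟨d, h8, h9, -, h10⟩ := h.hy.ex k y
    by_cases e : y + k • y ∈ fu V r s
    · have := h.eq_zero_of_smul (g := k) (hcp h4) e (by linear_combination (norm := abel1) -h2 y)
      linear_combination (norm := abel1) this - h2 y
    · rw [← h8]
      exact mem_fx.mp (h.fx_le_of_fix hc hcP (add_mem h6 h7) e (hk.trans (h10 k y rfl))
        (mem_fx.mpr (by rw [smul_add, h8, h9, add_comm])) h6)
  let A : Set H := {d | Rf V d ∧ fu V r s ≤ fx V d ∧ d • y ≠ y}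
  have hA : ∀ d ∈ A, d * c * d⁻¹ ∈ A := fun d hd => ⟨hc.conj d,
    fun x hx => fx_mul (fx_mul (hd.2.1 hx) (hcP hx)) (fx_inv (hd.2.1 hx)), fun e => hd.2.2 (hZ d hd.2.1 (by
      rw [← smul_mem_fx_conj (g := d), h.hy.smul_smul_eq hd.1]; exact mem_fx.mpr e))⟩
  have h7 : Set.InjOn (fun d => fx V (d * c * d⁻¹)) A := fun d hd d' hd' e => by
    have h7 := hZ (d'⁻¹ * d) (fun x hx => fx_mul (fx_inv (hd'.2.1 hx)) (hd.2.1 hx)) (by
      rw [← smul_mem_fx_conj (g := d'), mul_smul, smul_inv_smul, ← show fx V _ = fx V _ from e]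
      exact smul_mem_fx_conj.mpr h6)
    rw [mul_smul, inv_smul_eq_iff] at h7
    exact h.hy.eq_of_root hd.1 hd'.1 (sub_mem_mv d y) (h7 ▸ sub_mem_mv d' y)
      fun e => hd.2.2 (sub_eq_zero.mp e).symm
  have h8 : Set.InjOn (fx V) A := Set.injOn_of_ncard_image_eq (le_antisymm Set.ncard_image_le (by
    rw [← h7.ncard_image]
    exact Set.ncard_le_ncard (by rintro _ ⟨d, hd, rfl⟩; exact ⟨_, hA d hd, rfl⟩)))
  have h9 : a • y ≠ y := fun e => h3 (h.fx_le hc hcP ha hP h6 (mem_fx.mpr e) h5)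
  exact h8 ⟨ha, hP, h9⟩ ⟨hb, hP.trans h1, fun e => h9 (mem_fx.mp (ha.2 b hb.1 h1 (mem_fx.mpr e)))⟩
    (le_antisymm h1 (ha.2 b hb.1 h1))

variable [Finite H]

theorem inverts (hk : fu V r s ≤ fx V k) (hk' : fx V k ≤ fu V r s) (ha : Rf V a)
    (hP : fu V r s ≤ fx V a) : a * k * (a * k) = 1 := by
  obtain ⟨y, h1, h2⟩ := h.exists_fx_not_fu ha hP
  rcases h.dich hk hk' h2 with ⟨c, hc, h3, h4⟩ | ⟨h3, h4⟩
  · have h5 : fu V r s ≤ fx V (c⁻¹ * k) := fun x hx => fx_mul (fx_inv (h3 hx)) (hk hx)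
    have h6 : y ∈ fx V (c⁻¹ * k) := by rw [mem_fx, mul_smul, ← h4, inv_smul_smul]
    have h7 : c⁻¹ * k ≠ 1 := fun e => by
      obtain ⟨x, h7, h8⟩ := h.exists_fx_not_fu hc h3
      exact h8 (hk' (inv_mul_eq_one.mp e ▸ h7))
    obtain rfl : k = c * a := by
      rw [h.eq_of_fx_le ha hP (h.rf_of_fix h5 h7 h6 h2) (h.fx_le_of_fix ha hP h1 h2 h5 h6),
        mul_inv_cancel_left]
    rw [show a * (c * a) * (a * (c * a)) = a * (c * (a * a) * c) * a by group, h.hy.sq ha, mul_one,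
      h.hy.sq hc, mul_one, h.hy.sq ha]
  · refine h.eq_one_of_sub (fun x hx => fx_mul (fx_mul (hP hx) (hk hx)) (fx_mul (hP hx) (hk hx)))
      fun v => ?_
    have h5 := mem_fx.mp (hP (h4 (a • k • v)))
    have h6 := mem_fx.mp (hP (h4 v))
    rw [smul_add, h.hy.smul_smul_eq ha] at h5
    have := sub_mem (h4 (a • k • v)) (h4 v)
    convert this using 1
    simp only [mul_smul]
    linear_combination (norm := abel1) h5

theorem mv_le_pl (ha : Rf V a) (hP : fu V r s ≤ fx V a) : mv V a ≤ pl V r s := by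
  have h1 := h.inverts h.le_fx_rho h.fx_rho ha hP
  rintro _ ⟨v, rfl⟩
  obtain ⟨u, hu, y, hy, rfl⟩ := h.exists_dec v
  obtain ⟨x, -, rfl⟩ := exists_dd_eq (fun _ => h.rho_mem) (fun v h1 h2 => h.eq_zero h1 (h.fx_rho h2)) hy
  have h2 : ∀ v : V, v - (r * s) • v ∈ pl V r s := fun v => by
    have := add_mem (AddSubgroup.mem_sup_left (sub_mem_mv r (s • v))) (AddSubgroup.mem_sup_right (sub_mem_mv s v))
    rwa [show s • v - r • s • v + (v - s • v) = v - (r * s) • v by rw [mul_smul]; abel] at this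
  have h3 : (r * s) • a • (r * s) • x = a • x := by
    rw [← smul_left_cancel_iff a, h.hy.smul_smul_eq ha, ← mul_smul, ← mul_smul a (r * s) x, ← mul_smul,
      h1, one_smul]
  have := add_mem (h2 x) (h2 (a • (r * s) • x))
  rw [h3] at this
  convert this using 1
  rw [dd_apply, smul_add, mem_fx.mp (hP hu), smul_sub]
  abel

theorem exists_rf_root (h1 : y ∈ pl V r s) (h0 : y ≠ 0) :
    ∃ a : H, Rf V a ∧ fu V r s ≤ fx V a ∧ y ∈ mv V a := by
  obtain ⟨x, -, rfl⟩ := exists_dd_eq (fun _ => h.rho_mem) (fun v h1 h2 => h.eq_zero h1 (h.fx_rho h2)) h1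
  rcases h.dich h.le_fx_rho h.fx_rho (y := x) (fun e => h0 (by
    rw [mem_fx.mp (h.le_fx_rho e), sub_self])) with ⟨c, hc, h3, h4⟩ | ⟨h3, -⟩
  · exact ⟨c, hc, h3, h4 ▸ sub_mem_mv c x⟩
  · exact (h.rho_sq h3).elim

theorem pl_eq (ha : Rf V a) (hP : fu V r s ≤ fx V a) (hb : Rf V b) (hP' : fu V r s ≤ fx V b)
    (hne : a ≠ b) : mv V a ⊔ mv V b = pl V r s :=
  AddSubgroup.eq_of_le_of_card_ge (sup_le (h.mv_le_pl ha hP) (h.mv_le_pl hb hP')) (by
    rw [h.card_pl, card_sup_of_disjoint (eq_bot_iff.mpr fun w hw => by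
      by_contra h0
      exact hne (h.hy.eq_of_root ha hb hw.1 hw.2 h0)), h.card_mv_eq ha hP, h.card_mv_eq hb hP', sq])

theorem rho_sq_fix (h1 : y ∈ pl V r s) (h2 : (r * s) • (r * s) • y = y) : y = 0 := by
  have h3 := h.hs.conj r
  have h4 : fu V r s ≤ fx V (r * s * r⁻¹) := fun x hx => fx_mul (fx_mul hx.1 hx.2) (fx_inv hx.1)
  have h5 : r * s * r⁻¹ ≠ s := fun e => h.nc (mul_inv_eq_iff_eq_mul.mp e)
  have h6 := h.hy.fx_mul_le h3 (s := s) (fun e => h5 (h.eq_of_fx_le h.hs inf_le_right h3 e).symm)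
    (mem_fx.mpr (show (r * s * r⁻¹ * s) • y = y by rw [h.hy.inv_eq h.hr, mul_assoc, mul_smul, mul_smul _ _ y, ← mul_smul r s y, h2]))
  refine h.eq_zero h1 (not_not.mp fun e => h5 ?_)
  exact h.eq_of_fx_le h3 h4 h.hs (h.fx_le h.hs inf_le_right h3 h4 h6.2 h6.1 e)

/-- The number of reflections of a plane. -/
theorem ncard_le : {a : H | Rf V a ∧ fu V r s ≤ fx V a}.ncard ≤ Nat.card (mv V r) + 1 := by
  classical
  have := Fintype.ofFinite V
  have := Fintype.ofFinite H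
  have h1 : ∀ X : AddSubgroup V, ((Finset.univ.filter (· ∈ X)).erase 0).card = Nat.card X - 1 :=
    fun X => by
      rw [Finset.card_erase_of_mem (by simp), Nat.card_eq_fintype_card, Fintype.card_subtype]
  have h2 := h.two_le
  set A := {a : H | Rf V a ∧ fu V r s ≤ fx V a}
  have h3 : (A.toFinset.biUnion fun a => (Finset.univ.filter (· ∈ mv V a)).erase 0).card ≤
      ((Finset.univ.filter (· ∈ pl V r s)).erase 0).card := Finset.card_le_card fun w hw => by
    simp only [Finset.mem_biUnion, Set.mem_toFinset, Finset.mem_erase, Finset.mem_filter,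
      Finset.mem_univ, true_and] at hw ⊢
    obtain ⟨a, ha, h0, h3⟩ := hw
    exact ⟨h0, h.mv_le_pl ha.1 ha.2 h3⟩
  rw [Finset.card_biUnion, Finset.sum_const_nat (m := Nat.card (mv V r) - 1), h1, h.card_pl,
    ← Set.ncard_eq_toFinset_card'] at h3
  · obtain ⟨q, hq⟩ := Nat.exists_eq_add_of_le' h2
    rw [hq, show (q + 2) ^ 2 - 1 = (q + 3) * (q + 1) from Nat.sub_eq_of_eq_add (by ring)] at h3
    rw [hq]
    exact Nat.le_of_mul_le_mul_right h3 (Nat.succ_pos _)
  · intro a ha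
    rw [Set.mem_toFinset] at ha
    rw [h1, h.card_mv_eq ha.1 ha.2]
  · intro a ha b hb hne
    rw [Finset.mem_coe, Set.mem_toFinset] at ha hb
    refine Finset.disjoint_left.mpr fun w h3 h4 => ?_
    simp only [Finset.mem_erase, Finset.mem_filter, Finset.mem_univ, true_and] at h3 h4
    exact hne (h.hy.eq_of_root ha.1 hb.1 h3.2 h4.2 h3.1)

end NC

end Cfsg.Agent.Perm.BA
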