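import Mathlib
import Cfsg.Agent.Perm.BinAffC

/-!
# Binary affine groups: there is no irreducible configuration of rank three
-/

set_option autoImplicit false
set_option linter.unusedSectionVars false

namespace Cfsg.Agent.Perm.BA

variable {H : Type*} {V : Type*} [Group H] [AddCommGroup V] [DistribMulAction H V]

variable {r s g k a b : H} {u v w y : V}

theorem mem_mv_conj : w ∈ mv V (g * r * g⁻¹) ↔ g⁻¹ • w ∈ mv V r :=
  ⟨fun h => by simpa [mul_assoc] using conj_mem_mv g⁻¹ h, fun h => by simpa using conj_mem_mv g h⟩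

theorem card_mv_conj (g r : H) : Nat.card (mv V (g * r * g⁻¹)) = Nat.card (mv V r) :=
  Nat.card_congr ((MulAction.toPerm g⁻¹).subtypeEquiv fun _ => mem_mv_conj)

variable (V) in
/-- `v` is a root of a reflection with `q` roots, all in `W`. -/
def RootIn (H : Type*) [Group H] [DistribMulAction H V] (W : AddSubgroup V) (q : ℕ) (v : V) : Prop :=
  ∃ c : H, (Rf V c ∧ mv V c ≤ W ∧ Nat.card (mv V c) = q) ∧ v ∈ mv V c

theorem RootIn.of_smul {W : AddSubgroup V} {q : ℕ} (hg : ∀ w ∈ W, g⁻¹ • w ∈ W)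
    (h : RootIn V H W q (g • v)) : RootIn V H W q v := by
  obtain ⟨c, ⟨h1, h2, h3⟩, h4⟩ := h
  refine ⟨g⁻¹ * c * g⁻¹⁻¹, ⟨h1.conj _, fun w hw => ?_, (card_mv_conj _ _).trans h3⟩,
    mem_mv_conj.mpr (by rwa [inv_inv])⟩
  simpa using hg _ (h2 (mem_mv_conj.mp hw))

variable (V) in
/-- A third reflection, not orthogonal to the plane. -/
structure Tri (r s a : H) : Prop where
  nc : NC V r s
  ha : Rf V a
  h1 : ¬ fu V r s ≤ fx V a
  h2 : ¬ pl V r s ≤ fx V a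

namespace Tri

variable [Finite V] [Finite H] (h : Tri V r s a)
include h

theorem ne (hb : fu V r s ≤ fx V b) : b ≠ a := fun e => h.h1 (e ▸ hb)

theorem uniq {c : H} (hb : Rf V b) (hP : fu V r s ≤ fx V b) (hc : Rf V c) (hP' : fu V r s ≤ fx V c)
    (h1 : Commute a b) (h2 : Commute a c) : b = c := by
  by_contra e
  exact h.h2 (h.nc.pl_eq hb hP hc hP' e ▸ sup_le (h.nc.hy.mv_le_of_commute hb h.ha (h.ne hP) h1)
    (h.nc.hy.mv_le_of_commute hc h.ha (h.ne hP') h2))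

theorem card_a : Nat.card (mv V a) = Nat.card (mv V r) := by
  by_cases e : Commute a r
  · exact (NC.card_eq ⟨h.nc.hy, h.ha, h.nc.hs, fun e' => h.nc.ne
      (h.uniq h.nc.hr inf_le_left h.nc.hs inf_le_right e e')⟩).trans h.nc.card_eq.symm
  · exact NC.card_eq ⟨h.nc.hy, h.ha, h.nc.hr, e⟩

theorem root_pl (h1 : w ∈ mv V a) (h2 : w ∈ pl V r s) : w = 0 := by
  by_contra h0
  obtain ⟨c, hc, h3, h4⟩ := h.nc.exists_rf_root h2 h0
  exact h.ne h3 (h.nc.hy.eq_of_root hc h.ha h4 h1 h0)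

theorem root1 {x : V} (h1 : y ∈ pl V r s) (h2 : x ∈ mv V a) (h0 : y + x ≠ 0)
    (h3 : ∀ c : H, Rf V c → fu V r s ≤ fx V c → y ∈ mv V c → y ≠ 0 → ¬ Commute a c) :
    RootIn V H (pl V r s ⊔ mv V a) (Nat.card (mv V r)) (y + x) := by
  by_cases e : y = 0
  · exact ⟨a, ⟨h.ha, le_sup_right, h.card_a⟩, by simpa [e] using h2⟩
  obtain ⟨c, hc, h4, h5⟩ := h.nc.exists_rf_root h1 e
  have h6 : NC V a c := ⟨h.nc.hy, h.ha, hc, h3 c hc h4 h5 e⟩
  obtain ⟨d, hd, h7, h8⟩ := h6.exists_rf_root (y := y + x)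
    (add_mem (AddSubgroup.mem_sup_right h5) (AddSubgroup.mem_sup_left h2)) h0
  exact ⟨d, ⟨hd, (h6.mv_le_pl hd h7).trans (sup_le le_sup_right
    ((h.nc.mv_le_pl hc h4).trans le_sup_left)), (h6.card_mv_eq hd h7).trans h.card_a⟩, h8⟩

theorem root2 (h1 : v ∈ pl V r s ⊔ mv V a) (h2 : v ∉ fu V r s) :
    RootIn V H (pl V r s ⊔ mv V a) (Nat.card (mv V r)) v := by
  obtain ⟨y, hy, x, hx, rfl⟩ := AddSubgroup.mem_sup.mp h1
  obtain ⟨u, hu, z, hz, rfl⟩ := h.nc.exists_dec x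
  have hρ : ∀ w ∈ pl V r s ⊔ mv V a, (r * s)⁻¹ • w ∈ pl V r s ⊔ mv V a := fun w hw => by
    rw [mul_inv_rev, h.nc.hy.inv_eq h.nc.hr, h.nc.hy.inv_eq h.nc.hs, mul_smul]
    exact smul_mem_of_mv_le (le_sup_right.trans le_sup_left)
      (smul_mem_of_mv_le (le_sup_left.trans le_sup_left) hw)
  have hu' := mem_fx.mp (h.nc.le_fx_rho hu)
  have key : ∀ y' ∈ pl V r s, y' ≠ 0 → ¬ RootIn V H (pl V r s ⊔ mv V a) (Nat.card (mv V r)) (u + y') →
      ∃ c : H, Rf V c ∧ fu V r s ≤ fx V c ∧ y' - z ∈ mv V c ∧ (y' - z ≠ 0 ∧ Commute a c) := by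
    intro y' h3 h0 h4
    by_contra! h5
    refine h4 (show y' - z + (u + z) = u + y' by abel ▸ h.root1 (sub_mem h3 hz) hx (fun e => h0 ?_) h5)
    exact h.nc.eq_zero h3 (by simpa [show y' = -u by linear_combination (norm := abel1) e] using hu)
  by_contra h3
  rw [show y + (u + z) = u + (y + z) by abel] at h2 h3
  have h4 := add_mem hy hz
  have h0 : y + z ≠ 0 := fun e => h2 (by simpa [e] using hu)
  generalize y + z = y' at *
  have h5 : ¬ RootIn V H (pl V r s ⊔ mv V a) (Nat.card (mv V r)) (u + (r * s) • y') := fun e =>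
    h3 (RootIn.of_smul hρ (by rwa [smul_add, hu']))
  obtain ⟨c₀, h6, h7, h8, -, h9⟩ := key _ h4 h0 h3
  obtain ⟨c₁, h6', h7', h8', -, h9'⟩ := key _ (h.nc.rho_mem h4) (by rwa [Ne, smul_eq_zero_iff_eq]) h5
  obtain ⟨c₂, h6'', h7'', h8'', -, h9''⟩ := key _ (h.nc.rho_mem (h.nc.rho_mem h4))
    (by rwa [Ne, smul_eq_zero_iff_eq, smul_eq_zero_iff_eq])
    fun e => h5 (RootIn.of_smul hρ (by rwa [smul_add, hu']))
  rw [h.uniq h6' h7' h6 h7 h9' h9] at h8'
  rw [h.uniq h6'' h7'' h6 h7 h9'' h9] at h8''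
  have h10 : y' - (r * s) • y' ∈ mv V c₀ := by simpa using sub_mem h8 h8'
  have h11 := h.nc.rho_sq_fix (sub_mem h4 (h.nc.rho_mem h4)) (by
    rcases h.nc.hy.smul_eq_or h6 h10 (g := r * s) (by simpa [smul_sub] using sub_mem h8' h8'') with e | e
    · rw [e, e]
    · rw [e, smul_neg, e, neg_neg])
  exact h0 (h.nc.eq_zero h4 (h.nc.fx_rho (mem_fx.mpr (sub_eq_zero.mp h11).symm)))

theorem card_W : Nat.card ↥(pl V r s ⊔ mv V a) = Nat.card (mv V r) ^ 2 * Nat.card (mv V r) := by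
  rw [card_sup_of_disjoint (eq_bot_iff.mpr fun w hw => h.root_pl hw.2 hw.1), h.nc.card_pl, h.card_a]

theorem sup_inf : pl V r s ⊔ (pl V r s ⊔ mv V a) ⊓ fu V r s = pl V r s ⊔ mv V a :=
  le_antisymm (sup_le le_sup_left inf_le_left) (sup_le le_sup_left fun x hx => by
    obtain ⟨u, hu, z, hz, rfl⟩ := h.nc.exists_dec x
    have : u ∈ pl V r s ⊔ mv V a := by
      simpa using sub_mem (AddSubgroup.mem_sup_right hx) (AddSubgroup.mem_sup_left (T := mv V a) hz)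
    exact add_mem (AddSubgroup.mem_sup_right (AddSubgroup.mem_inf.mpr ⟨this, hu⟩))
      (AddSubgroup.mem_sup_left hz))

theorem card_U : Nat.card ↥((pl V r s ⊔ mv V a) ⊓ fu V r s) = Nat.card (mv V r) := by
  have := h.card_W
  rw [← h.sup_inf, card_sup_of_disjoint (B := _ ⊓ fu V r s)
    (eq_bot_iff.mpr fun w hw => h.nc.eq_zero hw.1 hw.2.2),
    h.nc.card_pl] at this
  exact Nat.eq_of_mul_eq_mul_left (pow_pos Nat.card_pos _) this

theorem not_odd (h2 : ∀ v : V, v + v = 0 → v = 0) : False := by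
  classical
  have := Fintype.ofFinite V
  have := Fintype.ofFinite H
  have hy := h.nc.hy
  set W := pl V r s ⊔ mv V a with hW
  set q := Nat.card (mv V r) with hq
  have h3 : ∀ v ∈ W, v ≠ 0 → RootIn V H W q v := fun v hv h0 => by
    by_cases e : v ∈ fu V r s
    swap
    · exact h.root2 hv e
    obtain ⟨y, h3, x, hx, rfl⟩ := AddSubgroup.mem_sup.mp hv
    refine h.root1 h3 hx h0 fun c hc h4 h5 h6 h7 => h6 (h2 y ?_)
    have h8 := mem_fx.mp (sub_mem (h4 e) (hy.mv_le_of_commute h.ha hc (h.ne h4).symm h7.symm hx))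
    rwa [add_sub_cancel_right, hy.smul_root hc h5, neg_eq_iff_add_eq_zero] at h8
  have hq2 := h.nc.two_le
  have : Nontrivial ↥(W ⊓ fu V r s) := Finite.one_lt_card_iff_nontrivial.mp (h.card_U ▸ hq2)
  obtain ⟨⟨u₀, hu₀⟩, h0⟩ := exists_ne (0 : ↥(W ⊓ fu V r s))
  replace h0 : u₀ ≠ 0 := fun e => h0 (Subtype.ext e)
  obtain ⟨t, ⟨ht, h4, h5⟩, h6⟩ := h3 u₀ hu₀.1 h0
  have hr : t ≠ r := fun e => h0 (h.nc.root_eq_zero (e ▸ h6) hu₀.2.2)
  have hs : t ≠ s := fun e => h0 (h.nc.symm.root_eq_zero (e ▸ h6) hu₀.2.1)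
  have hcr := hy.commute_of_fix ht h6 h0 hu₀.2.1
  have hcs := hy.commute_of_fix ht h6 h0 hu₀.2.2
  have h7 : pl V r s ≤ fx V t := sup_le (hy.mv_le_of_commute h.nc.hr ht hr.symm hcr.symm)
    (hy.mv_le_of_commute h.nc.hs ht hs.symm hcs.symm)
  have h8 : mv V t = W ⊓ fu V r s := AddSubgroup.eq_of_le_of_card_ge (le_inf h4 (le_inf
    (hy.mv_le_of_commute ht h.nc.hr hr hcr) (hy.mv_le_of_commute ht h.nc.hs hs hcs)))
    (h.card_U.trans h5.symm).le
  have hc : ∀ X : AddSubgroup V, (Finset.univ.filter (· ∈ X)).card = Nat.card X := fun X => by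
    rw [Nat.card_eq_fintype_card, Fintype.card_subtype]
  let A : Finset H := Finset.univ.filter fun c =>
    (Rf V c ∧ mv V c ≤ W ∧ Nat.card (mv V c) = q) ∧ c • u₀ ≠ u₀
  have hA1 : q ^ 2 * q - q ^ 2 ≤ A.card * (q - 1) := by
    rw [← h.card_W, ← h.nc.card_pl, ← hc, ← hc]
    refine (Finset.le_card_sdiff _ _).trans ((Finset.card_le_card fun v hv => ?_).trans
      (Finset.card_biUnion_le_card_mul A (fun c => (Finset.univ.filter (· ∈ mv V c)).erase 0) _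
        fun c hc' => ?_))
    · simp only [A, Finset.mem_biUnion, Finset.mem_sdiff, Finset.mem_erase, Finset.mem_filter,
        Finset.mem_univ, true_and] at hv ⊢
      have h9 : v ≠ 0 := fun e => hv.2 (e ▸ zero_mem _)
      obtain ⟨c, h10, h11⟩ := h3 v hv.1 h9
      refine ⟨c, ⟨h10, fun e => hv.2 ?_⟩, h9, h11⟩
      have h12 : c ≠ t := fun e' => h0 (h2 _ (by
        rwa [e', hy.smul_root ht h6, neg_eq_iff_add_eq_zero] at e))
      have h13 := hy.mv_le_of_commute h10.1 ht h12 (hy.commute_of_fix ht h6 h0 (mem_fx.mpr e)).symm h11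
      obtain ⟨y, h14, u, hu, rfl⟩ := AddSubgroup.mem_sup.mp (h.sup_inf.ge hv.1)
      have h15 := mem_fx.mp (sub_mem h13 (h7 h14))
      rw [add_sub_cancel_left, hy.smul_root ht (h8 ▸ hu), neg_eq_iff_add_eq_zero] at h15
      rwa [h2 u h15, add_zero]
    · rw [Finset.card_erase_of_mem (by simp), hc, (Finset.mem_filter.mp hc').2.1.2.2]
  have hA2 : A.card ≤ (q - 1) * (q + 1) := by
    rw [← show ((Finset.univ.filter (· ∈ W ⊓ fu V r s)).erase u₀).card = q - 1 by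
      rw [Finset.card_erase_of_mem (by simpa using hu₀), hc, h.card_U]]
    refine (Finset.card_le_card_of_injOn (fun c => c • u₀) (fun c hc' => ?_) fun c hc' d hd e => ?_).trans
      (Finset.card_biUnion_le_card_mul _ (fun u => Finset.univ.filter fun v =>
        v - u ∈ pl V r s ∧ ∃ g : H, g • u₀ = v) _ fun u _ => ?_)
    · simp only [A, Finset.mem_coe, Finset.mem_biUnion, Finset.mem_erase, Finset.mem_filter,
        Finset.mem_univ, true_and] at hc' ⊢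
      obtain ⟨y, h14, u, hu, e⟩ := AddSubgroup.mem_sup.mp
        (h.sup_inf.ge (smul_mem_of_mv_le hc'.1.2.1 hu₀.1))
      refine ⟨u, ⟨fun e' => hc'.2 ?_, hu⟩, by simpa [← e] using h14, c, rfl⟩
      by_contra h9
      obtain ⟨d, hd, h10, h11⟩ := h.nc.exists_rf_root (y := u₀ - c • u₀)
        (by simpa [← e, e'] using h14) fun e => h9 (sub_eq_zero.mp e).symm
      exact h9 ((hy.key hd h11 h9).1.trans (mem_fx.mp (h10 hu₀.2)))
    · simp only [A, Finset.mem_coe, Finset.mem_filter, Finset.mem_univ, true_and] at hc' hd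
      exact hy.eq_of_root hc'.1.1 hd.1.1 (sub_mem_mv c u₀) ((show c • u₀ = d • u₀ from e) ▸ sub_mem_mv d u₀)
        fun e => hc'.2 (sub_eq_zero.mp e).symm
    · rcases (Finset.univ.filter fun v => v - u ∈ pl V r s ∧ ∃ g : H, g • u₀ = v).eq_empty_or_nonempty
        with e | ⟨v₀, hv₀⟩
      · simp [e]
      refine le_trans ?_ h.nc.ncard_le
      rw [Set.ncard_eq_toFinset_card']
      refine (Finset.card_le_card fun v hv => ?_).trans (Finset.card_image_le (f := fun c => c • v₀))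
      simp only [Finset.mem_image, Set.mem_toFinset, Finset.mem_filter, Finset.mem_univ, true_and,
        Set.mem_ofPred_eq] at hv hv₀ ⊢
      obtain ⟨h9, g, rfl⟩ := hv
      obtain ⟨h10, g₀, rfl⟩ := hv₀
      by_cases e : g • u₀ = g₀ • u₀
      · obtain ⟨c, h11, h12, h13⟩ := h.nc.exists_fix (g₀ • u₀)
        exact ⟨c, ⟨h11, h12⟩, (mem_fx.mp h13).trans e.symm⟩
      obtain ⟨d, hd, h11, h12⟩ := h.nc.exists_rf_root (y := g₀ • u₀ - g • u₀)
        (by simpa using sub_mem h10 h9) fun e' => e (sub_eq_zero.mp e').symm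
      have h13 : (g * g₀⁻¹) • g₀ • u₀ = g • u₀ := by rw [mul_smul, inv_smul_smul]
      exact ⟨d, ⟨hd, h11⟩, ((hy.key hd (h13 ▸ h12) (h13 ▸ e)).1.symm.trans h13)⟩
  obtain ⟨n, hn⟩ := Nat.exists_eq_add_of_le' hq2
  rw [← hq] at hn
  rw [hn] at hA1 hA2
  rw [show (n + 2) ^ 2 * (n + 2) - (n + 2) ^ 2 = (n + 2) ^ 2 * (n + 1) from
    Nat.sub_eq_of_eq_add (by ring)] at hA1
  have := Nat.le_of_mul_le_mul_right hA1 (Nat.succ_pos _)
  simp only [show n + 2 - 1 = n + 1 from rfl] at hA2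
  nlinarith

theorem not_even (h2 : ∀ v : V, v + v = 0) : False := by
  have hy := h.nc.hy
  set W := pl V r s ⊔ mv V a with hW
  obtain ⟨w₀, h3, h0⟩ := hy.exists_root (V := V) h.nc.hr.1
  obtain ⟨y₁, h4, h0'⟩ := hy.exists_root (V := V) h.nc.hs.1
  have h5 : ∀ u ∈ fu V r s, w₀ + u ∉ fu V r s := fun u hu e =>
    h0 (h.nc.root_eq_zero h3 (by simpa using (sub_mem e hu).2))
  have hr : mv V r ≤ W := le_sup_left.trans le_sup_left
  choose c hc h6 using fun u : ↥(W ⊓ fu V r s) =>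
    h.root2 (v := w₀ + u) (add_mem (hr h3) u.2.1) (h5 u u.2.2)
  have h7 : ∀ u : ↥(W ⊓ fu V r s), w₀ + u ≠ 0 := fun u e => h5 u u.2.2 (e ▸ zero_mem _)
  have h8 : ∀ {b d : H}, Rf V b → Rf V d → Commute d b → mv V b ≤ fx V d := fun {b d} hb hd e => by
    by_cases e' : b = d
    · exact e' ▸ hy.mv_le_fx h2 hb
    · exact hy.mv_le_of_commute hb hd e' e
  have h9 : ∀ u, Commute r (c u) := fun u =>
    hy.commute_of_fix (hc u).1 (h6 u) (h7 u) (add_mem (hy.mv_le_fx h2 h.nc.hr h3) u.2.2.1)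
  have h10 : ∀ u, ¬ Commute s (c u) := fun u e =>
    h5 u u.2.2 ⟨h8 (hc u).1 h.nc.hr (h9 u) (h6 u), h8 (hc u).1 h.nc.hs e (h6 u)⟩
  have h11 : ∀ u, mv V (c u) ≤ mv V r ⊔ W ⊓ fu V r s := fun u x hx => by
    obtain ⟨u', hu', m, hm, e⟩ := AddSubgroup.mem_sup.mp ((h.nc.sup_eq h.nc.hr inf_le_left h.nc.hr
      inf_le_left (hy.mv_le_fx h2 h.nc.hr)).ge (h8 (hc u).1 h.nc.hr (h9 u) hx))
    exact AddSubgroup.mem_sup.mpr ⟨m, hm, u', ⟨by simpa [← e] using sub_mem ((hc u).2.1 hx) (hr hm), hu'⟩,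
      by rw [← e, add_comm]⟩
  have h12 : ∀ u, mv V r ⊔ W ⊓ fu V r s ≤ fx V (c u) := fun u => by
    by_cases e : c u = r
    · rw [e]; exact sup_le (hy.mv_le_fx h2 h.nc.hr) fun x hx => hx.2.1
    rw [← AddSubgroup.eq_of_le_of_card_ge (sup_le le_sup_left (h11 u)) (by
      rw [card_sup_of_disjoint (B := W ⊓ fu V r s)
          (eq_bot_iff.mpr fun w hw => h.nc.root_eq_zero hw.1 hw.2.2.2),
        card_sup_of_disjoint (eq_bot_iff.mpr fun w hw => by
          by_contra h0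
          exact e (hy.eq_of_root (hc u).1 h.nc.hr hw.2 hw.1 h0)), h.card_U, (hc u).2.2])]
    exact sup_le (h8 h.nc.hr (hc u).1 (h9 u).symm) (hy.mv_le_fx h2 (hc u).1)
  choose m hm u' hu' e using fun u => AddSubgroup.mem_sup.mp (h11 u (sub_mem_mv (c u) y₁))
  have h13 : ∀ u, y₁ - c u • y₁ ≠ 0 := fun u e => h10 u
    (hy.commute_of_fix h.nc.hs h4 h0' (mem_fx.mpr (sub_eq_zero.mp e).symm)).symm
  have h14 : Function.Injective fun u => (⟨m u, hm u⟩ : mv V r) := fun u₁ u₂ e' => by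
    replace e' : m u₁ = m u₂ := congrArg Subtype.val e'
    have h14 := h.nc.eq_zero_of_smul (g := c u₂ * c u₁) (u := u' u₁ - u' u₂)
      (AddSubgroup.mem_sup_right h4) (sub_mem (hu' u₁).2 (hu' u₂).2) (by
        have := mem_fx.mp (h12 u₂ (h11 u₁ (sub_mem_mv (c u₁) y₁)))
        rw [smul_sub] at this
        rw [mul_smul]
        linear_combination (norm := abel1) -this + e u₁ + e u₂ - e' - h2 (m u₂) - h2 (u' u₁))
    have h15 : c u₁ = c u₂ := hy.eq_of_root (hc u₁).1 (hc u₂).1 (sub_mem_mv _ y₁) (by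
      rw [← e, e', sub_eq_zero.mp h14, e]; exact sub_mem_mv _ y₁) (h13 u₁)
    by_contra h16
    have h17 : (u₁ : V) - u₂ ∈ mv V (c u₁) := by
      rw [← add_sub_add_left_eq_sub _ _ w₀]
      exact sub_mem (h6 u₁) (h15 ▸ h6 u₂)
    exact h10 u₁ (hy.commute_of_fix (hc u₁).1 h17 (fun e => h16 (Subtype.ext (sub_eq_zero.mp e)))
      (sub_mem u₁.2.2.2 u₂.2.2.2))
  obtain ⟨u, hu⟩ := (h14.bijective_of_nat_card_le h.card_U.ge).2 0
  replace hu : m u = 0 := congrArg Subtype.val hu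
  refine h10 u (hy.commute_of_fix (hc u).1 (sub_mem_mv _ y₁) (h13 u) ?_)
  rw [← e, hu, zero_add]
  exact (hu' u).2.2

end Tri

theorem NC.le_or [Finite V] [Finite H] (h : NC V r s) (ha : Rf V a) :
    fu V r s ≤ fx V a ∨ pl V r s ≤ fx V a := by
  by_contra! h1
  exact h.hy.two.elim (Tri.not_even ⟨h, ha, h1.1, h1.2⟩) (Tri.not_odd ⟨h, ha, h1.1, h1.2⟩)

end Cfsg.Agent.Perm.BA
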