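import Mathlib
import Cfsg.Agent.Perm.BinAffD

/-!
# Binary affine groups: the irreducible case
-/

set_option autoImplicit false
set_option linter.unusedSectionVars false

namespace Cfsg.Agent.Perm.BA

universe u

theorem exists_galois {E : Type u} [Field E] [Finite E] (φ : E ≃+* E) (h2 : ∀ x, φ (φ x) = x)
    (h1 : ∃ x, φ x ≠ x) :
    ∃ (F K : Type) (_ : Field F) (_ : Fintype F) (_ : Field K) (_ : Fintype K) (_ : Algebra F K)
      (e : E ≃+* K) (ψ : K ≃ₐ[F] K), Module.finrank F K = 2 ∧ (∀ x, e (φ x) = ψ (e x)) ∧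
      (∀ χ : K ≃ₐ[F] K, χ = 1 ∨ χ = ψ) ∧ ∀ a, Algebra.norm F a = 1 ↔ a * ψ a = 1 := by
  classical
  let K := Shrink.{0} E
  let e : E ≃+* K := (Shrink.ringEquiv.{0} E).symm
  have : Finite K := Finite.of_equiv _ e.toEquiv
  let φ' : RingAut K := e.symm.trans (φ.trans e)
  have h3 : ∀ x, φ' (e x) = e (φ x) := fun x => by simp [φ']
  obtain ⟨x, hx⟩ := h1
  have h4 : φ' ≠ 1 := fun h => hx (e.injective (by rw [← h3, h]; rfl))
  have h5 : orderOf φ' = 2 := orderOf_eq_prime (RingEquiv.ext fun y => by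
    obtain ⟨y, rfl⟩ := e.surjective y
    rw [sq, RingAut.mul_apply, h3, h3, h2]; rfl) h4
  let G₀ := Subgroup.zpowers φ'
  have : Finite (RingAut K) := Finite.of_injective (fun e : RingAut K => (e : K → K)) DFunLike.coe_injective
  have := Fintype.ofFinite G₀
  let F := FixedPoints.subfield G₀ K
  have h6 : Module.finrank F K = 2 := by
    rw [FixedPoints.finrank_eq_card, ← Nat.card_eq_fintype_card, Nat.card_zpowers, h5]
  let ψ : K ≃ₐ[F] K := MulSemiringAction.toAlgAut G₀ F K ⟨φ', Subgroup.mem_zpowers _⟩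
  have h7 : ∀ y, ψ y = φ' y := fun _ => rfl
  have h8 : ψ ≠ 1 := fun h => h4 (RingEquiv.ext fun y => by rw [← h7, h]; rfl)
  have h9 : ∀ χ : K ≃ₐ[F] K, χ = 1 ∨ χ = ψ := fun χ => by
    obtain ⟨y, -, hy⟩ := (Nat.card_eq_two_iff' (1 : K ≃ₐ[F] K)).mp
      ((IsGalois.card_aut_eq_finrank F K).trans h6)
    exact or_iff_not_imp_left.mpr fun h => (hy χ h).trans (hy ψ h8).symm
  refine ⟨F, K, inferInstance, Fintype.ofFinite _, inferInstance, Fintype.ofFinite _, inferInstance,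
    e, ψ, h6, fun x => (h3 x).symm, h9, fun a => ?_⟩
  rw [← (algebraMap F K).injective.eq_iff, Algebra.norm_eq_prod_automorphisms, map_one,
    show (Finset.univ : Finset (K ≃ₐ[F] K)) = {1, ψ} from Finset.ext fun χ => by simpa using h9 χ,
    Finset.prod_pair h8.symm]
  rfl

variable {H : Type*} {V : Type u} [Group H] [AddCommGroup V] [DistribMulAction H V]

variable {r s g k a b : H} {u v w y : V}

namespace NC

variable [Finite V] [Finite H] (h : NC V r s)
include h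

theorem smul_mem_pl (k : H) (h1 : y ∈ pl V r s) : k • y ∈ pl V r s := by
  by_contra h2
  have hy := h.hy
  have h0 : y ≠ 0 := fun e => h2 (by simp [e])
  obtain ⟨t, ht, h3, h4⟩ := h.exists_rf_root h1 h0
  have ht' := ht.conj k
  have h5 := conj_mem_mv k h4
  have h6 : ¬ fu V r s ≤ fx V (k * t * k⁻¹) := fun e => h2 (h.mv_le_pl ht' e h5)
  have h7 := (h.le_or ht').resolve_left h6
  have h8 := mem_fx.mp (hy.mv_le_of_commute ht' ht (fun e => h6 (by rw [e]; exact h3))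
    (hy.commute_of_fix ht h4 h0 (h7 h1)).symm h5)
  generalize k * t * k⁻¹ = t' at *
  obtain ⟨c, h9, -, -, h10⟩ := hy.ex k y
  obtain ⟨v₁, e₁⟩ := mem_mv.mp h4
  obtain ⟨u₁, hu₁, y₁, hy₁, rfl⟩ := h.exists_dec v₁
  obtain ⟨v₂, e₂⟩ := mem_mv.mp (neg_mem h5)
  obtain ⟨u₂, hu₂, y₂, hy₂, rfl⟩ := h.exists_dec v₂
  rw [smul_add, mem_fx.mp (h3 hu₁)] at e₁
  rw [smul_add, mem_fx.mp (h7 hy₂)] at e₂
  have h11 := h10 (t * t') (y₁ + u₂) (by
    rw [mul_smul, smul_add, mem_fx.mp (h7 hy₁),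
      show t' • u₂ = u₂ + k • y by linear_combination (norm := abel1) -e₂, smul_add, smul_add, h8,
      mem_fx.mp (h3 hu₂)]
    linear_combination (norm := abel1) e₁)
  obtain ⟨x, h12, h13⟩ := h.exists_fx_not_fu ht h3
  obtain ⟨u, hu, z, hz, rfl⟩ := h.exists_dec x
  have h14 : z ∈ fx V c := h11 (fx_mul (by simpa using sub_mem h12 (h3 hu)) (h7 hz))
  have h15 : z ≠ 0 := fun e => h13 (by simpa [e] using hu)
  obtain ⟨d, hd, h16, h17⟩ := h.exists_rf_root hz h15
  obtain ⟨s', h18, h19⟩ : ∃ s', NC V d s' ∧ fu V r s ≤ fx V s' :=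
    (h.nc_or hd h16).elim (fun e => ⟨r, e, inf_le_left⟩) fun e => ⟨s, e, inf_le_right⟩
  have h20 := (h.le_or (h18.hs.conj c)).resolve_right fun e => h18.nc (by
    have h20 := hy.commute_of_fix hd h17 h15 (e hz)
    rw [← mul_inv_eq_iff_eq_mul.mpr (hy.commute_of_fix hd h17 h15 h14).eq] at h20
    exact ((Commute.conj_iff c).mp h20).symm)
  obtain ⟨a, ha, b, hb, rfl⟩ := AddSubgroup.mem_sup.mp ((h.pl_eq hd h16 h18.hs h19 h18.ne).ge h1)
  refine h2 (h9 ▸ ?_)
  rw [smul_add, mem_fx.mp (hy.mv_le_of_fix hd h17 h15 h14 ha)]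
  exact add_mem (h.mv_le_pl hd h16 ha) (h.mv_le_pl (h18.hs.conj c) h20 (conj_mem_mv c hb))

theorem exists_field
    (hirr : ∀ X : AddSubgroup V, (∀ g : H, ∀ v ∈ X, g • v ∈ X) → X = ⊥ ∨ X = ⊤) :
    ∃ (E : Type u) (_ : Field E) (e : V ≃+ E) (φ : E ≃+* E), (∀ x, φ (φ x) = x) ∧ (∃ x, φ x ≠ x) ∧
      (∀ g : H, ∃ a, a * φ a = 1 ∧ ((∀ v, e (g • v) = a * e v) ∨ ∀ v, e (g • v) = a * φ (e v))) ∧
      ∀ a, a * φ a = 1 → (∃ g : H, ∀ v, e (g • v) = a * e v) ∧
        ∃ g : H, ∀ v, e (g • v) = a * φ (e v) := by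
  have hy := h.hy
  have h1 : pl V r s = ⊤ := (hirr _ fun g v => h.smul_mem_pl g).resolve_left fun e => by
    obtain ⟨w, h1, h0⟩ := hy.exists_root (V := V) h.hr.1
    exact h0 (AddSubgroup.mem_bot.mp (e ▸ AddSubgroup.mem_sup_left h1))
  have h2 : ∀ u ∈ fu V r s, u = 0 := fun u hu => h.eq_zero (h1 ▸ AddSubgroup.mem_top u) hu
  have hP : ∀ k : H, fu V r s ≤ fx V k := fun k u hu => h2 u hu ▸ zero_mem _
  have h3 : ∀ a k : H, Rf V a → ¬ Rf V k → a * k * a = k⁻¹ := fun a k ha hk => by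
    by_cases e : k = 1
    · simpa [e] using hy.sq ha
    · exact eq_inv_of_mul_eq_one_left (by
        rw [mul_assoc]
        exact h.inverts (hP k) (fun y h3 => not_not.mp fun h4 => hk (h.rf_of_fix (hP k) e h3 h4)) ha (hP a))
  have h4 : ∀ a b : H, Rf V a → Rf V b → ¬ Rf V (a * b) := fun a b ha hb hab => by
    have h4 : a ≠ b := fun e => hab.1 (e ▸ hy.sq ha)
    obtain ⟨y, h5, h6⟩ := h.exists_fx_not_fu hab (hP _)
    have h7 := hy.fx_mul_le ha (fun e => h4 (h.eq_of_fx_le hb (hP b) ha e).symm) h5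
    exact h4 (h.eq_of_fx_le ha (hP a) hb (h.fx_le hb (hP b) ha (hP a) h7.2 h7.1 h6))
  have h5 : ∀ a k : H, Rf V a → ¬ Rf V k → Rf V (a * k) := fun a k ha hk => by
    by_contra e
    have h5 : ∀ b : H, Rf V b → b * a * b = a * k * k := fun b hb => by
      have h6 := h3 b _ hb e
      rw [show b * (a * k) * b = b * a * b⁻¹ * (b * k * b) by group, h3 b k hb hk, hy.inv_eq hb,
        mul_inv_rev, hy.inv_eq ha, mul_inv_eq_iff_eq_mul, ← h3 a k ha hk, mul_assoc _ a a, hy.sq ha,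
        mul_one] at h6
      exact h6
    have h6 : ∀ b : H, Rf V b → Commute a b := fun b hb => by
      have h6 := (h5 b hb).trans (h5 a ha).symm
      rw [hy.sq ha, one_mul, ← eq_mul_inv_iff_mul_eq, hy.inv_eq hb] at h6
      exact h6.symm
    exact (h.nc_or ha (hP a)).elim (fun e => e.nc (h6 r h.hr)) fun e => e.nc (h6 s h.hs)
  have h6 : ∀ k : H, ¬ Rf V k → ¬ Rf V k⁻¹ := fun k hk e => hk (by rwa [← hy.inv_eq e, inv_inv] at e)
  have h7 : ∀ k k' : H, ¬ Rf V k → ¬ Rf V k' → k * k' = k' * k := fun k k' hk hk' => by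
    have h7 := h4 _ _ (h5 r _ h.hr (h6 k hk)) (h5 r _ h.hr hk')
    rw [← mul_assoc, h3 r _ h.hr (h6 k hk), inv_inv] at h7
    have h8 := h3 r _ h.hr h7
    rw [show r * (k * k') * r = r * k * r * (r⁻¹ * k' * r) by group, hy.inv_eq h.hr, h3 r k h.hr hk,
      h3 r k' h.hr hk', ← mul_inv_rev] at h8
    exact (inv_injective h8).symm
  have h8 : ∀ X : AddSubgroup V, (∀ g : H, ¬ Rf V g → ∀ v ∈ X, g • v ∈ X) → X = ⊥ ∨ X = ⊤ :=
    fun X hX => hirr X fun g v hv => by
      by_cases e : Rf V g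
      · obtain ⟨a, ha, -, h8⟩ := h.exists_fix v
        rw [← mem_fx.mp h8, ← mul_smul]
        exact hX _ (h4 g a e ha) v hv
      · exact hX g e v hv
  let f : H →* AddMonoid.End V := DistribMulAction.toAddMonoidEnd H V
  have hf : ∀ g v, f g v = g • v := fun _ _ => rfl
  let E : Subring (AddMonoid.End V) := Subring.centralizer (f '' {k | ¬ Rf V k})
  have hE : ∀ c, c ∈ E ↔ ∀ k : H, ¬ Rf V k → ∀ v, k • c v = c (k • v) := fun c => by
    simp only [E, Subring.mem_centralizer_iff, Set.forall_mem_image, Set.mem_ofPred_eq]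
    exact forall₂_congr fun k _ => ⟨fun e v => DFunLike.congr_fun e v, fun e => AddMonoidHom.ext e⟩
  have h9 : ∀ (c : E) (v : V), (c : AddMonoid.End V) v = 0 → c = 0 ∨ v = 0 := fun c v hv => by
    let X : AddSubgroup V := AddMonoidHom.ker (show V →+ V from (c : AddMonoid.End V))
    have hX : ∀ w, w ∈ X ↔ (c : AddMonoid.End V) w = 0 := fun _ => Iff.rfl
    rcases h8 X fun g hg w hw => (hX _).mpr (by
      rw [← (hE c).mp c.2 g hg w, (hX w).mp hw, smul_zero]) with e | e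
    · exact Or.inr (AddSubgroup.mem_bot.mp (e ▸ (hX v).mpr hv))
    · exact Or.inl (Subtype.ext (AddMonoidHom.ext fun w => (hX w).mp (e ▸ AddSubgroup.mem_top w)))
  obtain ⟨v₀, h10, h0⟩ := h.exists_fx_not_fu h.hr inf_le_left
  replace h0 : v₀ ≠ 0 := fun e => h0 (e ▸ zero_mem _)
  have : Finite (AddMonoid.End V) :=
    Finite.of_injective (fun e : AddMonoid.End V => (e : V → V)) DFunLike.coe_injective
  have : Nontrivial E := ⟨1, 0, fun e => h0 (congrArg (fun c : E => (c : AddMonoid.End V) v₀) e)⟩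
  have : NoZeroDivisors E := ⟨fun {c d} e => or_iff_not_imp_left.mpr fun hc =>
    (h9 d v₀ ((h9 c _ (congrArg (fun c : E => (c : AddMonoid.End V) v₀) e)).resolve_left hc)).resolve_right h0⟩
  have : IsDomain E := NoZeroDivisors.to_isDomain E
  letI : Field E := (Finite.isDomain_to_isField E).toField
  let ev : E →+ V := { toFun c := (c : AddMonoid.End V) v₀, map_zero' := rfl, map_add' _ _ := rfl }
  have hfE : ∀ k : H, ¬ Rf V k → f k ∈ E := fun k hk => (hE _).mpr fun k' hk' v => by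
    rw [hf, hf, ← mul_smul, h7 k' k hk' hk, mul_smul]
  have h11 : Function.Bijective ev := ⟨(injective_iff_map_eq_zero ev).mpr fun c e =>
    (h9 c v₀ e).resolve_right h0, AddMonoidHom.range_eq_top.mp ((h8 ev.range (by
      rintro g hg _ ⟨c, rfl⟩
      exact ⟨⟨f g, hfE g hg⟩ * c, rfl⟩)).resolve_left fun e =>
        h0 (AddSubgroup.mem_bot.mp (e ▸ (⟨1, rfl⟩ : v₀ ∈ ev.range))))⟩
  let e : V ≃+ E := (AddEquiv.ofBijective ev h11).symm
  have he : ∀ v (c : E), e v = c ↔ v = (c : AddMonoid.End V) v₀ := fun v c => AddEquiv.symm_apply_eq _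
  have he' : ∀ v, (e v : AddMonoid.End V) v₀ = v := fun v => ((he v _).mp rfl).symm
  have hrr : f r * f r = 1 := by rw [← map_mul, hy.sq h.hr, map_one]
  have hc : ∀ c ∈ E, f r * c * f r ∈ E := fun c hc => (hE _).mpr fun k hk v => by
    change k • r • c (r • v) = r • c (r • k • v)
    have : r * k = k⁻¹ * r := by rw [← h3 r k h.hr hk, mul_assoc, hy.sq h.hr, mul_one]
    rw [← mul_smul r k, this, mul_smul k⁻¹, ← (hE c).mp hc _ (h6 k hk), ← mul_smul r k⁻¹,
      ← h3 r k h.hr hk, ← mul_assoc, ← mul_assoc, hy.sq h.hr, one_mul, mul_smul]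
  have hcc : ∀ c : AddMonoid.End V, f r * (f r * c * f r) * f r = c := fun c => by
    rw [← mul_assoc, ← mul_assoc, hrr, one_mul, mul_assoc, hrr, mul_one]
  let φ : E ≃+* E :=
    { toFun c := ⟨_, hc c c.2⟩
      invFun c := ⟨_, hc c c.2⟩
      left_inv c := Subtype.ext (hcc c)
      right_inv c := Subtype.ext (hcc c)
      map_mul' c d := Subtype.ext (by
        change f r * (c * d) * f r = (f r * c * f r) * (f r * d * f r)
        simp only [mul_assoc]
        rw [← mul_assoc (f r) (f r), hrr, one_mul])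
      map_add' c d := Subtype.ext (by
        change f r * (c + d) * f r = (f r * c * f r) + (f r * d * f r)
        rw [mul_add, add_mul]) }
  have hφ : ∀ x, φ (φ x) = x := fun c => Subtype.ext (hcc c)
  have h12 : ∀ v, e (r • v) = φ (e v) := fun v => (he _ _).mpr (by
    change r • v = r • (e v : AddMonoid.End V) (r • v₀)
    rw [mem_fx.mp h10, he'])
  have h13 : ∀ k (hk : ¬ Rf V k) v, e (k • v) = ⟨f k, hfE k hk⟩ * e v := fun k hk v => (he _ _).mpr (by
    change k • v = k • (e v : AddMonoid.End V) v₀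
    rw [he'])
  have h14 : ∀ k (hk : ¬ Rf V k), (⟨f k, hfE k hk⟩ : E) * φ ⟨f k, hfE k hk⟩ = 1 := fun k hk =>
    Subtype.ext (by
      change f k * (f r * f k * f r) = 1
      rw [← map_mul, ← map_mul, ← map_mul, h3 r k h.hr hk, mul_inv_cancel, map_one])
  have h15 : ∀ a (ha : Rf V a) v, e (a • v) = ⟨f _, hfE _ (h4 a r ha h.hr)⟩ * φ (e v) := fun a ha v => by
    rw [← h12, ← h13 _ (h4 a r ha h.hr), mul_smul, hy.smul_smul_eq h.hr]
  have h16 : ∃ x, φ x ≠ x := by
    by_contra! h16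
    exact h.hr.1 (hy.faith r fun v => e.injective (by rw [h12, h16]))
  refine ⟨E, inferInstance, e, φ, hφ, h16, fun g => ?_, fun a ha => ?_⟩
  · by_cases hg : Rf V g
    · exact ⟨_, h14 _ (h4 g r hg h.hr), Or.inr (h15 g hg)⟩
    · exact ⟨_, h14 g hg, Or.inl (h13 g hg)⟩
  obtain ⟨x, hx⟩ : ∃ x, x + a * φ x ≠ 0 := by
    by_contra! h17
    obtain ⟨x, hx⟩ := h16
    have h18 := h17 1
    rw [map_one, mul_one] at h18
    exact hx (by linear_combination -h17 x + φ x * h18)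
  obtain ⟨c, hc, -, h17⟩ := h.exists_fix (e.symm (x + a * φ x))
  have h18 := h15 c hc (e.symm (x + a * φ x))
  rw [mem_fx.mp h17, e.apply_symm_apply] at h18
  have h19 : a = ⟨f _, hfE _ (h4 c r hc h.hr)⟩ := mul_right_cancel₀ ((map_ne_zero φ).mpr hx) (by
    rw [← h18, map_add, map_mul, hφ]
    linear_combination x * ha)
  rw [h19]
  exact ⟨⟨c * r, h13 _ (h4 c r hc h.hr)⟩, c, h15 c hc⟩

end NC

theorem Hyp.small [Finite V] [Finite H] [Nontrivial V] (hy : Hyp H V)
    (hirr : ∀ X : AddSubgroup V, (∀ g : H, ∀ v ∈ X, g • v ∈ X) → X = ⊥ ∨ X = ⊤)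
    (hc : ∀ r s : H, Rf V r → Rf V s → Commute r s) : (Nat.card V).Prime ∧ Nat.card H ≤ 2 := by
  classical
  have := Fintype.ofFinite H
  suffices h : ∀ g : H, (∀ v : V, g • v = v) ∨ ∀ v : V, g • v = -v by
    constructor
    · have h1 : ∀ X : AddSubgroup V, X = ⊥ ∨ X = ⊤ := fun X => hirr X fun g v hv =>
        (h g).elim (fun e => (e v).symm ▸ hv) fun e => (e v).symm ▸ neg_mem hv
      have : IsSimpleAddGroup V := ⟨fun X _ => h1 X⟩
      exact IsSimpleAddGroup.prime_card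
    · rw [← Nat.card_eq_fintype_card.trans Fintype.card_prop]
      refine Nat.card_le_card_of_injective (fun g : H => ∀ v : V, g • v = v) fun g k e =>
        inv_mul_eq_one.mp (hy.faith _ fun v => ?_)
      rw [mul_smul, inv_smul_eq_iff]
      replace e : (∀ v : V, g • v = v) ↔ ∀ v : V, k • v = v := iff_of_eq e
      by_cases e' : ∀ v : V, g • v = v
      · rw [e', e.mp e']
      · rw [(h g).resolve_left e', (h k).resolve_left (mt e.mpr e')]
  intro g
  refine or_iff_not_imp_left.mpr fun hg => ?_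
  replace hg : g ≠ 1 := fun e => hg (by simp [e])
  obtain ⟨r, hr, h1⟩ := exists_rf (V := V) hg
  have h2 : ∀ s, Rf V s → ∀ t, Rf V t → t ≠ s → mv V t ≤ fx V s := fun s hs t ht e =>
    hy.mv_le_of_commute ht hs e (hc s t hs ht)
  rcases hy.two with h3 | h3
  · obtain ⟨w, h4, h0⟩ := hy.exists_root (V := V) hr.1
    rcases hirr (⨅ s : {s // Rf V s}, fx V s.1) (fun k v hv => AddSubgroup.mem_iInf.mpr fun s => by
      have := smul_mem_fx_conj (g := k).mpr (AddSubgroup.mem_iInf.mp hv ⟨_, s.2.conj k⁻¹⟩)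
      simpa [mul_assoc] using this) with e | e
    · refine (h0 (AddSubgroup.mem_bot.mp (e ▸ AddSubgroup.mem_iInf.mpr fun s => ?_))).elim
      by_cases e' : r = s
      · exact e' ▸ hy.mv_le_fx h3 hr h4
      · exact h2 s s.2 r hr e' h4
    · exact (hr.1 (hy.faith r fun v => mem_fx.mp
        (AddSubgroup.mem_iInf.mp (e ▸ AddSubgroup.mem_top v) ⟨r, hr⟩))).elim
  choose w hw h0 using fun s : {s // Rf V s} => hy.exists_root (V := V) s.2.1
  have h4 : ∀ k : H, k • ∑ s, w s = ∑ s, w s → k = 1 := fun k hk => by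
    by_contra e
    obtain ⟨s, hs, h4⟩ := exists_rf (V := V) e
    have h5 := h4 (mem_fx.mpr hk)
    rw [← Finset.add_sum_erase _ _ (Finset.mem_univ ⟨s, hs⟩)] at h5
    have h6 := mem_fx.mp (sub_mem h5 (sum_mem (t := Finset.univ.erase (⟨s, hs⟩ : {s // Rf V s}))
      fun t ht => h2 s hs t t.2
      (fun e => (Finset.mem_erase.mp ht).1 (Subtype.ext (a2 := ⟨s, hs⟩) e)) (hw t)))
    rw [add_sub_cancel_right, hy.smul_root hs (hw ⟨s, hs⟩), neg_eq_iff_add_eq_zero] at h6
    exact h0 _ (h3 _ h6)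
  have h5 : ∀ k : H, k * k = 1 := fun k => by
    obtain ⟨c, h5, h6, -⟩ := hy.ex k (∑ s, w s)
    obtain rfl : c = k := inv_mul_eq_one.mp (h4 _ (by rw [mul_smul, ← h5, inv_smul_smul]))
    exact h4 _ (by rw [mul_smul, h6])
  have h6 := (hirr (fx V r) fun k v hv => by
    have := smul_mem_fx_conj (g := k).mpr hv
    rwa [← inv_eq_of_mul_eq_one_right (h5 (k * r)), mul_inv_rev, hy.inv_eq hr, mul_assoc,
      inv_eq_of_mul_eq_one_right (h5 k), h5 k, mul_one] at this).resolve_right fun e =>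
      hr.1 (hy.faith r fun v => mem_fx.mp (e ▸ AddSubgroup.mem_top v))
  intro v
  refine eq_neg_of_add_eq_zero_right (AddSubgroup.mem_bot.mp (h6 ▸ h1 (mem_fx.mpr ?_)))
  rw [smul_add, ← mul_smul, h5, one_smul, add_comm]

end Cfsg.Agent.Perm.BA
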