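import Mathlib
import Cfsg.Agent.Inv.PrimeSylow
import Cfsg.Agent.GT.FrobeniusBasic

/-!
# Commuting graph isomorphisms; normal subgroups and self-centralising elements of prime order
-/

set_option autoImplicit false

namespace Cfsg.Agent.Perm.CG

variable {H M : Type*} [Group H] [Group M]

/-- a bijection fixing `1` and preserving commutation -/
structure IsCG (F : H ≃ M) : Prop where
  one : F 1 = 1
  comm : ∀ x y, Commute (F x) (F y) ↔ Commute x y

theorem exists_isCG (f : {h : H // h ≠ 1} ≃ {g : M // g ≠ 1})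
    (hf : ∀ x y : {h : H // h ≠ 1}, (x : H) * y = y * x ↔ ((f x) : M) * (f y) = (f y) * (f x)) :
    ∃ F : H ≃ M, IsCG F := by
  classical
  let F : H ≃ M := (Equiv.optionSubtypeNe (1 : H)).symm.trans
    (f.optionCongr.trans (Equiv.optionSubtypeNe (1 : M)))
  have h1 : F 1 = 1 := by simp [F]
  have h2 : ∀ (x : H) (hx : x ≠ 1), F x = f ⟨x, hx⟩ := fun x hx => by
    simp [F, Equiv.optionSubtypeNe_symm_of_ne hx]
  refine ⟨F, h1, fun x y => ?_⟩
  by_cases hx : x = 1
  · simp [hx, h1]
  by_cases hy : y = 1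
  · simp [hy, h1]
  rw [h2 x hx, h2 y hy]
  exact (hf ⟨x, hx⟩ ⟨y, hy⟩).symm

namespace IsCG

variable {F : H ≃ M} (h : IsCG F)
include h

theorem symm : IsCG F.symm where
  one := by rw [← h.one, F.symm_apply_apply]
  comm x y := by rw [← h.comm, F.apply_symm_apply, F.apply_symm_apply]

theorem eq_one_iff {x : H} : F x = 1 ↔ x = 1 := by rw [← h.one, F.apply_eq_iff_eq]

theorem mem_centralizer {x y : H} :
    F y ∈ Subgroup.centralizer ({F x} : Set M) ↔ y ∈ Subgroup.centralizer ({x} : Set H) := by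
  rw [Subgroup.mem_centralizer_singleton_iff, Subgroup.mem_centralizer_singleton_iff]
  exact h.comm y x

theorem card_centralizer (x : H) : Nat.card (Subgroup.centralizer ({F x} : Set M)) =
    Nat.card (Subgroup.centralizer ({x} : Set H)) :=
  (Nat.card_congr (F.subtypeEquiv fun _ => h.mem_centralizer.symm)).symm

end IsCG

open Cfsg.Agent.Inv

variable {G : Type*} [Group G] [Finite G] {p : ℕ}

theorem orderOf_eq_of_card (hp : p.Prime) {x : G} (hx : x ≠ 1)
    (hC : Nat.card (Subgroup.centralizer ({x} : Set G)) = p) : orderOf x = p := by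
  have h1 := (Subgroup.centralizer ({x} : Set G)).orderOf_dvd_natCard
    (Subgroup.mem_centralizer_singleton_iff.mpr rfl)
  rw [hC] at h1
  exact ((Nat.dvd_prime hp).mp h1).resolve_left fun e => hx (orderOf_eq_one_iff.mp e)

/-- Normal subgroups of a group with a self-centralising element of prime order `p`. -/
theorem normal_cases (hp : p.Prime) (h2 : ¬ p ^ 2 ∣ Nat.card G) {x : G} (hx : x ≠ 1)
    (hC : Nat.card (Subgroup.centralizer ({x} : Set G)) = p) (N : Subgroup G) [hN : N.Normal] :
    (x ∉ N ∧ Nat.card N % p = 1) ∨ (x ∈ N ∧ p ∣ Nat.card N ∧ ∃ e, e ∣ p - 1 ∧ N.index ∣ e ∧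
      e * p ∣ Nat.card G ∧ Nat.card G / (e * p) % p = 1) := by
  have := Fact.mk hp
  have ho := orderOf_eq_of_card hp hx hC
  have hsc := PS.sc_of_card ho hC
  by_cases hxN : x ∈ N
  · refine Or.inr ⟨hxN, ho ▸ N.orderOf_dvd_natCard hxN, ?_⟩
    obtain ⟨e, he, hn⟩ := PS.exists_card_normalizer ho
    rw [hC] at hn
    have h3 := (Subgroup.normalizer (Subgroup.zpowers x : Set G)).card_mul_index
    have h4 := PS.index_normalizer_modEq h2 ho
    have he0 : 0 < e * p := hn ▸ Nat.card_pos
    rw [hn] at h3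
    refine ⟨e, he, ?_, ⟨_, h3.symm⟩, ?_⟩
    · obtain ⟨P, hP⟩ := PS.exists_sylow_eq h2 ho
      have h5 := P.normalizer_sup_eq_top' (N := N) (hP ▸ Subgroup.zpowers_le.mpr hxN)
      rw [← Subgroup.relIndex_top_right, ← h5, Subgroup.relIndex_sup_right]
      have h6 : Subgroup.zpowers x ≤ Subgroup.normalizer (Subgroup.zpowers x : Set G) :=
        Subgroup.le_normalizer
      have h7 := Subgroup.relIndex_dvd_of_le_left (Subgroup.normalizer (P : Set G))
        (Subgroup.zpowers_le.mpr hxN)
      have h8 := ((Subgroup.zpowers x).subgroupOf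
        (Subgroup.normalizer (Subgroup.zpowers x : Set G))).card_mul_index
      rw [Nat.card_congr (Subgroup.subgroupOfEquivOfLe h6).toEquiv, Nat.card_zpowers, ho, hn,
        mul_comm e, Nat.mul_right_inj hp.ne_zero] at h8
      have h9 : (P : Set G) = (Subgroup.zpowers x : Set G) := congrArg SetLike.coe hP
      rw [h9] at h7 ⊢
      exact h8 ▸ h7
    · rw [← h3, Nat.mul_div_cancel_left _ he0, h4, Nat.mod_eq_of_lt hp.one_lt]
  · refine Or.inl ⟨hxN, ?_⟩
    have h3 := GT.Frob.card_dvd_card_sub_one_of_fpf (A := Subgroup.zpowers x) (K := N)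
      (by rw [Subgroup.normalizer_eq_top]; exact le_top) fun a ha ha1 => by
        rw [hsc a ha ha1, eq_bot_iff]
        rintro y ⟨hy, hy'⟩
        by_contra hy1
        have : Fact (Nat.card (Subgroup.zpowers x)).Prime := ⟨by rwa [Nat.card_zpowers, ho]⟩
        obtain ⟨k, hk⟩ := mem_zpowers_of_prime_card (p := p) (g := (⟨y, hy'⟩ : Subgroup.zpowers x))
          (g' := ⟨x, Subgroup.mem_zpowers x⟩) (by rw [Nat.card_zpowers, ho])
          fun e => hy1 (congrArg Subtype.val e)
        exact hxN ((show y ^ k = x from congrArg Subtype.val hk) ▸ N.zpow_mem hy k)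
    rw [Nat.card_zpowers, ho] at h3
    obtain ⟨k, hk⟩ := h3
    have : 0 < Nat.card N := Nat.card_pos
    rw [show Nat.card N = 1 + p * k by omega, Nat.add_mul_mod_self_left,
      Nat.mod_eq_of_lt hp.one_lt]

end Cfsg.Agent.Perm.CG
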