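import Mathlib
import Cfsg.Agent.Perm.ExtPrim
import Cfsg.Agent.GT.ElemAbRep
import Cfsg.Agent.GT.MinNormal

/-! Affine extremely primitive groups as linear groups; the case of an abelian normal subgroup of
the point stabilizer. -/

namespace Cfsg.Agent.Perm.EP

open MulAction Cfsg.Agent.Inv.Fz Cfsg.Agent.Perm.Fx Subgroup

section lin

variable {p : ℕ} {H : Type*} [Group H] {V : Type*} [AddCommGroup V] [Module (ZMod p) V]

/-- stabilizer of a vector -/
def vstab (ρ : Representation (ZMod p) H V) (v : V) : Subgroup H where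
  carrier := {h | ρ h v = v}
  mul_mem' := fun {a b} ha hb => by
    change ρ (a * b) v = v
    rw [map_mul, Module.End.mul_apply, hb, ha]
  one_mem' := by change ρ 1 v = v; rw [map_one]; rfl
  inv_mem' := fun {a} ha => by
    change ρ a⁻¹ v = v
    conv_lhs => rw [← (ha : ρ a v = v)]
    rw [← Module.End.mul_apply, ← map_mul, inv_mul_cancel, map_one]; rfl

theorem mem_vstab {ρ : Representation (ZMod p) H V} {v : V} {h : H} :
    h ∈ vstab ρ v ↔ ρ h v = v := Iff.rfl

theorem rep_mul (ρ : Representation (ZMod p) H V) (a b : H) (v : V) :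
    ρ (a * b) v = ρ a (ρ b v) := by rw [map_mul, Module.End.mul_apply]

theorem rep_one (ρ : Representation (ZMod p) H V) (v : V) : ρ 1 v = v := by rw [map_one]; rfl

theorem rep_inv_rep (ρ : Representation (ZMod p) H V) (a : H) (v : V) : ρ a⁻¹ (ρ a v) = v := by
  rw [← rep_mul, inv_mul_cancel, rep_one]

theorem rep_rep_inv (ρ : Representation (ZMod p) H V) (a : H) (v : V) : ρ a (ρ a⁻¹ v) = v := by
  rw [← rep_mul, mul_inv_cancel, rep_one]

/-- a linear group all of whose vector stabilizers are core-free maximal subgroups -/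
structure LinEP (ρ : Representation (ZMod p) H V) : Prop where
  max : ∀ v, v ≠ 0 → ∀ K, vstab ρ v ≤ K → K = vstab ρ v ∨ K = ⊤
  faith : ∀ v, v ≠ 0 → ∀ k, (∀ h, ρ k (ρ h v) = ρ h v) → k = 1
  irr : ∀ W : Submodule (ZMod p) V, (∀ h, ∀ w ∈ W, ρ h w ∈ W) → W = ⊥ ∨ W = ⊤

variable {ρ : Representation (ZMod p) H V}

theorem LinEP.not_le (hL : LinEP ρ) {M : Subgroup H} [hM : M.Normal] (h0 : M ≠ ⊥) {v : V}
    (hv : v ≠ 0) : ¬ M ≤ vstab ρ v := by
  intro hle
  apply h0
  rw [eq_bot_iff]
  intro m hm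
  refine hL.faith v hv m fun h => ?_
  have := hle (hM.conj_mem' m hm h)
  rw [mem_vstab, rep_mul, rep_mul] at this
  conv_rhs => rw [← this, rep_rep_inv]

theorem LinEP.sup_eq (hL : LinEP ρ) {M : Subgroup H} [M.Normal] (h0 : M ≠ ⊥) {v : V}
    (hv : v ≠ 0) : vstab ρ v ⊔ M = ⊤ :=
  (hL.max v hv _ le_sup_left).resolve_left fun h => hL.not_le h0 hv (h ▸ le_sup_right)

theorem LinEP.trans (hL : LinEP ρ) {M : Subgroup H} [hM : M.Normal] (h0 : M ≠ ⊥) (v : V) (h : H) :
    ∃ m ∈ M, ρ m v = ρ h v := by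
  by_cases hv : v = 0
  · exact ⟨1, M.one_mem, by simp [hv]⟩
  have : h ∈ vstab ρ v ⊔ M := hL.sup_eq h0 hv ▸ mem_top h
  obtain ⟨a, ha, b, hb, rfl⟩ := (mem_sup_iff_of_le_normalizer le_normalizer_of_normal).1 this
  refine ⟨a * b * a⁻¹, hM.conj_mem b hb a, ?_⟩
  rw [rep_mul, (vstab ρ v).inv_mem ha]

theorem LinEP.irr' (hL : LinEP ρ) {M : Subgroup H} [M.Normal] (h0 : M ≠ ⊥)
    (W : Submodule (ZMod p) V) (hW : ∀ h ∈ M, ∀ w ∈ W, ρ h w ∈ W) : W = ⊥ ∨ W = ⊤ := by
  refine hL.irr W fun h w hw => ?_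
  obtain ⟨m, hm, hm'⟩ := hL.trans h0 w h
  exact hm' ▸ hW m hm w hw

theorem LinEP.eq_one_of_comm (hL : LinEP ρ) {M : Subgroup H} [M.Normal] (h0 : M ≠ ⊥) {v : V}
    (hv : v ≠ 0) {c : H} (hc : c ∈ centralizer (M : Set H)) (hcv : ρ c v = v) : c = 1 := by
  refine hL.faith v hv c fun h => ?_
  obtain ⟨m, hm, hm'⟩ := hL.trans h0 v h
  rw [← hm', ← rep_mul, ← hc m hm, rep_mul, hcv]

theorem LinEP.eq_one (hL : LinEP ρ) [Nontrivial V] {k : H} (h : ∀ v, ρ k v = v) : k = 1 := by
  obtain ⟨v, hv⟩ := exists_ne (0 : V)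
  exact hL.faith v hv k fun _ => h _

theorem LinEP.centralizer_le (hL : LinEP ρ) [Nontrivial V] {T : Subgroup H} [T.Normal] (h0 : T ≠ ⊥)
    (hc : IsMulCommutative T) : centralizer (T : Set H) ≤ T := by
  intro c hcT
  obtain ⟨v, hv⟩ := exists_ne (0 : V)
  obtain ⟨t, ht, ht'⟩ := hL.trans h0 v c
  have := hL.eq_one_of_comm h0 hv (c := t⁻¹ * c)
    (mul_mem (inv_mem (le_centralizer_iff_isMulCommutative.2 hc ht)) hcT)
    (by rw [rep_mul, ← ht', rep_inv_rep])
  rwa [← inv_mul_eq_one.1 this]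

theorem LinEP.abelian [Fact p.Prime] [Finite H] [Finite V] [Nontrivial V] (hL : LinEP ρ) (T : Subgroup H)
    [hT : T.Normal] (h0 : T ≠ ⊥) (hc : IsMulCommutative T) {d : ℕ} (hcard : Nat.card V = p ^ d) :
    IsCyclic T ∧ Nat.card T ∣ p ^ d - 1 ∧ (∀ i, 0 < i → i < d → ¬ Nat.card T ∣ p ^ i - 1) ∧
      IsCyclic (H ⧸ T) ∧ T.index ∣ d := by
  classical
  obtain ⟨v₀, hv₀⟩ := exists_ne (0 : V)
  let A := Algebra.adjoin (ZMod p) (ρ '' T)
  have hA : IsMulCommutative A := Algebra.isMulCommutative_adjoin _ (by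
    rintro _ ⟨i, hi, rfl⟩ _ ⟨j, hj, rfl⟩
    rw [← map_mul, ← map_mul, le_centralizer_iff_isMulCommutative.2 hc hj i hi])
  have hρ : ∀ t ∈ T, ρ t ∈ A := fun t ht => Algebra.subset_adjoin ⟨t, ht, rfl⟩
  have hcm : ∀ (a : A), ∀ t ∈ T, ∀ v, (a : Module.End (ZMod p) V) (ρ t v) =
      ρ t ((a : Module.End (ZMod p) V) v) := fun a t ht v =>
    LinearMap.congr_fun (congrArg Subtype.val (hA.is_comm.comm a ⟨ρ t, hρ t ht⟩)) v
  have hinj : ∀ a : A, a ≠ 0 → ∀ v, (a : Module.End (ZMod p) V) v = 0 → v = 0 := by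
    intro a ha v hv
    rcases hL.irr' h0 (LinearMap.ker (a : Module.End (ZMod p) V)) (fun t ht v hv => by
      change (a : Module.End (ZMod p) V) (ρ t v) = 0
      rw [hcm a t ht, show (a : Module.End (ZMod p) V) v = 0 from hv, map_zero]) with h | h
    · exact (Submodule.mem_bot _).1 (h.le hv)
    · refine absurd (Subtype.ext (LinearMap.ext fun w => ?_)) ha
      exact h.ge (Submodule.mem_top (x := w))
  have : Finite (Module.End (ZMod p) V) := Finite.of_injective _ DFunLike.coe_injective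
  let _ : CommRing A := { (inferInstance : Ring A) with mul_comm := hA.is_comm.comm }
  have : NoZeroDivisors A := ⟨fun {a b} hab => by
    by_contra hn
    rw [not_or] at hn
    exact hv₀ (hinj b hn.2 _ (hinj a hn.1 _ (LinearMap.congr_fun (congrArg Subtype.val hab) v₀)))⟩
  have : IsDomain A := NoZeroDivisors.to_isDomain A
  let _ : Field A := (Finite.isField_of_domain A).toField
  let φ : A →ₗ[ZMod p] V :=
    { toFun := fun a => (a : Module.End (ZMod p) V) v₀
      map_add' := fun a b => rfl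
      map_smul' := fun a b => rfl }
  have hφ : Function.Bijective φ := by
    refine ⟨(injective_iff_map_eq_zero φ).2 fun a ha => ?_, ?_⟩
    · by_contra h0
      exact hv₀ (hinj a h0 _ ha)
    · rw [← LinearMap.range_eq_top]
      refine (hL.irr' h0 _ ?_).resolve_left fun h => hv₀ ?_
      · rintro t ht _ ⟨a, rfl⟩
        exact ⟨⟨ρ t, hρ t ht⟩ * a, rfl⟩
      · exact (Submodule.mem_bot _).1 (h.le ⟨1, rfl⟩)
  have hcA : Nat.card A = p ^ d := by rw [← hcard]; exact Nat.card_eq_of_bijective φ hφ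
  have hρinj : ∀ a b : H, ρ a = ρ b → a = b := by
    intro a b h
    have := hL.eq_one (k := b⁻¹ * a) fun v => by rw [rep_mul, h, rep_inv_rep]
    exact (inv_mul_eq_one.1 this).symm
  let ψ : T →* A :=
    { toFun := fun t => ⟨ρ t, hρ t t.2⟩
      map_one' := Subtype.ext (map_one ρ)
      map_mul' := fun a b => Subtype.ext (map_mul ρ _ _) }
  have hψ : Function.Injective ψ := fun a b h =>
    Subtype.ext (hρinj _ _ (congrArg Subtype.val h))
  have hψ' : Function.Injective ψ.toHomUnits := fun a b h => hψ (congrArg Units.val h)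
  have hfr : Module.finrank (ZMod p) A = d := GT.PG.finrank_eq_of_card_eq_pow hcA
  have hconj : ∀ (h : H) (a : Module.End (ZMod p) V), a ∈ A → ρ h * a * ρ h⁻¹ ∈ A := by
    intro h a ha
    have e : ρ h⁻¹ * ρ h = 1 := by rw [← map_mul, inv_mul_cancel, map_one]
    have e' : ρ h * ρ h⁻¹ = 1 := by rw [← map_mul, mul_inv_cancel, map_one]
    induction ha using Algebra.adjoin_induction with
    | mem x hx =>
      obtain ⟨t, ht, rfl⟩ := hx
      rw [← map_mul, ← map_mul]
      exact hρ _ (hT.conj_mem t ht h)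
    | algebraMap r =>
      rw [← Algebra.commutes, mul_assoc, e', mul_one]
      exact A.algebraMap_mem r
    | add x y _ _ hx hy => rw [mul_add, add_mul]; exact A.add_mem hx hy
    | mul x y _ _ hx hy =>
      have : ρ h * (x * y) * ρ h⁻¹ = ρ h * x * ρ h⁻¹ * (ρ h * y * ρ h⁻¹) := by
        simp only [mul_assoc]
        rw [← mul_assoc (ρ h⁻¹), e, one_mul]
      rw [this]; exact A.mul_mem hx hy
  let σ0 : H →* (A →ₐ[ZMod p] A) :=
    { toFun := fun h =>
        { toFun := fun a => ⟨ρ h * a * ρ h⁻¹, hconj h a a.2⟩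
          map_one' := Subtype.ext (by
            change ρ h * 1 * ρ h⁻¹ = 1
            rw [mul_one, ← map_mul, mul_inv_cancel, map_one])
          map_mul' := fun x y => Subtype.ext (by
            change ρ h * (x * y) * ρ h⁻¹ = ρ h * x * ρ h⁻¹ * (ρ h * y * ρ h⁻¹)
            simp only [mul_assoc]
            rw [← mul_assoc (ρ h⁻¹), ← map_mul, inv_mul_cancel, map_one, one_mul])
          map_zero' := Subtype.ext (by change ρ h * 0 * ρ h⁻¹ = 0; simp)
          map_add' := fun x y => Subtype.ext (by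
            change ρ h * (x + y) * ρ h⁻¹ = ρ h * x * ρ h⁻¹ + ρ h * y * ρ h⁻¹
            rw [mul_add, add_mul])
          commutes' := fun r => Subtype.ext (by
            change ρ h * algebraMap _ _ r * ρ h⁻¹ = algebraMap _ _ r
            rw [← Algebra.commutes, mul_assoc, ← map_mul, mul_inv_cancel, map_one, mul_one]) }
      map_one' := AlgHom.ext fun a => Subtype.ext (by
        change ρ 1 * a * ρ 1⁻¹ = a
        simp)
      map_mul' := fun g h => AlgHom.ext fun a => Subtype.ext (by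
        change ρ (g * h) * a * ρ (g * h)⁻¹ = ρ g * (ρ h * a * ρ h⁻¹) * ρ g⁻¹
        simp only [mul_inv_rev, map_mul, mul_assoc]) }
  let σ : H →* (A ≃ₐ[ZMod p] A) :=
    (Algebra.IsAlgebraic.algEquivEquivAlgHom (ZMod p) A).symm.toMonoidHom.comp σ0
  have hker : σ.ker = T := by
    ext h
    rw [MonoidHom.mem_ker]
    change (Algebra.IsAlgebraic.algEquivEquivAlgHom (ZMod p) A).symm (σ0 h) = 1 ↔ _
    rw [EmbeddingLike.map_eq_one_iff]
    constructor
    · intro e
      apply hL.centralizer_le h0 hc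
      intro t ht
      have := congrArg Subtype.val (DFunLike.congr_fun e ⟨ρ t, hρ t ht⟩)
      change ρ h * ρ t * ρ h⁻¹ = ρ t at this
      rw [← map_mul, ← map_mul] at this
      exact (mul_inv_eq_iff_eq_mul.1 (hρinj _ _ this)).symm
    · intro hh
      refine AlgHom.ext fun a => Subtype.ext ?_
      change ρ h * a * ρ h⁻¹ = a
      have := congrArg Subtype.val (hA.is_comm.comm a ⟨ρ h, hρ h hh⟩)
      change a * ρ h = ρ h * a at this
      rw [← this, mul_assoc, ← map_mul, mul_inv_cancel, map_one, mul_one]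
  refine ⟨isCyclic_of_injective_ringHom ψ hψ, ?_, fun i hi hid hdvd => ?_, ?_, ?_⟩
  · rw [← hcA, ← Nat.card_units]
    exact card_dvd_of_injective _ hψ'
  · have h1 : FiniteField.frobeniusAlgHom (ZMod p) A ^ i = 1 := by
      have key : ∀ x (hx : x ∈ A), (FiniteField.frobeniusAlgHom (ZMod p) A ^ i) ⟨x, hx⟩ = ⟨x, hx⟩ := by
        intro x hx
        induction hx using Algebra.adjoin_induction with
        | mem x hx =>
          obtain ⟨t, ht, rfl⟩ := hx
          rw [AlgHom.coe_pow, FiniteField.coe_frobeniusAlgHom, pow_iterate, ZMod.card]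
          change ψ ⟨t, ht⟩ ^ p ^ i = ψ ⟨t, ht⟩
          obtain ⟨c, hc⟩ := hdvd
          have : p ^ i = Nat.card T * c + 1 := by
            rw [← hc, Nat.sub_add_cancel (Nat.one_le_pow _ _ (Fact.out : p.Prime).pos)]
          rw [← map_pow, this, pow_succ, pow_mul, pow_card_eq_one', one_pow, one_mul]
        | algebraMap r => exact AlgHom.commutes _ r
        | add x y hx hy ihx ihy =>
          have := map_add (FiniteField.frobeniusAlgHom (ZMod p) A ^ i) ⟨x, hx⟩ ⟨y, hy⟩
          rw [ihx, ihy] at this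
          exact this
        | mul x y hx hy ihx ihy =>
          have := map_mul (FiniteField.frobeniusAlgHom (ZMod p) A ^ i) ⟨x, hx⟩ ⟨y, hy⟩
          rw [ihx, ihy] at this
          exact this
      exact AlgHom.ext fun a => key a.1 a.2
    have h2 := orderOf_dvd_of_pow_eq_one h1
    rw [FiniteField.orderOf_frobeniusAlgHom, hfr] at h2
    exact absurd (Nat.le_of_dvd hi h2) (by omega)
  · have : IsCyclic (H ⧸ σ.ker) := isCyclic_of_injective _ (QuotientGroup.kerLift_injective σ)
    exact isCyclic_of_surjective _ (QuotientGroup.quotientMulEquivOfEq hker).surjective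
  · rw [← hker, index_ker, ← hfr, ← IsGalois.card_aut_eq_finrank]
    exact card_subgroup_dvd_card _

end lin

variable {G : Type*} [Group G] [Finite G] {Ω : Type*} [MulAction G Ω] [FaithfulSMul G Ω]

theorem IsEP.linEP (hE : IsEP G Ω) (hprim : IsPreprimitive G Ω) {α : Ω} (hH : stabilizer G α ≠ ⊥)
    {p : ℕ} {N : Subgroup G} [hN : N.Normal] (hV : IsElementaryAbelian p N)
    (hreg : stabilizer N α = ⊥) :
    LinEP (GT.eaRep hV (H := stabilizer G α) le_normalizer_of_normal) := by
  have hreg' := (Perm.stabilizer_subgroup_eq_bot_iff N α).1 hreg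
  have hconj : ∀ h : G, h • α = α → ∀ a : G, h • a • α = (h * a * h⁻¹) • α := by
    intro h hh a
    rw [mul_smul, mul_smul, (inv_smul_eq_iff.2 hh.symm : h⁻¹ • α = α)]
  have hst : ∀ (v : GT.EAV hV) (h : stabilizer G α),
      GT.eaRep hV (H := stabilizer G α) le_normalizer_of_normal h v = v ↔
        (h : G) • v.val • α = v.val • α := by
    intro v h
    constructor
    · intro e
      have := congrArg GT.EAV.val e
      rw [GT.val_eaRep] at this
      rw [hconj h h.2, this]
    · intro e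
      apply GT.EAV.ext
      rw [GT.val_eaRep]
      exact Perm.conj_eq_of_regular_normal hreg h.2 v.val_mem v.val_mem e
  have hne : ∀ v : GT.EAV hV, v ≠ 0 → α ≠ v.val • α := fun v hv e =>
    hv (GT.EAV.val_eq_one_iff.1 (hreg' _ v.val_mem e.symm))
  refine ⟨fun v _ K hK => ?_, fun v hv k hk => ?_, fun W hW => ?_⟩
  · rcases hE α (v.val • α) (K.map (stabilizer G α).subtype) (fun g hg =>
      ⟨⟨g, hg.1⟩, hK ((hst v _).2 hg.2), rfl⟩) (map_subtype_le _) with h | h
    · left
      refine le_antisymm (fun g hg => (hst v g).2 ?_) hK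
      have : (g : G) ∈ K.map (stabilizer G α).subtype := ⟨g, hg, rfl⟩
      rw [h] at this
      exact this.2
    · right
      rw [eq_top_iff]
      intro g _
      have : (g : G) ∈ K.map (stabilizer G α).subtype := h.symm ▸ g.2
      obtain ⟨y, hy, hyx⟩ := this
      rwa [← (Subtype.ext hyx : y = g)]
  · have h1 : (k : G) ∈ kerO G α (v.val • α) := by
      refine ⟨k.2, fun a ha => ?_⟩
      have := (hst _ k).1 (hk ⟨a, ha⟩)
      rwa [GT.val_eaRep, ← hconj a ha] at this
    rw [hE.kerO_eq_bot hprim hH (hne v hv)] at h1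
    exact Subtype.ext h1
  · have hHL : stabilizer G α ≤ normalizer (GT.EAV.grp W : Set G) :=
      GT.le_normalizer_grp (hHV := le_normalizer_of_normal) fun h w hw => hW h w hw
    rcases Perm.eq_stabilizer_or_eq_top hprim α
      (le_sup_left : stabilizer G α ≤ stabilizer G α ⊔ GT.EAV.grp W) with h | h
    · left
      apply GT.EAV.grp_injective
      rw [GT.EAV.grp_bot, eq_bot_iff]
      intro l hl
      have : l ∈ stabilizer G α := h ▸ mem_sup_right hl
      exact hreg' l (GT.EAV.grp_le W hl) this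
    · right
      apply GT.EAV.grp_injective
      rw [GT.EAV.grp_top]
      refine le_antisymm (GT.EAV.grp_le W) fun n hn => ?_
      have : n ∈ stabilizer G α ⊔ GT.EAV.grp W := h ▸ mem_top _
      obtain ⟨a, ha, b, hb, hab⟩ := (mem_sup_iff_of_le_normalizer hHL).1 this
      have h1 : a = n * b⁻¹ := by rw [hab]; group
      have h2 : a = 1 := hreg' a (h1 ▸ N.mul_mem hn (N.inv_mem (GT.EAV.grp_le W hb))) ha
      rwa [hab, h2, one_mul]

/-- an abelian normal subgroup of a primitive group of degree `p ^ d` -/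
theorem elementary_of_comm (hprim : IsPreprimitive G Ω) {p d : ℕ} (hp : p.Prime)
    (hcard : Nat.card Ω = p ^ d) {N : Subgroup G} [N.Normal] (h0 : N ≠ ⊥)
    (hc : IsMulCommutative N) (α : Ω) :
    IsElementaryAbelian p N ∧ stabilizer N α = ⊥ ∧ Nat.card N = p ^ d := by
  have := Perm.isPretransitive_of_normal_ne_bot hprim N h0
  have hreg := Perm.stabilizer_eq_bot_of_comm N hc α
  have hcN := (Perm.card_subgroup_eq_of_regular N α hreg).trans hcard
  refine ⟨?_, hreg, hcN⟩
  obtain ⟨M, hM, hMN⟩ := GT.exists_isMinNormal_le h0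
  have := hM.normal
  have := Perm.isPretransitive_of_normal_ne_bot hprim M hM.ne_bot
  have h1 : M = N := le_antisymm hMN (Perm.le_of_semiregular hMN hreg)
  subst h1
  exact hM.elementary_of_isPGroup hp (IsPGroup.of_card hcN)

end Cfsg.Agent.Perm.EP
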