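import Mathlib
import Cfsg.Agent.GT.TransferPNilp
import Cfsg.Agent.Inv.FzBasic

/-! No finite non-abelian simple group has self-normalizing element centralizers that are
unchanged on passing to non-trivial powers. -/

namespace Cfsg.Agent.Perm.EP

open Cfsg.Agent.Inv.Fz Subgroup

variable {T : Type*} [Group T] [Finite T]

theorem sylow_eq_bot_or_top [IsSimpleGroup T] {p : ℕ} [Fact p.Prime] (P : Sylow p T)
    (h : normalizer ((P : Subgroup T) : Set T) ≤ centralizer ((P : Subgroup T) : Set T)) :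
    (P : Subgroup T) = ⊥ ∨ (P : Subgroup T) = ⊤ := by
  have h1 := MonoidHom.ker_transferSylow_isComplement' P h
  rcases (MonoidHom.normal_ker (MonoidHom.transferSylow P h)).eq_bot_or_eq_top with h2 | h2
  · rw [h2] at h1; exact Or.inr (isComplement'_bot_left.1 h1)
  · rw [h2] at h1; exact Or.inl (isComplement'_top_left.1 h1)

omit [Finite T] in
theorem mem_zpowers_mul_of_coprime {x y : T} (h : x * y = y * x)
    (hc : (orderOf x).Coprime (orderOf y)) : x ∈ zpowers (x * y) := by
  have h1 : (x * y) ^ orderOf y = x ^ orderOf y := by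
    rw [Commute.mul_pow h, pow_orderOf_eq_one, mul_one]
  have h2 : x ∈ zpowers (x ^ orderOf y) := mem_zpowers_pow_iff.2 hc.symm
  rw [← h1] at h2
  exact (zpowers_le.2 (npow_mem_zpowers _ _)) h2

theorem sq_mul_card_center_le {P : Type*} [Group P] [Finite P] {p : ℕ} [hp : Fact p.Prime]
    (hP : IsPGroup p P) (hc : ¬ IsMulCommutative P) : p ^ 2 * Nat.card (center P) ≤ Nat.card P := by
  obtain ⟨k, hk⟩ := hP.index (center P)
  have hk2 : 2 ≤ k := by
    by_contra hlt
    apply hc
    have : IsCyclic (P ⧸ center P) := by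
      apply isCyclic_of_card_dvd_prime (p := p)
      rw [← index_eq_card, hk]
      interval_cases k <;> simp
    exact isMulCommutative_of_isCyclic_quotient_center_self P
  rw [← (center P).card_mul_index, hk, mul_comm]
  exact Nat.mul_le_mul_left _ (Nat.pow_le_pow_right hp.out.pos hk2)

theorem not_simple_of_centralizers [IsSimpleGroup T] (hc : ¬ IsMulCommutative T)
    (h1 : ∀ x y : T, y ∈ zpowers x → y ≠ 1 → centralizer {y} ≤ centralizer {x})
    (h2 : ∀ x : T, x ≠ 1 → normalizer ((centralizer {x} : Subgroup T) : Set T) ≤ centralizer {x}) :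
    False := by
  classical
  have hpow : ∀ x y : T, y ∈ zpowers x → y ≠ 1 → centralizer {y} = centralizer {x} := by
    intro x y hy hy1
    refine le_antisymm (h1 x y hy hy1) fun c hc => ?_
    obtain ⟨k, rfl⟩ := hy
    rw [mem_centralizer_singleton_iff] at hc ⊢
    exact Commute.zpow_right hc k
  have hcop : ∀ x y : T, x ≠ 1 → y ≠ 1 → x * y = y * x → (orderOf x).Coprime (orderOf y) →
      centralizer {x} = centralizer ({y} : Set T) := by
    intro x y hx hy h hxy
    rw [hpow _ _ (mem_zpowers_mul_of_coprime h hxy) hx, h,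
      hpow _ _ (mem_zpowers_mul_of_coprime h.symm hxy.symm) hy]
  have hpg : ∀ x : T, x ≠ 1 → ∃ p : ℕ, p.Prime ∧ IsPGroup p (centralizer ({x} : Set T)) := by
    intro x0 hx0
    obtain ⟨p, hp, hd⟩ := Nat.exists_prime_and_dvd (mt orderOf_eq_one_iff.1 hx0)
    have := Fact.mk hp
    refine ⟨p, hp, ?_⟩
    have hx : orderOf (x0 ^ (orderOf x0 / p)) = p := orderOf_pow_orderOf_div (orderOf_pos _).ne' hd
    have hx1 : x0 ^ (orderOf x0 / p) ≠ 1 := by
      intro h; rw [h, orderOf_one] at hx; exact hp.one_lt.ne hx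
    rw [← hpow x0 _ (npow_mem_zpowers _ _) hx1]
    generalize x0 ^ (orderOf x0 / p) = x at hx hx1
    by_contra hnp
    obtain ⟨q, hq, hqd, hqp⟩ : ∃ q : ℕ, q.Prime ∧ q ∣ Nat.card (centralizer ({x} : Set T)) ∧
        q ≠ p := by
      by_contra hh
      push Not at hh
      exact hnp (IsPGroup.of_card (Nat.eq_prime_pow_of_unique_prime_dvd Nat.card_pos.ne'
        (fun {d} hd hdd => hh d hd hdd)))
    have := Fact.mk hq
    obtain ⟨y, hy⟩ := exists_prime_orderOf_dvd_card' q hqd
    have hy' : orderOf (y : T) = q := by rw [orderOf_coe, hy]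
    have hy1 : (y : T) ≠ 1 := by
      intro h; rw [h, orderOf_one] at hy'; exact hq.one_lt.ne hy'
    have hpq : p.Coprime q := (Nat.coprime_primes hp hq).2 hqp.symm
    have hxy : centralizer {x} = centralizer ({(y : T)} : Set T) :=
      hcop _ _ hx1 hy1 (mem_centralizer_singleton_iff.1 y.2).symm (by rw [hx, hy']; exact hpq)
    have hpel : ∀ w ∈ centralizer ({x} : Set T), w ≠ 1 → (∃ k, orderOf w = p ^ k) →
        centralizer {w} = centralizer ({x} : Set T) := by
      rintro w hw hw1 ⟨k, hk⟩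
      rw [hxy] at hw ⊢
      exact hcop _ _ hw1 hy1 (mem_centralizer_singleton_iff.1 hw)
        (by rw [hk, hy']; exact hpq.pow_left k)
    have hab : ∀ a ∈ centralizer ({x} : Set T), ∀ b ∈ centralizer ({x} : Set T),
        a * b = b * a := by
      intro a ha b hb
      obtain ⟨a1, ha1, a2, ha2, hk, hco, rfl⟩ := GT.Tr.exists_pPart_mul_pPrimePart (p := p) a
      have e1 : Commute b a1 := by
        by_cases h : a1 = 1
        · rw [h]; exact Commute.one_right _
        · rw [← hpel a1 (zpowers_le.2 ha ha1) h hk] at hb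
          exact mem_centralizer_singleton_iff.1 hb
      have e2 : Commute b a2 := by
        by_cases h : a2 = 1
        · rw [h]; exact Commute.one_right _
        · rw [← hcop a2 x h hx1 (mem_centralizer_singleton_iff.1 (zpowers_le.2 ha ha2))
            (by rw [hx]; exact hco)] at hb
          exact mem_centralizer_singleton_iff.1 hb
      exact (e1.mul_right e2).symm
    have hxp : IsPGroup p (zpowers x) :=
      IsPGroup.of_card (n := 1) (by rw [Nat.card_zpowers, hx, pow_one])
    obtain ⟨P, hP⟩ := hxp.exists_le_sylow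
    have hxP : x ∈ (P : Subgroup T) := hP (mem_zpowers x)
    have hord : ∀ w ∈ (P : Subgroup T), ∃ k, orderOf w = p ^ k := by
      intro w hw
      obtain ⟨k, hk⟩ := IsPGroup.iff_orderOf.1 P.isPGroup' ⟨w, hw⟩
      exact ⟨k, by rw [← hk, ← orderOf_coe]⟩
    have : Nontrivial (P : Subgroup T) := ⟨⟨⟨x, hxP⟩, 1, fun h => hx1 (congrArg Subtype.val h)⟩⟩
    have := P.isPGroup'.center_nontrivial
    obtain ⟨z, hz1⟩ := exists_ne (1 : center (P : Subgroup T))
    have hz1' : ((z : (P : Subgroup T)) : T) ≠ 1 := fun h => hz1 (Subtype.ext (Subtype.ext h))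
    have hPz : (P : Subgroup T) ≤ centralizer {((z : (P : Subgroup T)) : T)} := by
      intro w hw
      rw [mem_centralizer_singleton_iff]
      exact congrArg Subtype.val (mem_center_iff.1 z.2 ⟨w, hw⟩)
    have hzx : centralizer {((z : (P : Subgroup T)) : T)} = centralizer ({x} : Set T) :=
      hpel _ (mem_centralizer_singleton_iff.2 (mem_centralizer_singleton_iff.1 (hPz hxP)).symm)
        hz1' (hord _ (z : (P : Subgroup T)).2)
    rw [hzx] at hPz
    have hN : normalizer ((P : Subgroup T) : Set T) ≤ centralizer ((P : Subgroup T) : Set T) := by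
      intro g hg
      have hg1 : g * x * g⁻¹ ∈ (P : Subgroup T) := (mem_normalizer_iff.1 hg x).1 hxP
      have hg2 := hpel _ (hPz hg1) (by simpa using hx1) (hord _ hg1)
      rw [← cj_centralizer_singleton, cj_eq_iff] at hg2
      intro w hw
      exact hab w (hPz hw) g (h2 x hx1 hg2)
    rcases sylow_eq_bot_or_top P hN with h | h
    · rw [h] at hxP; exact hx1 hxP
    · obtain ⟨k, hk⟩ := hord y (h ▸ mem_top _)
      rw [hy'] at hk
      exact hqp ((Nat.prime_dvd_prime_iff_eq hp hq).1
        (hk ▸ dvd_pow_self p (by rintro rfl; exact hq.one_lt.ne' (by simpa using hk)))).symm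
  have hsyl : ∀ (x : T) (p : ℕ), p.Prime → x ≠ 1 → IsPGroup p (centralizer ({x} : Set T)) →
      ∃ S : Sylow p T, (S : Subgroup T) = centralizer {x} ∧ ¬ IsMulCommutative S := by
    intro x p hp hx hP
    have := Fact.mk hp
    obtain ⟨S, hS⟩ := hP.exists_le_sylow
    have hS' : (S : Subgroup T) = centralizer {x} := by
      by_contra hne
      have h3 := lt_inf_normalizer S.isPGroup' (lt_of_le_of_ne hS (Ne.symm hne))
      exact h3.not_ge (inf_le_right.trans (h2 x hx))
    refine ⟨S, hS', fun hcm => ?_⟩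
    have hxS : x ∈ (S : Subgroup T) := hS (mem_centralizer_singleton_iff.2 rfl)
    rcases sylow_eq_bot_or_top S (by
      refine le_trans ?_ (le_centralizer_iff_isMulCommutative.2 hcm)
      rw [hS']; exact h2 x hx) with h | h
    · rw [h] at hxS; exact hx hxS
    · apply hc
      refine ⟨⟨fun a b => ?_⟩⟩
      exact (le_centralizer_iff_isMulCommutative.2 hcm) (h ▸ mem_top b : b ∈ (S : Subgroup T)) a
        (h ▸ mem_top a : a ∈ (S : Subgroup T))
  have := Fintype.ofFinite T
  let S : ℕ → Finset T := fun p => Finset.univ.filter fun x =>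
    p.Prime ∧ x ≠ 1 ∧ IsPGroup p (centralizer ({x} : Set T))
  have hS : ∀ p, p ^ 2 * (S p).card ≤ Nat.card T := by
    intro p
    rcases (S p).eq_empty_or_nonempty with h | ⟨x0, hx0⟩
    · simp [h]
    obtain ⟨hp, hx1, hx2⟩ := (Finset.mem_filter.1 hx0).2
    have := Fact.mk hp
    obtain ⟨P, -, hPc⟩ := hsyl x0 p hp hx1 hx2
    have h3 := sq_mul_card_center_le P.isPGroup' hPc
    let f : (T ⧸ (P : Subgroup T)) × center (P : Subgroup T) → T :=
      fun a => a.1.out * (a.2 : (P : Subgroup T)) * a.1.out⁻¹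
    have h4 : (S p : Set T) ⊆ Set.range f := by
      intro x hx
      obtain ⟨-, hx1, hx2⟩ := (Finset.mem_filter.1 hx).2
      obtain ⟨Q, hQ, -⟩ := hsyl x p hp hx1 hx2
      obtain ⟨g, hg⟩ := MulAction.exists_smul_eq T P Q
      have hPQ : cj g P = centralizer {x} := by rw [← hQ, ← hg]; rfl
      have hz : g⁻¹ * x * g ∈ (P : Subgroup T) := by
        rw [← mem_cj, hPQ]; exact mem_centralizer_singleton_iff.2 rfl
      have hz' : (⟨_, hz⟩ : (P : Subgroup T)) ∈ center (P : Subgroup T) := by
        rw [mem_center_iff]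
        intro w
        apply Subtype.ext
        have : g * w * g⁻¹ ∈ centralizer ({x} : Set T) := hPQ ▸ conj_mem_cj.2 w.2
        rw [mem_centralizer_singleton_iff] at this
        change (w : T) * (g⁻¹ * x * g) = g⁻¹ * x * g * w
        calc _ = g⁻¹ * (g * w * g⁻¹ * x) * g := by group
          _ = _ := by rw [this]; group
      refine ⟨(g, ⟨_, hz'⟩), ?_⟩
      obtain ⟨u, hu⟩ := QuotientGroup.mk_out_eq_mul (P : Subgroup T) g
      have h5 : (u : T) * (g⁻¹ * x * g) = g⁻¹ * x * g * u :=
        congrArg Subtype.val (mem_center_iff.1 hz' u)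
      change (g : T ⧸ (P : Subgroup T)).out * (g⁻¹ * x * g) * (g : T ⧸ (P : Subgroup T)).out⁻¹ = x
      rw [hu, mul_assoc g, h5]; group
    have h5 : (S p).card ≤ (P : Subgroup T).index * Nat.card (center P) := by
      have h6 := Set.ncard_le_ncard h4
      rw [Set.ncard_coe_finset, ← Set.image_univ] at h6
      refine h6.trans ((Set.ncard_image_le Set.finite_univ).trans ?_)
      rw [Set.ncard_univ, Nat.card_prod, index_eq_card]
    calc _ ≤ p ^ 2 * ((P : Subgroup T).index * Nat.card (center P)) := Nat.mul_le_mul_left _ h5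
      _ = (P : Subgroup T).index * (p ^ 2 * Nat.card (center P)) := by ring
      _ ≤ (P : Subgroup T).index * Nat.card P := Nat.mul_le_mul_left _ h3
      _ = _ := index_mul_card _
  set n := Nat.card T with hn
  have hn2 : 2 ≤ n := Finite.one_lt_card
  have hsub : Finset.univ.erase (1 : T) ⊆ (Finset.Ioc 1 (n - 1)).biUnion S := by
    intro x hx
    have hx1 := Finset.ne_of_mem_erase hx
    obtain ⟨p, hp, hP⟩ := hpg x hx1
    have hxS : x ∈ S p := Finset.mem_filter.2 ⟨Finset.mem_univ _, hp, hx1, hP⟩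
    refine Finset.mem_biUnion.2 ⟨p, Finset.mem_Ioc.2 ⟨hp.one_lt, ?_⟩, hxS⟩
    have h3 := hS p
    have h4 : 1 ≤ (S p).card := Finset.card_pos.2 ⟨x, hxS⟩
    have h5 := hp.two_le
    have : p + 1 ≤ n := by nlinarith
    omega
  have h3 := (Finset.card_le_card hsub).trans Finset.card_biUnion_le
  rw [Finset.card_erase_of_mem (Finset.mem_univ _), Finset.card_univ,
    ← Nat.card_eq_fintype_card, ← hn] at h3
  have h4 : (((n - 1 : ℕ) : ℝ)) ≤ ∑ p ∈ Finset.Ioc 1 (n - 1), (n : ℝ) * ((p : ℝ) ^ 2)⁻¹ := by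
    refine (Nat.cast_le.2 h3).trans ?_
    rw [Nat.cast_sum]
    refine Finset.sum_le_sum fun p hp => ?_
    have hp0 : (0 : ℝ) < (p : ℝ) ^ 2 := by
      have := (Finset.mem_Ioc.1 hp).1
      positivity
    rw [← div_eq_mul_inv, le_div_iff₀ hp0, mul_comm]
    exact_mod_cast hS p
  rw [← Finset.mul_sum] at h4
  have h5 := sum_Ioc_inv_sq_le_sub (α := ℝ) (k := 1) (n := n - 1) one_ne_zero (by omega)
  obtain ⟨m, hm⟩ : ∃ m, n = m + 1 := ⟨n - 1, by omega⟩
  rw [hm, Nat.add_sub_cancel] at h4 h5
  have hm0 : (0 : ℝ) < m := by exact_mod_cast (by omega : 0 < m)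
  have h6 := h4.trans (mul_le_mul_of_nonneg_left h5 (by positivity))
  push_cast at h6
  have h7 : ((m : ℝ) + 1) * (1⁻¹ - (m : ℝ)⁻¹) = m - (m : ℝ)⁻¹ := by field_simp; ring
  rw [h7] at h6
  have := inv_pos.2 hm0
  linarith

end Cfsg.Agent.Perm.EP
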