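import Mathlib
import Cfsg.Agent.Perm.BWFour
import Cfsg.Agent.Perm.Basic

/-!
# M. Hall's theorem: 4-transitive groups whose four-point stabilisers have odd order

If the degree is at least 8 it is 11, and the action is sharply 4-transitive.
-/

set_option autoImplicit false

namespace Cfsg.Agent.Perm.Hall4

open MulAction Subgroup

variable {G X : Type*} [Group G] [MulAction G X]

/-- 4-transitive, and no involution fixes four points. -/
structure H4 (G X : Type*) [Group G] [MulAction G X] : Prop where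
  tr : IsMultiplyPretransitive G X 4
  odd : ∀ t : G, t * t = 1 → ∀ a b c d : X, [a, b, c, d].Nodup → t • a = a → t • b = b →
    t • c = c → t • d = d → t = 1

/-- The stabiliser of four points. -/
def S4 (G : Type*) [Group G] [MulAction G X] (a b c d : X) : Subgroup G :=
  stabilizer G a ⊓ stabilizer G b ⊓ stabilizer G c ⊓ stabilizer G d

theorem mem_S4 {a b c d : X} {g : G} :
    g ∈ S4 G a b c d ↔ g • a = a ∧ g • b = b ∧ g • c = c ∧ g • d = d := by
  simp [S4, and_assoc]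

theorem inj4 {a b c d : X} (h : [a, b, c, d].Nodup) : Function.Injective ![a, b, c, d] := by
  intro i j e
  simp only [List.nodup_cons, List.mem_cons, List.not_mem_nil, or_false, not_or] at h
  obtain ⟨⟨h1, h2, h3⟩, ⟨h4, h5⟩, h6, -⟩ := h
  fin_cases i <;> fin_cases j <;> simp_all [eq_comm]

theorem step (K : Subgroup G) (x : X) (A : Finset X) (hA : ∀ y, y ∈ A ↔ ∃ k ∈ K, k • x = y) :
    Nat.card K = A.card * Nat.card ↥(K ⊓ stabilizer G x) := by
  rw [← Fx.card_orbit_mul K x]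
  congr 1
  rw [← Nat.card_eq_finsetCard]
  apply Nat.card_congr
  apply Equiv.setCongr
  ext y
  rw [Fx.mem_orbit_sub, Finset.mem_coe, hA]

theorem smul_smul_sq {t : G} (ht : t * t = 1) (x : X) : t • t • x = x := by
  rw [← mul_smul, ht, one_smul]

theorem comm_smul {g t : G} (h : g * t = t * g) (x : X) : g • t • x = t • g • x := by
  rw [← mul_smul, h, mul_smul]

variable [Finite G] (h : H4 G X)
include h

theorem odd_card {a b c d : X} (hn : [a, b, c, d].Nodup) : Odd (Nat.card (S4 G a b c d)) := by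
  rw [Agent.Inv.odd_card_iff_no_involution]
  intro t ht h2
  obtain ⟨h1, h3, h4, h5⟩ := mem_S4.mp ht
  exact Agent.Inv.ne_one_of_two h2 (h.odd t (Agent.Inv.mul_self_of_two h2) a b c d hn h1 h3 h4 h5)

theorem odd_order {p : Fin 4 → X} (hp : Function.Injective p) {g : G} (hg : ∀ i, g • p i = p i) :
    Odd (orderOf g) := by
  have hn : [p 0, p 1, p 2, p 3].Nodup := by simp [hp.eq_iff]
  exact BW.odd_orderOf (odd_card h hn) (mem_S4.mpr ⟨hg 0, hg 1, hg 2, hg 3⟩)

/-- Two elements of square one acting alike on four points are conjugate by an element fixing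
the points. -/
theorem conj_same {p : Fin 4 → X} (hp : Function.Injective p) {u v : G} (hu : u * u = 1)
    (hv : v * v = 1) (e : ∀ i, u • p i = v • p i) :
    ∃ d ∈ zpowers (u * v), (∀ i, d • p i = p i) ∧ d * u * d⁻¹ = v := by
  have hf : ∀ i, (u * v) • p i = p i := fun i => by rw [mul_smul, ← e, smul_smul_sq hu]
  obtain ⟨d, hd, e⟩ := Agent.Inv.exists_conj_of_odd hu hv (odd_order h hp hf)
  exact ⟨d, hd, fun i => (zpowers_le_of_mem (show u * v ∈ stabilizer G (p i) from hf i)) hd, e⟩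

theorem T1 {p p' : Fin 4 → X} (hp : Function.Injective p) (hp' : Function.Injective p')
    {t t' : G} (ht : t * t = 1) (ht' : t' * t' = 1) (π : Fin 4 → Fin 4)
    (e : ∀ i, t • p i = p (π i)) (e' : ∀ i, t' • p' i = p' (π i)) :
    ∃ g : G, (∀ i, g • p i = p' i) ∧ g * t * g⁻¹ = t' := by
  obtain ⟨g, hg⟩ := exists_smul_eq_of_injective' h.tr (ι := Fin 4) (by simp) p p' hp hp'
  obtain ⟨d, -, hd, e2⟩ := conj_same h hp' (u := g * t * g⁻¹)
    (by rw [show g * t * g⁻¹ * (g * t * g⁻¹) = g * (t * t) * g⁻¹ by group, ht]; simp) ht'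
    (fun i => by rw [e', ← hg i, conj_smul_smul, e, hg])
  refine ⟨d * g, fun i => by rw [mul_smul, hg, hd], ?_⟩
  rw [← e2]; group

theorem T2 {p p' : Fin 4 → X} (hp : Function.Injective p) (hp' : Function.Injective p')
    {s t : G} (hs : s * s = 1) (ht : t * t = 1) (hst : Commute s t) (π ρ : Fin 4 → Fin 4)
    (e : ∀ i, s • p i = p (π i)) (e' : ∀ i, s • p' i = p' (π i))
    (f : ∀ i, t • p i = p (ρ i)) (f' : ∀ i, t • p' i = p' (ρ i)) :
    ∃ g : G, (∀ i, g • p i = p' i) ∧ Commute g s ∧ Commute g t := by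
  obtain ⟨g, hg, e1⟩ := T1 h hp hp' hs hs π e e'
  obtain ⟨d, hd0, hd, e2⟩ := conj_same h hp' (u := g * t * g⁻¹)
    (by rw [show g * t * g⁻¹ * (g * t * g⁻¹) = g * (t * t) * g⁻¹ by group, ht]; simp) ht
    (fun i => by rw [f', ← hg i, conj_smul_smul, f, hg])
  have c1 : Commute g s := mul_inv_eq_iff_eq_mul.mp e1
  have c2 : Commute d s := by
    obtain ⟨k, rfl⟩ := hd0
    exact (((c1.mul_left hst.symm).mul_left c1.inv_left).mul_left hst.symm).zpow_left k
  refine ⟨d * g, fun i => by rw [mul_smul, hg, hd], c2.mul_left c1, ?_⟩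
  apply mul_inv_eq_iff_eq_mul.mp
  exact (show _ = d * (g * t * g⁻¹) * d⁻¹ by group).trans e2

/-- An element whose square fixes four points has an odd power of square one. -/
theorem exists_invol {p : Fin 4 → X} (hp : Function.Injective p) {g : G}
    (hg : ∀ i, g • g • p i = p i) : ∃ t ∈ zpowers g, t * t = 1 ∧ ∀ i, t • p i = g • p i := by
  have ho := odd_order h hp (g := g * g) (fun i => by rw [mul_smul, hg])
  refine ⟨g ^ orderOf (g * g), npow_mem_zpowers _ _, ?_, fun i => ?_⟩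
  · rw [← (Commute.refl g).mul_pow, pow_orderOf_eq_one]
  · obtain ⟨j, hj⟩ := ho
    rw [hj, pow_succ', pow_mul, mul_smul, sq]
    congr 1
    exact (stabilizer G (p i)).pow_mem (show g * g ∈ stabilizer G (p i) by
      rw [mem_stabilizer_iff, mul_smul, hg]) j

theorem exists_W {a b c d : X} (hn : [a, b, c, d].Nodup) : ∃ s t : G, s * s = 1 ∧ t * t = 1 ∧
    Commute s t ∧ (s • a = b ∧ s • b = a ∧ s • c = c ∧ s • d = d) ∧
      (t • a = a ∧ t • b = b ∧ t • c = d ∧ t • d = c) := by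
  have hn' := hn
  simp only [List.nodup_cons, List.mem_cons, List.not_mem_nil, or_false, not_or] at hn'
  obtain ⟨⟨h1, h2, h3⟩, ⟨h4, h5⟩, h6, -⟩ := hn'
  obtain ⟨g, g1, g2, g3, g4⟩ := exists_smul_eq_four h.tr hn (a' := b) (b' := a) (c' := c) (d' := d)
    (by simp [*, eq_comm])
  obtain ⟨k, k1, k2, k3, k4⟩ := exists_smul_eq_four h.tr hn (a' := a) (b' := b) (c' := d) (d' := c)
    (by simp [*, eq_comm])
  obtain ⟨s, -, hs, es⟩ := exists_invol h (inj4 hn) (g := g) (fun i => by fin_cases i <;> simp [*])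
  obtain ⟨u, -, hu, eu⟩ := exists_invol h (inj4 hn) (g := k) (fun i => by fin_cases i <;> simp [*])
  have s1 : s • a = b := (es 0).trans g1
  have s2 : s • b = a := (es 1).trans g2
  have s3 : s • c = c := (es 2).trans g3
  have s4 : s • d = d := (es 3).trans g4
  have u1 : u • a = a := (eu 0).trans k1
  have u2 : u • b = b := (eu 1).trans k2
  have u3 : u • c = d := (eu 2).trans k3
  have u4 : u • d = c := (eu 3).trans k4
  obtain ⟨w, hw0, hw, ew⟩ := exists_invol h (inj4 hn) (g := s * u)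
    (fun i => by fin_cases i <;> simp [mul_smul, *])
  have hc := (Agent.Inv.commute_of_mem_zpowers_mul hs hu hw hw0).1
  have w1 : w • a = b := (ew 0).trans (by simp [mul_smul, *])
  have w2 : w • b = a := (ew 1).trans (by simp [mul_smul, *])
  have w3 : w • c = d := (ew 2).trans (by simp [mul_smul, *])
  have w4 : w • d = c := (ew 3).trans (by simp [mul_smul, *])
  refine ⟨s, s * w, hs, (Agent.Inv.commute_iff_mul_sq hs hw).mp hc.symm,
    (Commute.refl s).mul_right hc.symm, ⟨s1, s2, s3, s4⟩, ?_⟩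
  simp [mul_smul, *]

variable [Fintype X] [DecidableEq X]

/-- Fixed points. -/
def Fix (X : Type*) [Fintype X] [DecidableEq X] [MulAction G X] (t : G) : Finset X :=
  Finset.univ.filter fun x => t • x = x

omit [Finite G] h in
theorem mem_Fix {t : G} {x : X} : x ∈ Fix X t ↔ t • x = x := by simp [Fix]

omit [Finite G] in
theorem card_Fix_le {t : G} (ht : t * t = 1) (h1 : t ≠ 1) : (Fix X t).card ≤ 3 := by
  by_contra hc
  obtain ⟨a, b, c, d, ha, hb, hc, hd, hn⟩ : ∃ a b c d, a ∈ Fix X t ∧ b ∈ Fix X t ∧ c ∈ Fix X t ∧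
      d ∈ Fix X t ∧ [a, b, c, d].Nodup := by
    obtain ⟨T, hT, hT4⟩ := Finset.exists_subset_card_eq (show 4 ≤ (Fix X t).card by omega)
    obtain ⟨a, S, ha, rfl, hS⟩ := Finset.card_eq_succ.mp hT4
    obtain ⟨b, c, d, h1, h2, h3, rfl⟩ := Finset.card_eq_three.mp hS
    refine ⟨a, b, c, d, hT (by simp), hT (by simp), hT (by simp), hT (by simp), ?_⟩
    simp only [Finset.mem_insert, Finset.mem_singleton, not_or] at ha
    simp [*]
  exact h1 (h.odd t ht a b c d hn (mem_Fix.mp ha) (mem_Fix.mp hb) (mem_Fix.mp hc) (mem_Fix.mp hd))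

omit [Finite G] h in
theorem card_Fix_conj (g t : G) : (Fix X (g * t * g⁻¹)).card = (Fix X t).card := by
  symm
  apply Finset.card_bij (fun x _ => g • x)
  · intro x hx
    rw [mem_Fix] at hx ⊢
    rw [conj_smul_smul, hx]
  · intro x _ y _ e
    exact smul_left_cancel g e
  · intro y hy
    refine ⟨g⁻¹ • y, ?_, smul_inv_smul g y⟩
    rw [mem_Fix] at hy ⊢
    rw [eq_inv_smul_iff, ← mul_smul, ← mul_smul, hy]

omit [Finite G] h in
theorem nodup_two {t : G} (ht : t * t = 1) {x u : X} (hx : t • x ≠ x) (hu : t • u ≠ u)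
    (h1 : u ≠ x) (h2 : u ≠ t • x) : [x, t • x, u, t • u].Nodup := by
  have h3 : t • u ≠ x := fun e => h2 (by rw [← e, smul_smul_sq ht])
  have h4 : t • u ≠ t • x := fun e => h1 (smul_left_cancel t e)
  simp [hx.symm, hu.symm, h1.symm, h2.symm, h3.symm, h4.symm]

omit [Finite G] in
theorem exists_second (h8 : 8 ≤ Fintype.card X) {t : G} (ht : t * t = 1) (h1 : t ≠ 1) (x : X) :
    ∃ u, t • u ≠ u ∧ u ≠ x ∧ u ≠ t • x := by
  have := card_Fix_le h ht h1
  have h2 : (Fix X t ∪ {x, t • x}).card < (Finset.univ : Finset X).card := by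
    have := Finset.card_union_le (Fix X t) {x, t • x}
    have := Finset.card_le_two (a := x) (b := t • x)
    rw [Finset.card_univ]; omega
  obtain ⟨u, -, hu⟩ := Finset.exists_mem_notMem_of_card_lt_card h2
  simp only [Finset.mem_union, mem_Fix, Finset.mem_insert, Finset.mem_singleton, not_or] at hu
  exact ⟨u, hu⟩

theorem isConj (h8 : 8 ≤ Fintype.card X) {t u : G} (ht : t * t = 1) (h1 : t ≠ 1) (hu : u * u = 1)
    (h2 : u ≠ 1) : ∃ g : G, g * t * g⁻¹ = u := by
  obtain ⟨x0⟩ : Nonempty X := Fintype.card_pos_iff.mp (by omega)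
  obtain ⟨x, hx, -⟩ := exists_second h h8 ht h1 x0
  obtain ⟨y, hy, y1, y2⟩ := exists_second h h8 ht h1 x
  obtain ⟨x', hx', -⟩ := exists_second h h8 hu h2 x0
  obtain ⟨y', hy', y1', y2'⟩ := exists_second h h8 hu h2 x'
  obtain ⟨g, -, hg⟩ := T1 h (inj4 (nodup_two ht hx hy y1 y2)) (inj4 (nodup_two hu hx' hy' y1' y2'))
    ht hu ![1, 0, 3, 2] (fun i => by fin_cases i <;> simp [smul_smul_sq ht])
    (fun i => by fin_cases i <;> simp [smul_smul_sq hu])
  exact ⟨g, hg⟩

theorem card_C (h8 : 8 ≤ Fintype.card X) {t : G} (ht : t * t = 1) (h1 : t ≠ 1) {x : X}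
    (hx : t • x ≠ x) : Nat.card (centralizer {t}) =
      (Fintype.card X - (Fix X t).card) * Nat.card ↥(centralizer {t} ⊓ stabilizer G x) := by
  rw [← Finset.card_compl]
  apply step
  intro y
  rw [Finset.mem_compl, mem_Fix]
  constructor
  · intro hy
    obtain ⟨u, hu, u1, u2⟩ := exists_second h h8 ht h1 x
    obtain ⟨u', hu', u1', u2'⟩ := exists_second h h8 ht h1 y
    obtain ⟨g, e, hg⟩ := T1 h (inj4 (nodup_two ht hx hu u1 u2)) (inj4 (nodup_two ht hy hu' u1' u2'))
      ht ht ![1, 0, 3, 2] (fun i => by fin_cases i <;> simp [smul_smul_sq ht])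
      (fun i => by fin_cases i <;> simp [smul_smul_sq ht])
    exact ⟨g, mem_centralizer_singleton_iff.mpr (mul_inv_eq_iff_eq_mul.mp hg), e 0⟩
  · rintro ⟨k, hk, rfl⟩ e
    rw [← comm_smul (mem_centralizer_singleton_iff.mp hk)] at e
    exact hx (smul_left_cancel k e)

theorem card_A {t : G} (ht : t * t = 1) {x u : X} (hx : t • x ≠ x) (hu : t • u ≠ u)
    (h1 : u ≠ x) (h2 : u ≠ t • x) : Nat.card ↥(centralizer {t} ⊓ stabilizer G x) =
      (Fintype.card X - (Fix X t).card - 2) *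
        Nat.card ↥(S4 G x (t • x) u (t • u) ⊓ centralizer {t}) := by
  have e1 : S4 G x (t • x) u (t • u) ⊓ centralizer {t} =
      centralizer {t} ⊓ stabilizer G x ⊓ stabilizer G u := by
    ext g
    simp only [mem_inf, mem_S4, mem_stabilizer_iff, mem_centralizer_singleton_iff]
    constructor
    · rintro ⟨⟨a1, -, a2, -⟩, a3⟩
      exact ⟨⟨a3, a1⟩, a2⟩
    · rintro ⟨⟨a3, a1⟩, a2⟩
      exact ⟨⟨a1, by rw [comm_smul a3, a1], a2, by rw [comm_smul a3, a2]⟩, a3⟩
  have e2 : ((Fix X t)ᶜ \ {x, t • x}).card = Fintype.card X - (Fix X t).card - 2 := by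
    rw [Finset.card_sdiff_of_subset, Finset.card_compl, Finset.card_pair hx.symm]
    intro y hy
    simp only [Finset.mem_insert, Finset.mem_singleton] at hy
    rw [Finset.mem_compl, mem_Fix]
    rcases hy with rfl | rfl
    · exact hx
    · rw [smul_smul_sq ht]; exact hx.symm
  rw [e1, ← e2]
  apply step
  intro y
  simp only [Finset.mem_sdiff, Finset.mem_compl, mem_Fix, Finset.mem_insert, Finset.mem_singleton,
    not_or, mem_inf, mem_stabilizer_iff, mem_centralizer_singleton_iff]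
  constructor
  · rintro ⟨hy, y1, y2⟩
    obtain ⟨g, e, hg⟩ := T1 h (inj4 (nodup_two ht hx hu h1 h2)) (inj4 (nodup_two ht hx hy y1 y2))
      ht ht ![1, 0, 3, 2] (fun i => by fin_cases i <;> simp [smul_smul_sq ht])
      (fun i => by fin_cases i <;> simp [smul_smul_sq ht])
    exact ⟨g, ⟨mul_inv_eq_iff_eq_mul.mp hg, e 0⟩, e 2⟩
  · rintro ⟨k, ⟨hk, hkx⟩, rfl⟩
    refine ⟨fun e => ?_, fun e => ?_, fun e => ?_⟩
    · rw [← comm_smul hk] at e
      exact hu (smul_left_cancel k e)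
    · exact h1 (smul_left_cancel k (e.trans hkx.symm))
    · exact h2 (smul_left_cancel k (by rw [e, comm_smul hk, hkx]))

omit [Finite G] h [Fintype X] [DecidableEq X] in
theorem nodup_fix {t : G} (ht : t * t = 1) {x u w : X} (hx : t • x ≠ x) (hu : t • u = u)
    (hw : t • w = w) (h1 : u ≠ w) : [x, t • x, u, w].Nodup := by
  have a1 : x ≠ u := fun e => hx (e ▸ hu)
  have a2 : x ≠ w := fun e => hx (e ▸ hw)
  have a3 : t • x ≠ u := fun e => a1 (by rw [← hu, ← e, smul_smul_sq ht])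
  have a4 : t • x ≠ w := fun e => a2 (by rw [← hw, ← e, smul_smul_sq ht])
  simp [hx.symm, *]

theorem card_B {t : G} (ht : t * t = 1) {x u w : X} (hx : t • x ≠ x) (hu : t • u = u)
    (hw : t • w = w) (h1 : u ≠ w) : Nat.card ↥(centralizer {t} ⊓ stabilizer G x) =
      (Fix X t).card * ((Fix X t).card - 1) *
        Nat.card ↥(S4 G x (t • x) u w ⊓ centralizer {t}) := by
  have e1 : S4 G x (t • x) u w ⊓ centralizer {t} =
      centralizer {t} ⊓ stabilizer G x ⊓ stabilizer G u ⊓ stabilizer G w := by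
    ext g
    simp only [mem_inf, mem_S4, mem_stabilizer_iff, mem_centralizer_singleton_iff]
    constructor
    · rintro ⟨⟨a1, -, a2, a4⟩, a3⟩
      exact ⟨⟨⟨a3, a1⟩, a2⟩, a4⟩
    · rintro ⟨⟨⟨a3, a1⟩, a2⟩, a4⟩
      exact ⟨⟨a1, by rw [comm_smul a3, a1], a2, a4⟩, a3⟩
  have tr : ∀ u' w', t • u' = u' → t • w' = w' → u' ≠ w' →
      ∃ g : G, g * t = t * g ∧ g • x = x ∧ g • u = u' ∧ g • w = w' := fun u' w' a1 a2 a3 => by
    obtain ⟨g, e, hg⟩ := T1 h (inj4 (nodup_fix ht hx hu hw h1)) (inj4 (nodup_fix ht hx a1 a2 a3))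
      ht ht ![1, 0, 2, 3] (fun i => by fin_cases i <;> simp [smul_smul_sq ht, *])
      (fun i => by fin_cases i <;> simp [smul_smul_sq ht, *])
    exact ⟨g, mul_inv_eq_iff_eq_mul.mp hg, e 0, e 2, e 3⟩
  rw [e1, mul_assoc, ← Finset.card_erase_of_mem (mem_Fix.mpr hu), ← step _ w, ← step _ u]
  · intro y
    simp only [mem_Fix, mem_inf, mem_stabilizer_iff, mem_centralizer_singleton_iff]
    constructor
    · intro hy
      by_cases e : y = w
      · obtain ⟨g, a1, a2, a3, -⟩ := tr y u hy hu (e ▸ h1.symm)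
        exact ⟨g, ⟨a1, a2⟩, a3⟩
      · obtain ⟨g, a1, a2, a3, -⟩ := tr y w hy hw e
        exact ⟨g, ⟨a1, a2⟩, a3⟩
    · rintro ⟨k, ⟨hk, -⟩, rfl⟩
      rw [← comm_smul hk, hu]
  · intro y
    simp only [Finset.mem_erase, mem_Fix, mem_inf, mem_stabilizer_iff,
      mem_centralizer_singleton_iff]
    constructor
    · rintro ⟨e, hy⟩
      obtain ⟨g, a1, a2, a3, a4⟩ := tr u y hu hy (Ne.symm e)
      exact ⟨g, ⟨⟨a1, a2⟩, a3⟩, a4⟩
    · rintro ⟨k, ⟨⟨hk, -⟩, hku⟩, rfl⟩
      exact ⟨fun e => h1 (smul_left_cancel k (e.trans hku.symm)).symm, by rw [← comm_smul hk, hw]⟩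

end Cfsg.Agent.Perm.Hall4
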