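import Mathlib
import Cfsg.Agent.Perm.HallFour

/-! # M. Hall's theorem, the main count -/

set_option autoImplicit false

namespace Cfsg.Agent.Perm.Hall4

open MulAction Subgroup

variable {G X : Type*} [Group G] [MulAction G X]

theorem card_centralizer_conj (g t : G) :
    Nat.card (centralizer {g * t * g⁻¹}) = Nat.card (centralizer {t}) := by
  symm
  refine Nat.card_congr ⟨fun x => ⟨g * x * g⁻¹, ?_⟩, fun x => ⟨g⁻¹ * x * g, ?_⟩, fun x => ?_,
    fun x => ?_⟩
  · have := mem_centralizer_singleton_iff.mp x.2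
    rw [mem_centralizer_singleton_iff]
    calc _ = g * (x * t) * g⁻¹ := by group
      _ = g * (t * x) * g⁻¹ := by rw [this]
      _ = _ := by group
  · have := mem_centralizer_singleton_iff.mp x.2
    rw [mem_centralizer_singleton_iff]
    calc _ = g⁻¹ * (x * (g * t * g⁻¹)) * g := by group
      _ = g⁻¹ * (g * t * g⁻¹ * x) * g := by rw [this]
      _ = _ := by group
  · ext; simp [mul_assoc]
  · ext; simp [mul_assoc]

theorem fix_of_card_le_two [DecidableEq X] {g : G} (hg : Odd (orderOf g)) (S : Finset X)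
    (hS : S.card ≤ 2) (hinv : ∀ y ∈ S, g • y ∈ S) {y : X} (hy : y ∈ S) : g • y = y := by
  by_contra hne
  have h2 : g • g • y = y := by
    by_contra h2
    have h3 : g • g • y ≠ g • y := fun e => hne (smul_left_cancel g e)
    have : ({y, g • y, g • g • y} : Finset X) ⊆ S := by
      intro w hw
      simp only [Finset.mem_insert, Finset.mem_singleton] at hw
      rcases hw with rfl | rfl | rfl
      exacts [hy, hinv _ hy, hinv _ (hinv _ hy)]
    have := Finset.card_le_card this
    rw [Finset.card_eq_three.mpr ⟨_, _, _, Ne.symm hne, Ne.symm h2, h3.symm, rfl⟩] at this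
    omega
  obtain ⟨j, hj⟩ := hg
  have h3 : (g * g) ^ j • y = y := (stabilizer G y).pow_mem
    (show g * g ∈ stabilizer G y by rw [mem_stabilizer_iff, mul_smul, h2]) j
  apply hne
  calc g • y = g • (g * g) ^ j • y := by rw [h3]
    _ = g ^ orderOf g • y := by rw [hj, pow_succ', pow_mul, mul_smul, sq]
    _ = y := by rw [pow_orderOf_eq_one, one_smul]

theorem card_S4_eq (h : IsMultiplyPretransitive G X 4) {a b c d a' b' c' d' : X}
    (hn : [a, b, c, d].Nodup) (hn' : [a', b', c', d'].Nodup) :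
    Nat.card (S4 G a b c d) = Nat.card (S4 G a' b' c' d') := by
  obtain ⟨g, rfl, rfl, rfl, rfl⟩ := exists_smul_eq_four h hn hn'
  have e : ∀ a b c d : X, S4 G a b c d = stabilizer G (a, b, c, d) := fun a b c d => by
    ext g; simp [mem_S4]
  rw [e, e]
  exact (card_stabilizer_smul g (a, b, c, d)).symm

theorem card_eq_S4 [Fintype X] (h : IsMultiplyPretransitive G X 4) {a b c d : X}
    (hn : [a, b, c, d].Nodup) :
    Nat.card G = (Fintype.card X).choose 4 * 24 * Nat.card (S4 G a b c d) := by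
  classical
  have e : S4 G a b c d = fixingSubgroup G (([a, b, c, d].toFinset : Finset X) : Set X) := by
    ext g; simp [mem_S4, mem_fixingSubgroup_iff]
  have e2 : (([a, b, c, d].toFinset : Finset X) : Set X).ncard = 4 := by
    rw [Set.ncard_coe_finset, List.toFinset_card_of_nodup hn]; rfl
  have := IsMultiplyPretransitive.index_of_fixingSubgroup_eq (G := G) _ (e2 ▸ h)
  rw [e2, Nat.card_eq_fintype_card] at this
  rw [e, ← index_mul_card (fixingSubgroup G (([a, b, c, d].toFinset : Finset X) : Set X)), this]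
  rfl

theorem exists_nodup [Fintype X] (h4 : 4 ≤ Fintype.card X) :
    ∃ a b c d : X, [a, b, c, d].Nodup := by
  obtain ⟨f⟩ : Nonempty (Fin 4 ↪ X) := Function.Embedding.nonempty_of_card_le (by simpa using h4)
  exact ⟨f 0, f 1, f 2, f 3, by simp⟩

theorem arith {h U U1 A B R M f : ℕ} (hh : 0 < h) (hA : 0 < A) (hU1 : 0 < U1) (hf : f = 2 ∨ f = 3)
    (hM : 5 ≤ M) (hR : R + 4 = M) (e1 : h * U ^ 2 = B * B * A) (e2 : h * U1 ^ 2 = A * A * A)
    (e3 : R * U1 = 2 * (2 * U)) (e4 : (M - 2) * A = f * (f - 1) * B) : f = 3 ∧ M = 8 := by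
  have a1 : (B * U1) ^ 2 = (A * U) ^ 2 := by
    apply Nat.eq_of_mul_eq_mul_left (Nat.mul_pos hh hA)
    calc h * A * (B * U1) ^ 2 = (h * U1 ^ 2) * (B * B * A) := by ring
      _ = (A * A * A) * (h * U ^ 2) := by rw [e1, e2]
      _ = _ := by ring
  have a2 : B * U1 = A * U := Nat.pow_left_injective (by norm_num) a1
  have a3 : 4 * B = A * R := by
    apply Nat.eq_of_mul_eq_mul_right hU1
    calc 4 * B * U1 = 4 * (B * U1) := by ring
      _ = A * (2 * (2 * U)) := by rw [a2]; ring
      _ = _ := by rw [← e3]; ring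
  have a4 : 4 * (M - 2) = f * (f - 1) * R := by
    apply Nat.eq_of_mul_eq_mul_right hA
    calc 4 * (M - 2) * A = f * (f - 1) * (4 * B) := by rw [mul_assoc, e4]; ring
      _ = _ := by rw [a3]; ring
  rcases hf with rfl | rfl <;> omega

theorem cube_arith {A : ℕ} (h1 : A * A * A ∣ 5040) (hodd : Odd (A * A * A)) : A = 1 := by
  have hA : A ≤ 17 := by
    by_contra hc
    have := Nat.le_of_dvd (by norm_num) h1
    have : 18 * 18 * 18 ≤ A * A * A :=
      Nat.mul_le_mul (Nat.mul_le_mul (by omega) (by omega)) (by omega)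
    omega
  interval_cases A <;> simp_all (config := { decide := true })

variable [Finite G] [Fintype X] [DecidableEq X]

omit [Finite G] in
theorem inter_eq (h : H4 G X) {s t : G} (hs : s * s = 1) (ht : t * t = 1) (h1 : s ≠ 1)
    (hst : Commute s t) {c d : X} (hcd : c ≠ d) (s3 : s • c = c) (s4 : s • d = d)
    (t3 : t • c = d) (t4 : t • d = c) : Fix X s ∩ Fix X t = Fix X s \ {c, d} := by
  have hsub : ({c, d} : Finset X) ⊆ Fix X s := by
    intro y hy
    simp only [Finset.mem_insert, Finset.mem_singleton] at hy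
    rcases hy with rfl | rfl <;> simp [mem_Fix, *]
  have hc : (Fix X s \ {c, d}).card ≤ 1 := by
    rw [Finset.card_sdiff_of_subset hsub, Finset.card_pair hcd]
    have := card_Fix_le h hs h1
    omega
  ext y
  simp only [Finset.mem_inter, Finset.mem_sdiff, mem_Fix, Finset.mem_insert, Finset.mem_singleton,
    not_or]
  constructor
  · rintro ⟨y1, y2⟩
    refine ⟨y1, ?_, ?_⟩
    · rintro rfl; exact hcd (y2.symm.trans t3)
    · rintro rfl; exact hcd (t4.symm.trans y2)
  · rintro ⟨y1, y2, y3⟩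
    refine ⟨y1, Finset.card_le_one.mp hc _ ?_ _ ?_⟩
    · simp only [Finset.mem_sdiff, mem_Fix, Finset.mem_insert, Finset.mem_singleton, not_or]
      refine ⟨by rw [comm_smul hst.eq, y1], fun e => y3 ?_, fun e => y2 ?_⟩
      · rw [← t3, ← e, smul_smul_sq ht]
      · rw [← t4, ← e, smul_smul_sq ht]
    · simp [mem_Fix, *]

set_option maxHeartbeats 800000 in
theorem main [FaithfulSMul G X] (h : H4 G X) (h8 : 8 ≤ Fintype.card X) :
    Fintype.card X = 11 ∧ Nat.card G = 7920 := by
  obtain ⟨a, b, c, d, hn⟩ := exists_nodup (X := X) (by omega)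
  obtain ⟨s, t, hs, ht, hst, ⟨s1, s2, s3, s4⟩, ⟨t1, t2, t3, t4⟩⟩ := exists_W h hn
  have hn' := hn
  simp only [List.nodup_cons, List.mem_cons, List.not_mem_nil, or_false, not_or] at hn'
  obtain ⟨⟨hab, hac, had⟩, ⟨hbc, hbd⟩, hcd, -⟩ := hn'
  have hz : s * t * (s * t) = 1 := (Agent.Inv.commute_iff_mul_sq hs ht).mp hst
  have z1 : (s * t) • a = b := by rw [mul_smul, t1, s1]
  have z3 : (s * t) • c = d := by rw [mul_smul, t3, s4]
  have hs1 : s ≠ 1 := fun e => hab (by rw [← s1, e, one_smul])
  have ht1 : t ≠ 1 := fun e => hcd (by rw [← t3, e, one_smul])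
  have hz1 : s * t ≠ 1 := fun e => hab (by rw [← z1, e, one_smul])
  obtain ⟨g1, hg1⟩ := isConj h h8 hs hs1 ht ht1
  obtain ⟨g2, hg2⟩ := isConj h h8 hs hs1 hz hz1
  have ft : (Fix X t).card = (Fix X s).card := by rw [← hg1, card_Fix_conj]
  have fz : (Fix X (s * t)).card = (Fix X s).card := by rw [← hg2, card_Fix_conj]
  have Nt : Nat.card (centralizer {t}) = Nat.card (centralizer {s}) := by
    rw [← hg1, card_centralizer_conj]
  have Nz : Nat.card (centralizer {s * t}) = Nat.card (centralizer {s}) := by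
    rw [← hg2, card_centralizer_conj]
  have E1 := inter_eq h hs ht hs1 hst hcd s3 s4 t3 t4
  have E2 := inter_eq h ht hs ht1 hst.symm hab t1 t2 s1 s2
  have hsub : ({c, d} : Finset X) ⊆ Fix X s := by
    intro y hy
    simp only [Finset.mem_insert, Finset.mem_singleton] at hy
    rcases hy with rfl | rfl <;> simp [mem_Fix, *]
  have f2 : 2 ≤ (Fix X s).card := (Finset.card_pair hcd).symm.trans_le (Finset.card_le_card hsub)
  have f3 := card_Fix_le h hs hs1
  have cE : (Fix X s ∩ Fix X t).card + 2 = (Fix X s).card := by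
    rw [E1, Finset.card_sdiff_of_subset hsub, Finset.card_pair hcd]; omega
  have E3 : (Fix X s ∪ Fix X t) ∩ Fix X (s * t) = Fix X s ∩ Fix X t := by
    ext y
    simp only [Finset.mem_inter, Finset.mem_union, mem_Fix]
    constructor
    · rintro ⟨y1 | y1, y2⟩
      · refine ⟨y1, smul_left_cancel s ?_⟩
        rw [← mul_smul, y2, y1]
      · rw [mul_smul, y1] at y2
        exact ⟨y2, y1⟩
    · rintro ⟨y1, y2⟩
      exact ⟨Or.inl y1, by rw [mul_smul, y2, y1]⟩
  set R := (Fix X s ∪ Fix X t ∪ Fix X (s * t))ᶜ with hR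
  have cR : R.card + 4 = Fintype.card X - (Fix X s).card := by
    have a1 := Finset.card_union_add_card_inter (Fix X s) (Fix X t)
    have a2 := Finset.card_union_add_card_inter (Fix X s ∪ Fix X t) (Fix X (s * t))
    rw [E3] at a2
    rw [hR, Finset.card_compl]
    omega
  have memR : ∀ y, y ∈ R ↔ s • y ≠ y ∧ t • y ≠ y ∧ s • t • y ≠ y := fun y => by
    simp [hR, mem_Fix, mul_smul]
  have hts : ∀ y : X, t • s • y = s • t • y := fun y => (comm_smul hst.eq y).symm
  have ndR : ∀ y ∈ R, [y, s • y, t • y, s • t • y].Nodup := fun y hy => by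
    obtain ⟨y1, y2, y3⟩ := (memR y).mp hy
    exact nodup_two hs y1 (fun e => y1 (smul_left_cancel t (by rw [hts, e]))) y2
      (fun e => y3 (by rw [e, smul_smul_sq hs]))
  obtain ⟨x, hx⟩ : R.Nonempty := Finset.card_pos.mp (by omega)
  obtain ⟨x1, x2, x3⟩ := (memR x).mp hx
  have nx := ndR x hx
  have nx' := nx
  simp only [List.nodup_cons, List.mem_cons, List.not_mem_nil, or_false, not_or] at nx'
  obtain ⟨⟨-, -, -⟩, ⟨x4, x5⟩, x6, -⟩ := nx'
  set H := S4 G a b c d with hH
  set H' := S4 G x (s • x) (t • x) (s • t • x) with hH'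
  set CW := centralizer ({s} : Set G) ⊓ centralizer {t} with hCW
  have memC : ∀ g, g ∈ CW ↔ g * s = s * g ∧ g * t = t * g := fun g => by
    simp [hCW, mem_centralizer_singleton_iff]
  -- (a)
  have ca : Nat.card CW = R.card * Nat.card ↥(H' ⊓ centralizer {s} ⊓ centralizer {t}) := by
    have e : H' ⊓ centralizer {s} ⊓ centralizer {t} = CW ⊓ stabilizer G x := by
      ext g
      simp only [mem_inf, hH', mem_S4, mem_stabilizer_iff, mem_centralizer_singleton_iff, memC]
      constructor
      · rintro ⟨⟨⟨a1, -⟩, a2⟩, a3⟩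
        exact ⟨⟨a2, a3⟩, a1⟩
      · rintro ⟨⟨a2, a3⟩, a1⟩
        exact ⟨⟨⟨a1, by rw [comm_smul a2, a1], by rw [comm_smul a3, a1],
          by rw [comm_smul a2, comm_smul a3, a1]⟩, a2⟩, a3⟩
    rw [e]
    apply step
    intro y
    constructor
    · intro hy
      obtain ⟨g, e, c1, c2⟩ := T2 h (inj4 nx) (inj4 (ndR y hy)) hs ht hst ![1, 0, 3, 2]
        ![2, 3, 0, 1] (fun i => by fin_cases i <;> simp [smul_smul_sq hs])
        (fun i => by fin_cases i <;> simp [smul_smul_sq hs])
        (fun i => by fin_cases i <;> simp [smul_smul_sq ht, hts])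
        (fun i => by fin_cases i <;> simp [smul_smul_sq ht, hts])
      exact ⟨g, (memC g).mpr ⟨c1, c2⟩, e 0⟩
    · rintro ⟨k, hk, rfl⟩
      obtain ⟨k1, k2⟩ := (memC k).mp hk
      rw [memR, ← comm_smul k1, ← comm_smul k2, ← comm_smul k1]
      exact ⟨fun e => x1 (smul_left_cancel k e), fun e => x2 (smul_left_cancel k e),
        fun e => x3 (smul_left_cancel k e)⟩
  -- (b)
  have cb : Nat.card CW = 2 * (2 * Nat.card ↥(H ⊓ centralizer {s} ⊓ centralizer {t})) := by
    have e : H ⊓ centralizer {s} ⊓ centralizer {t} = CW ⊓ stabilizer G a ⊓ stabilizer G c := by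
      ext g
      simp only [mem_inf, hH, mem_S4, mem_stabilizer_iff, mem_centralizer_singleton_iff, memC]
      constructor
      · rintro ⟨⟨⟨a1, -, a4, -⟩, a2⟩, a3⟩
        exact ⟨⟨⟨a2, a3⟩, a1⟩, a4⟩
      · rintro ⟨⟨⟨a2, a3⟩, a1⟩, a4⟩
        exact ⟨⟨⟨a1, by rw [← s1, comm_smul a2, a1], a4, by rw [← t3, comm_smul a3, a4]⟩, a2⟩, a3⟩
    rw [e, step CW a {a, b}, step (CW ⊓ stabilizer G a) c {c, d}, Finset.card_pair hab,
      Finset.card_pair hcd]
    · intro y
      simp only [Finset.mem_insert, Finset.mem_singleton, mem_inf, memC, mem_stabilizer_iff]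
      constructor
      · rintro (rfl | rfl)
        · exact ⟨1, by simp⟩
        · exact ⟨t, ⟨⟨hst.symm.eq, rfl⟩, t1⟩, t3⟩
      · rintro ⟨k, ⟨⟨k1, k2⟩, -⟩, rfl⟩
        by_contra hc
        have : k • c ∈ Fix X s ∩ Fix X t := by
          rw [E1]
          simpa [mem_Fix, ← comm_smul k1, s3] using hc
        rw [Finset.mem_inter, mem_Fix, mem_Fix, ← comm_smul k2, t3] at this
        exact hcd (smul_left_cancel k this.2).symm
    · intro y
      simp only [Finset.mem_insert, Finset.mem_singleton, memC]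
      constructor
      · rintro (rfl | rfl)
        · exact ⟨1, by simp⟩
        · exact ⟨s, ⟨rfl, hst.eq⟩, s1⟩
      · rintro ⟨k, ⟨k1, k2⟩, rfl⟩
        by_contra hc
        have : k • a ∈ Fix X t ∩ Fix X s := by
          rw [E2]
          simpa [mem_Fix, ← comm_smul k2, t1] using hc
        rw [Finset.mem_inter, mem_Fix, mem_Fix, ← comm_smul k1, s1] at this
        exact hab (smul_left_cancel k this.2).symm
  -- Brauer–Wielandt twice
  have w1 := BW.formula (odd_card h hn) hs ht hst
    (fun g hg => by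
      obtain ⟨a1, a2, a3, a4⟩ := mem_S4.mp hg
      simp only [mem_S4, mul_smul, *, and_self])
    (fun g hg => by
      obtain ⟨a1, a2, a3, a4⟩ := mem_S4.mp hg
      simp only [mem_S4, mul_smul, *, and_self])
  have w2 := BW.formula (odd_card h nx) hs ht hst
    (fun g hg => by
      obtain ⟨a1, a2, a3, a4⟩ := mem_S4.mp hg
      simp only [mem_S4, mul_smul, smul_smul_sq hs, a1, a2, a3, a4, and_self])
    (fun g hg => by
      obtain ⟨a1, a2, a3, a4⟩ := mem_S4.mp hg
      simp only [mem_S4, mul_smul, smul_smul_sq ht, hts, a1, a2, a3, a4, and_self])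
  rw [← hH] at w1
  rw [← hH'] at w2
  have hHH : Nat.card H' = Nat.card H := card_S4_eq h.tr nx hn
  set M := Fintype.card X - (Fix X s).card with hM
  have hM5 : 5 ≤ M := by omega
  have cancel : ∀ {u : G} {y : X}, u * u = 1 → u ≠ 1 → u • y ≠ y →
      (Fix X u).card = (Fix X s).card → Nat.card (centralizer {u}) = Nat.card (centralizer {s}) →
      Nat.card ↥(centralizer {u} ⊓ stabilizer G y) =
        Nat.card ↥(centralizer {s} ⊓ stabilizer G a) := fun {u y} u1 u2 u3 u4 u5 => by
    have a1 := card_C h h8 u1 u2 u3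
    have a2 := card_C h h8 hs hs1 (x := a) (by rw [s1]; exact (Ne.symm hab))
    rw [u4, u5, a2] at a1
    exact (Nat.eq_of_mul_eq_mul_left (by omega) a1).symm
  have B1 := card_B h hs (x := a) (by rw [s1]; exact (Ne.symm hab)) s3 s4 hcd
  have B2 := card_B h ht (x := c) (by rw [t3]; exact (Ne.symm hcd)) t1 t2 hab
  have A0 := card_A h hz (x := a) (u := c) (by rw [z1]; exact (Ne.symm hab))
    (by rw [z3]; exact (Ne.symm hcd)) (Ne.symm hac) (by rw [z1]; exact (Ne.symm hbc))
  have A1 := card_A h hs x1 (u := t • x) (Ne.symm x6) x2 (Ne.symm x4)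
  have A2 := card_A h ht x2 (u := s • x) (by rw [hts]; exact (Ne.symm x5)) x1 x4
  have A3 := card_A h hz (x := x) (by rw [mul_smul]; exact x3) (u := s • x)
    (by rw [mul_smul, hts, smul_smul_sq hs]; exact (Ne.symm x4)) x1 (by rw [mul_smul]; exact x5)
  rw [s1, ← hH] at B1
  rw [t3, ft, cancel ht ht1 (by rw [t3]; exact (Ne.symm hcd)) ft Nt,
    show S4 G c d a b = H by ext; simp only [hH, mem_S4]; tauto] at B2
  rw [z1, z3, fz, cancel hz hz1 (by rw [z1]; exact (Ne.symm hab)) fz Nz, ← hH] at A0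
  rw [cancel hs hs1 x1 rfl rfl, ← hH'] at A1
  rw [ft, cancel ht ht1 x2 ft Nt, hts,
    show S4 G x (t • x) (s • x) (s • t • x) = H' by ext; simp only [hH', mem_S4]; tauto] at A2
  rw [fz, cancel hz hz1 (by rw [mul_smul]; exact x3) fz Nz, mul_smul, mul_smul, hts,
    smul_smul_sq hs,
    show S4 G x (s • t • x) (s • x) (t • x) = H' by ext; simp only [hH', mem_S4]; tauto] at A3
  rw [← hM] at A0 A1 A2 A3
  have eB : Nat.card ↥(H ⊓ centralizer {t}) = Nat.card ↥(H ⊓ centralizer {s}) :=
    Nat.eq_of_mul_eq_mul_left (Nat.mul_pos (by omega) (by omega)) (B2.symm.trans B1)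
  have eA1 := Nat.eq_of_mul_eq_mul_left (by omega) (A1.symm.trans A0)
  have eA2 := Nat.eq_of_mul_eq_mul_left (by omega) (A2.symm.trans A0)
  have eA3 := Nat.eq_of_mul_eq_mul_left (by omega) (A3.symm.trans A0)
  rw [eB] at w1
  rw [eA1, eA2, eA3, hHH] at w2
  obtain ⟨hf, hM8⟩ := arith Nat.card_pos Nat.card_pos Nat.card_pos (by omega) hM5 cR w1 w2
    (ca.symm.trans cb) (A0.symm.trans B1)
  have h11 : Fintype.card X = 11 := by omega
  refine ⟨h11, ?_⟩
  have hU : H' ⊓ centralizer {s} ⊓ centralizer {t} = ⊥ := by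
    rw [eq_bot_iff]
    rintro g ⟨⟨g0, g1⟩, g2⟩
    have g1 : g * s = s * g := mem_centralizer_singleton_iff.mp g1
    have g2 : g * t = t * g := mem_centralizer_singleton_iff.mp g2
    have g3 : g * (s * t) = s * t * g := Commute.mul_right (g1 : Commute g s) (g2 : Commute g t)
    have ho : Odd (orderOf g) := BW.odd_orderOf (odd_card h nx) g0
    have pres : ∀ u : G, g * u = u * g → ∀ y, g • y ∈ Fix X u ↔ y ∈ Fix X u := fun u hu y => by
      rw [mem_Fix, mem_Fix, ← comm_smul hu, smul_left_cancel_iff]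
    have hout : ∀ u : G, g * u = u * g → (Fix X u).card = 3 → Fix X s ∩ Fix X t ⊆ Fix X u →
        ∀ y ∈ Fix X u, g • y = y := fun u hu u3 usub y hy => by
      by_cases hy2 : y ∈ Fix X s ∩ Fix X t
      · refine fix_of_card_le_two ho _ (by omega) (fun w hw => ?_) hy2
        rwa [Finset.mem_inter, pres s g1, pres t g2, ← Finset.mem_inter]
      · refine fix_of_card_le_two ho (Fix X u \ (Fix X s ∩ Fix X t))
          (by rw [Finset.card_sdiff_of_subset usub]; omega) (fun w hw => ?_)
          (Finset.mem_sdiff.mpr ⟨hy, hy2⟩)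
        rwa [Finset.mem_sdiff, Finset.mem_inter, pres s g1, pres t g2, pres u hu,
          ← Finset.mem_inter, ← Finset.mem_sdiff]
    apply eq_one_of_smul_eq (X := X)
    intro y
    by_cases hy : y ∈ R
    · have : [x, s • x, t • x, s • t • x].toFinset = R := by
        apply Finset.eq_of_subset_of_card_le
        · intro w hw
          simp only [List.mem_toFinset, List.mem_cons, List.not_mem_nil, or_false] at hw
          rcases hw with rfl | rfl | rfl | rfl <;>
            simp only [memR, smul_smul_sq hs, smul_smul_sq ht, hts] <;>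
            refine ⟨?_, ?_, ?_⟩ <;> first | assumption | (apply Ne.symm; assumption)
        · rw [List.toFinset_card_of_nodup nx]; simp; omega
      rw [← this] at hy
      obtain ⟨a1, a2, a3, a4⟩ := mem_S4.mp g0
      simp only [List.mem_toFinset, List.mem_cons, List.not_mem_nil, or_false] at hy
      rcases hy with rfl | rfl | rfl | rfl <;> assumption
    · rw [hR, Finset.mem_compl, not_not, Finset.mem_union, Finset.mem_union] at hy
      rcases hy with (hy | hy) | hy
      · exact hout s g1 hf Finset.inter_subset_left y hy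
      · exact hout t g2 (ft.trans hf) Finset.inter_subset_right y hy
      · exact hout _ g3 (fz.trans hf) (E3 ▸ Finset.inter_subset_right) y hy
  rw [hU, card_bot] at w2
  have hG := card_eq_S4 h.tr hn
  rw [h11, ← hH] at hG
  have hd : Nat.card G ∣ Nat.factorial 11 := by
    rw [← card_range_toPermHom (X := X), ← h11, ← Fintype.card_perm, ← Nat.card_eq_fintype_card]
    exact card_subgroup_dvd_card _
  have hodd := odd_card h hn
  rw [← hH] at hodd
  generalize Nat.card ↥(H ⊓ centralizer {s * t}) = A at w2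
  have h1 : Nat.card H ∣ 5040 := by
    rw [hG, show Nat.factorial 11 = Nat.choose 11 4 * 24 * 5040 by decide] at hd
    exact Nat.dvd_of_mul_dvd_mul_left (by decide) hd
  rw [one_pow, mul_one] at w2
  rw [w2] at h1 hodd hG
  rw [hG, cube_arith h1 hodd]
  rfl

end Cfsg.Agent.Perm.Hall4
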