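import Mathlib
import Cfsg.Agent.Perm.TWPerm
import Cfsg.Agent.Sym.Basic

/-!
# Knapp's theorem: alternating or symmetric subconstituents
-/

set_option autoImplicit false

namespace Cfsg.Agent.Perm

open Subgroup MulAction Equiv Cfsg.Agent.GT

section Alt

variable {α : Type*} [Fintype α] [DecidableEq α]

theorem alt_le_of_le_normalizer (h5 : 5 ≤ Fintype.card α) {N : Subgroup (Perm α)} (hN : N ≠ ⊥)
    (h : alternatingGroup α ≤ normalizer (N : Set (Perm α))) : alternatingGroup α ≤ N := by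
  have := alternatingGroup.isSimpleGroup (α := α) (by rwa [Nat.card_eq_fintype_card])
  have hn : (N.subgroupOf (alternatingGroup α)).Normal := normal_subgroupOf_of_le_normalizer h
  rcases hn.eq_bot_or_eq_top with h1 | h1
  · refine absurd (eq_bot_iff.2 fun g hg => ?_) hN
    refine Sym.eq_one_of_commute_alternatingGroup (by omega) fun x hx => ?_
    have h2 : x * g * x⁻¹ * g⁻¹ ∈ alternatingGroup α := by
      rw [Perm.mem_alternatingGroup] at hx ⊢
      simp [hx]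
    have h3 : (⟨_, h2⟩ : alternatingGroup α) ∈ N.subgroupOf (alternatingGroup α) :=
      N.mul_mem (Tr.conj_mem_of_mem_normalizer (h hx) hg) (N.inv_mem hg)
    rw [h1] at h3
    have h4 : x * g * x⁻¹ * g⁻¹ = 1 := congrArg Subtype.val h3
    rwa [mul_inv_eq_one, mul_inv_eq_iff_eq_mul] at h4
  · exact subgroupOf_eq_top.1 h1

theorem two_mul_card_alt (h2 : 2 ≤ Fintype.card α) :
    2 * Nat.card (alternatingGroup α) = (Fintype.card α).factorial := by
  have := Fintype.one_lt_card_iff_nontrivial.1 h2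
  rw [two_mul_nat_card_alternatingGroup, Nat.card_perm, Nat.card_eq_fintype_card]

theorem alt_le_iff_card (h2 : 2 ≤ Fintype.card α) {H : Subgroup (Perm α)} :
    alternatingGroup α ≤ H ↔ (Fintype.card α).factorial ≤ 2 * Nat.card H := by
  constructor
  · intro h
    rw [← two_mul_card_alt h2]
    exact Nat.mul_le_mul_left _ (card_le_of_le h)
  · intro h
    apply Perm.alternatingGroup_le_of_index_le_two
    rw [← Nat.card_eq_fintype_card, ← Nat.card_perm, ← H.index_mul_card] at h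
    exact Nat.le_of_mul_le_mul_right h Nat.card_pos

theorem not_isPGroup_of_alt_le (h5 : 5 ≤ Fintype.card α) {H : Subgroup (Perm α)}
    (h : alternatingGroup α ≤ H) {p : ℕ} (hp : p.Prime) : ¬ IsPGroup p H := fun hH => by
  have := Fact.mk hp
  have := alternatingGroup.isSimpleGroup (α := α) (by rwa [Nat.card_eq_fintype_card])
  have h1 := (hH.to_le h).center_nontrivial
  obtain ⟨⟨z, hz⟩, hz1⟩ := exists_ne (1 : center (alternatingGroup α))
  refine hz1 (Subtype.ext (Subtype.ext (Sym.eq_one_of_commute_alternatingGroup (by omega)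
    fun x hx => congrArg Subtype.val (mem_center_iff.1 hz ⟨x, hx⟩))))

end Alt

variable {G : Type*} [Group G]

/-- `X` covers the alternating group under `φ`. -/
def Cov {M : Subgroup G} {d : ℕ} (φ : M →* Perm (Fin d)) (X : Subgroup G) : Prop :=
  alternatingGroup (Fin d) ≤ (X.subgroupOf M).map φ

namespace Cov

variable {M X Y : Subgroup G} {d : ℕ} {φ : M →* Perm (Fin d)}

theorem mono (h : Cov φ X) (hle : X ≤ Y) : Cov φ Y :=
  le_trans h (map_mono (comap_mono hle))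

theorem self_iff : Cov φ M ↔ alternatingGroup (Fin d) ≤ φ.range := by
  rw [Cov, subgroupOf_self, ← MonoidHom.range_eq_map]

theorem exists_eq (h : Cov φ X) {σ : Perm (Fin d)} (hσ : σ ∈ alternatingGroup (Fin d)) :
    ∃ x : M, (x : G) ∈ X ∧ φ x = σ := h hσ

theorem of_normalizer (h5 : 5 ≤ d) (h : Cov φ Y) (hn : Y ≤ normalizer (X : Set G))
    (hX : ¬ X.subgroupOf M ≤ φ.ker) : Cov φ X := by
  refine alt_le_of_le_normalizer (by simpa using h5) (fun e => hX ((Subgroup.map_eq_bot_iff _).1 e))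
    fun σ hσ => ?_
  obtain ⟨y, hy, rfl⟩ := h.exists_eq hσ
  apply Tr.mem_normalizer_of_conj_mem
  rintro _ ⟨x, hx, rfl⟩
  exact ⟨y * x * y⁻¹, Tr.conj_mem_of_mem_normalizer (G := G) (hn hy) hx, by simp⟩

theorem ne_bot (h5 : 5 ≤ d) (h : Cov φ X) : X ≠ ⊥ := by
  rintro rfl
  rw [Cov, bot_subgroupOf, Subgroup.map_bot] at h
  exact not_isPGroup_of_alt_le (by simpa using h5) h Nat.prime_two IsPGroup.of_bot

theorem not_isPGroup (h5 : 5 ≤ d) (h : Cov φ X) {p : ℕ} (hp : p.Prime) : ¬ IsPGroup p X :=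
  fun hX => not_isPGroup_of_alt_le (by simpa using h5) h hp (hX.comap_subtype.map φ)

theorem inf [Finite G] (h5 : 5 ≤ d) (h : Cov φ Y) (hn : Y ≤ normalizer (X : Set G))
    (hX : X.relIndex Y ≤ (d - 1).factorial) : Cov φ (X ⊓ Y) := by
  refine h.of_normalizer h5 (le_normalizer_inf' hn le_normalizer) fun hle => ?_
  have h1 := (alt_le_iff_card (by simp; omega)).1 h
  rw [← relIndex_ker, Fintype.card_fin] at h1
  have h2 : φ.ker.relIndex (Y.subgroupOf M) ≤ X.relIndex Y := by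
    refine (relIndex_le_of_le_left hle index_ne_zero_of_finite).trans ?_
    rw [subgroupOf, subgroupOf, relIndex_comap, map_comap_eq, ← inf_relIndex_right X Y]
    exact relIndex_le_of_le_right inf_le_right index_ne_zero_of_finite
  have h3 := Nat.mul_factorial_pred (n := d) (by omega)
  have h4 := Nat.factorial_pos (d - 1)
  nlinarith

theorem core₂ [Finite G] {M₁ M₂ : Subgroup G} (h5 : 5 ≤ d) (hd : M₁.relIndex M₂ = d)
    (h : Cov φ (coreIn M₁ M₂)) : Cov φ (coreIn M₁ (coreIn M₂ M₁)) := by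
  obtain ⟨Z, hZ, hmin⟩ := exists_minimal_le_of_wellFoundedLT (Cov φ) _ h
  refine hmin.prop.mono fun z hz => mem_coreIn.2 ⟨coreIn_le_left _ _ (hZ hz), fun m hm => ?_⟩
  have h1 : Z.map (MulAut.conj m).toMonoidHom ≤ M₁ ⊓ M₂ := by
    rintro _ ⟨x, hx, rfl⟩
    exact TWPair.subH.le (Tr.conj_mem_of_mem_normalizer (le_normalizer_coreIn _ _ hm) (hZ hx))
  have h2 : Cov φ ((coreIn M₂ M₁).comap (MulAut.conj m).toMonoidHom ⊓ Z) := by
    refine hmin.prop.inf h5 (fun x hx => Tr.mem_normalizer_of_conj_mem fun y hy => ?_) ?_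
    · have := Tr.conj_mem_of_mem_normalizer (le_normalizer_coreIn M₂ M₁ (h1 ⟨x, hx, rfl⟩).2) hy
      simpa [mul_assoc] using this
    · rw [relIndex_comap]
      exact (relIndex_le_of_le_right h1 index_ne_zero_of_finite).trans
        (Nat.le_of_dvd (Nat.factorial_pos _) (hd ▸ relIndex_coreIn_dvd' M₂ M₁))
  exact (hmin.le_of_le h2 inf_le_right hz).1

end Cov

theorem exists_hom_coreIn [Finite G] (M Y : Subgroup G) {d : ℕ} (hd : Y.relIndex M = d) :
    ∃ (φ : M →* Perm (Fin d)) (c : Fin d), φ.ker = (coreIn M Y).subgroupOf M ∧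
      ∀ x, φ x c = c ↔ (x : G) ∈ Y := by
  let e : (M ⧸ Y.subgroupOf M) ≃ Fin d := Finite.equivFinOfCardEq hd
  refine ⟨e.permCongrHom.toMonoidHom.comp (toPermHom M _), e ((1 : M) : _ ⧸ _), ?_, fun x => ?_⟩
  · rw [MonoidHom.ker_comp_of_injective _ _ e.permCongrHom.injective, subgroupOf_coreIn,
      normalCore_eq_ker]
  · rw [← mem_subgroupOf]
    conv_rhs => rw [← stabilizer_quotient (Y.subgroupOf M), mem_stabilizer_iff]
    simp

theorem exists_hom_coreIn' [Finite G] (M Y L : Subgroup G) (hL : L = M ⊓ Y) {d : ℕ}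
    (hd : Y.relIndex M = d) :
    ∃ ρ : L →* Perm (Fin (d - 1)), ρ.ker = (coreIn M Y).subgroupOf L := by
  subst hL
  obtain ⟨φ, c, h1, h2⟩ := exists_hom_coreIn M Y hd
  have e : {i // i ≠ c} ≃ Fin (d - 1) := Finite.equivFinOfCardEq (by simp)
  let f : (M ⊓ Y : Subgroup G) →* Perm (Fin d) := φ.comp (inclusion inf_le_left)
  have hf : ∀ x, f x c = c := fun x => (h2 _).2 x.2.2
  let r : (M ⊓ Y : Subgroup G) →* Perm {i // i ≠ c} :=
    { toFun := fun x => (f x).subtypePerm fun i => by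
        conv_lhs => rw [← hf x]
        simp
      map_one' := by ext; simp
      map_mul' := fun x y => by ext; simp; rfl }
  refine ⟨e.permCongrHom.toMonoidHom.comp r, ?_⟩
  rw [MonoidHom.ker_comp_of_injective _ _ e.permCongrHom.injective]
  ext x
  have : x ∈ (coreIn M Y).subgroupOf (M ⊓ Y) ↔ f x = 1 := by
    change _ ↔ inclusion inf_le_left x ∈ φ.ker
    rw [h1]; rfl
  rw [this, MonoidHom.mem_ker]
  constructor
  · intro h
    ext i
    by_cases hi : i = c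
    · rw [hi, hf]; rfl
    · exact congrArg (fun j : {i // i ≠ c} => ((j : Fin d) : ℕ)) (Equiv.congr_fun h ⟨i, hi⟩)
  · intro h
    ext i
    simp [r, h]

theorem relIndex_eq_card_range {M A : Subgroup G} {H : Type*} [Group H] {φ : M →* H}
    (h : φ.ker = A.subgroupOf M) : A.relIndex M = Nat.card φ.range := by
  rw [relIndex, ← h, index_ker]

theorem relIndex_mul_card_of_le {M A : Subgroup G} (h : A ≤ M) :
    Nat.card A * A.relIndex M = Nat.card M := by
  simpa using relIndex_mul_relIndex ⊥ A M bot_le h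

theorem relIndex_coreIn_eq (M Y : Subgroup G) :
    (coreIn M Y).relIndex M = (coreIn M Y).relIndex (M ⊓ Y) * Y.relIndex M := by
  rw [← relIndex_mul_relIndex _ (M ⊓ Y) M TWPair.subH.le inf_le_left, inf_relIndex_left]

theorem alt_le_range_of_big {M Y L : Subgroup G} (hL : L = M ⊓ Y) {d : ℕ} (h3 : 3 ≤ d)
    (hd : Y.relIndex M = d) (hbig : d.factorial ≤ 2 * (coreIn M Y).relIndex M)
    {ρ : L →* Perm (Fin (d - 1))} (hρ : ρ.ker = (coreIn M Y).subgroupOf L) : Cov ρ L := by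
  rw [Cov.self_iff, alt_le_iff_card (by simp; omega), ← relIndex_eq_card_range hρ, hL,
    Fintype.card_fin]
  rw [relIndex_coreIn_eq, hd, ← Nat.mul_factorial_pred (n := d) (by omega), ← mul_assoc,
    mul_comm d] at hbig
  exact Nat.le_of_mul_le_mul_right hbig (by omega)

namespace TWPair

variable [Finite G] {M₁ M₂ : Subgroup G} (h : TWPair M₁ M₂) {d : ℕ}
include h

theorem pCoreOf_eq_bot_of_big (h6 : 6 ≤ d) (hd : M₂.relIndex M₁ = d)
    (hbig : d.factorial ≤ 2 * (coreIn M₁ M₂).relIndex M₁) {p : ℕ} (hp : p.Prime) :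
    pCoreOf p (M₁ ⊓ M₂) = ⊥ := by
  obtain ⟨ρ, hρ⟩ := exists_hom_coreIn' M₁ M₂ _ rfl hd
  apply h.pCoreOf_inf_eq_bot hp
  by_contra hc
  refine ((alt_le_range_of_big rfl (by omega) hd hbig hρ).of_normalizer (by omega)
    (le_normalizer_pCoreOf _) fun hle => hc fun x hx => ?_).not_isPGroup (by omega) hp
      (isPGroup_pCoreOf p _)
  rw [hρ] at hle
  exact hle (x := ⟨x, pCoreOf_le _ hx⟩) hx

theorem core_le_conj (h5 : 5 ≤ d) (hd : M₂.relIndex M₁ = d)
    (hbig : d.factorial ≤ 2 * (coreIn M₁ M₂).relIndex M₁)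
    (h0 : coreIn M₁ (coreIn M₂ M₁) = ⊥ ∨ coreIn M₂ (coreIn M₁ M₂) = ⊥) {g : G}
    (hg : M₂ = M₁.map (MulAut.conj g).toMonoidHom) :
    coreIn M₂ M₁ ≤ (coreIn M₁ M₂).map (MulAut.conj g).toMonoidHom := by
  obtain ⟨φ, -, hφ, -⟩ := exists_hom_coreIn M₁ M₂ hd
  let f : M₂ →* M₁ := ((MulAut.conj g⁻¹).toMonoidHom.comp M₂.subtype).codRestrict _ fun x => by
    simpa using Tr.mem_map_conj.1 (hg ▸ x.2)
  have hf : Function.Surjective f := fun y =>
    ⟨⟨g * y * g⁻¹, hg ▸ ⟨y, y.2, rfl⟩⟩, Subtype.ext (by simp [f, mul_assoc])⟩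
  have h1 : Cov (φ.comp f) M₂ := by
    rw [Cov.self_iff, MonoidHom.range_comp, MonoidHom.range_eq_top.2 hf, ← MonoidHom.range_eq_map,
      alt_le_iff_card (by simp; omega), ← relIndex_eq_card_range hφ]
    simpa using hbig
  by_contra hc
  have h2 : Cov (φ.comp f) (coreIn M₂ M₁) := by
    refine h1.of_normalizer h5 (le_normalizer_coreIn _ _) fun hle => hc fun x hx => ?_
    have : f ⟨x, coreIn_le_left _ _ hx⟩ ∈ φ.ker := hle (x := ⟨x, coreIn_le_left _ _ hx⟩) hx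
    rw [hφ, mem_subgroupOf] at this
    exact Tr.mem_map_conj.2 (by simpa [f] using this)
  have h3 := h2.core₂ h5 hd
  rcases h0 with h0 | h0
  · exact ((h3.mono (coreIn_le_right _ _)).core₂ h5 (h.relIndex_eq.trans hd)).ne_bot h5 h0
  · exact h3.ne_bot h5 h0

theorem card_core_le (h5 : 5 ≤ d) (hd : M₂.relIndex M₁ = d)
    (hbig : d.factorial ≤ 2 * (coreIn M₁ M₂).relIndex M₁)
    (h0 : coreIn M₁ (coreIn M₂ M₁) = ⊥ ∨ coreIn M₂ (coreIn M₁ M₂) = ⊥) :
    Nat.card (coreIn M₂ M₁) ≤ Nat.card (coreIn M₁ M₂) ∧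
      (coreIn M₁ M₂).relIndex M₁ ≤ (coreIn M₂ M₁).relIndex M₂ := by
  obtain ⟨g, hg⟩ := h.conj
  have h1 := card_le_of_le (h.core_le_conj h5 hd hbig h0 hg)
  rw [Tr.card_map_conj] at h1
  refine ⟨h1, ?_⟩
  have h2 := relIndex_mul_card_of_le (coreIn_le_left M₁ M₂)
  have h3 := relIndex_mul_card_of_le (coreIn_le_left M₂ M₁)
  rw [h.card_eq, ← h2] at h3
  exact Nat.le_of_mul_le_mul_left (h3.ge.trans (Nat.mul_le_mul_right _ h1)) Nat.card_pos

theorem cent_not_le (hF : ∀ p : ℕ, p.Prime → pCoreOf p (M₁ ⊓ M₂) = ⊥)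
    (hc : ∃ g : G, coreIn M₂ M₁ = (coreIn M₁ M₂).map (MulAut.conj g).toMonoidHom)
    (hA : coreIn M₁ M₂ ≠ ⊥) :
    ¬ M₁ ⊓ centralizer (coreIn M₁ M₂ : Set G) ≤ coreIn M₁ M₂ := fun hle => by
  obtain ⟨g, hg⟩ := hc
  have h1 : subgroupLayer (coreIn M₂ M₁) ≤ subgroupLayer (coreIn M₁ M₂) := by
    rw [subgroupLayer_le_iff]
    intro K hK
    have h2 := hK.trans subH'
    have h3 : K ≤ coreIn M₁ M₂ := by
      rcases h2.le_or_le_centralizer subH with h4 | h4
      · exact h4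
      · exact (le_inf (h2.le.trans inf_le_left) h4).trans hle
    exact (h2.mono h3 subH.le).le_subgroupLayer
  have h2 : subgroupLayer (coreIn M₂ M₁) = subgroupLayer (coreIn M₁ M₂) := by
    refine eq_of_le_of_card_ge h1 ?_
    rw [hg, ← map_subgroupLayer_of_injective _ (MulAut.conj g).injective, Tr.card_map_conj]
  have h3 : subgroupLayer (coreIn M₁ M₂) = ⊥ :=
    h.eq_bot ((subgroupLayer_le _).trans (coreIn_le_left _ _))
      ((le_normalizer_coreIn _ _).trans (normalizer_le_normalizer_subgroupLayer _))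
      (h2 ▸ (le_normalizer_coreIn _ _).trans (normalizer_le_normalizer_subgroupLayer _))
  obtain ⟨p, hp, h4⟩ := exists_pCoreOf_ne_bot hA h3
  exact h4 (le_bot_iff.1 (hF p hp ▸ subH.pCoreOf_le))

omit h [Finite G] in
theorem exists_mul_of_cov {φ : M₁ →* Perm (Fin d)} {c : Fin d} (h3 : 3 ≤ d)
    (hc : ∀ x, φ x c = c ↔ (x : G) ∈ M₂) {C : Subgroup G} (hC : Cov φ C) (m : M₁) :
    ∃ x : M₁, (x : G) ∈ C ∧ ((x⁻¹ * m : M₁) : G) ∈ M₂ := by
  have := alternatingGroup.isPretransitive_of_three_le_card (Fin d) (by simpa using h3)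
  obtain ⟨σ, hσ⟩ := exists_smul_eq (alternatingGroup (Fin d)) c (φ m c)
  obtain ⟨x, hx, e⟩ := hC.exists_eq σ.2
  refine ⟨x, hx, (hc _).1 ?_⟩
  rw [map_mul, map_inv, e, Perm.mul_apply, ← hσ]
  exact (σ : Perm (Fin d)).symm_apply_apply c

omit h [Finite G] in
theorem le_normalizer_inf_core {φ : M₁ →* Perm (Fin d)} {c : Fin d} (h3 : 3 ≤ d)
    (hc : ∀ x, φ x c = c ↔ (x : G) ∈ M₂)
    (hC : Cov φ (M₁ ⊓ centralizer (coreIn M₁ M₂ : Set G))) :
    M₁ ≤ normalizer ((coreIn M₁ M₂ ⊓ coreIn M₂ M₁ : Subgroup G) : Set G) := fun m hm => by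
  obtain ⟨x, hx, hy⟩ := exists_mul_of_cov h3 hc hC ⟨m, hm⟩
  have h1 := le_normalizer_of_le_centralizer (inf_le_right.trans
    (centralizer_le (inf_le_left (b := coreIn M₂ M₁)))) hx
  have h2 := le_normalizer_inf' (inf_le_left.trans (le_normalizer_coreIn M₁ M₂))
    (inf_le_right.trans (le_normalizer_coreIn M₂ M₁)) ⟨(x⁻¹ * ⟨m, hm⟩).2, hy⟩
  simpa using mul_mem h1 h2

/-- Knapp's theorem in structural form. -/
theorem knapp (h6 : 6 ≤ d) (hd : M₂.relIndex M₁ = d)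
    (hbig : d.factorial ≤ 2 * (coreIn M₁ M₂).relIndex M₁) (hA : coreIn M₁ M₂ ≠ ⊥) :
    ∃ (φ : M₁ →* Perm (Fin d)) (ψ : M₁ →* Perm (Fin (d - 1))),
      φ.ker = (coreIn M₁ M₂).subgroupOf M₁ ∧ φ.ker ⊓ ψ.ker = ⊥ ∧
      alternatingGroup _ ≤ ψ.ker.map φ ∧ alternatingGroup _ ≤ φ.ker.map ψ ∧
      Nat.card φ.range = Nat.card ψ.range * d := by
  have hF : ∀ p : ℕ, p.Prime → pCoreOf p (M₁ ⊓ M₂) = ⊥ := fun p hp =>
    h.pCoreOf_eq_bot_of_big h6 hd hbig hp
  have h0 := h.core₂_eq_bot_of_pCoreOf hF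
  have hd' := h.relIndex_eq.trans hd
  obtain ⟨l1, l2⟩ := h.card_core_le (by omega) hd hbig h0
  have hbig' := hbig.trans (Nat.mul_le_mul_left 2 l2)
  obtain ⟨l3, l4⟩ := h.symm.card_core_le (by omega) hd' hbig' h0.symm
  obtain ⟨g, hg⟩ := h.conj
  have e1 : coreIn M₂ M₁ = (coreIn M₁ M₂).map (MulAut.conj g).toMonoidHom :=
    eq_of_le_of_card_ge (h.core_le_conj (by omega) hd hbig h0 hg) (by rwa [Tr.card_map_conj])
  have hB : coreIn M₂ M₁ ≠ ⊥ := by
    rwa [e1, Ne, map_eq_bot_iff_of_injective _ (MulAut.conj g).injective]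
  obtain ⟨φ, c, hφ, hc⟩ := exists_hom_coreIn M₁ M₂ hd
  obtain ⟨φ', c', hφ', hc'⟩ := exists_hom_coreIn M₂ M₁ hd'
  have key : ∀ {M N : Subgroup G} {φ : M →* Perm (Fin d)}, φ.ker = (coreIn M N).subgroupOf M →
      d.factorial ≤ 2 * (coreIn M N).relIndex M →
      ¬ M ⊓ centralizer (coreIn M N : Set G) ≤ coreIn M N →
      Cov φ (M ⊓ centralizer (coreIn M N : Set G)) := by
    intro M N φ hφ hb hn
    have h1 : Cov φ M := by
      rw [Cov.self_iff, alt_le_iff_card (by simp; omega), ← relIndex_eq_card_range hφ]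
      simpa using hb
    refine h1.of_normalizer (by omega) (le_normalizer_inf_centralizer (le_normalizer_coreIn _ _))
      fun hle => hn fun x hx => ?_
    rw [hφ] at hle
    exact hle (x := ⟨x, hx.1⟩) hx
  have c1 := key hφ hbig (h.cent_not_le hF ⟨g, e1⟩ hA)
  have c2 := key hφ' hbig' (h.symm.cent_not_le (by rwa [inf_comm])
    ⟨g⁻¹, by rw [e1, Tr.map_conj_inv_map_conj]⟩ hB)
  have hAB : coreIn M₁ M₂ ⊓ coreIn M₂ M₁ = ⊥ :=
    h.eq_bot (inf_le_left.trans (coreIn_le_left _ _)) (le_normalizer_inf_core (by omega) hc c1)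
      (inf_comm (coreIn M₂ M₁) _ ▸ le_normalizer_inf_core (by omega) hc' c2)
  set A := coreIn M₁ M₂ with hAdef
  set B := coreIn M₂ M₁ with hBdef
  set C := M₁ ⊓ centralizer (A : Set G) with hCdef
  obtain ⟨ρ, hρ⟩ := exists_hom_coreIn' M₂ M₁ (M₁ ⊓ M₂) (inf_comm _ _) hd'
  have r1 := alt_le_range_of_big (inf_comm _ _) (by omega) hd' hbig' hρ
  have r2 : Cov ρ A := by
    refine r1.of_normalizer (by omega) (inf_le_left.trans (le_normalizer_coreIn _ _))
      fun hle => hA (le_bot_iff.1 (hAB ▸ le_inf le_rfl fun x hx => ?_))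
    rw [hρ] at hle
    exact hle (x := ⟨x, subH.le hx⟩) hx
  have hBC : B ≤ C := by
    refine le_inf (coreIn_le_right _ _) ?_
    rw [← commutator_eq_bot_iff_le_centralizer, eq_bot_iff, ← hAB, commutator_le]
    intro x hx y hy
    refine ⟨A.mul_mem (Tr.conj_mem_of_mem_normalizer (le_normalizer_coreIn _ _
      (coreIn_le_right _ _ hx)) hy) (A.inv_mem hy), ?_⟩
    have := B.mul_mem hx (Tr.conj_mem_of_mem_normalizer (le_normalizer_coreIn _ _
      (coreIn_le_right _ _ hy)) (B.inv_mem hx))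
    simpa [commutatorElement_def, mul_assoc] using this
  have hCB : ∀ x : (M₁ ⊓ M₂ : Subgroup G), (x : G) ∈ C → (x : G) ∈ B := fun x hx => by
    have : x ∈ ρ.ker := Sym.eq_one_of_commute_alternatingGroup (by simp; omega) fun σ hσ => by
      obtain ⟨y, hy, rfl⟩ := r2.exists_eq hσ
      rw [← map_mul, ← map_mul]
      exact congrArg ρ (Subtype.ext (hx.2 y hy))
    rwa [hρ] at this
  have hCn : (C.subgroupOf M₁).Normal :=
    normal_subgroupOf_of_le_normalizer (le_normalizer_inf_centralizer (le_normalizer_coreIn _ _))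
  let π : (M₁ ⊓ M₂ : Subgroup G) →* M₁ ⧸ C.subgroupOf M₁ :=
    (QuotientGroup.mk' _).comp (inclusion inf_le_left)
  have hdec : ∀ m : M₁, ∃ l : (M₁ ⊓ M₂ : Subgroup G), π l = m := fun m => by
    obtain ⟨x, hx, hy⟩ := exists_mul_of_cov (by omega) hc c1 m
    refine ⟨⟨_, (x⁻¹ * m).2, hy⟩, ?_⟩
    change ((x⁻¹ * m : M₁) : M₁ ⧸ C.subgroupOf M₁) = m
    rw [QuotientGroup.mk_mul, (QuotientGroup.eq_one_iff _).2 (inv_mem (show x ∈ C.subgroupOf M₁
      from hx)), one_mul]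
  have hπ : Function.Surjective π := fun q => by
    obtain ⟨m, rfl⟩ := QuotientGroup.mk_surjective q
    exact hdec m
  have hπk : ∀ x, π x = 1 ↔ (x : G) ∈ C := fun x => QuotientGroup.eq_one_iff _
  let ρ' := π.liftOfSurjective hπ ⟨ρ, fun x hx => hρ ▸ hCB x ((hπk x).1 hx)⟩
  have hρ' : ∀ x, ρ' (π x) = ρ x := fun x => MonoidHom.liftOfRightInverse_comp_apply _ _ _ _ x
  have hψ : ∀ m : M₁, ρ' m = 1 ↔ (m : G) ∈ C := fun m => by
    obtain ⟨l, hl⟩ := hdec m
    rw [← mem_subgroupOf, ← QuotientGroup.eq_one_iff, ← hl, hρ', hπk, ← MonoidHom.mem_ker, hρ]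
    exact ⟨fun h => hBC h, hCB l⟩
  refine ⟨φ, ρ'.comp (QuotientGroup.mk' _), hφ, ?_, ?_, ?_, ?_⟩
  · rw [eq_bot_iff, hφ]
    intro x hx
    have h1 : (x : G) ∈ A ⊓ B := ⟨hx.1, hCB ⟨x, subH.le hx.1⟩ ((hψ x).1 hx.2)⟩
    rw [hAB] at h1
    exact Subtype.ext h1
  · exact le_trans c1 (map_mono fun x hx => (hψ x).2 hx)
  · intro σ hσ
    obtain ⟨y, hy, rfl⟩ := r2.exists_eq hσ
    exact ⟨inclusion inf_le_left y, hφ ▸ hy, hρ' y⟩
  · have e2 : (ρ'.comp (QuotientGroup.mk' _)).range = ρ.range := by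
      apply le_antisymm
      · rintro _ ⟨m, rfl⟩
        obtain ⟨l, hl⟩ := hdec m
        exact ⟨l, by rw [← hρ', hl]; rfl⟩
      · rintro _ ⟨l, rfl⟩
        exact ⟨inclusion inf_le_left l, hρ' l⟩
    rw [e2, ← relIndex_eq_card_range hφ, ← relIndex_eq_card_range hρ, le_antisymm l2 l4,
      relIndex_coreIn_eq, hd', inf_comm]

end TWPair

end Cfsg.Agent.Perm
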