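import Mathlib
import Cfsg.Agent.Perm.PGOW

/-!
# Collineation groups preserving an oval in a plane of odd order
-/

set_option autoImplicit false

namespace Cfsg.Agent.Perm.PG

open Subgroup MulAction

variable {P L : Type*} {I : P → L → Prop} {n : ℕ} {G : Type*} [Group G] [MulAction G P]
  [MulAction G L] {O : Set P}

/-- A collineation group preserving the oval `O` of a plane of odd order. -/
structure Ov (G : Type*) [Group G] [MulAction G P] [MulAction G L] (I : P → L → Prop) (n : ℕ)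
    (O : Set P) : Prop extends Act G I n where
  odd : Odd n
  card : O.ncard = n + 1
  arc : ∀ {l p q r}, p ∈ O → q ∈ O → r ∈ O → I p l → I q l → I r l → p = q ∨ p = r ∨ q = r
  mem : ∀ (g : G) {p}, p ∈ O → g • p ∈ O

/-- `l` is the tangent to `O` at `p`. -/
def Tan (I : P → L → Prop) (O : Set P) (p : P) (l : L) : Prop := I p l ∧ ∀ q ∈ O, I q l → q = p

/-- The fixed points of `g` on `O`. -/
def OF (O : Set P) (g : G) : Set P := {p | p ∈ O ∧ g • p = p}

/-- `t` is an involutory homology. -/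
def IsH (I : P → L → Prop) (t : G) : Prop := ∃ c a, Hm I t c a

namespace Ov

variable (h : Ov G I n O) [Finite P] [Finite L]
include h

theorem tan_card {p : P} (hp : p ∈ O) : {l | Tan I O p l}.ncard = 1 := by
  choose f hf1 hf2 using fun q => h.exists_line p q
  have h1 : {l | Tan I O p l} = {l | I p l} \ f '' (O \ {p}) := by
    ext l
    refine ⟨fun hl => ⟨hl.1, ?_⟩, fun hl => ⟨hl.1, fun q hq hql => ?_⟩⟩
    · rintro ⟨q, hq, rfl⟩
      exact hq.2 (hl.2 q hq.1 (hf2 q))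
    · by_contra hne
      exact hl.2 ⟨q, ⟨hq, hne⟩, h.eq_line hne (hf2 q) (hf1 q) hql hl.1⟩
  have h2 : (f '' (O \ {p})).ncard = n := by
    rw [Set.InjOn.ncard_image fun q hq r hr e => ?_, Set.ncard_sdiff_singleton_of_mem hp, h.card,
      Nat.add_sub_cancel]
    rcases h.arc hp hq.1 hr.1 (hf1 q) (hf2 q) (e ▸ hf2 r) with e | e | e
    exacts [(hq.2 e.symm).elim, (hr.2 e.symm).elim, e]
  rw [h1, Set.ncard_sdiff (by rintro _ ⟨q, -, rfl⟩; exact hf1 q), h2, h.cardP, Nat.add_sub_cancel_left]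

theorem exists_tan {p : P} (hp : p ∈ O) : ∃ l, Tan I O p l := by
  obtain ⟨l, hl⟩ := Set.ncard_eq_one.1 (h.tan_card hp)
  exact ⟨l, (hl ▸ Set.mem_singleton l : l ∈ {l | Tan I O p l})⟩

theorem tan_eq {p : P} (hp : p ∈ O) {l m : L} (hl : Tan I O p l) (hm : Tan I O p m) : l = m := by
  obtain ⟨k, hk⟩ := Set.ncard_eq_one.1 (h.tan_card hp)
  exact (hk ▸ hl : l ∈ ({k} : Set L)).trans (hk ▸ hm : m ∈ ({k} : Set L)).symm

theorem fix_tan {g : G} {p : P} {l : L} (hp : p ∈ O) (hl : Tan I O p l) (e : g • p = p) :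
    g • l = l := by
  refine h.tan_eq hp ⟨h.smul_inc e rfl hl.1, fun q hq hql => ?_⟩ hl
  rw [← e, ← hl.2 _ (h.mem g⁻¹ hq) (h.smul_inc rfl (inv_smul_smul g l) hql), smul_inv_smul]

theorem fix_line_of {g : G} {p : P} {l : L} (hp : p ∈ O) (hl : I p l)
    (e : ∀ q ∈ O, I q l → g • q = q) : g • l = l := by
  by_cases ht : Tan I O p l
  · exact h.fix_tan hp ht (e p hp hl)
  · simp only [Tan, hl, true_and, not_forall] at ht
    obtain ⟨q, hq, hql, hne⟩ := ht
    exact h.fix_line hne hql hl (e q hq hql) (e p hp hl)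

omit [Finite L] in
theorem fix_pt {g : G} {x : P} {F : Set P} (hF : F ⊆ O) (h3 : 2 < F.ncard)
    (hx : ∀ p ∈ F, ∀ l, I x l → I p l → g • l = l) : g • x = x := by
  obtain ⟨p, hp, q, hq, r, hr, h1, h2, h4⟩ := (Set.two_lt_ncard (Set.toFinite F)).1 h3
  obtain ⟨l, hl1, hl2⟩ := h.exists_line x p
  obtain ⟨m, hm1, hm2⟩ := h.exists_line x q
  obtain ⟨k, hk1, hk2⟩ := h.exists_line x r
  by_cases e : l = m
  · refine h.fix_point (fun e' => ?_) hl1 hk1 (hx p hp l hl1 hl2) (hx r hr k hk1 hk2)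
    rcases h.arc (hF hp) (hF hq) (hF hr) hl2 (e ▸ hm2) (e' ▸ hk2) with e | e | e
    exacts [h1 e, h2 e, h4 e]
  · exact h.fix_point e hl1 hm1 (hx p hp l hl1 hl2) (hx q hq m hm1 hm2)

theorem eq_one {g : G} (e : ∀ p ∈ O, g • p = p) : g = 1 :=
  h.faithP g fun _ => h.fix_pt subset_rfl (by rw [h.card]; have := h.two; omega)
    fun _ hp _ _ hl => h.fix_line_of hp hl fun q hq _ => e q hq

theorem centre_notMem {g : G} {c : P} {a : L} (hg : Per I g c a) (h1 : g ≠ 1) : c ∉ O :=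
  fun hc => h1 (h.eq_one fun q hq => by
    obtain ⟨l, h2, h3⟩ := h.exists_line c q
    rcases h.arc hc hq (h.mem g hq) h2 h3 (h.smul_inc rfl (hg.2 l h2) h3) with e | e | e
    · rw [← e, h.fix_centre hg]
    · rw [← h.fix_centre hg, smul_left_cancel_iff] at e
      rw [← e, h.fix_centre hg]
    · exact e.symm)

theorem per_sq {g : G} {c : P} {a : L} (hg : Per I g c a) : g * g = 1 :=
  h.eq_one fun q hq => by
    obtain ⟨l, h2, h3⟩ := h.exists_line c q
    have h4 := h.smul_inc rfl (hg.2 l h2) h3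
    rw [mul_smul]
    rcases h.arc hq (h.mem g hq) (h.mem g (h.mem g hq)) h3 h4 (h.smul_inc rfl (hg.2 l h2) h4)
      with e | e | e
    · rw [← e, ← e]
    · exact e.symm
    · rw [← e, ← (smul_left_cancel_iff g).1 e]

variable [Finite G]

theorem hm_of_per {g : G} {c : P} {a : L} (hg : Per I g c a) (h1 : g ≠ 1) : Hm I g c a := by
  refine ⟨fun hc => ?_, hg, h1, h.per_sq hg⟩
  have := h.orderOf_dvd hc hg
  rw [orderOf_eq_prime (p := 2) (by rw [sq, h.per_sq hg]) h1] at this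
  exact (Nat.not_even_iff_odd.2 h.odd) (even_iff_two_dvd.2 this)

theorem swap {t : G} {c p q : P} {a l : L} (ht : Hm I t c a) (hp : p ∈ O) (hq : q ∈ O)
    (hpq : p ≠ q) (h1 : I p l) (h2 : I q l) (h3 : I c l) : t • p = q := by
  have hc := h.centre_notMem ht.2.1 ht.2.2.1
  have hl := ht.2.1.2 l h3
  rcases h.arc hp hq (h.mem t hp) h1 h2 (h.smul_inc rfl hl h1) with e | e | e
  · exact (hpq e).elim
  · rcases h.arc hp hq (h.mem t hq) h1 h2 (h.smul_inc rfl hl h2) with e' | e' | e'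
    · exact (hpq e').elim
    · exact (hpq ((smul_left_cancel_iff t).1 (e.symm.trans e'))).elim
    · refine (ht.1 ?_).elim
      rwa [h.eq_line hpq ((h.Hm_fix ht e.symm).resolve_left (by rintro rfl; exact hc hp))
        ((h.Hm_fix ht e'.symm).resolve_left (by rintro rfl; exact hc hq)) h1 h2]
  · exact e.symm

theorem eq_of_centre {t t' : G} {c : P} {a a' : L} (ht : Hm I t c a) (ht' : Hm I t' c a') :
    t = t' := by
  refine (inv_mul_eq_one.1 (h.eq_one fun p hp => ?_)).symm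
  rw [mul_smul, inv_smul_eq_iff]
  obtain ⟨l, h1, h2⟩ := h.exists_line c p
  by_cases hl : Tan I O p l
  · rw [hl.2 _ (h.mem t hp) (h.smul_inc rfl (ht.2.1.2 l h1) h2),
      hl.2 _ (h.mem t' hp) (h.smul_inc rfl (ht'.2.1.2 l h1) h2)]
  · simp only [Tan, h2, true_and, not_forall] at hl
    obtain ⟨q, hq, hql, hne⟩ := hl
    rw [h.swap ht hp hq (Ne.symm hne) h2 hql h1, h.swap ht' hp hq (Ne.symm hne) h2 hql h1]

omit h [Finite P] [Finite L] [Finite G] in
theorem _root_.Cfsg.Agent.Perm.PG.Act.conj_hm (h : Act G I n) {t : G} {c : P} {a : L}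
    (ht : Hm I t c a) (g : G) : Hm I (g * t * g⁻¹) (g • c) (g • a) :=
  ⟨by rw [h.inv]; exact ht.1, h.conj_per ht.2.1, by simpa using ht.2.2.1,
    by rw [conj_mul, ht.2.2.2]; simp⟩

omit h [Finite P] [Finite L] [Finite G] in
theorem _root_.Cfsg.Agent.Perm.PG.Act.fix_c (h : Act G I n) {t g : G} {c : P} {a : L}
    (ht : Hm I t c a) (hg : Commute g t) : g • c = c := by
  refine (h.centre_eq ht.2.1 ht.2.2.1 ?_).symm
  have := (h.conj_hm ht g).2.1.2
  rwa [hg.eq, mul_inv_cancel_right] at this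

omit h [Finite P] [Finite L] [Finite G] in
theorem _root_.Cfsg.Agent.Perm.PG.Act.fix_a (h : Act G I n) {t g : G} {c : P} {a : L}
    (ht : Hm I t c a) (hg : Commute g t) : g • a = a := h.dual.fix_c ht.dual hg

theorem eq_of_axis {t t' : G} {c c' : P} {a : L} (ht : Hm I t c a) (ht' : Hm I t' c' a) :
    t = t' := by
  obtain ⟨z, hz⟩ := h.exists_per (g := t * t') (a := a) fun x hx => by
    rw [mul_smul, ht'.2.1.1 x hx, ht.2.1.1 x hx]
  have h1 : Commute t' t := by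
    have := h.per_sq hz
    rw [mul_eq_one_iff_eq_inv, mul_inv_rev, inv_eq_of_mul_eq_one_right ht.2.2.2,
      inv_eq_of_mul_eq_one_right ht'.2.2.2] at this
    exact this.symm
  obtain rfl := (h.Hm_fix ht' (h.fix_c ht h1)).resolve_right ht.1
  exact h.eq_of_centre ht ht'

theorem commute_of_centre {t g : G} {c : P} {a : L} (ht : Hm I t c a) (e : g • c = c) :
    Commute g t :=
  mul_inv_eq_iff_eq_mul.1 (h.eq_of_centre (e ▸ h.conj_hm ht g) ht)

theorem commute_of_axis {t g : G} {c : P} {a : L} (ht : Hm I t c a) (e : g • a = a) :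
    Commute g t :=
  mul_inv_eq_iff_eq_mul.1 (h.eq_of_axis (e ▸ h.conj_hm ht g) ht)

/-- An element fixing pointwise a large subset of the oval invariant under a homology commutes
with the homology. -/
theorem commute_of_fix {t g : G} (ht : IsH I t) {F : Set P} (hF : F ⊆ O) (h3 : 2 < F.ncard)
    (h1 : ∀ p ∈ F, t • p ∈ F) (h2 : ∀ p ∈ F, g • p = p) : Commute g t := by
  obtain ⟨c, a, ht⟩ := ht
  refine h.commute_of_centre ht (h.fix_pt hF h3 fun p hp l hc hl => h.fix_line_of (hF hp) hl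
    fun q hq hql => ?_)
  by_cases e : p = q
  · exact e ▸ h2 p hp
  · exact h2 q (h.swap ht (hF hp) hq e hl hql hc ▸ h1 p hp)

theorem mem_axis {t : G} {c p : P} {a : L} (ht : Hm I t c a) (hp : p ∈ OF O t) : I p a :=
  (h.Hm_fix ht hp.2).resolve_left
    (by rintro rfl; exact h.centre_notMem ht.2.1 ht.2.2.1 hp.1)

theorem OF_le {t : G} (ht : IsH I t) : (OF O t).ncard ≤ 2 := by
  obtain ⟨c, a, ht⟩ := ht
  by_contra hh
  obtain ⟨p, hp, q, hq, r, hr, h1, h2, h4⟩ := (Set.two_lt_ncard (Set.toFinite _)).1 (not_le.1 hh)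
  rcases h.arc hp.1 hq.1 hr.1 (h.mem_axis ht hp) (h.mem_axis ht hq) (h.mem_axis ht hr) with
    e | e | e
  exacts [h1 e, h2 e, h4 e]

theorem eq_of_OF {t t' : G} (ht : IsH I t) (ht' : IsH I t') {p q : P} (hpq : p ≠ q)
    (h1 : p ∈ OF O t) (h2 : q ∈ OF O t) (h3 : p ∈ OF O t') (h4 : q ∈ OF O t') : t = t' := by
  obtain ⟨c, a, ht⟩ := ht
  obtain ⟨c', a', ht'⟩ := ht'
  obtain rfl := h.eq_line hpq (h.mem_axis ht h1) (h.mem_axis ht h2) (h.mem_axis ht' h3)
    (h.mem_axis ht' h4)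
  exact h.eq_of_axis ht ht'

theorem centre_mem {s t : G} {c c' : P} {a a' : L} (hs : Hm I s c a) (ht : Hm I t c' a')
    (hne : s ≠ t) (hc : Commute s t) : I c' a :=
  (h.Hm_fix hs (h.fix_c ht hc)).resolve_left (by rintro rfl; exact hne (h.eq_of_centre hs ht))

theorem isH_or {g : G} (hg : g * g = 1) (h1 : g ≠ 1) : IsH I g ∨ ∃ m, n = m * m ∧
      Plane (fun (x : {x : P // g • x = x}) (l : {l : L // g • l = l}) => I x l) m :=
  (h.baer hg).imp_left fun ⟨c, a, hc⟩ => ⟨c, a, h.hm_of_per hc h1⟩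

theorem isH_mul {s t : G} (hs : IsH I s) (ht : IsH I t) (hne : s ≠ t) (hc : Commute s t) :
    IsH I (s * t) := by
  obtain ⟨c, a, hs⟩ := hs
  obtain ⟨c', a', ht⟩ := ht
  refine (h.isH_or ?_ fun e => hne ?_).resolve_right ?_
  · rw [hc.symm.mul_mul_mul_comm, hs.2.2.2, ht.2.2.2, one_mul]
  · rw [eq_inv_of_mul_eq_one_left e, inv_eq_of_mul_eq_one_right ht.2.2.2]
  rintro ⟨m, -, hm⟩
  have ha : a ≠ a' := by rintro rfl; exact hne (h.eq_of_axis hs ht)
  obtain ⟨w, h1, h2⟩ := h.point a a' ha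
  obtain ⟨z, h3, h4, h5⟩ := hm.third
    ⟨a, by rw [mul_smul, h.fix_a hs hc.symm, h.fix_axis hs.2.1.1]⟩
    ⟨c', by rw [mul_smul, h.fix_centre ht.2.1, h.fix_c ht hc]⟩
    ⟨w, by rw [mul_smul, ht.2.1.1 w h2, hs.2.1.1 w h1]⟩
  have h6 : t • z.1 = z.1 := by
    conv_lhs => rw [← hs.2.1.1 _ h3, ← mul_smul, ← hc.eq, z.2]
  rcases h.Hm_fix ht h6 with e | e
  · exact h4 (Subtype.ext e)
  · exact h5 (Subtype.ext (h.eq_point ha h3 e h1 h2))

theorem no_eight {s t g : G} (hs : IsH I s) (ht : IsH I t) (hne : s ≠ t) (hc : Commute s t)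
    (hg : IsH I g) (h1 : Commute s g) (h2 : Commute t g) : g = s ∨ g = t ∨ g = s * t := by
  obtain ⟨c₃, a₃, h3⟩ := h.isH_mul hs ht hne hc
  obtain ⟨c₁, a₁, hs⟩ := hs
  obtain ⟨c₂, a₂, ht⟩ := ht
  obtain ⟨c, a, hg⟩ := hg
  by_contra hh
  push Not at hh
  have ha : a₁ ≠ a₂ := by rintro rfl; exact hne (h.eq_of_axis hs ht)
  obtain rfl := h.eq_point ha (h.centre_mem hs hg hh.1.symm h1) (h.centre_mem ht hg hh.2.1.symm h2)
    (h.centre_mem hs h3 (by simpa using ht.2.2.1) ((Commute.refl s).mul_right hc))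
    (h.centre_mem ht h3 (by simpa using hs.2.2.1) (hc.symm.mul_right (Commute.refl t)))
  exact hh.2.2 (h.eq_of_centre hg h3)

omit [Finite G] in
theorem lines_card (S : Set G) {p : P} (hp : p ∈ O) (hS : ∀ g ∈ S, g • p = p) :
    {l | I p l ∧ ∀ g ∈ S, g • l = l}.ncard = {q | q ∈ O ∧ ∀ g ∈ S, g • q = q}.ncard := by
  classical
  obtain ⟨k, hk⟩ := h.exists_tan hp
  choose f hf1 hf2 using fun q => h.exists_line p q
  symm
  refine Set.ncard_congr (fun q _ => if q = p then k else f q) (fun q hq => ?_)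
    (fun q r hq hr e => ?_) fun l hl => ?_
  · split_ifs with e
    · exact ⟨hk.1, fun g hg => h.fix_tan hp hk (hS g hg)⟩
    · exact ⟨hf1 q, fun g hg => h.fix_line e (hf2 q) (hf1 q) (hq.2 g hg) (hS g hg)⟩
  · split_ifs at e with e1 e2 e2
    · rw [e1, e2]
    · exact (e2 (hk.2 r hr.1 (e ▸ hf2 r))).elim
    · exact (e1 (hk.2 q hq.1 (e ▸ hf2 q))).elim
    · rcases h.arc hp hq.1 hr.1 (hf1 q) (hf2 q) (e ▸ hf2 r) with e | e | e
      exacts [(e1 e.symm).elim, (e2 e.symm).elim, e]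
  · by_cases ht : Tan I O p l
    · exact ⟨p, ⟨hp, hS⟩, by rw [if_pos rfl, h.tan_eq hp hk ht]⟩
    · simp only [Tan, hl.1, true_and, not_forall] at ht
      obtain ⟨q, hq, hql, hne⟩ := ht
      refine ⟨q, ⟨hq, fun g hg => ?_⟩, by
        rw [if_neg hne]; exact h.eq_line hne (hf2 q) (hf1 q) hql hl.1⟩
      rcases h.arc hp hq (h.mem g hq) hl.1 hql (h.smul_inc rfl (hl.2 g hg) hql) with e | e | e
      · exact (hne e.symm).elim
      · rw [← hS g hg, smul_left_cancel_iff] at e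
        exact (hne e.symm).elim
      · exact e.symm

omit [Finite G] in
theorem OF_card {g : G} {m : ℕ}
    (hm : Plane (fun (x : {x : P // g • x = x}) (l : {l : L // g • l = l}) => I x l) m) {p : P}
    (hp : p ∈ OF O g) : (OF O g).ncard = m + 1 := by
  have := h.lines_card {g} hp.1 (by simpa using hp.2)
  simp only [Set.mem_singleton_iff, forall_eq] at this
  rw [OF, ← this, ← hm.cardP ⟨p, hp.2⟩]
  symm
  exact Set.ncard_congr (fun x _ => x.1) (fun x hx => ⟨hx, x.2⟩) (fun _ _ _ _ => Subtype.ext)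
      fun y hy => ⟨⟨y, hy.2⟩, hy.1, rfl⟩

end Ov

end Cfsg.Agent.Perm.PG
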