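import Mathlib
import Cfsg.Agent.Perm.PGOval
import Cfsg.Agent.GT.PGroupMaxTwo
import Cfsg.Agent.GT.PGroupCyclicNormal
import Cfsg.Agent.GT.TransferSL23
import Cfsg.Agent.Inv.Isolated

/-!
# Baer involutions preserving an oval
-/

set_option autoImplicit false

namespace Cfsg.Agent.Perm.PG

open Subgroup MulAction Fx

variable {P L : Type*} {I : P → L → Prop} {n : ℕ} {G : Type*} [Group G] [MulAction G P]
  [MulAction G L] {O : Set P}

/-- The collineations preserving `O`. -/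
def ColO (I : P → L → Prop) (O : Set P) : Subgroup (Col I) where
  carrier := {σ | ∀ x, σ • x ∈ O ↔ x ∈ O}
  one_mem' := fun x => by rw [one_smul]
  mul_mem' := fun ha hb x => by rw [mul_smul, ha, hb]
  inv_mem' := fun {g} hg x => by rw [← hg, smul_inv_smul]

/-- Incidence in the fixed structure of `g`. -/
abbrev SI (I : P → L → Prop) (g : G) (x : {x : P // g • x = x}) (l : {l : L // g • l = l}) : Prop :=
  I x l

/-- The part of `O` fixed by `g`. -/
abbrev SO (O : Set P) (g : G) : Set {x : P // g • x = x} := {x | x.1 ∈ O}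

/-- The permutation induced on the fixed points of `g`. -/
def cenPerm (X : Type*) [MulAction G X] (g : G) :
    centralizer ({g} : Set G) →* Equiv.Perm {x : X // g • x = x} :=
  MonoidHom.mk' (fun c => (toPerm (c : G)).subtypePerm fun x => by
    rw [toPerm_apply, ← mul_smul, ← mem_centralizer_singleton_iff.1 c.2, mul_smul,
      smul_left_cancel_iff]) fun _ _ => Equiv.ext fun x => Subtype.ext (mul_smul _ _ _)

theorem ncard_SO (g : G) (F : Set P) (hF : ∀ p ∈ F, g • p = p) : (SO F g).ncard = F.ncard :=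
  Set.ncard_congr (fun x _ => x.1) (fun _ hx => hx) (fun _ _ _ _ => Subtype.ext)
    fun y hy => ⟨⟨y, hF y hy⟩, hy, rfl⟩

namespace Ov

variable (h : Ov G I n O)
include h

theorem exists_ind (g : G) : ∃ ρ : centralizer ({g} : Set G) →* ColO (SI I g) (SO O g),
    (∀ c (x : {x : P // g • x = x}), (ρ c • x).1 = (c : G) • x.1) ∧
      ∀ c (x : {x : L // g • x = x}), (ρ c • x).1 = (c : G) • x.1 :=
  ⟨(((cenPerm P g).prod (cenPerm L g)).codRestrict (Col (SI I g))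
    fun c (x : {x : P // g • x = x}) (l : {x : L // g • x = x}) => h.inv c x.1 l.1).codRestrict _
    fun c (x : {x : P // g • x = x}) =>
      ⟨fun hx => by simpa using h.mem (c : G)⁻¹ (p := (c : G) • x.1) hx, h.mem c⟩,
    fun _ _ => rfl, fun _ _ => rfl⟩

variable [Finite P] [Finite L]

theorem sub_ov {g : G} {m : ℕ} (hn : n = m * m) (hm : Plane (SI I g) m) {p : P}
    (hp : p ∈ OF O g) : Ov (ColO (SI I g) (SO O g)) (SI I g) m (SO O g) where
  toPlane := hm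
  inv c := hm.act.inv c.1
  faithP c hc := Subtype.ext (hm.act.faithP c.1 hc)
  faithL c hc := Subtype.ext (hm.act.faithL c.1 hc)
  odd := (Nat.odd_mul.1 (hn ▸ h.odd)).1
  card := by
    rw [← h.OF_card hm hp, ← ncard_SO g (OF O g) fun _ hp => hp.2]
    congr 1
    ext x
    exact ⟨fun hx => ⟨hx, x.2⟩, fun hx => hx.1⟩
  arc h1 h2 h3 h4 h5 h6 := by simpa only [Subtype.ext_iff] using h.arc h1 h2 h3 h4 h5 h6
  mem c _ hp := (c.2 _).2 hp

omit [Finite P] [Finite L] in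
theorem exists_line_swap {g : G} (hg : g * g = 1) {p : P} (hp : g • p ≠ p) :
    ∃ l, I p l ∧ I (g • p) l ∧ g • l = l := by
  obtain ⟨l, h1, h2⟩ := h.line _ _ hp
  exact ⟨l, h2, h1, h.eq_line hp (h.smul_inc rfl rfl h2)
    (h.smul_inc (by rw [← mul_smul, hg, one_smul]) rfl h1) h1 h2⟩

variable [Finite G]

theorem eq_of_fix_sub {g c : G} (hg : g * g = 1) {m : ℕ} (hn : n = m * m) (hm : Plane (SI I g) m)
    {p : P} (hp : p ∈ OF O g) (hc : ∀ x : P, g • x = x → c • x = x) : c = 1 ∨ c = g := by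
  have h1 : ∀ q ∈ O, c • q = q ∨ c • q = g • q := fun q hq => by
    by_cases e : g • q = q
    · exact Or.inl (hc q e)
    obtain ⟨l, h1, h2, h3⟩ := h.exists_line_swap hg e
    obtain ⟨u, hu, -⟩ := hm.third ⟨l, h3⟩ ⟨p, hp.2⟩ ⟨p, hp.2⟩
    obtain ⟨v, hv, hvu, -⟩ := hm.third ⟨l, h3⟩ u u
    have h4 := h.fix_line (Subtype.val_injective.ne hvu) hv hu (hc _ v.2) (hc _ u.2)
    rcases h.arc hq (h.mem g hq) (h.mem c hq) h1 h2 (h.smul_inc rfl h4 h1) with e' | e' | e'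
    exacts [(e e'.symm).elim, Or.inl e'.symm, Or.inr e'.symm]
  have h2 : c * c = 1 := h.eq_one fun q hq => by
    rw [mul_smul]
    rcases h1 q hq with e | e
    · rw [e, e]
    · rcases h1 _ (h.mem c hq) with e' | e'
      · rw [e', (smul_left_cancel_iff c).1 e']
      · rw [e', e, ← mul_smul, hg, one_smul]
  refine or_iff_not_imp_left.2 fun hc1 => ?_
  have h3 : OF O g ⊆ OF O c := fun q hq => ⟨hq.1, hc q hq.2⟩
  have h4 := h.OF_card hm hp
  have h5 := Set.ncard_le_ncard h3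
  obtain ⟨m', hn', hm'⟩ := (h.isH_or h2 hc1).resolve_left fun hH => by
    have := h.OF_le hH
    have := hm.two
    omega
  have h6 := Set.eq_of_subset_of_ncard_le h3 (by
    rw [h4, h.OF_card hm' (h3 hp), Nat.mul_self_inj.1 (hn.symm.trans hn')])
  refine inv_mul_eq_one.1 (h.eq_one fun q hq => ?_) |>.symm
  rw [mul_smul, inv_smul_eq_iff]
  refine (h1 q hq).elim (fun e => ?_) id
  rw [e, (h6 ▸ ⟨hq, e⟩ : q ∈ OF O g).2]

theorem fixL_le {g : G} (hg : g * g = 1) (h1 : g ≠ 1) : 2 * {l : L | g • l = l}.ncard ≤ 3 * n + 1 := by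
  have hn := h.two
  obtain ⟨k, hk⟩ := h.odd
  rcases h.isH_or hg h1 with ⟨c, a, hc⟩ | ⟨m, e, hm⟩
  · have h2 : {l : L | g • l = l} ⊆ insert a {l | I c l} := fun l hl => h.dual.Hm_fix hc.dual hl
    have h3 := (Set.ncard_le_ncard h2).trans (Set.ncard_insert_le _ _)
    rw [h.cardP] at h3
    omega
  · have h2 := hm.act.dual.card_P
    have h3 := hm.two
    obtain ⟨j, hj⟩ := (Nat.odd_mul.1 (e ▸ h.odd)).1
    change 2 * Nat.card {l : L // g • l = l} ≤ _
    rw [h2, e]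
    nlinarith [show 3 ≤ m by omega]

omit [Finite P] [Finite L] [Finite G] in
theorem exists_line_four {u v : G} (hv : v * v = 1) (hc : Commute u v) {p : P} (hp : p ∈ OF O u)
    (e : v • p ≠ p) : ∃ l, I p l ∧ u • l = l ∧ v • l = l ∧ ∀ q ∈ OF O v, ¬ I q l := by
  obtain ⟨l, h1, h2, h3⟩ := h.exists_line_swap hv e
  refine ⟨l, h1, h.fix_line e h2 h1 (by rw [← mul_smul, hc.eq, mul_smul, hp.2]) hp.2, h3,
    fun q hq hl => ?_⟩
  rcases h.arc hp.1 (h.mem v hp.1) hq.1 h1 h2 hl with e' | e' | e'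
  · exact e e'.symm
  · exact e (e' ▸ hq.2)
  · exact e (by rw [← hq.2, smul_left_cancel_iff] at e'; rw [e', hq.2])

omit [Finite G] in
theorem ncard_le_two_mul {X : Set P} {Y : Set L} (hX : X ⊆ O) (hY : ∀ p ∈ X, ∃ l ∈ Y, I p l) :
    X.ncard ≤ 2 * Y.ncard := by
  classical
  have := h.neL
  choose! f hf1 hf2 using hY
  rw [Set.ncard_eq_toFinset_card X, Set.ncard_eq_toFinset_card Y]
  refine Finset.card_le_mul_card_image_of_maps_to (f := f) (by simpa using hf1) 2 fun l _ => ?_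
  by_contra hh
  obtain ⟨p, q, r, hp, hq, hr, h1, h2, h3⟩ := Finset.two_lt_card_iff.1 (not_le.1 hh)
  simp only [Finset.mem_filter, Set.Finite.mem_toFinset] at hp hq hr
  rcases h.arc (hX hp.1) (hX hq.1) (hX hr.1) (hp.2 ▸ hf2 p hp.1) (hq.2 ▸ hf2 q hq.1)
    (hr.2 ▸ hf2 r hr.1) with e | e | e
  exacts [h1 e, h2 e, h3 e]

/-- There is no four-group of Baer involutions. -/
theorem no_four {u v : G} (hu : u * u = 1) (hv : v * v = 1) (hc : Commute u v) (hne : u ≠ v)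
    (h1 : 2 < (OF O u).ncard) (h2 : 2 < (OF O v).ncard) (h3 : 2 < (OF O (u * v)).ncard)
    (hu1 : u ≠ 1) (hv1 : v ≠ 1) : False := by
  have key : ∀ g : G, g * g = 1 → g ≠ 1 → 2 < (OF O g).ncard → ∃ m, n = m * m ∧
      Plane (SI I g) m ∧ (OF O g).ncard = m + 1 ∧ ∃ p, p ∈ OF O g := fun g a1 a2 a3 => by
    obtain ⟨m, e, hm⟩ := (h.isH_or a1 a2).resolve_left fun hH => by have := h.OF_le hH; omega
    obtain ⟨p, hp⟩ := Set.nonempty_of_ncard_ne_zero (s := OF O g) (by omega)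
    exact ⟨m, e, hm, h.OF_card hm hp, p, hp⟩
  have huv : u * v * (u * v) = 1 := by rw [hc.symm.mul_mul_mul_comm, hu, hv, one_mul]
  obtain ⟨m, e1, hm, c1, p, hp⟩ := key u hu hu1 h1
  obtain ⟨m2, e2, -, c2, -⟩ := key v hv hv1 h2
  obtain ⟨m3, e3, -, c3, -⟩ := key _ huv (fun e => hne (by
    rw [eq_inv_of_mul_eq_one_left e, inv_eq_of_mul_eq_one_right hv])) h3
  obtain rfl := Nat.mul_self_inj.1 (e1.symm.trans e2)
  obtain rfl := Nat.mul_self_inj.1 (e1.symm.trans e3)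
  obtain ⟨ρ, hρ1, hρ2⟩ := h.exists_ind u
  set v' : centralizer ({u} : Set G) := ⟨v, mem_centralizer_singleton_iff.2 hc.symm⟩
  have b1 := (h.sub_ov e1 hm hp).fixL_le (g := ρ v')
    (by rw [← map_mul, show v' * v' = 1 from Subtype.ext hv, map_one]) fun e => by
      rcases h.eq_of_fix_sub hu e1 hm hp (c := v) fun x hx => by
        simpa [e] using (hρ1 v' ⟨x, hx⟩).symm with e | e
      exacts [hv1 e, hne e.symm]
  set F : Set P := {q | q ∈ O ∧ ∀ g ∈ ({u, v} : Set G), g • q = q} with hF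
  set A : Set L := {l | ∀ g ∈ ({u, v} : Set G), g • l = l} with hA
  have b2 : {l : {x : L // u • x = x} | ρ v' • l = l}.ncard = A.ncard :=
    Set.ncard_congr (fun x _ => x.1) (fun x hx => by
      simpa [hA, x.2] using (hρ2 v' x).symm.trans (congrArg Subtype.val hx))
      (fun _ _ _ _ => Subtype.ext) fun y hy => by
        simp only [hA, Set.mem_ofPred_eq, Set.mem_insert_iff, Set.mem_singleton_iff,
          forall_eq_or_imp, forall_eq] at hy
        exact ⟨⟨y, hy.1⟩, Subtype.ext ((hρ2 _ _).trans hy.2), rfl⟩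
  have b3 := Set.ncard_inter_add_ncard_sdiff_eq_ncard A {l | ∃ q ∈ F, I q l}
  have m1 : ∀ q, q ∈ F ↔ q ∈ O ∧ u • q = q ∧ v • q = q := fun q => by
    simp only [hF, Set.mem_ofPred_eq, Set.mem_insert_iff, Set.mem_singleton_iff,
      forall_eq_or_imp, forall_eq]
  have m2 : ∀ q, q ∈ A ↔ u • q = q ∧ v • q = q := fun q => by simp [hA]
  have b4 : 3 * F.ncard ≤ 2 * (A ∩ {l | ∃ q ∈ F, I q l}).ncard + 1 := by
    have c : ∀ q ∈ F, {l | I q l ∧ l ∈ A}.ncard = F.ncard := fun q hq =>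
      h.lines_card {u, v} hq.1 hq.2
    have d : ∀ q ∈ F, {l | I q l ∧ l ∈ A} ⊆ A ∩ {l | ∃ q ∈ F, I q l} :=
      fun q hq l hl => ⟨hl.2, q, hq, hl.1⟩
    rcases lt_trichotomy F.ncard 1 with e | e | e
    · omega
    · obtain ⟨q, hq⟩ := Set.nonempty_of_ncard_ne_zero (s := F) (by omega)
      have := Set.ncard_le_ncard (d q hq)
      have := c q hq
      omega
    · obtain ⟨q, r, hq, hr, hqr⟩ := (Set.one_lt_ncard_iff (Set.toFinite F)).1 e
      have a1 := Set.ncard_le_ncard (Set.union_subset (d q hq) (d r hr))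
      have a2 := Set.ncard_union_add_ncard_inter {l | I q l ∧ l ∈ A} {l | I r l ∧ l ∈ A}
      have a3 : ({l | I q l ∧ l ∈ A} ∩ {l | I r l ∧ l ∈ A}).ncard ≤ 1 :=
        (Set.ncard_le_one (Set.toFinite _)).2 fun a ha b hb =>
          h.eq_line hqr ha.1.1 ha.2.1 hb.1.1 hb.2.1
      have := c q hq
      have := c r hr
      omega
  have b5 := h.ncard_le_two_mul (X := (OF O u \ F) ∪ (OF O v \ F) ∪ (OF O (u * v) \ F))
    (Y := A \ {l | ∃ q ∈ F, I q l}) (by rintro q ((hq | hq) | hq) <;> exact hq.1.1) (by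
      rintro q ((hq | hq) | hq)
      · obtain ⟨l, a1, a2, a3, a4⟩ := h.exists_line_four hv hc hq.1
          fun e => hq.2 ((m1 q).2 ⟨hq.1.1, hq.1.2, e⟩)
        exact ⟨l, ⟨(m2 l).2 ⟨a2, a3⟩, fun ⟨r, hr, hl⟩ => a4 r ⟨hr.1, ((m1 r).1 hr).2.2⟩ hl⟩, a1⟩
      · obtain ⟨l, a1, a2, a3, a4⟩ := h.exists_line_four hu hc.symm hq.1
          fun e => hq.2 ((m1 q).2 ⟨hq.1.1, e, hq.1.2⟩)
        exact ⟨l, ⟨(m2 l).2 ⟨a3, a2⟩, fun ⟨r, hr, hl⟩ => a4 r ⟨hr.1, ((m1 r).1 hr).2.1⟩ hl⟩, a1⟩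
      · obtain ⟨l, a1, a2, a3, a4⟩ := h.exists_line_four hv (hc.mul_left (Commute.refl v)) hq.1
          fun e => hq.2 ((m1 q).2 ⟨hq.1.1, by simpa [mul_smul, e] using hq.1.2, e⟩)
        exact ⟨l, ⟨(m2 l).2 ⟨by simpa [mul_smul, a3] using a2, a3⟩,
          fun ⟨r, hr, hl⟩ => a4 r ⟨hr.1, ((m1 r).1 hr).2.2⟩ hl⟩, a1⟩)
  rw [Set.ncard_union_eq (Set.disjoint_left.2 ?_), Set.ncard_union_eq (Set.disjoint_left.2 ?_)]
    at b5
  · have d1 := Set.ncard_sdiff_add_ncard_of_subset (s := F) (t := OF O u)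
      fun q hq => ⟨hq.1, ((m1 q).1 hq).2.1⟩
    have d2 := Set.ncard_sdiff_add_ncard_of_subset (s := F) (t := OF O v)
      fun q hq => ⟨hq.1, ((m1 q).1 hq).2.2⟩
    have d3 := Set.ncard_sdiff_add_ncard_of_subset (s := F) (t := OF O (u * v))
      fun q hq => ⟨hq.1, by rw [mul_smul, ((m1 q).1 hq).2.2, ((m1 q).1 hq).2.1]⟩
    omega
  · exact fun q a b => a.2 ((m1 q).2 ⟨a.1.1, a.1.2, b.1.2⟩)
  · rintro q (a | a) b
    · refine a.2 ((m1 q).2 ⟨a.1.1, a.1.2, ?_⟩)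
      have := b.1.2
      rwa [hc.eq, mul_smul, a.1.2] at this
    · refine a.2 ((m1 q).2 ⟨a.1.1, ?_, a.1.2⟩)
      have := b.1.2
      rwa [mul_smul, a.1.2] at this

theorem invol_eq {K : Subgroup G} (hK : IsPGroup 2 K) {F : Set P} (hF : F ⊆ O) (h3 : 2 < F.ncard)
    (hf : ∀ k ∈ K, ∀ p ∈ F, k • p = p) {u v : G} (hu : u ∈ K) (hv : v ∈ K) (hu2 : orderOf u = 2)
    (hv2 : orderOf v = 2) : u = v := by
  obtain ⟨z, hz, hz2, hc⟩ := Inv.exists_central_of_isPGroup hK (by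
    rintro rfl; simp [mem_bot.1 hu] at hu2)
  have a : ∀ k ∈ K, 2 < (OF O k).ncard := fun k hk =>
    h3.trans_le (Set.ncard_le_ncard fun p hp => ⟨hF hp, hf k hk p hp⟩)
  have b : ∀ k ∈ K, orderOf k = 2 → k = z := fun k hk hk2 => by
    by_contra hne
    exact h.no_four (Inv.iso_mul_self_of_orderOf hk2) (Inv.iso_mul_self_of_orderOf hz2) (hc k hk)
      hne (a k hk) (a z hz) (a _ (K.mul_mem hk hz)) (Inv.iso_ne_one_of_orderOf hk2)
      (Inv.iso_ne_one_of_orderOf hz2)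
  rw [b u hu hu2, b v hv hv2]

/-- A 2-group fixing three points of the oval is cyclic. -/
theorem isCyclic {K : Subgroup G} (hK : IsPGroup 2 K) {F : Set P} (hF : F ⊆ O) (h3 : 2 < F.ncard)
    (hf : ∀ k ∈ K, ∀ p ∈ F, k • p = p) : IsCyclic K := by
  have u1 : ∀ a b : K, orderOf a = 2 → orderOf b = 2 → a = b := fun a b ha hb => Subtype.ext
    (h.invol_eq hK hF h3 hf a.2 b.2 (by simpa using ha) (by simpa using hb))
  refine (GT.PG.isCyclic_or_quaternion_of_pRankLE_one hK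
    (GT.Tr.pRankLE_one_of_unique_involution u1)).resolve_right ?_
  rintro ⟨-, k, hk, ⟨e⟩⟩
  obtain ⟨a, b, M, r1, r2⟩ := GT.PG.exists_maxTwo_of_quaternion hk e
  set z := a ^ 2 ^ k
  have z2 : (z : G) * z = 1 := congrArg Subtype.val (Inv.iso_mul_self_of_orderOf M.orderOf_z)
  have z3 : 2 < (OF O (z : G)).ncard :=
    h3.trans_le (Set.ncard_le_ncard fun p hp => ⟨hF hp, hf _ z.2 p hp⟩)
  obtain ⟨m, e1, hm⟩ := (h.isH_or z2 (by simpa using M.z_ne_one)).resolve_left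
    fun hH => by have := h.OF_le hH; omega
  obtain ⟨p, hp⟩ := Set.nonempty_of_ncard_ne_zero (s := OF O (z : G)) (by omega)
  obtain ⟨ρ, hρ, -⟩ := h.exists_ind (z : G)
  have hle : K ≤ centralizer {(z : G)} := fun x hx => mem_centralizer_singleton_iff.2
    (congrArg Subtype.val (mem_center_iff.1 M.z_mem_center ⟨x, hx⟩))
  set φ := ρ.comp (inclusion hle)
  have hφ : ∀ x : K, φ x = 1 → x ^ 2 = 1 := fun x hx => by
    rcases h.eq_of_fix_sub z2 e1 hm hp (c := x) fun y hy => by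
        have := (hρ (inclusion hle x) ⟨y, hy⟩).symm
        rwa [show ρ (inclusion hle x) = 1 from hx] at this with e | e
    · rw [show x = 1 from Subtype.ext e, one_pow]
    · rw [show x = z from Subtype.ext e, M.z_sq]
  have hz : φ z = 1 := (h.sub_ov e1 hm hp).faithP _ fun x => Subtype.ext ((hρ _ x).trans x.2)
  have ho : ∀ x : K, x ^ 2 = z → orderOf (φ x) = 2 := fun x hx =>
    orderOf_eq_prime (by rw [← map_pow, hx, hz]) fun e => M.z_ne_one (hx.symm.trans (hφ x e))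
  have := (h.sub_ov e1 hm hp).invol_eq (K := φ.range)
    (hK.of_surjective _ φ.rangeRestrict_surjective) (F := SO F (z : G)) (fun _ hx => hF hx)
    (by rwa [ncard_SO _ _ (hf _ z.2)]) (by
      rintro _ ⟨x, rfl⟩ q hq
      exact Subtype.ext ((hρ _ q).trans (hf _ x.2 _ hq))) ⟨b, rfl⟩ ⟨a * b, rfl⟩ (ho b r1)
    (ho _ (by rw [← r1, sq, sq, mul_assoc, ← mul_assoc b, mul_inv_eq_iff_eq_mul.1 r2]; group))
  have h4 := orderOf_dvd_of_pow_eq_one (hφ a (by simpa using this))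
  rw [M.orderOf_eq, pow_succ] at h4
  have := Nat.le_of_dvd two_pos h4
  have := Nat.one_lt_two_pow (n := k) (by omega)
  omega

end Ov

end Cfsg.Agent.Perm.PG
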