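import Mathlib
import Cfsg.Agent.Perm.PGOval2

/-!
# Ovals: parity and products of homologies
-/

set_option autoImplicit false

namespace Cfsg.Agent.Perm.PG

open Subgroup MulAction Fx

variable {P L : Type*} {I : P → L → Prop} {n : ℕ} {G : Type*} [Group G] [MulAction G P]
  [MulAction G L] {O : Set P}

theorem IsH.conj (h : Act G I n) {t : G} (ht : IsH I t) (g : G) : IsH I (g * t * g⁻¹) := by
  obtain ⟨c, a, ht⟩ := ht
  exact ⟨_, _, h.conj_hm ht g⟩

theorem IsH.sq {t : G} (ht : IsH I t) : t * t = 1 := by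
  obtain ⟨c, a, ht⟩ := ht
  exact ht.2.2.2

theorem IsH.ne {t : G} (ht : IsH I t) : t ≠ 1 := by
  obtain ⟨c, a, ht⟩ := ht
  exact ht.2.2.1

theorem smul_eq_of_odd {g : G} {p : P} (hg : Odd (orderOf g)) (e : g • g • p = p) : g • p = p := by
  obtain ⟨j, hj⟩ := Inv.iso_exists_half hg
  rw [← hj, pow_mul]
  exact (stabilizer G p).pow_mem (show g ^ 2 • p = p by rw [sq, mul_smul, e]) j

namespace Ov

variable (h : Ov G I n O)
include h

theorem smul_OF {t : G} (g : G) {p : P} (hp : p ∈ OF O t) : g • p ∈ OF O (g * t * g⁻¹) :=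
  ⟨h.mem g hp.1, by rw [mul_smul, mul_smul, inv_smul_smul, hp.2]⟩

theorem smul_OF' {t g : G} (hc : Commute g t) {p : P} (hp : p ∈ OF O t) : g • p ∈ OF O t :=
  ⟨h.mem g hp.1, by rw [← mul_smul, ← hc.eq, mul_smul, hp.2]⟩

variable [Finite P] [Finite L]

omit [Finite L] in
theorem parity (hG : commutator G = ⊤) {t : G} (ht : t * t = 1) :
    (OF O t).ncard % 4 = (n + 1) % 4 := by
  classical
  let X : SubMulAction G P := ⟨O, fun g _ hp => h.mem g hp⟩
  have := Fintype.ofFinite X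
  have h1 : Equiv.Perm.sign (toPermHom G X t) = 1 :=
    Abelianization.commutator_subset_ker (Equiv.Perm.sign.comp (toPermHom G X)) (hG ▸ mem_top t)
  have h2 : toPermHom G X t ^ 2 = 1 := by rw [← map_pow, sq, ht, map_one]
  have h3 := Equiv.Perm.card_fixedPoints_modEq (α := X) (f := ⇑(toPermHom G X t)) (p := 2) (n := 1)
    (funext fun x => (congrArg (fun σ : Equiv.Perm X => σ x) h2 :))
  have h4 : Fintype.card (Function.fixedPoints (toPermHom G X t)) = (OF O t).ncard := by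
    rw [← Nat.card_eq_fintype_card]
    exact Set.ncard_congr (fun x _ => x.1) (fun x hx => ⟨x.2, congrArg Subtype.val hx⟩)
      (fun _ _ _ _ => Subtype.ext) fun y hy => ⟨⟨y, hy.1⟩, Subtype.ext hy.2, rfl⟩
  have h5 : Fintype.card X = n + 1 := by rw [← Nat.card_eq_fintype_card]; exact h.card
  have h6 : (OF O t).ncard ≤ n + 1 := h.card ▸ Set.ncard_le_ncard fun _ hp => hp.1
  rw [Equiv.Perm.sign_of_pow_two_eq_one h2, neg_one_pow_eq_one_iff_even (by decide), h4, h5] at h1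
  change _ % 2 = Fintype.card (Function.fixedPoints (toPermHom G X t)) % 2 at h3
  rw [h4, h5] at h3
  obtain ⟨k, hk⟩ := h1
  omega

variable [Finite G]

omit [Finite L] in
theorem four_dvd {w t : G} {c p : P} {a : L} (ht : Hm I t c a) (hw : w * w = t) (hp : I p a)
    (e : w • p = p) : n % 4 = 1 := by
  classical
  have hc : w • c = c := h.fix_c ht (hw ▸ (Commute.refl w).mul_right (Commute.refl w))
  have hcp : c ≠ p := by rintro rfl; exact ht.1 hp
  obtain ⟨l, h1, h2⟩ := h.line c p hcp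
  have hl := h.fix_line hcp h1 h2 hc e
  have ho : orderOf w = 4 := orderOf_eq_prime_pow (p := 2) (n := 1)
    (by rw [pow_one, sq, hw]; exact ht.2.2.1)
    (by rw [show 2 ^ (1 + 1) = 2 * 2 by norm_num, pow_mul, sq, sq, hw, ht.2.2.2])
  have h3 := card_dvd_of_semiregular (zpowers w) (({x | I x l} \ {c}) \ {p}) (fun g hg x hx =>
    ⟨⟨h.smul_inc rfl ((zpowers_le (H := stabilizer G l)).2 hl hg) hx.1.1, fun e' => hx.1.2
      ((smul_left_cancel_iff g).1 (e'.trans ((zpowers_le (H := stabilizer G c)).2 hc hg).symm))⟩,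
      fun e' => hx.2 ((smul_left_cancel_iff g).1
        (e'.trans ((zpowers_le (H := stabilizer G p)).2 e hg).symm))⟩) fun g hg x hx e' => by
    have ht' : t • x ≠ x := fun e => (h.Hm_fix ht e).elim hx.1.2 fun e => hx.2
      (h.eq_point (by rintro rfl; exact ht.1 h1) hx.1.1 e h2 hp)
    obtain ⟨k, hk, rfl⟩ := Finset.mem_image.1 (mem_zpowers_iff_mem_range_orderOf.1 hg)
    rw [ho, Finset.mem_range] at hk
    have h4 : w ^ 4 = 1 := ho ▸ pow_orderOf_eq_one w
    interval_cases k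
    · exact pow_zero w
    · exact (ht' (by rw [pow_one] at e'; rw [← hw, mul_smul, e', e'])).elim
    · exact (ht' (by rwa [← hw, ← sq])).elim
    · refine (ht' ?_).elim
      rw [← hw, ← one_mul (w * w), ← h4, show w ^ 4 * (w * w) = w ^ 3 * w ^ 3 by group, mul_smul,
        e', e']
  rw [Nat.card_zpowers, ho, Nat.card_coe_set_eq, Set.ncard_sdiff_singleton_of_mem
    (s := {x | I x l} \ {c}) ⟨h2, hcp.symm⟩, h.ncard_sdiff h1] at h3
  have := h.two
  omega

omit [Finite P] [Finite L] [Finite G] in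
theorem prod_fix {s t : G} {c c' x : P} {a a' k : L} (hs : Hm I s c a) (ht : Hm I t c' a')
    (hcc : c ≠ c') (h1 : I c k) (h2 : I c' k) (e : (s * t) • x = x) :
    I x k ∨ (I x a ∧ I x a') := by
  have e1 : s • x = t • x := by
    conv_lhs => rw [← e, ← mul_smul, ← mul_assoc, hs.2.2.2, one_mul]
  by_cases e2 : s • x = x
  · rcases h.Hm_fix hs e2 with rfl | h3
    · exact Or.inl h1
    · exact (h.Hm_fix ht (e1 ▸ e2)).imp (fun e : x = c' => e ▸ h2) fun h4 => ⟨h3, h4⟩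
  · obtain ⟨l, h3, h4⟩ := h.exists_line x c
    obtain ⟨m, h5, h6⟩ := h.exists_line x c'
    obtain rfl := h.eq_line e2 (h.smul_inc rfl (hs.2.1.2 l h4) h3) h3
      (e1 ▸ h.smul_inc rfl (ht.2.1.2 m h6) h5) h5
    exact Or.inl (h.eq_line hcc h4 h6 h1 h2 ▸ h3)

theorem not_both {s t : G} (hs : IsH I s) (ht : IsH I t) (hne : s ≠ t) (hc : Commute s t) {p : P}
    (h1 : p ∈ OF O s) (h2 : p ∈ OF O t) : False := by
  obtain ⟨c₃, a₃, h3⟩ := h.isH_mul hs ht hne hc
  obtain ⟨c₁, a₁, hs⟩ := hs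
  obtain ⟨c₂, a₂, ht⟩ := ht
  have ha : a₁ ≠ a₂ := by rintro rfl; exact hne (h.eq_of_axis hs ht)
  exact h.centre_notMem h3.2.1 h3.2.2.1 (h.eq_point ha (h.mem_axis hs h1) (h.mem_axis ht h2)
    (h.centre_mem hs h3 (by simpa using ht.2.2.1) ((Commute.refl s).mul_right hc))
    (h.centre_mem ht h3 (by simpa using hs.2.2.1) (hc.symm.mul_right (Commute.refl t))) ▸ h1.1)

theorem OF_prod {z s t : G} (hz : IsH I z) (hs : IsH I s) (ht : IsH I t) (hst : s ≠ t)
    (h1 : z ≠ s) (h2 : z ≠ t) (c1 : Commute z s) (c2 : Commute z t) : OF O (s * t) ⊆ OF O z := by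
  obtain ⟨c₃, a₃, hz⟩ := hz
  obtain ⟨c₁, a₁, hs⟩ := hs
  obtain ⟨c₂, a₂, ht⟩ := ht
  intro p hp
  rcases h.prod_fix hs ht (by rintro rfl; exact hst (h.eq_of_centre hs ht))
    (h.centre_mem hz hs h1 c1) (h.centre_mem hz ht h2 c2) hp.2 with e | e
  · exact ⟨hp.1, hz.2.1.1 p e⟩
  · have ha : a₁ ≠ a₂ := by rintro rfl; exact hst (h.eq_of_axis hs ht)
    exact (h.centre_notMem hz.2.1 hz.2.2.1 (h.eq_point ha e.1 e.2
      (h.centre_mem hs hz h1.symm c1.symm) (h.centre_mem ht hz h2.symm c2.symm) ▸ hp.1)).elim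

theorem sq_fix {t g : G} (ht : IsH I t) (hc : Commute g t) {p : P} (hp : p ∈ OF O t) :
    g • g • p = p := by
  by_contra hne
  have h1 : g • p ≠ p := fun e => hne (by rw [e, e])
  have := (Set.two_lt_ncard (Set.toFinite _)).2 ⟨_, hp, _, h.smul_OF' hc hp, _,
    h.smul_OF' hc (h.smul_OF' hc hp), h1.symm, Ne.symm hne,
    fun e => h1 ((smul_left_cancel_iff g).1 e).symm⟩
  have := h.OF_le ht
  omega

/-- No element of odd prime order centralizing a four-group is inverted by an involution. -/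
theorem not_inverted (hH : ∀ a : G, orderOf a = 2 → IsH I a)
    (hone : ∀ a b : G, orderOf a = 2 → orderOf b = 2 → IsConj a b) {s t w g : G}
    (hs : orderOf s = 2) (ht : orderOf t = 2) (hne : s ≠ t) (hc : Commute s t) {r : ℕ}
    (hr : r.Prime) (hr2 : r ≠ 2) (hg : orderOf g = r) (c1 : Commute g s) (c2 : Commute g t)
    (hw : orderOf w = 2) (hi : w * g * w⁻¹ = g⁻¹) : False := by
  have := Fact.mk hr
  have go : Odd (orderOf g) := hg ▸ hr.odd_of_ne_two hr2
  have g1 : g ≠ 1 := by rintro rfl; rw [orderOf_one] at hg; exact hr.one_lt.ne hg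
  have Hs := hH s hs
  have Ht := hH t ht
  have Hst := h.isH_mul Hs Ht hne hc
  have n1 : s ≠ s * t := by simpa using Ht.ne
  have n2 : t ≠ s * t := by simpa using Hs.ne
  have d1 : Commute s (s * t) := (Commute.refl s).mul_right hc
  have d2 : Commute t (s * t) := hc.symm.mul_right (Commute.refl t)
  have a1 : ¬ 2 < (OF O g).ncard := fun hh => by
    have := h.commute_of_fix (g := g) (hH w hw) (fun _ hp => hp.1) hh (fun p hp => by
      have := h.smul_OF w hp
      rw [hi] at this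
      exact ⟨this.1, (inv_smul_eq_iff.1 this.2).symm⟩) fun _ hp => hp.2
    rw [← this.eq, mul_inv_cancel_right, eq_inv_iff_mul_eq_one] at hi
    exact g1 (Inv.iso_eq_one_of_odd_of_mul_self go hi)
  have a2 : ∀ p ∈ O, g • p ≠ p := fun p hp e => a1 (by
    by_cases hh : ∃ u : G, orderOf u = 2 ∧ u • p = p
    · obtain ⟨u, hu, e'⟩ := hh
      have b : ∀ v, IsH I v → Commute g v → ∃ q ∈ OF O v, q ∈ OF O g := fun v hv hc => by
        obtain ⟨k, rfl⟩ := isConj_iff.1 (hone u v hu (Inv.iso_orderOf_eq_two hv.sq hv.ne))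
        have := h.smul_OF k (t := u) ⟨hp, e'⟩
        exact ⟨_, this, this.1, smul_eq_of_odd go (h.sq_fix hv hc this)⟩
      obtain ⟨p1, e1, f1⟩ := b s Hs c1
      obtain ⟨p2, e2, f2⟩ := b t Ht c2
      obtain ⟨p3, e3, f3⟩ := b _ Hst (c1.mul_right c2)
      exact (Set.two_lt_ncard (Set.toFinite _)).2 ⟨_, f1, _, f2, _, f3,
        by rintro rfl; exact h.not_both Hs Ht hne hc e1 e2,
        by rintro rfl; exact h.not_both Hs Hst n1 d1 e1 e3,
        by rintro rfl; exact h.not_both Ht Hst n2 d2 e2 e3⟩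
    · push Not at hh
      refine (Set.two_lt_ncard (Set.toFinite _)).2 ⟨p, ⟨hp, e⟩, _, h.smul_OF' c1.symm ⟨hp, e⟩, _,
        h.smul_OF' c2.symm ⟨hp, e⟩, (hh s hs).symm, (hh t ht).symm, fun e' => hh (s * t)
        (Inv.iso_orderOf_eq_two Hst.sq Hst.ne) ?_⟩
      rw [mul_smul, ← e', ← mul_smul, Hs.sq, one_smul])
  have hP : IsPGroup r (zpowers g) := IsPGroup.of_card (n := 1) (by simpa using hg)
  have a3 : r ∣ n + 1 := by
    by_contra hh
    obtain ⟨p, hp, e⟩ := Fx.exists_fixed_of_not_dvd hP O (fun k _ _ hp => h.mem k hp)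
      (by rwa [Nat.card_coe_set_eq, h.card])
    exact a2 p hp (e g (mem_zpowers g))
  have a4 : ∀ l x y, x ≠ y → I x l → I y l → g • x = x → g • y = y →
      ∃ z, I z l ∧ z ≠ x ∧ z ≠ y ∧ g • z = z := fun l x y hxy hx hy e1 e2 => by
    have hl := h.fix_line hxy hx hy e1 e2
    obtain ⟨z, hz, e⟩ := Fx.exists_fixed_of_not_dvd hP (({x | I x l} \ {x}) \ {y}) (fun k hk z hz =>
      ⟨⟨h.smul_inc rfl ((zpowers_le (H := stabilizer G l)).2 hl hk) hz.1.1, fun e' => hz.1.2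
        ((smul_left_cancel_iff k).1 (e'.trans ((zpowers_le (H := stabilizer G x)).2 e1 hk).symm))⟩,
        fun e' => hz.2 ((smul_left_cancel_iff k).1
          (e'.trans ((zpowers_le (H := stabilizer G y)).2 e2 hk).symm))⟩) fun hd => by
        rw [Nat.card_coe_set_eq, Set.ncard_sdiff_singleton_of_mem
          (s := {x | I x l} \ {x}) ⟨hy, hxy.symm⟩, h.ncard_sdiff hx] at hd
        have := (Nat.dvd_sub a3 hd)
        rw [show n + 1 - (n - 1) = 2 by have := h.two; omega] at this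
        exact hr2 ((Nat.prime_dvd_prime_iff_eq hr Nat.prime_two).1 this)
    exact ⟨z, hz.1.1, hz.1.2, hz.2, e g (mem_zpowers g)⟩
  have w2 := Inv.iso_mul_self_of_orderOf hw
  obtain ⟨c, a, hw1⟩ := hH w hw
  obtain ⟨c', a', hw2⟩ := hH (w * g) (Inv.iso_orderOf_eq_two
    (by rw [← mul_assoc, mul_inv_eq_iff_eq_mul.1 hi, mul_assoc g⁻¹, w2, mul_one, inv_mul_cancel])
    fun e => by
      rw [eq_inv_of_mul_eq_one_right e, orderOf_inv, hw] at hg; exact hr2 hg.symm)
  have hne' : w ≠ w * g := by simpa using g1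
  have hcc : c ≠ c' := by rintro rfl; exact hne' (h.eq_of_centre hw1 hw2)
  have haa : a ≠ a' := by rintro rfl; exact hne' (h.eq_of_axis hw1 hw2)
  obtain ⟨k, k1, k2⟩ := h.line c c' hcc
  have a5 : ∀ x y : P, g • x = x → g • y = y → x ≠ y → ¬ I x k → I y k := fun x y e1 e2 hxy hx => by
    have b : ∀ x : P, g • x = x → I x k ∨ (I x a ∧ I x a') := fun x e =>
      h.prod_fix hw1 hw2 hcc k1 k2 (by rwa [← mul_assoc, w2, one_mul])
    have b1 := (b x e1).resolve_left hx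
    exact (b y e2).resolve_right fun b2 => hxy (h.eq_point haa b1.1 b1.2 b2.1 b2.2)
  obtain ⟨c₁, a₁, t1⟩ := Hs
  obtain ⟨c₂, a₂, t2⟩ := Ht
  obtain ⟨c₃, a₃, t3⟩ := Hst
  have i21 := h.centre_mem t1 t2 hne hc
  have i31 := h.centre_mem t1 t3 n1 d1
  have i12 := h.centre_mem t2 t1 hne.symm hc.symm
  have i32 := h.centre_mem t2 t3 n2 d2
  have f1 := h.fix_c t1 c1
  have f2 := h.fix_c t2 c2
  have f3 := h.fix_c t3 (c1.mul_right c2)
  have n12 : c₁ ≠ c₂ := by rintro rfl; exact t1.1 i21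
  have n13 : c₁ ≠ c₃ := by rintro rfl; exact t1.1 i31
  have n23 : c₂ ≠ c₃ := by rintro rfl; exact t2.1 i32
  have m12 : a₁ ≠ a₂ := by rintro rfl; exact t1.1 i12
  obtain ⟨p, p1, p2, p3, p4⟩ := a4 a₁ c₂ c₃ n23 i21 i31 f2 f3
  obtain ⟨q, q1, q2, q3, q4⟩ := a4 a₂ c₁ c₃ n13 i12 i32 f1 f3
  by_cases b1 : I c₁ k
  · by_cases b3 : I c₃ k
    · obtain rfl := h.eq_line n13 b1 b3 i12 i32
      exact p3 (h.eq_point m12 p1 (a5 _ _ f2 p4 p2.symm t2.1) i31 i32)
    · exact b3 (h.eq_line q2 q1 i12 (a5 _ _ f3 q4 q3.symm b3) b1 ▸ i32)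
  · obtain rfl := h.eq_line n23 (a5 _ _ f1 f2 n12 b1) (a5 _ _ f1 f3 n13 b1) i21 i31
    exact q3 (h.eq_point m12 (a5 _ _ f1 q4 q2.symm b1) q1 i31 i32)

end Ov

end Cfsg.Agent.Perm.PG
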