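import Mathlib

/-! Product action of wreath products, part 1: tools on alternating groups and on
permutations of a product `α × β` that preserve the lines `α × {y}`. -/

set_option autoImplicit false

namespace Cfsg.Agent.Perm.PW
open Equiv Equiv.Perm
open scoped Pointwise

section Letters
variable {α : Type*} [DecidableEq α]

/-- the 3-cycle `a ↦ b ↦ c ↦ a` -/
def cyc (a b c : α) : Perm α := swap a c * swap a b

theorem cyc_a {a b c : α} (hab : a ≠ b) (hbc : b ≠ c) : cyc a b c a = b := by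
  simp [cyc, swap_apply_of_ne_of_ne hab.symm hbc]

theorem cyc_b {a b c : α} : cyc a b c b = c := by simp [cyc]

theorem cyc_c {a b c : α} (hac : a ≠ c) (hbc : b ≠ c) : cyc a b c c = a := by
  simp [cyc, swap_apply_of_ne_of_ne hac.symm hbc.symm]

theorem cyc_ne {a b c x : α} (ha : x ≠ a) (hb : x ≠ b) (hc : x ≠ c) : cyc a b c x = x := by
  simp [cyc, swap_apply_of_ne_of_ne ha hb, swap_apply_of_ne_of_ne ha hc]

variable [Fintype α]

theorem sign_cyc {a b c : α} (hab : a ≠ b) (hac : a ≠ c) : sign (cyc a b c) = 1 := by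
  simp [cyc, sign_swap hab, sign_swap hac]

theorem isThreeCycle_cyc {a b c : α} (hab : a ≠ b) (hac : a ≠ c) (hbc : b ≠ c) :
    IsThreeCycle (cyc a b c) :=
  isThreeCycle_swap_mul_swap_same hac hab hbc.symm

omit [DecidableEq α] in
theorem fresh4 (h5 : 5 ≤ Fintype.card α) (a b c d : α) :
    ∃ e, e ≠ a ∧ e ≠ b ∧ e ≠ c ∧ e ≠ d := by
  classical
  have h : ({a, b, c, d} : Finset α).card < Fintype.card α :=
    lt_of_le_of_lt Finset.card_le_four (by omega)
  obtain ⟨e, he⟩ := Finset.exists_mem_notMem_of_card_lt_card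
    (s := {a, b, c, d}) (t := Finset.univ) (by simpa using h)
  refine ⟨e, ?_⟩
  have := he.2
  simp only [Finset.mem_insert, Finset.mem_singleton, not_or] at this
  exact this

theorem eq_one_of_comm (h5 : 5 ≤ Fintype.card α) {σ : Perm α}
    (h : ∀ l : Perm α, sign l = 1 → σ * l = l * σ) : σ = 1 := by
  ext a
  by_contra hne
  simp only [Perm.one_apply] at hne
  obtain ⟨c, h1, h2, -, -⟩ := fresh4 h5 a (σ a) a a
  obtain ⟨d, h3, h4, h6, -⟩ := fresh4 h5 a (σ a) c a
  have := congrArg (fun f : Perm α => f a) (h (cyc (σ a) c d) (sign_cyc h2.symm h4.symm))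
  simp only [Perm.mul_apply] at this
  rw [cyc_ne (Ne.symm hne) h1.symm h3.symm, cyc_a h2.symm h6.symm] at this
  exact h2 this.symm

/-- a nontrivial subgroup normalised by the alternating group contains it -/
theorem alt_le (h5 : 5 ≤ Fintype.card α) (N : Subgroup (Perm α))
    (hN : ∀ l : Perm α, sign l = 1 → ∀ g ∈ N, l * g * l⁻¹ ∈ N) {g : Perm α} (hg : g ∈ N)
    (hg1 : g ≠ 1) {l : Perm α} (hl : sign l = 1) : l ∈ N := by
  obtain ⟨k, hk, hgk⟩ : ∃ k : Perm α, sign k = 1 ∧ g * k ≠ k * g := by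
    by_contra hcon
    push Not at hcon
    exact hg1 (eq_one_of_comm h5 hcon)
  have hn : (N.subgroupOf (alternatingGroup α)).Normal := ⟨fun n hn x => by
    rw [Subgroup.mem_subgroupOf] at hn ⊢
    exact hN x (mem_alternatingGroup.1 x.2) n hn⟩
  rcases alternatingGroup.normal_subgroup_eq_bot_or_eq_top (α := α)
    (by rwa [Nat.card_eq_fintype_card]) (N := N.subgroupOf (alternatingGroup α)) with h | h
  · exfalso
    have hm : g * (k * g⁻¹ * k⁻¹) ∈ alternatingGroup α := by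
      rw [mem_alternatingGroup]
      simp [hk]
    have : (⟨_, hm⟩ : alternatingGroup α) ∈ N.subgroupOf (alternatingGroup α) := by
      rw [Subgroup.mem_subgroupOf]
      exact N.mul_mem hg (hN k hk _ (N.inv_mem hg))
    rw [h, Subgroup.mem_bot] at this
    have h2 : g * (k * g⁻¹ * k⁻¹) = 1 := congrArg Subtype.val this
    apply hgk
    calc g * k = g * (k * g⁻¹ * k⁻¹) * (k * g) := by group
      _ = k * g := by rw [h2, one_mul]
  · have : (⟨l, mem_alternatingGroup.2 hl⟩ : alternatingGroup α) ∈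
        N.subgroupOf (alternatingGroup α) := by rw [h]; trivial
    exact this

theorem exists_conj_not_comm (h5 : 5 ≤ Fintype.card α) {σ τ : Perm α} (hσ : σ ≠ 1)
    (hτ : τ ≠ 1) : ∃ l : Perm α, sign l = 1 ∧ σ * (l * τ * l⁻¹) ≠ (l * τ * l⁻¹) * σ := by
  by_contra hcon
  push Not at hcon
  let K : Subgroup (Perm α) :=
    { carrier := {ρ | ∀ l : Perm α, sign l = 1 → σ * (l * ρ * l⁻¹) = (l * ρ * l⁻¹) * σ}
      one_mem' := by intro l _; simp
      mul_mem' := by
        intro a b ha hb l hl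
        have e : l * (a * b) * l⁻¹ = (l * a * l⁻¹) * (l * b * l⁻¹) := by group
        rw [e]
        exact (Commute.mul_right (ha l hl) (hb l hl) :)
      inv_mem' := by
        intro a ha l hl
        have e : l * a⁻¹ * l⁻¹ = (l * a * l⁻¹)⁻¹ := by group
        rw [e]
        exact (Commute.inv_right (ha l hl) :) }
  apply hσ
  apply eq_one_of_comm h5
  intro l hl
  have : l ∈ K := alt_le h5 K (fun k hk g hg m hm => by
    have e : m * (k * g * k⁻¹) * m⁻¹ = (m * k) * g * (m * k)⁻¹ := by group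
    rw [e]
    exact hg _ (by simp [hk, hm])) (g := τ) hcon hτ hl
  simpa using this 1 (by simp)

/-- an even permutation fixing `a` and sending `b` to `c` -/
theorem exists_even_fix (h5 : 5 ≤ Fintype.card α) {a b c : α} (hb : b ≠ a) (hc : c ≠ a) :
    ∃ l : Perm α, sign l = 1 ∧ l a = a ∧ l b = c := by
  by_cases h : b = c
  · exact ⟨1, by simp, rfl, h⟩
  · obtain ⟨d, h1, h2, h3, -⟩ := fresh4 h5 a b c a
    exact ⟨cyc b c d, sign_cyc h h2.symm, cyc_ne hb.symm hc.symm h1.symm, cyc_a h h3.symm⟩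

theorem exists_even (h5 : 5 ≤ Fintype.card α) (b c : α) :
    ∃ l : Perm α, sign l = 1 ∧ l b = c := by
  obtain ⟨a, h1, h2, -, -⟩ := fresh4 h5 b c b b
  obtain ⟨l, hl, -, h⟩ := exists_even_fix h5 h1.symm h2.symm
  exact ⟨l, hl, h⟩

end Letters

section Prod
variable {α β : Type*}

/-- line-preserving permutations -/
def pl : (β → Perm α) →* Perm (α × β) where
  toFun σ := Equiv.prodCongrLeft σ
  map_one' := by ext x <;> rfl
  map_mul' σ τ := by ext x <;> rfl

@[simp] theorem pl_apply (σ : β → Perm α) (a : α) (y : β) : pl σ (a, y) = (σ y a, y) := rfl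

/-- a permutation of the letters -/
def lp (σ : Perm α) : Perm (α × β) := pl fun _ => σ

/-- a permutation of the second factor -/
def rp (w : Perm β) : Perm (α × β) := Equiv.prodCongr (Equiv.refl α) w

@[simp] theorem lp_apply (σ : Perm α) (a : α) (y : β) : lp σ (a, y) = (σ a, y) := rfl
@[simp] theorem lp_inv_apply (σ : Perm α) (a : α) (y : β) :
    (lp σ)⁻¹ (a, y) = (σ⁻¹ a, y) := rfl
@[simp] theorem lp_symm_apply (σ : Perm α) (a : α) (y : β) :
    Equiv.symm (lp σ) (a, y) = (Equiv.symm σ a, y) := rfl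
@[simp] theorem rp_symm_apply (w : Perm β) (a : α) (y : β) :
    Equiv.symm (rp w) (a, y) = (a, Equiv.symm w y) := rfl
@[simp] theorem rp_apply (w : Perm β) (a : α) (y : β) : rp w (a, y) = (a, w y) := rfl
@[simp] theorem rp_inv_apply (w : Perm β) (a : α) (y : β) :
    (rp w)⁻¹ (a, y) = (a, w⁻¹ y) := rfl

theorem lp_mul (σ τ : Perm α) : (lp (σ * τ) : Perm (α × β)) = lp σ * lp τ := by
  ext x <;> rfl
theorem lp_inv (σ : Perm α) : (lp σ⁻¹ : Perm (α × β)) = (lp σ)⁻¹ := by
  ext x <;> rfl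
theorem lp_one : (lp 1 : Perm (α × β)) = 1 := by ext x <;> rfl

theorem exists_pl {g : Perm (α × β)} (hg : ∀ x, (g x).2 = x.2) : ∃ σ, g = pl σ := by
  have hg' : ∀ x, (g⁻¹ x).2 = x.2 := fun x => by
    have := hg (g⁻¹ x)
    simpa using this.symm
  have e1 : ∀ a y, ((g (a, y)).1, y) = g (a, y) := fun a y => Prod.ext rfl (hg (a, y)).symm
  have e2 : ∀ a y, ((g⁻¹ (a, y)).1, y) = g⁻¹ (a, y) :=
    fun a y => Prod.ext rfl (hg' (a, y)).symm
  refine ⟨fun y => ⟨fun a => (g (a, y)).1, fun a => (g⁻¹ (a, y)).1, fun a => ?_, fun a => ?_⟩, ?_⟩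
  · simp [e1]
  · show (g ((g⁻¹ (a, y)).1, y)).1 = a
    rw [e2]; simp
  · ext ⟨a, y⟩
    · rfl
    · exact hg (a, y)

theorem rp_conj_pl (w : Perm β) (σ : β → Perm α) :
    rp w * pl σ * (rp w)⁻¹ = pl fun y => σ (w⁻¹ y) := by
  ext ⟨a, y⟩ <;> simp

theorem pl_eq_one {σ : β → Perm α} (h : pl σ = 1) (y : β) : σ y = 1 := by
  ext a
  have := congrArg (fun f : Perm (α × β) => (f (a, y)).1) h
  simpa using this

variable [Fintype α] [DecidableEq α] [Fintype β] [DecidableEq β]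

/-- The standing hypotheses for one direction. -/
structure Ctx (H : Subgroup (Perm (α × β))) (W : Subgroup (Perm β)) : Prop where
  card : 5 ≤ Fintype.card α
  hL : ∀ σ : Perm α, sign σ = 1 → lp σ ∈ H
  hW : ∀ w ∈ W, rp w ∈ H
  prim : MulAction.IsPreprimitive W β
  no3 : ∀ g ∈ H, ¬ IsThreeCycle g
  lens : ∀ y y' : β, y ≠ y' → ∃ (lam : β → α) (up : β → α → β), lam y ≠ lam y' ∧
    (∀ z a, lam (up z a) = a) ∧ (∀ z, up z (lam z) = z) ∧ (∀ z a a', up (up z a) a' = up z a') ∧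
    ∀ σ : Perm α, sign σ = 1 → ∃ w ∈ W, ∀ z, w z = up z (σ (lam z))

variable {H : Subgroup (Perm (α × β))} {W : Subgroup (Perm β)}

theorem Ctx.no_line (C : Ctx H W) {σ : β → Perm α} (hσ : pl σ ∈ H) (y1 : β)
    (h : ∀ y, y ≠ y1 → σ y = 1) : σ y1 = 1 := by
  by_contra hne
  let N : Subgroup (Perm α) :=
    (H.comap pl).comap (MonoidHom.mulSingle (fun _ : β => Perm α) y1)
  have hmem : ∀ τ : Perm α, τ ∈ N ↔ pl (Pi.mulSingle y1 τ : β → Perm α) ∈ H := fun τ => Iff.rfl
  have h1 : σ y1 ∈ N := by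
    rw [hmem]
    have : (Pi.mulSingle y1 (σ y1) : β → Perm α) = σ := by
      funext y
      by_cases hy : y = y1
      · subst hy; simp
      · simp [Pi.mulSingle_eq_of_ne hy, h y hy]
    rwa [this]
  obtain ⟨a⟩ : Nonempty α := Fintype.card_pos_iff.1 (by have := C.card; omega)
  obtain ⟨b, hb, -⟩ := fresh4 C.card a a a a
  obtain ⟨c, hc, hcb, -⟩ := fresh4 C.card a b a a
  have h3 : cyc a b c ∈ N := alt_le C.card N (fun l hl g hg => by
    rw [hmem] at hg ⊢
    have : pl (Pi.mulSingle y1 (l * g * l⁻¹) : β → Perm α) =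
        lp l * pl (Pi.mulSingle y1 g : β → Perm α) * (lp l)⁻¹ := by
      ext ⟨x, y⟩
      · by_cases hy : y = y1
        · subst hy; simp
        · simp [Pi.mulSingle_eq_of_ne hy]
      · simp
    rw [this]
    exact H.mul_mem (H.mul_mem (C.hL l hl) hg) (H.inv_mem (C.hL l hl))) h1 hne
    (sign_cyc hb.symm hc.symm)
  rw [hmem] at h3
  apply C.no3 _ h3
  have : pl (Pi.mulSingle y1 (cyc a b c) : β → Perm α) = cyc (a, y1) (b, y1) (c, y1) := by
    refine Equiv.ext fun ⟨x, y⟩ => ?_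
    by_cases hy : y = y1
    · subst hy
      simp only [pl_apply, Pi.mulSingle_eq_same]
      by_cases ha : x = a
      · subst ha; rw [cyc_a hb.symm hcb.symm, cyc_a (by simpa using hb.symm) (by simpa using hcb.symm)]
      by_cases hb' : x = b
      · subst hb'; rw [cyc_b, cyc_b]
      by_cases hc' : x = c
      · subst hc'; rw [cyc_c hc.symm hcb.symm, cyc_c (by simpa using hc.symm) (by simpa using hcb.symm)]
      rw [cyc_ne ha hb' hc', cyc_ne (by simpa using ha) (by simpa using hb') (by simpa using hc')]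
    · rw [cyc_ne (by simp [hy]) (by simp [hy]) (by simp [hy])]
      simp [Pi.mulSingle_eq_of_ne hy]
  rw [this]
  exact isThreeCycle_cyc (by simpa using hb.symm) (by simpa using hc.symm)
    (by simpa using hcb.symm)

theorem Ctx.pl_triv (C : Ctx H W) {σ : β → Perm α} (hσ : pl σ ∈ H) (y0 : β) (h0 : σ y0 = 1) :
    σ = 1 := by
  classical
  by_contra hne
  let Y : (β → Perm α) → Finset β := fun τ => Finset.univ.filter fun y => τ y ≠ 1
  have hY : ∀ τ y, y ∈ Y τ ↔ τ y ≠ 1 := fun τ y => by simp [Y]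
  obtain ⟨τ, ⟨hτ, hτ1⟩, hmin⟩ := exists_minimalFor_of_wellFoundedLT
    (fun τ : β → Perm α => pl τ ∈ H ∧ τ ≠ 1) (fun τ => (Y τ).card) ⟨σ, hσ, hne⟩
  have hmin' : ∀ ρ : β → Perm α, pl ρ ∈ H → ρ ≠ 1 → (Y τ).card ≤ (Y ρ).card := fun ρ h1 h2 => by
    by_contra hlt
    push Not at hlt
    exact absurd (hmin ⟨h1, h2⟩ hlt.le) (not_le.2 hlt)
  have hblock : MulAction.IsBlock W (Y τ : Set β) := by
    rw [MulAction.isBlock_iff_smul_eq_of_nonempty]
    rintro ⟨w, hw⟩ ⟨y, hy1, hy2⟩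
    let τ' : β → Perm α := fun y => τ (w⁻¹ y)
    have hτ' : pl τ' ∈ H := by
      rw [← rp_conj_pl]
      exact H.mul_mem (H.mul_mem (C.hW w hw) hτ) (H.inv_mem (C.hW w hw))
    have hsm : ∀ z, z ∈ (⟨w, hw⟩ : W) • (Y τ : Set β) ↔ τ' z ≠ 1 := fun z => by
      rw [Set.mem_smul_set_iff_inv_smul_mem, Finset.mem_coe, hY]
      rfl
    rw [hsm] at hy1
    rw [Finset.mem_coe, hY] at hy2
    obtain ⟨l, hl, hnc⟩ := exists_conj_not_comm C.card hy2 hy1
    let τ'' : β → Perm α := (fun _ => l) * τ' * (fun _ => l)⁻¹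
    have hτ'' : pl τ'' ∈ H := by
      simp only [τ'', map_mul, map_inv]
      exact H.mul_mem (H.mul_mem (C.hL l hl) hτ') (H.inv_mem (C.hL l hl))
    let ρ : β → Perm α := τ * τ'' * τ⁻¹ * τ''⁻¹
    have hρ : pl ρ ∈ H := by
      simp only [ρ, map_mul, map_inv]
      exact H.mul_mem (H.mul_mem (H.mul_mem hτ hτ'') (H.inv_mem hτ)) (H.inv_mem hτ'')
    have hρ1 : ρ ≠ 1 := fun h => by
      apply hnc
      have h2 : τ y * (l * τ' y * l⁻¹) * (τ y)⁻¹ * (l * τ' y * l⁻¹)⁻¹ = 1 := congrFun h y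
      calc τ y * (l * τ' y * l⁻¹)
          = τ y * (l * τ' y * l⁻¹) * (τ y)⁻¹ * (l * τ' y * l⁻¹)⁻¹ * ((l * τ' y * l⁻¹) * τ y) := by
            group
        _ = _ := by rw [h2, one_mul]
    have hsub : Y ρ ⊆ Y τ ∩ Y τ' := by
      intro z hz
      rw [Finset.mem_inter, hY, hY]
      rw [hY] at hz
      have e : ρ z = τ z * (l * τ' z * l⁻¹) * (τ z)⁻¹ * (l * τ' z * l⁻¹)⁻¹ := rfl
      constructor
      · intro h; apply hz; rw [e, h]; group
      · intro h; apply hz; rw [e, h]; group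
    have hc := hmin' ρ hρ hρ1
    have h1 : Y τ ∩ Y τ' = Y τ := Finset.eq_of_subset_of_card_le Finset.inter_subset_left
      (hc.trans (Finset.card_le_card hsub))
    have h2 : Y τ ⊆ Y τ' := by rw [← h1]; exact Finset.inter_subset_right
    have h3 : (Y τ').card = (Y τ).card := by
      apply Finset.card_bij (fun z _ => w⁻¹ z)
      · intro z hz; rw [hY] at hz ⊢; exact hz
      · intro z _ z' _ h; exact (w⁻¹).injective h
      · intro z hz; refine ⟨w z, ?_, by simp⟩
        rw [hY] at hz ⊢; simpa [τ'] using hz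
    have h4 : Y τ = Y τ' := Finset.eq_of_subset_of_card_le h2 h3.le
    ext z
    rw [hsm, Finset.mem_coe, h4, hY]
  have := C.prim
  rcases hblock.subsingleton_or_eq_univ with hs | hu
  · obtain ⟨y1, hy1⟩ : ∃ y1, τ y1 ≠ 1 := by
      by_contra hcon
      push Not at hcon
      exact hτ1 (funext hcon)
    apply hy1
    apply C.no_line hτ y1
    intro y hy
    by_contra hcon
    exact hy (hs (by rw [Finset.mem_coe, hY]; exact hcon) (by rw [Finset.mem_coe, hY]; exact hy1))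
  · have h1 : Y τ = Finset.univ := by
      apply Finset.eq_univ_of_forall
      intro z
      have : z ∈ (Y τ : Set β) := by rw [hu]; trivial
      exact this
    have h2 := hmin' σ hσ hne
    rw [h1] at h2
    have h3 : Y σ = Finset.univ := Finset.eq_of_subset_of_card_le (Finset.subset_univ _) h2
    have : y0 ∈ Y σ := by rw [h3]; exact Finset.mem_univ _
    rw [hY] at this
    exact this h0

/-- line-preserving elements of `H` are constant -/
theorem Ctx.exists_lp (C : Ctx H W) {g : Perm (α × β)} (hg : g ∈ H) (h : ∀ x, (g x).2 = x.2) :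
    ∃ σ, g = lp σ := by
  obtain ⟨σ, rfl⟩ := exists_pl h
  rcases isEmpty_or_nonempty β with hβ | ⟨⟨y0⟩⟩
  · exact ⟨1, by ext ⟨a, y⟩ <;> exact isEmptyElim y⟩
  refine ⟨σ y0, congrArg pl (funext fun y => ?_)⟩
  have key : (σ y0)⁻¹ * σ y = 1 := by
    apply eq_one_of_comm C.card
    intro l hl
    have hl' : sign (σ y0 * l * (σ y0)⁻¹) = 1 := by simp [hl]
    let ρ : β → Perm α := (fun _ => σ y0 * l * (σ y0)⁻¹)⁻¹ * (σ * (fun _ => l) * σ⁻¹)
    have hρ : pl ρ ∈ H := by
      simp only [ρ, map_mul, map_inv]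
      exact H.mul_mem (H.inv_mem (C.hL _ hl'))
        (H.mul_mem (H.mul_mem hg (C.hL l hl)) (H.inv_mem hg))
    have h1 := C.pl_triv hρ y0 (inv_mul_cancel (σ y0 * l * (σ y0)⁻¹))
    have h2 : (σ y0 * l * (σ y0)⁻¹)⁻¹ * (σ y * l * (σ y)⁻¹) = 1 := congrFun h1 y
    calc (σ y0)⁻¹ * σ y * l
        = l * (σ y0)⁻¹ * ((σ y0 * l * (σ y0)⁻¹)⁻¹ * (σ y * l * (σ y)⁻¹)) * σ y := by group
      _ = l * ((σ y0)⁻¹ * σ y) := by rw [h2]; group
  calc σ y = σ y0 * ((σ y0)⁻¹ * σ y) := by group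
    _ = σ y0 := by rw [key, mul_one]

end Prod

end Cfsg.Agent.Perm.PW
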