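import Mathlib
import Cfsg.Agent.Perm.PWBasic

/-! Product action of wreath products, part 2: an (almost) abelian group normalised by the
alternating groups of the other directions preserves the lines; diagonal 3-cycles. -/

set_option autoImplicit false

namespace Cfsg.Agent.Perm.PW
open Equiv Equiv.Perm

variable {α β : Type*} [Fintype α] [DecidableEq α] [Fintype β] [DecidableEq β]
variable {H : Subgroup (Perm (α × β))} {W : Subgroup (Perm β)}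

theorem inv_app {Ω : Type*} (g : Perm Ω) (x : Ω) : g⁻¹ (g x) = x := by simp
theorem app_inv {Ω : Type*} (g : Perm Ω) (x : Ω) : g (g⁻¹ x) = x := by simp

theorem Ctx.orb (C : Ctx H W) (Z : Subgroup (Perm (α × β)))
    (hZW : ∀ w ∈ W, ∀ z ∈ Z, rp w * z * (rp w)⁻¹ ∈ Z) (S : α → Prop)
    (hS : ∀ z ∈ Z, ∀ x, S x.1 → S (z x).1) (rel : α → α → Prop) (hrel : Equivalence rel)
    (hE : ∀ z ∈ Z, ∀ x x', S x.1 → S x'.1 → x.2 = x'.2 → rel x.1 x'.1 →
      (z x).2 = (z x').2 ∧ rel (z x).1 (z x').1)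
    (hC : ∀ z ∈ Z, ∀ z' ∈ Z, ∀ x, S x.1 →
      (z (z' x)).2 = (z' (z x)).2 ∧ rel (z (z' x)).1 (z' (z x)).1) :
    ∀ z ∈ Z, ∀ x, S x.1 → (z x).2 = x.2 := by
  intro z hz x hx
  by_contra hne
  obtain ⟨lam, up, hlam, h1, h2, h3, h4⟩ := C.lens _ _ hne
  let E : α × β → α × β → Prop := fun u v => u.2 = v.2 ∧ rel u.1 v.1
  have Esymm : ∀ {u v}, E u v → E v u := fun h => ⟨h.1.symm, hrel.symm h.2⟩
  have Etrans : ∀ {u v t}, E u v → E v t → E u t := fun h h' => ⟨h.1.trans h'.1, hrel.trans h.2 h'.2⟩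
  have Erefl : ∀ u, E u u := fun u => ⟨rfl, hrel.refl _⟩
  have Eapp : ∀ k ∈ Z, ∀ u v, S u.1 → S v.1 → E u v → E (k u) (k v) :=
    fun k hk u v hu hv h => hE k hk u v hu hv h.1 h.2
  set x1 := z x with hx1
  have hS1 : S x1.1 := hS z hz x hx
  let p : α → α × β := fun a => (x1.1, up x1.2 a)
  have hp1 : p (lam x1.2) = x1 := by simp [p, h2]
  have hpinj : ∀ a a', (p a).2 = (p a').2 → a = a' := fun a a' h => by
    have := congrArg lam h
    simpa [p, h1] using this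
  -- elements of `Z` that agree at a point of the orbit agree on the orbit
  have agree : ∀ φ ∈ Z, ∀ ψ ∈ Z, ∀ ζ ∈ Z, ∀ ξ, S ξ.1 → E (φ ξ) (ψ ξ) → E (φ (ζ ξ)) (ψ (ζ ξ)) := by
    intro φ hφ ψ hψ ζ hζ ξ hξ h
    have hκ : ψ⁻¹ * φ ∈ Z := Z.mul_mem (Z.inv_mem hψ) hφ
    have e1 : E ((ψ⁻¹ * φ) ξ) ξ := by
      have := Eapp _ (Z.inv_mem hψ) _ _ (hS φ hφ ξ hξ) (hS ψ hψ ξ hξ) h
      simpa using this
    have e2 : E ((ψ⁻¹ * φ) (ζ ξ)) (ζ ξ) :=
      Etrans (hC _ hκ ζ hζ ξ hξ) (Eapp ζ hζ _ _ (hS _ hκ ξ hξ) hξ e1)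
    have := Eapp ψ hψ _ _ (hS _ hκ _ (hS ζ hζ ξ hξ)) (hS ζ hζ ξ hξ) e2
    simpa using this
  -- the action of a letter permutation of the second direction
  have hw : ∀ l : Perm α, sign l = 1 → ∃ w ∈ W, (∀ u : α × β, rp w u = (u.1, up u.2 (l (lam u.2))))
      ∧ ∀ a, rp w (p a) = p (l a) := by
    intro l hl
    obtain ⟨w, hw, e⟩ := h4 l hl
    exact ⟨w, hw, fun u => by obtain ⟨a, y⟩ := u; simp [e], fun a => by simp [p, e, h1, h3]⟩
  have horb0 : ∀ a, a ≠ lam x.2 → ∃ φ ∈ Z, φ x1 = p a := by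
    intro a ha
    obtain ⟨l, hl, e1, e2⟩ := exists_even_fix C.card hlam ha
    obtain ⟨w, hw', e3, e4⟩ := hw l hl
    refine ⟨rp w * z * (rp w)⁻¹ * z⁻¹, Z.mul_mem (hZW w hw' z hz) (Z.inv_mem hz), ?_⟩
    have e5 : rp w x = x := by rw [e3, e1, h2]
    have e6 : (rp w)⁻¹ x = x := by rw [Perm.inv_eq_iff_eq, e5]
    have e7 : z⁻¹ x1 = x := by simp [hx1]
    simp only [Perm.mul_apply]
    rw [e7, e6, ← hx1, ← hp1, e4, e2]
  have horb : ∀ a, ∃ φ ∈ Z, φ x1 = p a := by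
    intro a
    by_cases ha : a = lam x1.2
    · exact ⟨1, Z.one_mem, by rw [ha, hp1]; rfl⟩
    obtain ⟨b, hb1, hb2, -, -⟩ := fresh4 C.card (lam x.2) (lam x1.2) a a
    obtain ⟨φ, hφ, e⟩ := horb0 b hb1
    obtain ⟨l, hl, e1, e2⟩ := exists_even_fix C.card hb2 ha
    obtain ⟨w, hw', -, e4⟩ := hw l hl
    refine ⟨rp w * φ * (rp w)⁻¹, hZW w hw' φ hφ, ?_⟩
    have e5 : rp w x1 = x1 := by rw [← hp1, e4, e1]
    have e6 : (rp w)⁻¹ x1 = x1 := by rw [Perm.inv_eq_iff_eq, e5]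
    simp only [Perm.mul_apply]
    rw [e6, e, e4, e2]
  have hSp : ∀ a, S (p a).1 := fun a => hS1
  -- commuting with a letter permutation fixing both letters
  have star : ∀ φ ∈ Z, ∀ b, φ x1 = p b → ∀ l : Perm α, sign l = 1 → l (lam x1.2) = lam x1.2 →
      l b = b → ∀ a, E ((φ (p a)).1, up (φ (p a)).2 (l (lam (φ (p a)).2))) (φ (p (l a))) := by
    intro φ hφ b hb l hl e1 e2 a
    obtain ⟨w, hw', e3, e4⟩ := hw l hl
    obtain ⟨ζ, hζ, eζ⟩ := horb (l a)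
    have e5 : rp w x1 = x1 := by rw [← hp1, e4, e1]
    have e6 : (rp w)⁻¹ x1 = x1 := by rw [Perm.inv_eq_iff_eq, e5]
    have e7 : (rp w)⁻¹ (p (l a)) = p a := by rw [Perm.inv_eq_iff_eq, e4]
    have := agree _ (hZW w hw' φ hφ) φ hφ ζ hζ x1 hS1 (by
      simp only [Perm.mul_apply]
      rw [e6, hb, e4, e2]
      exact Erefl _)
    simp only [Perm.mul_apply] at this
    rw [eζ, e7, e3] at this
    exact this
  have notin : ∀ φ ∈ Z, ∀ b, φ x1 = p b → ∀ a, a ≠ lam x1.2 → a ≠ b →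
      lam (φ (p a)).2 ≠ lam x1.2 ∧ lam (φ (p a)).2 ≠ b := by
    intro φ hφ b hb a ha1 ha2
    obtain ⟨f, hf1, hf2, hf3, -⟩ := fresh4 C.card (lam x1.2) b a a
    obtain ⟨f', hg1, hg2, hg3, hg4⟩ := fresh4 C.card (lam x1.2) b a f
    have e1 : cyc a f f' (lam x1.2) = lam x1.2 := cyc_ne ha1.symm hf1.symm hg1.symm
    have e2 : cyc a f f' b = b := cyc_ne ha2.symm hf2.symm hg2.symm
    have key : cyc a f f' (lam (φ (p a)).2) ≠ lam (φ (p a)).2 := by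
      intro h
      have := star φ hφ b hb _ (sign_cyc hf3.symm hg3.symm) e1 e2 a
      rw [h, h2, cyc_a hf3.symm hg4.symm] at this
      have h5 := Eapp _ (Z.inv_mem hφ) _ _ (hS φ hφ _ (hSp a)) (hS φ hφ _ (hSp f)) this
      simp only [inv_app] at h5
      exact hf3 (hpinj _ _ h5.1).symm
    exact ⟨fun h => key (by rw [h, e1]), fun h => key (by rw [h, e2])⟩
  obtain ⟨a2, ha2, -, -, -⟩ := fresh4 C.card (lam x1.2) (lam x1.2) (lam x1.2) (lam x1.2)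
  obtain ⟨a3, ha3, ha32, -, -⟩ := fresh4 C.card (lam x1.2) a2 a2 a2
  obtain ⟨φ2, hφ2, e2⟩ := horb a2
  obtain ⟨φ3, hφ3, e3⟩ := horb a3
  have hz12 : E (φ2 (p a3)) (φ3 (p a2)) := by
    rw [← e2, ← e3]
    exact hC φ2 hφ2 φ3 hφ3 x1 hS1
  obtain ⟨n1, n2⟩ := notin φ2 hφ2 a2 e2 a3 ha3 ha32
  obtain ⟨-, n3⟩ := notin φ3 hφ3 a3 e3 a2 ha2 ha32.symm
  rw [← hz12.1] at n3
  set a := lam (φ2 (p a3)).2 with ha
  obtain ⟨f, hf1, hf2, hf3, hf4⟩ := fresh4 C.card (lam x1.2) a2 a3 a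
  have s2 := star φ2 hφ2 a2 e2 (cyc a3 a f) (sign_cyc n3.symm hf3.symm)
    (cyc_ne ha3.symm n1.symm hf1.symm) (cyc_ne ha32.symm n2.symm hf2.symm) a3
  have s3 := star φ3 hφ3 a3 e3 (cyc a2 a f) (sign_cyc n2.symm hf2.symm)
    (cyc_ne ha2.symm n1.symm hf1.symm) (cyc_ne ha32 n3.symm hf3.symm) a2
  rw [← hz12.1] at s3
  rw [← ha, cyc_b, cyc_a n3.symm hf4.symm] at s2
  rw [← ha, cyc_b, cyc_a n2.symm hf4.symm] at s3
  have s4 : E (φ2 (p a)) (φ3 (p a)) :=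
    Etrans (Esymm s2) (Etrans (show E _ ((φ3 (p a2)).1, up (φ2 (p a3)).2 f) from ⟨rfl, hz12.2⟩) s3)
  obtain ⟨ζ, hζ, eζ⟩ := horb a
  have s5 := agree φ2 hφ2 φ3 hφ3 ζ⁻¹ (Z.inv_mem hζ) (p a) (hSp a) s4
  rw [← eζ, inv_app, e2, e3] at s5
  exact ha32 (hpinj _ _ s5.1).symm

/-- `v` is the product of the 3-cycles `f1 y ↦ f2 y ↦ f3 y` -/
structure Cyc {Ω Y : Type*} (v : Perm Ω) (f1 f2 f3 : Y → Ω) : Prop where
  h1 : ∀ y, v (f1 y) = f2 y
  h2 : ∀ y, v (f2 y) = f3 y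
  h3 : ∀ y, v (f3 y) = f1 y
  h0 : ∀ x, (∀ y, x ≠ f1 y) → (∀ y, x ≠ f2 y) → (∀ y, x ≠ f3 y) → v x = x

theorem Cyc.comm {Ω Y : Type*} {v v' : Perm Ω} {f1 f2 f3 f4 f5 : Y → Ω}
    (h : Cyc v f1 f2 f3) (h' : Cyc v' f4 f2 f5)
    (d12 : ∀ y y', f1 y ≠ f2 y') (d14 : ∀ y y', f1 y ≠ f4 y') (d15 : ∀ y y', f1 y ≠ f5 y')
    (d32 : ∀ y y', f3 y ≠ f2 y') (d34 : ∀ y y', f3 y ≠ f4 y') (d35 : ∀ y y', f3 y ≠ f5 y')
    (d42 : ∀ y y', f4 y ≠ f2 y') (d52 : ∀ y y', f5 y ≠ f2 y') :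
    Cyc (v * v' * v⁻¹ * v'⁻¹) f2 f3 f5 := by
  have a1 : ∀ y, v' (f1 y) = f1 y := fun y => h'.h0 _ (d14 y) (d12 y) (d15 y)
  have a3 : ∀ y, v' (f3 y) = f3 y := fun y => h'.h0 _ (d34 y) (d32 y) (d35 y)
  have a4 : ∀ y, v (f4 y) = f4 y := fun y =>
    h.h0 _ (fun y' => (d14 y' y).symm) (d42 y) (fun y' => (d34 y' y).symm)
  have a5 : ∀ y, v (f5 y) = f5 y := fun y =>
    h.h0 _ (fun y' => (d15 y' y).symm) (d52 y) (fun y' => (d35 y' y).symm)
  have inv : ∀ (g : Perm Ω) a b, g a = b → g⁻¹ b = a := fun g a b e => by rw [← e]; simp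
  refine ⟨fun y => ?_, fun y => ?_, fun y => ?_, fun x n2 n3 n5 => ?_⟩
  · simp only [Perm.mul_apply]
    rw [inv _ _ _ (h'.h1 y), inv _ _ _ (a4 y), h'.h1, h.h2]
  · simp only [Perm.mul_apply]
    rw [inv _ _ _ (a3 y), inv _ _ _ (h.h2 y), h'.h2, a5]
  · simp only [Perm.mul_apply]
    rw [inv _ _ _ (h'.h2 y), inv _ _ _ (h.h1 y), a1, h.h1]
  · simp only [Perm.mul_apply]
    by_cases n4 : ∃ y, x = f4 y
    · obtain ⟨y, rfl⟩ := n4
      rw [inv _ _ _ (h'.h3 y), inv _ _ _ (a5 y), h'.h3, a4]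
    by_cases n1 : ∃ y, x = f1 y
    · obtain ⟨y, rfl⟩ := n1
      rw [inv _ _ _ (a1 y), inv _ _ _ (h.h3 y), a3, h.h3]
    push Not at n4 n1
    have e := h.h0 x n1 n2 n3
    have e' := h'.h0 x n4 n2 n5
    rw [inv _ _ _ e', inv _ _ _ e, e', e]

theorem Cyc.conj {Ω Y : Type*} {v : Perm Ω} {f1 f2 f3 : Y → Ω} (h : Cyc v f1 f2 f3) (g : Perm Ω) :
    Cyc (g * v * g⁻¹) (fun y => g (f1 y)) (fun y => g (f2 y)) (fun y => g (f3 y)) := by
  refine ⟨fun y => by simp [h.h1], fun y => by simp [h.h2], fun y => by simp [h.h3],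
    fun x n1 n2 n3 => ?_⟩
  simp only [Perm.mul_apply]
  rw [h.h0 (g⁻¹ x) (fun y e => n1 y (by rw [← e]; simp)) (fun y e => n2 y (by rw [← e]; simp))
    (fun y e => n3 y (by rw [← e]; simp))]
  simp

/-- first half of the diagonal 3-cycle lemma: the third points fill one hyperplane -/
theorem Ctx.cyc_letter (C : Ctx H W) {p q r : α} (hpq : p ≠ q) (hpr : p ≠ r) (hqr : q ≠ r)
    {ω : β → α × β} {u : Perm (α × β)} (hu : u ∈ H)
    (h : Cyc u (fun y => (p, y)) (fun y => (q, y)) ω)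
    (hω : ∀ y, (ω y).1 ≠ p ∧ (ω y).1 ≠ q ∧ (ω y).1 ≠ r) (y0 y1 : β) : (ω y1).1 = (ω y0).1 := by
  set b := (ω y0).1 with hb
  obtain ⟨hbp, hbq, hbr⟩ : b ≠ p ∧ b ≠ q ∧ b ≠ r := hω y0
  let l : Perm α := swap b r * swap p q
  have hl : sign l = 1 := by simp [l, sign_swap hbr, sign_swap hpq]
  have lp' : l p = q := by simp [l, swap_apply_of_ne_of_ne hbq.symm hqr]
  have lq : l q = p := by simp [l, swap_apply_of_ne_of_ne hbp.symm hpr]
  have lb : l b = r := by simp [l, swap_apply_of_ne_of_ne hbp hbq]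
  have lr : l r = b := by simp [l, swap_apply_of_ne_of_ne hpr.symm hqr.symm]
  have lo : ∀ a, a ≠ p → a ≠ q → a ≠ b → a ≠ r → l a = a := fun a n1 n2 n3 n4 => by
    simp [l, swap_apply_of_ne_of_ne n1 n2, swap_apply_of_ne_of_ne n3 n4]
  have ur : ∀ y, u (r, y) = (r, y) := fun y => h.h0 _ (fun y' e => hpr (congrArg Prod.fst e).symm)
    (fun y' e => hqr (congrArg Prod.fst e).symm) (fun y' e => (hω y').2.2 (congrArg Prod.fst e).symm)
  let Y := {y : β // (ω y).1 = b}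
  have eY : ∀ y : Y, ω y.1 = (b, (ω y.1).2) := fun y => Prod.ext y.2 rfl
  have L : ∀ {a a' : α}, l a = a' → ∀ y : β, lp l (a, y) = (a', y) := fun e y => by
    rw [← e]; rfl
  have hv : Cyc (lp l * u * lp l * u) (fun y : Y => (q, y.1)) (fun y : Y => (b, (ω y.1).2))
      (fun y : Y => (r, (ω y.1).2)) := by
    have h1 : ∀ y, u (p, y) = (q, y) := h.h1
    have h2 : ∀ y, u (q, y) = ω y := h.h2
    have h3 : ∀ y, u (ω y) = (p, y) := h.h3
    refine ⟨fun y => ?_, fun y => ?_, fun y => ?_, fun x n1 n2 n3 => ?_⟩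
    · simp only [Perm.mul_apply]
      rw [h2, eY, L lb, ur, L lr]
    · simp only [Perm.mul_apply]
      rw [← eY, h3, L lp', h2, eY, L lb]
    · simp only [Perm.mul_apply]
      rw [ur, L lr, ← eY, h3, L lp']
    · simp only [Perm.mul_apply]
      have lω : ∀ y, (ω y).1 ≠ b → lp l (ω y) = ω y := fun y hy =>
        L (lo _ (hω y).1 (hω y).2.1 hy (hω y).2.2) (ω y).2
      obtain ⟨a, y⟩ := x
      by_cases ap : a = p
      · rw [ap, h1, L lq, h1, L lq]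
      by_cases aq : a = q
      · have hy : (ω y).1 ≠ b := fun e => n1 ⟨y, e⟩ (by rw [aq])
        rw [aq, h2, lω y hy, h3, L lp']
      by_cases aω : ∃ y', (a, y) = ω y'
      · obtain ⟨y', e⟩ := aω
        have hy : (ω y').1 ≠ b := fun e' => n2 ⟨y', e'⟩ (e.trans (eY ⟨y', e'⟩))
        rw [e, h3, L lp', h2, lω y' hy]
      push Not at aω
      have ua := h.h0 (a, y) (fun y' e => ap (congrArg Prod.fst e))
        (fun y' e => aq (congrArg Prod.fst e)) aω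
      rw [ua]
      by_cases ab : a = b
      · rw [ab, L lb, ur, L lr]
      by_cases ar : a = r
      · rw [ar, L lr, h.h0 (b, y) (fun y' e => hbp (congrArg Prod.fst e))
          (fun y' e => hbq (congrArg Prod.fst e)) (fun y' e => n3 ⟨y', (congrArg Prod.fst e).symm⟩
            (Prod.ext ar (congrArg Prod.snd e :))), L lb]
      rw [L (lo a ap aq ab ar), ua, L (lo a ap aq ab ar)]
  have hvH : lp l * u * lp l * u ∈ H :=
    H.mul_mem (H.mul_mem (H.mul_mem (C.hL l hl) hu) (C.hL l hl)) hu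
  obtain ⟨e, hep, heq, her, heb⟩ := fresh4 C.card p q r b
  let l2 : Perm α := swap q p * swap r e
  have hl2 : sign l2 = 1 := by simp [l2, sign_swap hpq.symm, sign_swap her.symm]
  have l2q : l2 q = p := by simp [l2, swap_apply_of_ne_of_ne hqr heq.symm]
  have l2b : l2 b = b := by
    simp [l2, swap_apply_of_ne_of_ne hbr heb.symm, swap_apply_of_ne_of_ne hbq hbp]
  have l2r : l2 r = e := by simp [l2, swap_apply_of_ne_of_ne heq hep]
  have hv' := hv.conj (lp l2)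
  simp only [lp_apply, l2q, l2b, l2r] at hv'
  have hw := hv.comm hv' (fun y y' h => hbq (congrArg Prod.fst h).symm)
    (fun y y' h => hpq (congrArg Prod.fst h).symm) (fun y y' h => heq (congrArg Prod.fst h).symm)
    (fun y y' h => hbr (congrArg Prod.fst h).symm) (fun y y' h => hpr (congrArg Prod.fst h).symm)
    (fun y y' h => her (congrArg Prod.fst h).symm) (fun y y' h => hbp (congrArg Prod.fst h).symm)
    (fun y y' h => heb (congrArg Prod.fst h))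
  have hv'H := H.mul_mem (H.mul_mem (C.hL l2 hl2) hvH) (H.inv_mem (C.hL l2 hl2))
  have hwH := H.mul_mem (H.mul_mem (H.mul_mem hvH hv'H) (H.inv_mem hvH)) (H.inv_mem hv'H)
  obtain ⟨σ, hσ⟩ := C.exists_lp hwH (fun x => by
    by_cases n1 : ∃ y : Y, x = (b, (ω y.1).2)
    · obtain ⟨y, rfl⟩ := n1; rw [hw.h1]
    by_cases n2 : ∃ y : Y, x = (r, (ω y.1).2)
    · obtain ⟨y, rfl⟩ := n2; rw [hw.h2]
    by_cases n3 : ∃ y : Y, x = (e, (ω y.1).2)
    · obtain ⟨y, rfl⟩ := n3; rw [hw.h3]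
    push Not at n1 n2 n3
    rw [hw.h0 x n1 n2 n3])
  rw [hσ] at hw
  have hσb : σ b = r := congrArg Prod.fst (hw.h1 ⟨y0, rfl⟩)
  have hsurj : ∀ y', ∃ y : Y, (b, y') = (b, (ω y.1).2) := fun y' => by
    by_contra hcon
    push Not at hcon
    have := hw.h0 (b, y') hcon (fun y e => hbr (congrArg Prod.fst e))
      (fun y e => heb (congrArg Prod.fst e).symm)
    rw [lp_apply, hσb] at this
    exact hbr (congrArg Prod.fst this).symm
  choose s hs using hsurj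
  have hinj : Function.Injective fun y' => (s y').1 := fun y y' e => by
    have e' : s y = s y' := Subtype.ext e
    have := (hs y).trans (e' ▸ (hs y').symm)
    exact congrArg Prod.snd this
  obtain ⟨y', hy'⟩ := Finite.surjective_of_injective hinj y1
  rw [← hy']
  exact (s y').2

end Cfsg.Agent.Perm.PW
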