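import Mathlib
import Cfsg.Agent.Perm.PWOrb

/-! Product action of wreath products, part 3: the centraliser of a letter 3-cycle consists of
product permutations. -/

set_option autoImplicit false

namespace Cfsg.Agent.Perm.PW
open Equiv Equiv.Perm

variable {α β : Type*} [Fintype α] [DecidableEq α] [Fintype β] [DecidableEq β]
variable {H : Subgroup (Perm (α × β))} {W : Subgroup (Perm β)}

/-- no nontrivial element is supported in one hyperplane -/
def NoHyp (H : Subgroup (Perm (α × β))) : Prop :=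
  ∀ a : α, ∀ g ∈ H, (∀ x : α × β, x.1 ≠ a → g x = x) → g = 1

theorem comm_off {Ω : Type*} {A B : Perm Ω} (P : Ω → Prop) (hA : ∀ x, ¬ P x → ¬ P (A x))
    (hB : ∀ x, ¬ P x → ¬ P (B x)) (h : ∀ x, ¬ P x → A x = x ∨ B x = x) (x : Ω) (hx : ¬ P x) :
    A (B x) = B (A x) := by
  by_cases e : B x = x
  · rw [e]
    by_cases e' : A x = x
    · rw [e', e]
    · exact ((h _ (hA x hx)).resolve_left fun h' => e' (A.injective h')).symm
  · rw [(h x hx).resolve_right e]
    exact (h _ (hB x hx)).resolve_right fun h' => e (B.injective h')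

theorem Ctx.cyc_diag (C : Ctx H W) (hJ : NoHyp H) {p q r : α} (hpq : p ≠ q) (hpr : p ≠ r)
    (hqr : q ≠ r) {ω : β → α × β} {u : Perm (α × β)} (hu : u ∈ H)
    (h : Cyc u (fun y => (p, y)) (fun y => (q, y)) ω)
    (hω : ∀ y, (ω y).1 ≠ p ∧ (ω y).1 ≠ q ∧ (ω y).1 ≠ r) : ∃ b, ∀ y, ω y = (b, y) := by
  rcases isEmpty_or_nonempty β with hβ | ⟨⟨y0⟩⟩
  · exact ⟨p, fun y => isEmptyElim y⟩
  set b := (ω y0).1 with hb
  have hωb : ∀ y, ω y = (b, (ω y).2) := fun y =>
    Prod.ext (C.cyc_letter hpq hpr hqr hu h hω y0 y) rfl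
  obtain ⟨hbp, hbq, -⟩ : b ≠ p ∧ b ≠ q ∧ b ≠ r := hω y0
  refine ⟨b, fun y => ?_⟩
  let Z : Subgroup (Perm (α × β)) :=
    { carrier := {g | g ∈ H ∧ (∀ x : α × β, x.1 ≠ q → x.1 ≠ b → g x = x) ∧
        ∀ x : α × β, (g x).1 = q ↔ x.1 = q}
      one_mem' := ⟨H.one_mem, fun _ _ _ => rfl, fun _ => Iff.rfl⟩
      mul_mem' := by
        rintro g g' ⟨h1, h2, h3⟩ ⟨h1', h2', h3'⟩
        refine ⟨H.mul_mem h1 h1', fun x n1 n2 => ?_, fun x => ?_⟩
        · rw [Perm.mul_apply, h2' x n1 n2, h2 x n1 n2]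
        · rw [Perm.mul_apply, h3, h3']
      inv_mem' := by
        rintro g ⟨h1, h2, h3⟩
        refine ⟨H.inv_mem h1, fun x n1 n2 => ?_, fun x => ?_⟩
        · rw [Perm.inv_eq_iff_eq, h2 x n1 n2]
        · rw [← h3 (g⁻¹ x), app_inv] }
  have hφinj : Function.Injective fun y => (ω y).2 := fun y y' e => by
    have e' : ω y = ω y' := by rw [hωb y, hωb y']; exact Prod.ext rfl e
    have := h.h3 y
    rw [e', h.h3] at this
    exact (congrArg Prod.snd this).symm
  have hc : ∀ {a a' : α}, cyc p q b a = a' → ∀ y : β, (lp (cyc p q b))⁻¹ (a', y) = (a, y) :=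
    fun e y => by rw [Perm.inv_eq_iff_eq, lp_apply, e]
  have g1q : ∀ y, ((lp (cyc p q b))⁻¹ * u : Perm (α × β)) (q, y) = (q, (ω y).2) := fun y => by
    rw [Perm.mul_apply, show u (q, y) = ω y from h.h2 y, hωb, hc cyc_b]
  have g1o : ∀ x : α × β, x.1 ≠ q → x.1 ≠ b → ((lp (cyc p q b))⁻¹ * u : Perm (α × β)) x = x := by
    rintro ⟨a, y⟩ n1 n2
    rw [Perm.mul_apply]
    by_cases ap : a = p
    · rw [ap, show u (p, y) = (q, y) from h.h1 y, hc (cyc_a hpq hbq.symm)]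
    · rw [h.h0 (a, y) (fun y' e => ap (congrArg Prod.fst e)) (fun y' e => n1 (congrArg Prod.fst e))
        (fun y' e => n2 (by rw [hωb] at e; exact (congrArg Prod.fst e :))), hc (cyc_ne ap n1 n2)]
  have g1Z : (lp (cyc p q b))⁻¹ * u ∈ Z := by
    refine ⟨H.mul_mem (H.inv_mem (C.hL _ (sign_cyc hpq hbp.symm))) hu, g1o, ?_⟩
    rintro ⟨a, y⟩
    by_cases aq : a = q
    · rw [aq, g1q]
    by_cases ab : a = b
    · obtain ⟨y', hy'⟩ := Finite.surjective_of_injective hφinj y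
      have : (a, y) = ω y' := by rw [hωb, ab]; exact Prod.ext rfl hy'.symm
      rw [Perm.mul_apply, this, show u (ω y') = (p, y') from h.h3 y', hc (cyc_c hbp.symm hbq.symm),
        ← this]
      exact ⟨fun e => absurd e hbq, fun e => absurd e aq⟩
    · rw [g1o (a, y) aq ab]
  have key := C.orb Z (fun w hw z hz => ?_) (· = q) (fun z hz x hx => (hz.2.2 x).2 hx)
    (fun _ _ => True) ⟨fun _ => trivial, fun _ => trivial, fun _ _ => trivial⟩
    (fun z _ x x' hx hx' e _ => ⟨by rw [Prod.ext (hx.trans hx'.symm) e], trivial⟩)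
    (fun z hz z' hz' x hx => ⟨?_, trivial⟩) _ g1Z (q, y) rfl
  · rw [g1q] at key
    rw [hωb]
    exact Prod.ext rfl key
  · refine ⟨H.mul_mem (H.mul_mem (C.hW w hw) hz.1) (H.inv_mem (C.hW w hw)), ?_, ?_⟩
    · rintro ⟨a, y⟩ n1 n2
      rw [Perm.mul_apply, Perm.mul_apply, rp_inv_apply, hz.2.1 (a, w⁻¹ y) n1 n2, rp_apply, app_inv]
    · rintro ⟨a, y⟩
      exact hz.2.2 (a, w⁻¹ y)
  · obtain ⟨d, hd1, hd2, -, -⟩ := fresh4 C.card q b b b
    obtain ⟨l, hl, l1, l2⟩ := exists_even_fix C.card hbq hd1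
    have l1' : l⁻¹ q = q := by rw [Perm.inv_eq_iff_eq, l1]
    let B : Perm (α × β) := lp l * z' * (lp l)⁻¹
    have hB : B ∈ H := H.mul_mem (H.mul_mem (C.hL l hl) hz'.1) (H.inv_mem (C.hL l hl))
    have Bq : ∀ x : α × β, x.1 = q → B x = z' x := by
      rintro ⟨a, y⟩ rfl
      have e : z' (a, y) = (a, (z' (a, y)).2) := Prod.ext ((hz'.2.2 _).2 rfl) rfl
      show lp l (z' (l⁻¹ a, y)) = _
      rw [l1', e, lp_apply, l1]
    have Bn : ∀ x : α × β, ¬ x.1 = q → ¬ (B x).1 = q := by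
      rintro ⟨a, y⟩ n e
      have e' : l (z' (l⁻¹ a, y)).1 = l q := by rw [l1]; exact e
      have := (hz'.2.2 _).1 (l.injective e')
      exact n (by rw [← l1, ← this]; simp)
    have hoff := comm_off (A := z) (B := B) (fun x => x.1 = q)
      (fun x n e => n ((hz.2.2 x).1 e)) Bn (by
        rintro ⟨a, y⟩ n
        by_cases ab : a = b
        · right
          show lp l (z' (l⁻¹ a, y)) = _
          rw [hz'.2.1 (l⁻¹ a, y) (fun e => n (by rw [← l1, ← e]; simp))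
            (fun e => hd2 (by
              have e' : l⁻¹ a = b := e
              rw [Perm.inv_eq_iff_eq, l2] at e'
              rw [← e', ab]))]
          simp
        · exact Or.inl (hz.2.1 _ n ab))
    have h1 := hJ q ((B * z)⁻¹ * (z * B))
      (H.mul_mem (H.inv_mem (H.mul_mem hB hz.1)) (H.mul_mem hz.1 hB)) (fun x n => by
        rw [Perm.mul_apply, Perm.inv_eq_iff_eq]
        exact hoff x n)
    have h2 : z * B = B * z := (inv_mul_eq_one.1 h1).symm
    have h3 := congrArg (fun f : Perm (α × β) => f x) h2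
    simp only [Perm.mul_apply] at h3
    rw [Bq x hx, Bq _ ((hz.2.2 x).2 hx)] at h3
    rw [h3]

/-- an element that is a product map on three hyperplanes is a product map -/
theorem Ctx.prod_of_three (C : Ctx H W) (hJ : NoHyp H) {g : Perm (α × β)} (hg : g ∈ H)
    {p q r p' q' r' : α} (hpq : p ≠ q) (hpr : p ≠ r) (hqr : q ≠ r) {τ : β → β}
    (h1 : ∀ y, g (p, y) = (p', τ y)) (h2 : ∀ y, g (q, y) = (q', τ y))
    (h3 : ∀ y, g (r, y) = (r', τ y)) (b : α) : ∃ b', ∀ y, g (b, y) = (b', τ y) := by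
  by_cases bp : b = p
  · exact ⟨p', by rw [bp]; exact h1⟩
  by_cases bq : b = q
  · exact ⟨q', by rw [bq]; exact h2⟩
  by_cases br : b = r
  · exact ⟨r', by rw [br]; exact h3⟩
  rcases isEmpty_or_nonempty β with hβ | ⟨⟨y0⟩⟩
  · exact ⟨p, fun y => isEmptyElim y⟩
  have hτ : Function.Injective τ := fun y y' e => by
    have : g (p, y) = g (p, y') := by rw [h1, h1, e]
    exact congrArg Prod.snd (g.injective this)
  let t : β ≃ β := Equiv.ofBijective τ (Finite.injective_iff_bijective.1 hτ)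
  have ht : ∀ y, τ (t.symm y) = y := fun y => t.apply_symm_apply y
  have ne : ∀ {a a' c c' : α}, a ≠ c → (∀ y, g (a, y) = (a', τ y)) → (∀ y, g (c, y) = (c', τ y)) →
      a' ≠ c' := fun n e e' h => n (congrArg Prod.fst (g.injective
        (show g (_, y0) = g (_, y0) by rw [e, e', h])))
  have ne' : ∀ {a a' : α}, b ≠ a → (∀ y, g (a, y) = (a', τ y)) → ∀ y, (g (b, y)).1 ≠ a' :=
    fun n e y h => n (congrArg Prod.fst (g.injective
      (show g (b, y) = g (_, t.symm (g (b, y)).2) by rw [e, ht, ← h])))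
  have hc : Cyc (lp (cyc p q b) : Perm (α × β)) (fun y => (p, t.symm y)) (fun y => (q, t.symm y))
      (fun y => (b, t.symm y)) := by
    refine ⟨fun y => ?_, fun y => ?_, fun y => ?_, ?_⟩
    · rw [lp_apply, cyc_a hpq (Ne.symm bq)]
    · rw [lp_apply, cyc_b]
    · rw [lp_apply, cyc_c (Ne.symm bp) (Ne.symm bq)]
    · rintro ⟨a, y⟩ n1 n2 n3
      rw [lp_apply, cyc_ne (fun e => n1 (t y) (by simp [e])) (fun e => n2 (t y) (by simp [e]))
        (fun e => n3 (t y) (by simp [e]))]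
  have hc' := hc.conj g
  simp only [h1, h2, ht] at hc'
  obtain ⟨b', hb'⟩ := C.cyc_diag hJ (ne hpq h1 h2) (ne hpr h1 h3) (ne hqr h2 h3)
    (H.mul_mem (H.mul_mem hg (C.hL _ (sign_cyc hpq (Ne.symm bp)))) (H.inv_mem hg)) hc'
    (fun y => ⟨ne' bp h1 _, ne' bq h2 _, ne' br h3 _⟩)
  refine ⟨b', fun y => ?_⟩
  have := hb' (τ y)
  rwa [show t.symm (τ y) = y from t.symm_apply_apply y] at this

omit [Fintype α] in
theorem cyc_mem {p q r a : α} (hpq : p ≠ q) (hpr : p ≠ r) (hqr : q ≠ r) :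
    cyc p q r a ≠ a ↔ a = p ∨ a = q ∨ a = r := by
  constructor
  · intro h
    by_contra hc
    push Not at hc
    exact h (cyc_ne hc.1 hc.2.1 hc.2.2)
  · rintro (rfl | rfl | rfl)
    · rw [cyc_a hpq hqr]; exact hpq.symm
    · rw [cyc_b]; exact hqr.symm
    · rw [cyc_c hpr hqr]; exact hpr

omit [Fintype α] in
theorem cyc_pow {p q r a a' : α} (hpq : p ≠ q) (hpr : p ≠ r) (hqr : q ≠ r)
    (ha : cyc p q r a ≠ a) (ha' : cyc p q r a' ≠ a') : ∃ i : ℕ, (cyc p q r ^ i) a = a' := by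
  have e1 := cyc_a hpq hqr
  have e2 : cyc p q r q = r := cyc_b
  have e3 := cyc_c hpr hqr
  rw [cyc_mem hpq hpr hqr] at ha ha'
  rcases ha with rfl | rfl | rfl <;> rcases ha' with rfl | rfl | rfl
  all_goals first
    | exact ⟨0, rfl⟩
    | (refine ⟨1, ?_⟩; simp only [pow_one, e1, e2, e3]; done)
    | (refine ⟨2, ?_⟩; simp only [pow_two, Perm.mul_apply, e1, e2, e3])

omit [Fintype α] [DecidableEq α] [Fintype β] [DecidableEq β] in
theorem comm_pow {c : Perm α} {z : Perm (α × β)} (h : z * lp c = lp c * z) (i : ℕ) (a : α) (y : β) :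
    z ((c ^ i) a, y) = ((c ^ i) (z (a, y)).1, (z (a, y)).2) := by
  induction i with
  | zero => rfl
  | succ i ih =>
    have := congrArg (fun f : Perm (α × β) => f ((c ^ i) a, y)) h
    simp only [Perm.mul_apply, lp_apply, ih] at this
    rw [pow_succ', Perm.mul_apply, this, Perm.mul_apply]

omit [Fintype α] [DecidableEq α] [Fintype β] [DecidableEq β] in
theorem comm_fix {c : Perm α} {z : Perm (α × β)} (h : z * lp c = lp c * z) (x : α × β) :
    c (z x).1 = (z x).1 ↔ c x.1 = x.1 := by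
  have e : z (c x.1, x.2) = (c (z x).1, (z x).2) := congrArg (fun f : Perm (α × β) => f x) h
  constructor
  · intro h'
    rw [h'] at e
    exact congrArg Prod.fst (z.injective e)
  · intro h'
    rw [h'] at e
    exact (congrArg Prod.fst e).symm

theorem Ctx.line_of_comm (C : Ctx H W) (hJ : NoHyp H) {p q r : α} (hpq : p ≠ q) (hpr : p ≠ r)
    (hqr : q ≠ r) {z : Perm (α × β)} (hz : z ∈ H) (hc : z * lp (cyc p q r) = lp (cyc p q r) * z)
    (hl : ∀ x : α × β, cyc p q r x.1 ≠ x.1 → (z x).2 = x.2) : ∃ σ, z = lp σ := by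
  set c := cyc p q r with hcdef
  have hN : ∀ n ∈ H, (∀ x : α × β, c x.1 ≠ x.1 → n x = x) → ∃ σ, n = lp σ := fun n hn h => by
    apply C.exists_lp hn
    rintro ⟨a, y⟩
    obtain ⟨b', hb'⟩ := C.prod_of_three hJ hn hpq hpr hqr (τ := id)
      (fun y => h _ ((cyc_mem hpq hpr hqr).2 (Or.inl rfl)))
      (fun y => h _ ((cyc_mem hpq hpr hqr).2 (Or.inr (Or.inl rfl))))
      (fun y => h _ ((cyc_mem hpq hpr hqr).2 (Or.inr (Or.inr rfl)))) a
    rw [hb']
    rfl
  let Z : Subgroup (Perm (α × β)) :=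
    { carrier := {g | g ∈ H ∧ g * lp c = lp c * g ∧ ∀ x : α × β, c x.1 ≠ x.1 → (g x).2 = x.2}
      one_mem' := ⟨H.one_mem, by simp, fun _ _ => rfl⟩
      mul_mem' := by
        rintro g g' ⟨h1, h2, h3⟩ ⟨h1', h2', h3'⟩
        refine ⟨H.mul_mem h1 h1', (Commute.mul_left h2 h2' :), fun x n => ?_⟩
        rw [Perm.mul_apply, h3 _ (mt (comm_fix h2' x).1 n), h3' x n]
      inv_mem' := by
        rintro g ⟨h1, h2, h3⟩
        have h2' : g⁻¹ * lp c = lp c * g⁻¹ := (Commute.inv_left h2 :)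
        refine ⟨H.inv_mem h1, h2', fun x n => ?_⟩
        rw [← h3 _ (mt (comm_fix h2' x).1 n), app_inv] }
  let rel : α → α → Prop := fun a a' => ∃ σ : Perm α, (lp σ : Perm (α × β)) ∈ H ∧
    (∀ a, c a ≠ a → σ a = a) ∧ σ a = a'
  have hrel : Equivalence rel := by
    refine ⟨fun a => ⟨1, by rw [lp_one]; exact H.one_mem, fun _ _ => rfl, rfl⟩, ?_, ?_⟩
    · rintro a a' ⟨σ, h1, h2, h3⟩
      exact ⟨σ⁻¹, by rw [lp_inv]; exact H.inv_mem h1,
        fun b hb => by rw [Perm.inv_eq_iff_eq, h2 b hb], by rw [← h3]; simp⟩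
    · rintro a a' a'' ⟨σ, h1, h2, h3⟩ ⟨σ', h1', h2', h3'⟩
      exact ⟨σ' * σ, by rw [lp_mul]; exact H.mul_mem h1' h1,
        fun b hb => by rw [Perm.mul_apply, h2 b hb, h2' b hb], by rw [Perm.mul_apply, h3, h3']⟩
  have hN' : ∀ n ∈ H, (∀ x : α × β, c x.1 ≠ x.1 → n x = x) → ∀ x : α × β,
      x.2 = (n x).2 ∧ rel x.1 (n x).1 := fun n hn h x => by
    obtain ⟨σ, rfl⟩ := hN n hn h
    exact ⟨rfl, σ, hn, fun a ha => congrArg Prod.fst (h (a, x.2) ha), rfl⟩
  have key := C.orb Z (fun w hw z hz => ?_) (fun a => c a = a)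
    (fun z hz x hx => (comm_fix hz.2.1 x).2 hx) rel hrel ?_ ?_ z ⟨hz, hc, hl⟩
  · apply C.exists_lp hz
    intro x
    by_cases h : c x.1 = x.1
    · exact key x h
    · exact hl x h
  · have e : rp w * lp c = lp c * rp w := by ext x <;> rfl
    refine ⟨H.mul_mem (H.mul_mem (C.hW w hw) hz.1) (H.inv_mem (C.hW w hw)),
      (Commute.mul_left (Commute.mul_left e hz.2.1) (Commute.inv_left e) :), ?_⟩
    rintro ⟨a, y⟩ n
    show w (z (a, w⁻¹ y)).2 = y
    rw [hz.2.2 (a, w⁻¹ y) n, app_inv]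
  · rintro g hg ⟨a, y⟩ ⟨a', y'⟩ - - e ⟨σ, h1, h2, h3⟩
    obtain rfl : y = y' := e
    have := hN' (g * lp σ * g⁻¹) (H.mul_mem (H.mul_mem hg.1 h1) (H.inv_mem hg.1)) (fun x n => by
      have n' : c (g⁻¹ x).1 ≠ (g⁻¹ x).1 := fun e => n (by
        have := (comm_fix hg.2.1 (g⁻¹ x)).2 e
        rwa [app_inv] at this)
      rw [Perm.mul_apply, Perm.mul_apply,
        show lp σ (g⁻¹ x) = g⁻¹ x from Prod.ext (h2 _ n') rfl, app_inv]) (g (a, y))
    rw [Perm.mul_apply, Perm.mul_apply, inv_app, lp_apply, show σ a = a' from h3] at this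
    exact this
  · intro g hg g' hg' x _
    have := hN' ((g' * g) * (g * g')⁻¹) (H.mul_mem (H.mul_mem hg'.1 hg.1)
      (H.inv_mem (H.mul_mem hg.1 hg'.1))) (fun x n => by
        have hx : ((g * g')⁻¹ x) ∈ {x : α × β | c x.1 ≠ x.1} :=
          mt (comm_fix (Z.inv_mem (Z.mul_mem hg hg')).2.1 x).1 n
        rw [Perm.mul_apply]
        generalize hx' : (g * g')⁻¹ x = x' at hx
        rw [← app_inv (g * g') x, hx']
        obtain ⟨a, y⟩ := x'
        obtain ⟨i, hi⟩ := cyc_pow hpq hpr hqr hx (mt (comm_fix hg.2.1 (a, y)).1 hx)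
        obtain ⟨j, hj⟩ := cyc_pow hpq hpr hqr hx (mt (comm_fix hg'.2.1 (a, y)).1 hx)
        have ei : g (a, y) = ((c ^ i) a, y) := Prod.ext hi.symm (hg.2.2 _ hx)
        have ej : g' (a, y) = ((c ^ j) a, y) := Prod.ext hj.symm (hg'.2.2 _ hx)
        rw [Perm.mul_apply, Perm.mul_apply, ei, ej, comm_pow hg.2.1, comm_pow hg'.2.1, ei, ej]
        show ((c ^ i * c ^ j) a, y) = ((c ^ j * c ^ i) a, y)
        rw [pow_mul_comm]) (g (g' x))
    rw [Perm.mul_apply, show (g * g')⁻¹ (g (g' x)) = x from inv_app (g * g') x] at this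
    exact this

/-- the centraliser of a letter 3-cycle consists of product maps -/
theorem Ctx.cent_prod (C : Ctx H W) (hJ : NoHyp H) {p q r : α} (hpq : p ≠ q) (hpr : p ≠ r)
    (hqr : q ≠ r) {g : Perm (α × β)} (hg : g ∈ H) (hc : g * lp (cyc p q r) = lp (cyc p q r) * g) :
    ∃ (σ : Perm α) (τ : Perm β), g = lp σ * rp τ := by
  rcases isEmpty_or_nonempty β with hβ | ⟨⟨y0⟩⟩
  · exact ⟨1, 1, by ext ⟨a, y⟩ <;> exact isEmptyElim y⟩
  set c := cyc p q r with hcdef
  have cr : c r ≠ r := (cyc_mem hpq hpr hqr).2 (Or.inr (Or.inr rfl))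
  have snd : ∀ a a' y, c a ≠ a → c a' ≠ a' → (g (a', y)).2 = (g (a, y)).2 := fun a a' y h h' => by
    obtain ⟨i, rfl⟩ := cyc_pow hpq hpr hqr h h'
    rw [comm_pow hc]
  obtain ⟨d, hd1, hd2, hd3, -⟩ := fresh4 C.card p q r r
  obtain ⟨e, he1, he2, he3, he4⟩ := fresh4 C.card p q r d
  let s : Perm α := swap p q * swap d e
  have hs : sign s = 1 := by simp [s, sign_swap hpq, sign_swap he4.symm]
  have sp : s p = q := by simp [s, swap_apply_of_ne_of_ne hd1.symm he1.symm]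
  have sq : s q = p := by simp [s, swap_apply_of_ne_of_ne hd2.symm he2.symm]
  have sr : s r = r := by
    simp [s, swap_apply_of_ne_of_ne hd3.symm he3.symm, swap_apply_of_ne_of_ne hpr.symm hqr.symm]
  have sc : s * c * s⁻¹ = c⁻¹ := by
    have : s * c * s⁻¹ = (s * swap p r * s⁻¹) * (s * swap p q * s⁻¹) := by
      rw [hcdef, cyc]; group
    rw [this, ← swap_apply_apply, ← swap_apply_apply, sp, sq, sr, hcdef, cyc, mul_inv_rev,
      swap_inv, swap_inv, swap_comm q p, swap_mul_eq_mul_swap, swap_inv, swap_apply_right,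
      swap_apply_of_ne_of_ne hpr.symm hqr.symm]
  have smem : ∀ a, c a ≠ a → c (s⁻¹ a) ≠ s⁻¹ a := fun a h e => h (by
    have : (s * c * s⁻¹) a = a := by rw [Perm.mul_apply, Perm.mul_apply, e, app_inv]
    rw [sc, Perm.inv_eq_iff_eq] at this
    exact this.symm)
  have hc' : g⁻¹ * lp c = lp c * g⁻¹ := (Commute.inv_left hc :)
  obtain ⟨ζ, hζ⟩ := C.line_of_comm hJ hpq hpr hqr (z := lp s * g * (lp s)⁻¹ * g⁻¹)
    (H.mul_mem (H.mul_mem (H.mul_mem (C.hL s hs) hg) (H.inv_mem (C.hL s hs))) (H.inv_mem hg))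
    (by
      have e : (lp s : Perm (α × β)) * lp c * (lp s)⁻¹ = (lp c)⁻¹ := by
        rw [← lp_inv, ← lp_mul, ← lp_mul, sc, lp_inv]
      have e1 : Commute (lp s * g * (lp s)⁻¹) ((lp s : Perm (α × β)) * lp c * (lp s)⁻¹) := by
        show _ = _
        calc lp s * g * (lp s)⁻¹ * (lp s * lp c * (lp s)⁻¹) = lp s * (g * lp c) * (lp s)⁻¹ := by
              group
          _ = _ := by rw [hc]; group
      rw [e] at e1
      exact (Commute.mul_left (Commute.inv_right_iff.1 e1) hc' :))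
    (fun x n => by
      have n' := mt (comm_fix hc' x).1 n
      show (g (s⁻¹ (g⁻¹ x).1, (g⁻¹ x).2)).2 = x.2
      rw [snd _ _ _ n' (smem _ n'), show ((g⁻¹ x).1, (g⁻¹ x).2) = g⁻¹ x from rfl, app_inv])
  have hρ : ∀ a y, g (s⁻¹ a, y) = ((s⁻¹ * ζ) (g (a, y)).1, (g (a, y)).2) := fun a y => by
    have := congrArg (fun f : Perm (α × β) => (lp s)⁻¹ (f (g (a, y)))) hζ
    simp only [Perm.mul_apply, inv_app] at this
    exact this
  have sr' : s⁻¹ r = r := by rw [Perm.inv_eq_iff_eq, sr]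
  have hconst : ∀ y, (g (r, y)).1 = (g (r, y0)).1 := fun y => by
    have n0 := mt (comm_fix hc (r, y0)).1 cr
    have n1 := mt (comm_fix hc (r, y)).1 cr
    obtain ⟨a, ha⟩ : ∃ a, g (a, y) = ((g (r, y0)).1, (g (r, y)).2) := by
      obtain ⟨i, hi⟩ := cyc_pow hpq hpr hqr n1 n0
      exact ⟨(c ^ i) r, by rw [comm_pow hc, hi]⟩
    have f0 : (s⁻¹ * ζ) (g (r, y0)).1 = (g (r, y0)).1 := by
      have := hρ r y0
      rw [sr'] at this
      exact (congrArg Prod.fst this).symm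
    have e1 := hρ a y
    rw [ha, f0, ← ha] at e1
    have e2 : s⁻¹ a = a := congrArg Prod.fst (g.injective e1)
    have ca : c a ≠ a := fun e => n0 (by
      have := (comm_fix hc (a, y)).2 e
      rwa [ha] at this)
    rw [Perm.inv_eq_iff_eq] at e2
    rcases (cyc_mem hpq hpr hqr).1 ca with rfl | rfl | rfl
    · exact absurd (e2.trans sp) hpq
    · exact absurd (e2.trans sq) hpq.symm
    · exact (congrArg Prod.fst ha :)
  have h3 : ∀ y, g (r, y) = ((g (r, y0)).1, (g (r, y)).2) := fun y => Prod.ext (hconst y) rfl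
  have h1 : ∀ y, g (p, y) = (c (g (r, y0)).1, (g (r, y)).2) := fun y => by
    have := comm_pow hc 1 r y
    rwa [pow_one, cyc_c hpr hqr, hconst] at this
  have h2 : ∀ y, g (q, y) = ((c ^ 2) (g (r, y0)).1, (g (r, y)).2) := fun y => by
    have := comm_pow hc 2 r y
    rwa [show (cyc p q r ^ 2) r = q by
      rw [pow_two, Perm.mul_apply, cyc_c hpr hqr, cyc_a hpq hqr], hconst] at this
  choose σ hσ using C.prod_of_three hJ hg hpq hpr hqr h1 h2 h3
  have hσi : Function.Injective σ := fun a a' e =>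
    congrArg Prod.fst (g.injective (show g (a, y0) = g (a', y0) by rw [hσ a, hσ a', e]))
  have hτi : Function.Injective fun y => (g (r, y)).2 := fun y y' e =>
    congrArg Prod.snd (g.injective (show g (r, y) = g (r, y') by rw [h3 y, h3 y']; exact Prod.ext rfl e))
  refine ⟨Equiv.ofBijective σ (Finite.injective_iff_bijective.1 hσi),
    Equiv.ofBijective _ (Finite.injective_iff_bijective.1 hτi), Equiv.ext fun ⟨a, y⟩ => ?_⟩
  rw [hσ a]
  rfl

end Cfsg.Agent.Perm.PW
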