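import Mathlib
import Cfsg.Agent.Perm.PWCent

/-! Product action of wreath products, part 4: the wreath product on `ι → α`, primitivity,
automorphisms of the Hamming graph, conjugates of a direction 3-cycle. -/

set_option autoImplicit false

namespace Cfsg.Agent.Perm.PW
open Equiv Equiv.Perm Function
open scoped Pointwise

variable {ι α : Type*}

/-- an element of the wreath product in product action -/
def wr (π : Perm ι) (τ : ι → Perm α) : Perm (ι → α) where
  toFun f i := τ i (f (π.symm i))
  invFun f i := (τ (π i))⁻¹ (f (π i))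
  left_inv f := by funext i; simp
  right_inv f := by funext i; simp

@[simp] theorem wr_apply (π : Perm ι) (τ : ι → Perm α) (f : ι → α) (i : ι) :
    wr π τ f i = τ i (f (π.symm i)) := rfl

@[simp] theorem one_symm_apply (i : ι) : Equiv.symm (1 : Perm ι) i = i := rfl

theorem wr_inv_apply (π : Perm ι) (τ : ι → Perm α) (f : ι → α) (i : ι) :
    (wr π τ)⁻¹ f i = (τ (π i))⁻¹ (f (π i)) := rfl

/-- the wreath product -/
def Wr (ι α : Type*) : Subgroup (Perm (ι → α)) where
  carrier := {g | ∃ π τ, g = wr π τ}
  one_mem' := ⟨1, 1, by ext f i; rfl⟩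
  mul_mem' := by
    rintro _ _ ⟨π, τ, rfl⟩ ⟨π', τ', rfl⟩
    exact ⟨π * π', fun i => τ i * τ' (π.symm i), by ext f i; rfl⟩
  inv_mem' := by
    rintro _ ⟨π, τ, rfl⟩
    exact ⟨π⁻¹, fun i => (τ (π i))⁻¹, by ext f i; rfl⟩

theorem mem_Wr {g : Perm (ι → α)} :
    g ∈ Wr ι α ↔ ∃ (π : Perm ι) (τ : ι → Perm α), ∀ f i, g f i = τ i (f (π.symm i)) :=
  ⟨fun ⟨π, τ, h⟩ => ⟨π, τ, fun f i => by rw [h]; rfl⟩,
    fun ⟨π, τ, h⟩ => ⟨π, τ, by ext f i; exact h f i⟩⟩

variable [DecidableEq ι]

/-- a letter permutation in direction `i` -/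
def dir (i : ι) (σ : Perm α) : Perm (ι → α) := wr 1 (Pi.mulSingle i σ)

theorem dir_apply (i : ι) (σ : Perm α) (f : ι → α) : dir i σ f = update f i (σ (f i)) := by
  funext j
  by_cases h : j = i
  · subst h; simp [dir]
  · simp [dir, Pi.mulSingle_eq_of_ne h, update_of_ne h]

theorem dir_mul (i : ι) (σ τ : Perm α) : dir i (σ * τ) = dir i σ * dir i τ := by
  ext f j : 2
  simp [dir_apply]

theorem dir_one (i : ι) : dir i (1 : Perm α) = 1 := by
  ext f j : 2
  simp [dir_apply]

theorem dir_inv (i : ι) (σ : Perm α) : dir i σ⁻¹ = (dir i σ)⁻¹ := by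
  rw [eq_inv_iff_mul_eq_one, ← dir_mul, inv_mul_cancel, dir_one]

theorem dir_eq_one [Nonempty α] {i : ι} {σ : Perm α} (h : dir i σ = 1) : σ = 1 := by
  ext a
  have := congrArg (fun g : Perm (ι → α) => g (fun _ => a) i) h
  simpa [dir_apply] using this

theorem wr_conj_dir (π : Perm ι) (τ : ι → Perm α) (i : ι) (σ : Perm α) :
    wr π τ * dir i σ * (wr π τ)⁻¹ = dir (π i) (τ (π i) * σ * (τ (π i))⁻¹) := by
  ext f j : 2
  simp only [Perm.mul_apply, wr_apply, dir_apply]
  by_cases h : j = π i
  · subst h
    simp [wr_inv_apply]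
  · have h' : π.symm j ≠ i := fun e => h (by rw [← e]; simp)
    rw [update_of_ne h, update_of_ne h', wr_inv_apply]
    simp

theorem reach [Fintype ι] (B : (ι → α) → Prop) (hB : ∀ f i a, B f → B (update f i a))
    {f : ι → α} (hf : B f) (g : ι → α) : B g := by
  have : ∀ s : Finset ι, B (s.piecewise g f) := fun s => by
    induction s using Finset.induction_on with
    | empty => simpa using hf
    | insert i s _ ih => rw [Finset.piecewise_insert]; exact hB _ _ _ ih
  simpa using this Finset.univ

/-- `f` and `g` differ exactly at `i` -/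
def Dif (f : ι → α) (i : ι) (g : ι → α) : Prop := f i ≠ g i ∧ ∀ j, j ≠ i → f j = g j

omit [DecidableEq ι] in
theorem Dif.symm {f g : ι → α} {i : ι} (h : Dif f i g) : Dif g i f :=
  ⟨h.1.symm, fun j hj => (h.2 j hj).symm⟩

omit [DecidableEq ι] in
theorem Dif.uniq {f g : ι → α} {i j : ι} (h : Dif f i g) (h' : Dif f j g) : i = j := by
  by_contra hne
  exact h.1 (h'.2 i hne)

omit [DecidableEq ι] in
theorem Dif.tri {f g g' : ι → α} {i j l : ι} (h : Dif f i g) (h' : Dif f j g') (h'' : Dif g l g') :
    i = j := by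
  by_contra hne
  have e1 : i = l := by
    by_contra n
    exact h.1 ((h'.2 i hne).trans (h''.2 i n).symm)
  have e2 : j = l := by
    by_contra n
    exact h'.1 ((h.2 j (Ne.symm hne)).trans (h''.2 j n))
  exact hne (e1.trans e2.symm)

theorem dif_update (f : ι → α) (i : ι) {a : α} (h : a ≠ f i) : Dif f i (update f i a) :=
  ⟨by simpa using h.symm, fun j hj => (update_of_ne hj _ _).symm⟩

omit [DecidableEq ι] in
theorem Dif.wr {f g : ι → α} {i : ι} (h : Dif f i g) (π : Perm ι) (τ : ι → Perm α) :
    Dif (wr π τ f) (π i) (wr π τ g) :=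
  ⟨by simpa using h.1, fun j hj => by
    rw [wr_apply, wr_apply, h.2 _ fun e => hj (by rw [← e]; simp)]⟩

/-- automorphisms of the Hamming graph -/
theorem mem_Wr_of_adj [Fintype ι] [Fintype α] (h5 : 5 ≤ Fintype.card α) {h : Perm (ι → α)}
    (h1 : ∀ f g i, Dif f i g → ∃ j, Dif (h f) j (h g))
    (h2 : ∀ f g i, Dif (h f) i (h g) → ∃ j, Dif f j g) : h ∈ Wr ι α := by
  have fr : ∀ a : α, ∃ b, b ≠ a := fun a => by
    obtain ⟨b, hb, -⟩ := fresh4 h5 a a a a
    exact ⟨b, hb⟩
  choose ot hot using fr
  choose π hπ0 using fun (x : ι → α) (i : ι) => h1 _ _ _ (dif_update x i (hot (x i)))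
  have hπ : ∀ x i a, a ≠ x i → Dif (h x) (π x i) (h (update x i a)) := fun x i a ha => by
    obtain ⟨j, hj⟩ := h1 _ _ _ (dif_update x i ha)
    by_cases e : a = ot (x i)
    · rw [e]; exact hπ0 x i
    · obtain ⟨l, hl⟩ := h1 (update x i a) (update x i (ot (x i))) i
        ⟨by simpa using e, fun j hj => by rw [update_of_ne hj, update_of_ne hj]⟩
      rwa [← hj.tri (hπ0 x i) hl]
  have hinj : ∀ x, Injective (π x) := fun x i j e => by
    by_contra hne
    have d1 := hπ0 x i
    have d2 := hπ0 x j
    rw [← e] at d2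
    by_cases e' : h (update x i (ot (x i))) (π x i) = h (update x j (ot (x j))) (π x i)
    · have : h (update x i (ot (x i))) = h (update x j (ot (x j))) := funext fun l => by
        by_cases hl : l = π x i
        · rw [hl, e']
        · rw [← d1.2 l hl, ← d2.2 l hl]
      have := congrFun (h.injective this) i
      rw [update_self, update_of_ne hne] at this
      exact hot _ this
    · obtain ⟨l, hl⟩ := h2 _ _ (π x i) ⟨e', fun l hl => by rw [← d1.2 l hl, ← d2.2 l hl]⟩
      exact hne ((dif_update x i (hot _)).tri (dif_update x j (hot _)) hl)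
  have hconst : ∀ x j b, π (update x j b) = π x := fun x j b => by
    by_cases hb : b = x j
    · rw [hb, update_eq_self]
    funext i
    by_cases hij : i = j
    · subst hij
      have d := hπ (update x i b) i (x i) (by simpa using Ne.symm hb)
      rw [update_idem, update_eq_self] at d
      exact d.uniq (hπ x i b hb).symm
    · by_contra hne
      have dY := hπ0 x i
      have dZ := hπ x j b hb
      have dV := hπ (update x j b) i (ot (x i)) (by rw [update_of_ne hij]; exact hot _)
      obtain ⟨l, hl⟩ := h1 (update x i (ot (x i))) (update (update x j b) i (ot (x i))) j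
        ⟨by rw [update_of_ne (Ne.symm hij), update_of_ne (Ne.symm hij), update_self]
            exact Ne.symm hb,
         fun l hl => by
          by_cases e : l = i
          · rw [e, update_self, update_self]
          · rw [update_of_ne e, update_of_ne e, update_of_ne hl]⟩
      have e1 : h (update (update x j b) i (ot (x i))) (π x i) = h x (π x i) := by
        rw [← dV.2 _ (Ne.symm hne), ← dZ.2 _ fun e => hij (hinj x e)]
      have e2 : π x i = l := by
        by_contra n
        exact dY.1 (e1.symm.trans (hl.2 _ n).symm)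
      have e3 : h (update (update x j b) i (ot (x i))) = h x := funext fun m => by
        by_cases hm : m = π x i
        · rw [hm, e1]
        · rw [← hl.2 m (e2 ▸ hm), dY.2 m hm]
      have := congrFun (h.injective e3) i
      rw [update_self] at this
      exact hot _ this
  obtain ⟨a0⟩ : Nonempty α := Fintype.card_pos_iff.1 (by omega)
  let π0 := π fun _ => a0
  have hπ0' : ∀ x, π x = π0 := fun x =>
    reach (fun x => π x = π0) (fun f i a hf => (hconst f i a).trans hf) rfl x
  have dep : ∀ x x' i, x i = x' i → h x' (π0 i) = h x (π0 i) := fun x x' i e => by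
    have := reach (fun g => h (update g i (x i)) (π0 i) = h x (π0 i)) (fun f j a hf => by
      by_cases hj : j = i
      · rw [hj, update_idem]; exact hf
      · rw [update_comm hj, ← hf]
        by_cases ha : a = update f i (x i) j
        · rw [ha, update_eq_self]
        · have d := hπ _ j a ha
          rw [hπ0'] at d
          exact (d.2 _ fun e => hj (hinj _ e).symm).symm) (f := x) (by rw [update_eq_self]) x'
    rwa [e, update_eq_self] at this
  have tinj : ∀ i, Injective fun a => h (fun _ => a) (π0 i) := fun i a a' e => by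
    by_contra n
    have d := hπ (fun _ => a) i a' (Ne.symm n)
    rw [hπ0'] at d
    apply d.1
    rw [dep (fun _ => a') (update (fun _ => a) i a') i (by simp)]
    exact e
  let P : Perm ι := Equiv.ofBijective π0 (Finite.injective_iff_bijective.1 (hinj _))
  refine mem_Wr.2 ⟨P, fun l => Equiv.ofBijective _ (Finite.injective_iff_bijective.1
    (tinj (P.symm l))), fun f l => ?_⟩
  have : π0 (P.symm l) = l := P.apply_symm_apply l
  show h f l = h (fun _ => f (P.symm l)) (π0 (P.symm l))
  rw [dep f (fun _ => f (P.symm l)) (P.symm l) rfl, this]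

variable [Fintype ι] [Fintype α] [DecidableEq α]

/-- `H` contains the alternating groups of all directions and elements swapping two directions -/
structure Hyp (H : Subgroup (Perm (ι → α))) : Prop where
  hd : ∀ i (σ : Perm α), sign σ = 1 → dir i σ ∈ H
  hs : ∀ i j, ∃ τ : ι → Perm α, (∀ l, l ≠ i → l ≠ j → τ l = 1) ∧ wr (swap i j) τ ∈ H

omit [Fintype ι] in
theorem Hyp.mono {H K : Subgroup (Perm (ι → α))} (h : Hyp H) (hK : H ≤ K) : Hyp K :=
  ⟨fun i σ e => hK (h.hd i σ e), fun i j => (h.hs i j).imp fun _ e => ⟨e.1, hK e.2⟩⟩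

theorem Hyp.trans (h5 : 5 ≤ Fintype.card α) {H : Subgroup (Perm (ι → α))} (h : Hyp H)
    (f g : ι → α) : ∃ τ : ι → Perm α, wr 1 τ ∈ H ∧ wr 1 τ f = g := by
  refine reach (fun g => ∃ τ : ι → Perm α, wr 1 τ ∈ H ∧ wr 1 τ f = g) ?_ (f := f)
    ⟨1, H.one_mem, rfl⟩ g
  rintro _ i a ⟨τ, h1, rfl⟩
  obtain ⟨l, hl, e⟩ := exists_even h5 (wr 1 τ f i) a
  refine ⟨(Pi.mulSingle i l : ι → Perm α) * τ, (H.mul_mem (h.hd i l hl) h1 :), ?_⟩
  rw [← e, ← dir_apply]
  rfl

theorem Hyp.prim (h5 : 5 ≤ Fintype.card α) {H : Subgroup (Perm (ι → α))} (h : Hyp H) :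
    MulAction.IsPreprimitive H (ι → α) := by
  have : MulAction.IsPretransitive H (ι → α) := ⟨fun f g => by
    obtain ⟨τ, h1, h2⟩ := h.trans h5 f g
    exact ⟨⟨_, h1⟩, h2⟩⟩
  refine ⟨fun {B} hB => ?_⟩
  by_cases hs : B.Subsingleton
  · exact Or.inl hs
  right
  have key : ∀ g ∈ H, ∀ x ∈ B, g x ∈ B → ∀ y ∈ B, g y ∈ B := fun g hg x hx hgx y hy => by
    have := hB.smul_eq_of_mem (g := (⟨g, hg⟩ : H)) hx hgx
    rw [← this]
    exact Set.smul_mem_smul_set (a := (⟨g, hg⟩ : H)) hy
  obtain ⟨x, hx, y, hy, hxy⟩ := Set.not_subsingleton_iff.1 hs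
  obtain ⟨i, hi⟩ := Function.ne_iff.1 hxy
  have line0 : ∀ a, update y i a ∈ B := by
    obtain ⟨b, hb1, hb2, -⟩ := fresh4 h5 (x i) (y i) (x i) (x i)
    obtain ⟨l, hl, e1, e2⟩ := exists_even_fix h5 (Ne.symm hi) hb1
    have h1 := key _ (h.hd i l hl) x hx (by rw [dir_apply, e1, update_eq_self]; exact hx) y hy
    rw [dir_apply, e2] at h1
    intro a
    by_cases ha : a = y i
    · rw [ha, update_eq_self]; exact hy
    obtain ⟨l', hl', e1', e2'⟩ := exists_even_fix h5 hb2 ha
    have h2 := key _ (h.hd i l' hl') y hy (by rw [dir_apply, e1', update_eq_self]; exact hy) _ h1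
    rwa [dir_apply, update_self, update_idem, e2'] at h2
  have closed : ∀ z j a, z ∈ B → update z j a ∈ B := by
    intro z j a hz
    obtain ⟨τ, -, hτ⟩ := h.hs i j
    obtain ⟨τ', h1, h2⟩ := h.trans h5 (wr (swap i j) τ y) z
    have := key _ (H.mul_mem h1 hτ) y hy (by rw [Perm.mul_apply, h2]; exact hz) _
      (line0 ((τ' j * τ j)⁻¹ a))
    convert this using 1
    rw [← h2]
    funext l
    by_cases hl : l = j
    · subst hl; simp
    · have : swap i j l ≠ i := fun e => hl ((swap i j).injective (by rw [e, swap_apply_right]))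
      simp [update_of_ne hl, update_of_ne this]
  exact Set.eq_univ_of_forall fun g => reach (· ∈ B) closed hy g

omit [DecidableEq α] in
theorem card_letter (i : ι) (P : α → Prop) [DecidablePred P] :
    (Finset.univ.filter fun f : ι → α => P (f i)).card =
      (Finset.univ.filter P).card * Fintype.card α ^ (Fintype.card ι - 1) := by
  have e : Fintype.card ({j // j ≠ i} → α) = Fintype.card α ^ (Fintype.card ι - 1) := by
    simp [Fintype.card_subtype_compl]
  rw [← e, ← Finset.card_univ, ← Finset.card_product]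
  apply Finset.card_equiv (Equiv.funSplitAt i α)
  intro f
  simp

theorem card_support_dir (i : ι) (σ : Perm α) :
    (dir i σ).support.card = σ.support.card * Fintype.card α ^ (Fintype.card ι - 1) := by
  rw [show σ.support = Finset.univ.filter fun a => σ a ≠ a from rfl, ← card_letter i]
  congr 1
  ext f
  simp [dir_apply]

theorem card_fixed_le {π : Perm ι} {τ : ι → Perm α} {j : ι} (hj : π j ≠ j) :
    (wr π τ).supportᶜ.card ≤ Fintype.card α ^ (Fintype.card ι - 1) := by
  have e : Fintype.card ({l // l ≠ π j} → α) = Fintype.card α ^ (Fintype.card ι - 1) := by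
    simp [Fintype.card_subtype_compl]
  rw [← e, ← Finset.card_univ]
  apply Finset.card_le_card_of_injOn (fun f l => f l.1) (fun _ _ => Finset.mem_univ _)
  intro f hf g hg hfg
  have hf' : wr π τ f = f := by simpa using hf
  have hg' : wr π τ g = g := by simpa using hg
  have e1 : ∀ l, l ≠ π j → f l = g l := fun l hl => congrFun hfg ⟨l, hl⟩
  funext l
  by_cases hl : l = π j
  · rw [hl, ← congrFun hf' (π j), ← congrFun hg' (π j), wr_apply, wr_apply, symm_apply_apply,
      e1 j hj.symm]
  · exact e1 l hl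

/-- the conjugates of a direction 3-cycle inside the wreath product -/
theorem conj_dir (h5 : 5 ≤ Fintype.card α) {i : ι} {c : Perm α} (hc : IsThreeCycle c)
    {g : Perm (ι → α)} (hg : g * dir i c * g⁻¹ ∈ Wr ι α) :
    ∃ j κ, IsThreeCycle κ ∧ g * dir i c * g⁻¹ = dir j κ := by
  obtain ⟨π, τ, e⟩ := hg
  set N := Fintype.card α ^ (Fintype.card ι - 1) with hN
  have hNpos : 0 < N := pow_pos (by omega) _
  have hs : (wr π τ).support.card = 3 * N := by
    rw [← e, card_support_conj, card_support_dir, hc.card_support]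
  have h3 : wr π τ ^ 3 = 1 := by
    have c3 : c * c * c = 1 := by
      rw [← pow_three', ← hc.orderOf, pow_orderOf_eq_one]
    rw [← e, conj_pow, pow_three', ← dir_mul, ← dir_mul, c3, dir_one]
    simp
  have hπ : π = 1 := by
    ext j
    by_contra hj
    have h1 := card_fixed_le (τ := τ) hj
    have h2 : Fintype.card (ι → α) = Fintype.card α * N := by
      rw [Fintype.card_fun, hN, ← pow_succ']
      congr 1
      have : 0 < Fintype.card ι := Fintype.card_pos_iff.2 ⟨i⟩
      omega
    rw [Finset.card_compl, hs, h2] at h1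
    have : 5 * N ≤ Fintype.card α * N := Nat.mul_le_mul_right _ h5
    omega
  subst hπ
  obtain ⟨j, hj⟩ : ∃ j, τ j ≠ 1 := by
    by_contra hcon
    push Not at hcon
    have : wr 1 τ = 1 := by ext f l; simp [hcon]
    rw [this] at hs
    simp at hs
    omega
  have hj3 : τ j ^ 3 = 1 := by
    ext a
    have := congrArg (fun u : Perm (ι → α) => u (fun _ => a) j) h3
    simpa [pow_succ] using this
  have hsub : (dir j (τ j)).support ⊆ (wr 1 τ).support := fun f hf => by
    rw [Perm.mem_support] at hf ⊢
    intro e'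
    apply hf
    rw [dir_apply, show τ j (f j) = f j from congrFun e' j, update_eq_self]
  have hle := Finset.card_le_card hsub
  rw [card_support_dir, hs, ← hN] at hle
  have hle' : (τ j).support.card ≤ 3 := Nat.le_of_mul_le_mul_right hle hNpos
  have h2 : (τ j).support.card ≠ 2 := fun e' => by
    obtain ⟨a, b, -, e''⟩ := card_support_eq_two.1 e'
    apply hj
    rw [e''] at hj3 ⊢
    rw [pow_succ, pow_two, swap_mul_self, one_mul] at hj3
    exact hj3
  have h1 := one_lt_card_support_of_ne_one hj
  have h3' : (τ j).support.card = 3 := by omega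
  refine ⟨j, τ j, card_support_eq_three_iff.1 h3', ?_⟩
  have heq : (dir j (τ j)).support = (wr 1 τ).support :=
    Finset.eq_of_subset_of_card_le hsub (by rw [card_support_dir, hs, h3'])
  obtain ⟨a0, ha0⟩ : ∃ a0, a0 ∉ (τ j).support := by
    obtain ⟨a, -, ha⟩ := Finset.exists_mem_notMem_of_card_lt_card (s := (τ j).support)
      (t := Finset.univ) (by rw [h3', Finset.card_univ]; omega)
    exact ⟨a, ha⟩
  rw [e]
  ext f l
  rw [dir_apply]
  by_cases hl : l = j
  · subst hl; simp
  · have : update f j a0 ∉ (wr 1 τ).support := by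
      rw [← heq, Perm.notMem_support, dir_apply, update_self, Perm.notMem_support.1 ha0, update_idem]
    have := congrFun (Perm.notMem_support.1 this) l
    simpa [update_of_ne hl] using this

end Cfsg.Agent.Perm.PW
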