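import Mathlib
import Cfsg.Agent.Perm.PWWr

/-! Product action of wreath products, part 5: the overgroup theorem. -/

set_option autoImplicit false

namespace Cfsg.Agent.Perm.PW
open Equiv Equiv.Perm Function

section Transport
variable {ι α : Type*} [DecidableEq ι]

/-- the remaining coordinates -/
abbrev Rest (i : ι) (α : Type*) := {j // j ≠ i} → α

/-- splitting off direction `i` -/
def tr (i : ι) : Perm (ι → α) ≃* Perm (α × Rest i α) := (Equiv.funSplitAt i α).permCongrHom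

/-- the point with letter `a` in direction `i` and remaining coordinates `y` -/
def jn (i : ι) (x : α × Rest i α) : ι → α := (Equiv.funSplitAt i α).symm x

@[simp] theorem jn_self (i : ι) (x : α × Rest i α) : jn i x i = x.1 := by simp [jn]
theorem jn_ne (i : ι) (x : α × Rest i α) {j : ι} (h : j ≠ i) : jn i x j = x.2 ⟨j, h⟩ := by
  simp [jn, h]
@[simp] theorem jn_coe (i : ι) (x : α × Rest i α) (j : {j // j ≠ i}) : jn i x j.1 = x.2 j :=
  jn_ne i x j.2
theorem jn_split (i : ι) (f : ι → α) : jn i (f i, fun j => f j.1) = f :=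
  (Equiv.funSplitAt i α).symm_apply_apply f

theorem tr_apply (i : ι) (g : Perm (ι → α)) (x : α × Rest i α) :
    tr i g x = (g (jn i x) i, fun j => g (jn i x) j.1) := rfl

theorem jn_tr (i : ι) (g : Perm (ι → α)) (x : α × Rest i α) : jn i (tr i g x) = g (jn i x) := by
  rw [tr_apply, jn_split]

theorem tr_dir (i : ι) (σ : Perm α) : tr i (dir i σ) = lp σ := by
  refine Equiv.ext fun ⟨a, y⟩ => ?_
  rw [tr_apply, dir_apply]
  refine Prod.ext (by simp) (funext fun j => ?_)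
  simp [update_of_ne j.2]

theorem tr_dir_ne (i : ι) (j : {j // j ≠ i}) (σ : Perm α) : tr i (dir j.1 σ) = rp (dir j σ) := by
  refine Equiv.ext fun ⟨a, y⟩ => ?_
  rw [tr_apply, dir_apply, rp_apply, dir_apply]
  refine Prod.ext (by simp [update_of_ne j.2.symm]) (funext fun l => ?_)
  by_cases h : l = j
  · subst h; simp
  · have : l.1 ≠ j.1 := fun e => h (Subtype.ext e)
    simp [update_of_ne h, update_of_ne this]

theorem tr_swap (i : ι) (j l : {j // j ≠ i}) (τ : ι → Perm α) (h : τ i = 1) :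
    tr i (wr (swap j.1 l.1) τ) = rp (wr (swap j l) fun m => τ m.1) := by
  refine Equiv.ext fun ⟨a, y⟩ => ?_
  rw [tr_apply, rp_apply]
  refine Prod.ext ?_ (funext fun m => ?_)
  · simp [h, swap_apply_of_ne_of_ne j.2.symm l.2.symm]
  · have : swap j.1 l.1 m.1 = (swap j l m).1 := by
      rw [Function.Injective.swap_apply Subtype.val_injective]
    simp [this]

theorem mem_Wr_of_tr (i : ι) {g : Perm (ι → α)} {σ : Perm α} {w : Perm (Rest i α)}
    (h : tr i g = lp σ * rp w) (hw : w ∈ Wr _ α) : g ∈ Wr ι α := by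
  obtain ⟨π, τ, rfl⟩ := hw
  refine mem_Wr.2 ⟨Perm.ofSubtype π, fun j => if h : j = i then σ else τ ⟨j, h⟩, fun f j => ?_⟩
  rw [← jn_split i f, ← jn_tr, h, jn_split, show (Perm.ofSubtype π).symm = Perm.ofSubtype π⁻¹ by
    rw [map_inv]; rfl]
  by_cases hj : j = i
  · subst hj
    rw [Perm.ofSubtype_apply_of_not_mem π⁻¹ (by simp)]
    simp
  · simp only [dif_neg hj]
    rw [jn_ne i _ hj, Perm.ofSubtype_apply_of_mem π⁻¹ hj]
    rfl

/-- the second factor as a homomorphism -/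
def rpHom {β : Type*} : Perm β →* Perm (α × β) where
  toFun := rp
  map_one' := by ext x <;> rfl
  map_mul' σ τ := by ext x <;> rfl

/-- the image of `H` after splitting off direction `i` -/
def Hs (H : Subgroup (Perm (ι → α))) (i : ι) : Subgroup (Perm (α × Rest i α)) :=
  H.comap (tr i).symm.toMonoidHom

theorem tr_mem {H : Subgroup (Perm (ι → α))} {i : ι} {g : Perm (ι → α)} :
    tr i g ∈ Hs H i ↔ g ∈ H := by simp [Hs]

theorem mem_Hs {H : Subgroup (Perm (ι → α))} {i : ι} {G : Perm (α × Rest i α)} (h : G ∈ Hs H i) :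
    ∃ g ∈ H, G = tr i g := ⟨(tr i).symm G, h, by simp⟩

variable [Fintype ι] [Fintype α] [DecidableEq α]

theorem card_support_tr (i : ι) (g : Perm (ι → α)) : (tr i g).support.card = g.support.card := by
  symm
  apply Finset.card_equiv (Equiv.funSplitAt i α)
  intro f
  rw [Perm.mem_support, Perm.mem_support, ← (Equiv.funSplitAt i α).symm.injective.ne_iff]
  show _ ↔ jn i _ ≠ jn i (f i, fun j => f j.1)
  rw [jn_tr, jn_split]
  show _ ↔ g (jn i (f i, fun j => f j.1)) ≠ _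
  rw [jn_split]

omit [Fintype ι] in
theorem Hyp.rest {H : Subgroup (Perm (ι → α))} (h : Hyp H) (i : ι) :
    Hyp ((Hs H i).comap rpHom) := by
  refine ⟨fun j σ hσ => ?_, fun j l => ?_⟩
  · show rp _ ∈ Hs H i
    rw [← tr_dir_ne, tr_mem]
    exact h.hd _ _ hσ
  · obtain ⟨τ, h1, h2⟩ := h.hs j.1 l.1
    refine ⟨fun m => τ m.1, fun m n1 n2 => h1 _ (fun e => n1 (Subtype.ext e))
      (fun e => n2 (Subtype.ext e)), ?_⟩
    show rp _ ∈ Hs H i
    rw [← tr_swap i j l τ (h1 i j.2.symm l.2.symm), tr_mem]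
    exact h2

theorem Hyp.ctx (h5 : 5 ≤ Fintype.card α) {H : Subgroup (Perm (ι → α))} (h : Hyp H)
    (h3 : ∀ g ∈ H, ¬ IsThreeCycle g) (i : ι) : Ctx (Hs H i) ((Hs H i).comap rpHom) where
  card := h5
  hL σ hσ := by rw [← tr_dir, tr_mem]; exact h.hd i σ hσ
  hW w hw := hw
  prim := (h.rest i).prim h5
  no3 G hG h' := by
    obtain ⟨g, hg, rfl⟩ := mem_Hs hG
    apply h3 g hg
    rw [← card_support_eq_three_iff] at h' ⊢
    rwa [card_support_tr] at h'
  lens y y' hy := by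
    obtain ⟨j, hj⟩ := Function.ne_iff.1 hy
    exact ⟨fun z => z j, fun z a => update z j a, hj, fun z a => by simp, fun z => by simp,
      fun z a a' => by simp, fun σ hσ => ⟨dir j σ, (h.rest i).hd j σ hσ, fun z => dir_apply _ _ _⟩⟩

theorem Hyp.eq_dir (h5 : 5 ≤ Fintype.card α) {H : Subgroup (Perm (ι → α))} (h : Hyp H)
    (h3 : ∀ g ∈ H, ¬ IsThreeCycle g) {j : ι} {g : Perm (ι → α)} (hg : g ∈ H)
    (hl : ∀ f l, l ≠ j → g f l = f l) : ∃ σ, g = dir j σ := by
  obtain ⟨σ, hσ⟩ := (h.ctx h5 h3 j).exists_lp (tr_mem.2 hg) (fun x => funext fun l => by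
    rw [tr_apply]
    show g (jn j x) l.1 = x.2 l
    rw [hl _ _ l.2, jn_coe])
  exact ⟨σ, (tr j).injective (by rw [hσ, tr_dir])⟩

omit [Fintype ι] in
theorem exists_dir (h5 : 5 ≤ Fintype.card α) (N : Subgroup (Perm (ι → α)))
    (hN : ∀ j (l : Perm α), sign l = 1 → ∀ g ∈ N, dir j l * g * (dir j l)⁻¹ ∈ N)
    {g : Perm (ι → α)} (hg : g ∈ N) (hW : g ∈ Wr ι α) (h1 : g ≠ 1) :
    ∃ j ρ, ρ ≠ 1 ∧ dir j ρ ∈ N := by
  obtain ⟨π, τ, rfl⟩ := hW
  have hc : ∀ j (l : Perm α), sign l = 1 → ∀ g ∈ N, g * dir j l * g⁻¹ * (dir j l)⁻¹ ∈ N :=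
    fun j l hl g hg => by
      have := N.mul_mem hg (hN j l hl _ (N.inv_mem hg))
      simpa only [mul_assoc] using this
  by_cases hπ : π = 1
  · subst hπ
    obtain ⟨j, hj⟩ : ∃ j, τ j ≠ 1 := by
      by_contra hcon
      push Not at hcon
      exact h1 (by ext f l; simp [hcon])
    obtain ⟨l, hl, hn⟩ : ∃ l : Perm α, sign l = 1 ∧ τ j * l ≠ l * τ j := by
      by_contra hcon
      push Not at hcon
      exact hj (eq_one_of_comm h5 hcon)
    have := hc j l hl _ hg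
    rw [wr_conj_dir, ← dir_inv, Perm.one_apply, ← dir_mul] at this
    exact ⟨j, _, fun e => hn (by rw [mul_inv_eq_one, mul_inv_eq_iff_eq_mul] at e; exact e), this⟩
  · obtain ⟨j, hj⟩ : ∃ j, π j ≠ j := by
      by_contra hcon
      push Not at hcon
      exact hπ (Equiv.ext hcon)
    obtain ⟨a⟩ : Nonempty α := Fintype.card_pos_iff.1 (by omega)
    obtain ⟨b, hb, -⟩ := fresh4 h5 a a a a
    obtain ⟨c, hc1, hc2, -⟩ := fresh4 h5 a b a a
    have hk : (cyc a b c)⁻¹ ≠ 1 := fun e => by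
      have := cyc_a hb.symm hc2.symm
      rw [inv_eq_one.1 e] at this
      exact hb this.symm
    obtain ⟨l, hl, hn⟩ : ∃ l : Perm α, sign l = 1 ∧ (cyc a b c)⁻¹ * l ≠ l * (cyc a b c)⁻¹ := by
      by_contra hcon
      push Not at hcon
      exact hk (eq_one_of_comm h5 hcon)
    have h2 := hc j _ (sign_cyc hb.symm hc1.symm) _ hg
    rw [wr_conj_dir, ← dir_inv] at h2
    have h3 := hc j l hl _ h2
    have comm : ∀ σ σ' : Perm α, dir (π j) σ * dir j σ' = dir j σ' * dir (π j) σ := fun σ σ' => by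
      ext f m : 2
      simp only [Perm.mul_apply, dir_apply, update_of_ne hj, update_of_ne hj.symm]
      rw [update_comm hj]
    refine ⟨j, (cyc a b c)⁻¹ * l * cyc a b c * l⁻¹, fun e => hn ?_, ?_⟩
    · rw [mul_inv_eq_one] at e
      rw [← mul_inv_eq_iff_eq_mul, inv_inv, e]
    · convert h3 using 1
      generalize τ (π j) * cyc a b c * (τ (π j))⁻¹ = s
      rw [mul_inv_rev, ← dir_inv, ← dir_inv, ← dir_inv, mul_assoc (dir (π j) s), ← dir_mul,
        ← mul_assoc, mul_assoc (dir (π j) s), ← dir_mul, comm, mul_assoc (dir j _), ← dir_mul,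
        mul_inv_cancel, dir_one, mul_one, ← dir_mul, inv_inv]

end Transport

section Main
variable {α : Type*} [Fintype α] [DecidableEq α]

/-- the overgroup statement for the index type `ι` -/
def Over (ι α : Type*) [DecidableEq ι] [Fintype ι] [Fintype α] [DecidableEq α] : Prop :=
  ∀ X : Subgroup (Perm (ι → α)), Hyp X →
    X ≤ Wr ι α ∨ (2 ≤ Fintype.card ι ∧ ∃ g ∈ X, IsThreeCycle g)

variable {ι : Type*} [DecidableEq ι] [Fintype ι]

omit [DecidableEq α] in
theorem card_rest (h5 : 5 ≤ Fintype.card α) (h2 : 2 ≤ Fintype.card ι) (i : ι) :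
    5 ≤ Fintype.card (Rest i α) := by
  have e : Fintype.card (Rest i α) = Fintype.card α ^ (Fintype.card ι - 1) := by
    simp [Fintype.card_subtype_compl]
  rw [e]
  exact h5.trans (Nat.le_self_pow (by omega) _)

theorem Hyp.noHyp (h5 : 5 ≤ Fintype.card α) (h2 : 2 ≤ Fintype.card ι)
    {H : Subgroup (Perm (ι → α))} (h : Hyp H) (h3 : ∀ g ∈ H, ¬ IsThreeCycle g) (i : ι)
    (ih : Over {j // j ≠ i} α) : NoHyp (Hs H i) := by
  intro a G0 hG0 hfix
  by_contra hne
  have C := h.ctx h5 h3 i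
  let X : Subgroup (Perm (Rest i α)) :=
    { carrier := {w | ∃ G ∈ Hs H i, ∀ y, G (a, y) = (a, w y)}
      one_mem' := ⟨1, Subgroup.one_mem _, fun _ => rfl⟩
      mul_mem' := by
        rintro w w' ⟨G, h1, h2⟩ ⟨G', h1', h2'⟩
        exact ⟨G * G', Subgroup.mul_mem _ h1 h1', fun y => by rw [Perm.mul_apply, h2', h2]; rfl⟩
      inv_mem' := by
        rintro w ⟨G, h1, h2⟩
        exact ⟨G⁻¹, Subgroup.inv_mem _ h1, fun y => by rw [Perm.inv_eq_iff_eq, h2, app_inv]⟩ }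
  let N : Subgroup (Perm (Rest i α)) :=
    { carrier := {w | ∃ G ∈ Hs H i, (∀ y, G (a, y) = (a, w y)) ∧ ∀ x, x.1 ≠ a → G x = x}
      one_mem' := ⟨1, Subgroup.one_mem _, fun _ => rfl, fun _ _ => rfl⟩
      mul_mem' := by
        rintro w w' ⟨G, h1, h2, h3⟩ ⟨G', h1', h2', h3'⟩
        exact ⟨G * G', Subgroup.mul_mem _ h1 h1', fun y => by rw [Perm.mul_apply, h2', h2]; rfl,
          fun x n => by rw [Perm.mul_apply, h3' x n, h3 x n]⟩
      inv_mem' := by
        rintro w ⟨G, h1, h2, h3⟩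
        exact ⟨G⁻¹, Subgroup.inv_mem _ h1, fun y => by rw [Perm.inv_eq_iff_eq, h2, app_inv],
          fun x n => by rw [Perm.inv_eq_iff_eq, h3 x n]⟩ }
  have hX : Hyp X := (h.rest i).mono fun w hw => ⟨rp w, hw, fun _ => rfl⟩
  have hNX : ∀ w ∈ X, ∀ n ∈ N, w * n * w⁻¹ ∈ N := by
    rintro w ⟨G, h1, h2⟩ n ⟨G', h1', h2', h3'⟩
    have h2i : ∀ y, G⁻¹ (a, y) = (a, w⁻¹ y) := fun y => by rw [Perm.inv_eq_iff_eq, h2, app_inv]
    refine ⟨G * G' * G⁻¹, Subgroup.mul_mem _ (Subgroup.mul_mem _ h1 h1') (Subgroup.inv_mem _ h1),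
      fun y => by rw [Perm.mul_apply, Perm.mul_apply, h2i, h2', h2]; rfl, fun x n => ?_⟩
    rw [Perm.mul_apply, Perm.mul_apply, h3' (G⁻¹ x), app_inv]
    intro e
    apply n
    rw [← app_inv G x, show G⁻¹ x = (a, (G⁻¹ x).2) from Prod.ext e rfl, h2]
  have hG0a : ∀ y, G0 (a, y) = (a, (G0 (a, y)).2) := fun y => by
    refine Prod.ext ?_ rfl
    by_contra n
    exact n (congrArg Prod.fst (G0.injective (hfix _ n)) :)
  let w0 : Perm (Rest i α) := Equiv.ofBijective (fun y => (G0 (a, y)).2)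
    (Finite.injective_iff_bijective.1 fun y y' e => congrArg Prod.snd (G0.injective
      (show G0 (a, y) = G0 (a, y') by rw [hG0a y, hG0a y']; exact Prod.ext rfl e)))
  have hw0 : w0 ∈ N := ⟨G0, hG0, hG0a, hfix⟩
  have hw1 : w0 ≠ 1 := fun e => hne (Equiv.ext fun ⟨b, y⟩ => by
    by_cases hb : b = a
    · rw [hb, hG0a]
      exact Prod.ext rfl (congrArg (fun u : Perm (Rest i α) => u y) e)
    · exact hfix _ hb)
  rcases ih X hX with hW | ⟨-, κ, hκ, hκ3⟩
  · obtain ⟨j, ρ, hρ, G, hG, e1, e2⟩ := exists_dir h5 N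
      (fun j l hl => hNX _ (hX.hd j l hl)) hw0 (hW ⟨G0, hG0, hG0a⟩) hw1
    obtain ⟨g, hg, rfl⟩ := mem_Hs hG
    obtain ⟨σ, rfl⟩ := h.eq_dir h5 h3 hg (j := j.1) (fun f l hl => by
      rw [← jn_split i f, ← jn_tr]
      by_cases hf : f i = a
      · rw [hf, e1]
        by_cases hl' : l = i
        · rw [hl', jn_self, jn_self]
        · rw [jn_ne i _ hl', jn_ne i _ hl', dir_apply]
          exact update_of_ne (a := (⟨l, hl'⟩ : {j // j ≠ i})) (a' := j)
            (fun e => hl (congrArg Subtype.val e)) _ (fun m => f m.1)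
      · rw [e2 _ hf])
    rw [tr_dir_ne] at e1 e2
    obtain ⟨b, hb, -⟩ := fresh4 h5 a a a a
    have : Nonempty α := ⟨a⟩
    apply hρ
    apply dir_eq_one (i := j)
    ext y : 1
    exact (congrArg Prod.snd (e1 y)).symm.trans (congrArg Prod.snd (e2 (b, y) hb))
  · have hA := alternatingGroup_le_of_isPreprimitive_of_isThreeCycle_mem (hX.prim h5) hκ3 hκ
    obtain ⟨G, hG, e1, e2⟩ := alt_le (card_rest h5 h2 i) N
      (fun l hl => hNX l (hA (mem_alternatingGroup.2 hl))) hw0 hw1 hκ3.sign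
    apply C.no3 G hG
    rw [← card_support_eq_three_iff, ← hκ3.card_support]
    symm
    apply Finset.card_bij (fun y _ => (a, y))
    · intro y hy
      rw [Perm.mem_support] at hy ⊢
      rw [e1]
      exact fun e => hy (congrArg Prod.snd e)
    · intro y _ y' _ e
      exact congrArg Prod.snd e
    · rintro ⟨b, y⟩ hy
      rw [Perm.mem_support] at hy
      obtain rfl : b = a := by
        by_contra n
        exact hy (e2 _ n)
      exact ⟨y, Perm.mem_support.2 fun e => hy (by rw [e1, e]), rfl⟩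

theorem Hyp.cent (h5 : 5 ≤ Fintype.card α) (h2 : 2 ≤ Fintype.card ι)
    {H : Subgroup (Perm (ι → α))} (h : Hyp H) (h3 : ∀ g ∈ H, ¬ IsThreeCycle g)
    (ih : ∀ i : ι, Over {j // j ≠ i} α) {i : ι} {p q r : α} (hpq : p ≠ q) (hpr : p ≠ r)
    (hqr : q ≠ r) {g : Perm (ι → α)} (hg : g ∈ H)
    (hc : g * dir i (cyc p q r) = dir i (cyc p q r) * g) : g ∈ Wr ι α := by
  have C := h.ctx h5 h3 i
  obtain ⟨σ, τ, e⟩ := C.cent_prod (h.noHyp h5 h2 h3 i (ih i)) hpq hpr hqr (tr_mem.2 hg)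
    (by rw [← tr_dir, ← map_mul, hc, map_mul])
  have lr : ∀ (s : Perm α) (w : Perm (Rest i α)), rp w * lp s = lp s * rp w := fun s w => by
    ext x <;> rfl
  let X : Subgroup (Perm (Rest i α)) :=
    { carrier := {w | ∃ s, lp s * rp w ∈ Hs H i}
      one_mem' := ⟨1, Subgroup.one_mem _⟩
      mul_mem' := by
        rintro w w' ⟨s, h1⟩ ⟨s', h1'⟩
        exact ⟨s * s', (Subgroup.mul_mem _ h1 h1' :)⟩
      inv_mem' := by
        rintro w ⟨s, h1⟩
        exact ⟨s⁻¹, (Subgroup.inv_mem _ h1 :)⟩ }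
  have hX : Hyp X := (h.rest i).mono fun w hw => ⟨1, hw⟩
  rcases ih i X hX with hW | ⟨h2', κ, hκ, hκ3⟩
  · exact mem_Wr_of_tr i e (hW ⟨σ, by rw [← e]; exact tr_mem.2 hg⟩)
  exfalso
  have hA := alternatingGroup_le_of_isPreprimitive_of_isThreeCycle_mem (hX.prim h5) hκ3 hκ
  obtain ⟨j, j', hjj⟩ := Fintype.one_lt_card_iff.1 h2'
  let y : α → Rest i α := fun a => update (fun _ => p) j' a
  have hy : ∀ {a b}, a ≠ b → y a ≠ y b := fun n e => n (by simpa [y] using congrFun e j')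
  obtain ⟨s, hs⟩ := hA (mem_alternatingGroup.2 (sign_cyc (b := y q) (c := y r) (hy hpq) (hy hpr)))
  set k := cyc (y p) (y q) (y r) with hk
  have h4 : rp (k * k) ∈ Hs H i := by
    have := Subgroup.mul_mem _ (Subgroup.inv_mem _ (C.hL (s * s) (by simp)))
      (Subgroup.mul_mem _ hs hs)
    convert this using 1
    refine Equiv.ext fun ⟨a, z⟩ => ?_
    exact Prod.ext (inv_app (s * s) a).symm rfl
  obtain ⟨g', hg', e'⟩ := mem_Hs h4
  have h6 := h.noHyp h5 h2 h3 j.1 (ih j.1) p (tr j.1 g') (tr_mem.2 hg') (fun x n => by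
    apply (Equiv.funSplitAt j.1 α).symm.injective
    show jn j.1 _ = jn j.1 x
    rw [jn_tr]
    generalize hf : jn j.1 x = f
    have n' : f j.1 ≠ p := by rw [← hf, jn_self]; exact n
    have ne : ∀ a, (fun l : {j // j ≠ i} => f l.1) ≠ y a := fun a e => n' (by
      simpa [y, update_of_ne hjj] using congrFun e j)
    rw [← jn_split i f, ← jn_tr, ← e', rp_apply, Perm.mul_apply, hk,
      cyc_ne (ne p) (ne q) (ne r), cyc_ne (ne p) (ne q) (ne r)])
  rw [(map_eq_one_iff _ (tr j.1).injective).1 h6, map_one] at e'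
  have := congrArg (fun u : Perm (α × Rest i α) => (u (p, y p)).2) e'
  simp only [rp_apply, Perm.mul_apply, hk, cyc_a (hy hpq) (hy hqr), cyc_b, Perm.one_apply] at this
  exact hy hpr this.symm

theorem Hyp.conj_mem (h5 : 5 ≤ Fintype.card α) (h2 : 2 ≤ Fintype.card ι)
    {H : Subgroup (Perm (ι → α))} (h : Hyp H) (h3 : ∀ g ∈ H, ¬ IsThreeCycle g)
    (ih : ∀ i : ι, Over {j // j ≠ i} α) {i : ι} {p q r : α} (hpq : p ≠ q) (hpr : p ≠ r)
    (hqr : q ≠ r) {g : Perm (ι → α)} (hg : g ∈ H)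
    (hc : g * dir i (cyc p q r) * g⁻¹ ∈ Wr ι α) : g ∈ Wr ι α := by
  have c3 := isThreeCycle_cyc hpq hpr hqr
  obtain ⟨j, κ, hκ, e⟩ := conj_dir h5 c3 hc
  obtain ⟨τ, -, hτ⟩ := h.hs j i
  have hκ' : IsThreeCycle (τ i * κ * (τ i)⁻¹) := by
    rw [← card_support_eq_three_iff, card_support_conj, hκ.card_support]
  obtain ⟨l, hl⟩ := isConj_iff.1 (alternatingGroup.isThreeCycle_isConj
    (by rwa [Nat.card_eq_fintype_card]) (σ := ⟨_, hκ'.mem_alternatingGroup⟩)
    (τ := ⟨_, c3.mem_alternatingGroup⟩) hκ' c3)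
  have hl' : l.1 * (τ i * κ * (τ i)⁻¹) * l.1⁻¹ = cyc p q r := congrArg Subtype.val hl
  have e2 := wr_conj_dir (swap j i) τ j κ
  rw [swap_apply_left] at e2
  have hw : dir i l.1 * wr (swap j i) τ ∈ Wr ι α := Subgroup.mul_mem _ ⟨_, _, rfl⟩ ⟨_, _, rfl⟩
  have := h.cent h5 h2 h3 ih hpq hpr hqr (i := i) (g := dir i l.1 * wr (swap j i) τ * g)
    (H.mul_mem (H.mul_mem (h.hd i _ (mem_alternatingGroup.1 l.2)) hτ) hg) (by
      rw [← mul_inv_eq_iff_eq_mul]
      calc _ = dir i l.1 * (wr (swap j i) τ * (g * dir i (cyc p q r) * g⁻¹) * (wr (swap j i) τ)⁻¹)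
            * (dir i l.1)⁻¹ := by group
        _ = _ := by rw [e, e2, ← dir_inv, ← dir_mul, ← dir_mul, hl'])
  have h7 := Subgroup.mul_mem _ (Subgroup.inv_mem _ hw) this
  rwa [inv_mul_cancel_left] at h7

theorem Hyp.adj (h5 : 5 ≤ Fintype.card α) (h2 : 2 ≤ Fintype.card ι)
    {H : Subgroup (Perm (ι → α))} (h : Hyp H) (h3 : ∀ g ∈ H, ¬ IsThreeCycle g)
    (ih : ∀ i : ι, Over {j // j ≠ i} α) {g : Perm (ι → α)} (hg : g ∈ H) (x y : ι → α) (i : ι)
    (hd : Dif x i y) : ∃ j, Dif (g x) j (g y) := by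
  have three : ∀ a b : α, ∃ p q r : α, p ≠ q ∧ p ≠ r ∧ q ≠ r ∧ cyc p q r a = a ∧ cyc p q r b = b :=
    fun a b => by
      obtain ⟨p, p1, p2, -⟩ := fresh4 h5 a b a a
      obtain ⟨q, q1, q2, q3, -⟩ := fresh4 h5 a b p a
      obtain ⟨r, r1, r2, r3, r4⟩ := fresh4 h5 a b p q
      exact ⟨p, q, r, q3.symm, r3.symm, r4.symm, cyc_ne p1.symm q1.symm r1.symm,
        cyc_ne p2.symm q2.symm r2.symm⟩
  have ord : ∀ {p q r : α}, p ≠ q → p ≠ r → q ≠ r → dir i (cyc p q r) ^ 3 = 1 := fun a b c => by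
    rw [pow_three', ← dir_mul, ← dir_mul, ← pow_three', ← (isThreeCycle_cyc a b c).orderOf,
      pow_orderOf_eq_one, dir_one]
  obtain ⟨p, q, r, hpq, hpr, hqr, e1, e2⟩ := three (x i) (y i)
  obtain ⟨p', q', r', hpq', hpr', hqr', e1', e2'⟩ := three (g x i) (g y i)
  let K : Subgroup (Perm (ι → α)) :=
    H ⊓ MulAction.stabilizer _ (g x) ⊓ MulAction.stabilizer _ (g y)
  have hK : ∀ {k}, k ∈ K ↔ (k ∈ H ∧ k (g x) = g x) ∧ k (g y) = g y := Iff.rfl
  let c1 : K := ⟨dir i (cyc p' q' r'), hK.2 ⟨⟨h.hd _ _ (sign_cyc hpq' hpr'),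
    by rw [dir_apply, e1', update_eq_self]⟩, by rw [dir_apply, e2', update_eq_self]⟩⟩
  let c2 : K := ⟨g * dir i (cyc p q r) * g⁻¹, hK.2 ⟨⟨H.mul_mem (H.mul_mem hg
    (h.hd _ _ (sign_cyc hpq hpr))) (H.inv_mem hg),
    by rw [Perm.mul_apply, Perm.mul_apply, inv_app, dir_apply, e1, update_eq_self]⟩,
    by rw [Perm.mul_apply, Perm.mul_apply, inv_app, dir_apply, e2, update_eq_self]⟩⟩
  have : Fact (Nat.Prime 3) := ⟨by norm_num⟩
  have pg : ∀ c : K, c ^ 3 = 1 → IsPGroup 3 (Subgroup.zpowers c) := fun c hc => by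
    rintro ⟨_, n, rfl⟩
    refine ⟨1, Subtype.ext ?_⟩
    show (c ^ n) ^ 3 ^ 1 = 1
    rw [pow_one, ← zpow_natCast, ← zpow_mul, mul_comm, zpow_mul, zpow_natCast, hc, one_zpow]
  obtain ⟨U, hU⟩ := (pg c1 (Subtype.ext (ord hpq' hpr' hqr'))).exists_le_sylow
  obtain ⟨U', hU'⟩ := (pg c2 (Subtype.ext (by
    show (g * dir i (cyc p q r) * g⁻¹) ^ 3 = 1
    rw [conj_pow, ord hpq hpr hqr]; simp))).exists_le_sylow
  obtain ⟨k, hk⟩ := MulAction.exists_smul_eq K U' U
  have hc1 : c1 ∈ (U : Subgroup K) := hU (Subgroup.mem_zpowers _)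
  have hc2 : k * c2 * k⁻¹ ∈ (U : Subgroup K) := by
    rw [← hk]
    exact Subgroup.smul_mem_pointwise_smul _ (MulAut.conj k) _ (hU' (Subgroup.mem_zpowers _))
  have hUW : ∀ u ∈ (U : Subgroup K), (u : Perm (ι → α)) ∈ Wr ι α := by
    let M : Subgroup U := ((Wr ι α).comap K.subtype).comap (U : Subgroup K).subtype
    have := U.isPGroup'.isNilpotent
    have hM : M = ⊤ := normalizerCondition_iff_only_full_group_self_normalizing.1
      Group.normalizerCondition_of_isNilpotent M (le_antisymm (fun u hu => by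
        have := (Subgroup.mem_normalizer_iff.1 hu ⟨c1, hc1⟩).1 ⟨_, _, rfl⟩
        exact h.conj_mem h5 h2 h3 ih hpq' hpr' hqr' (hK.1 u.1.2).1.1 this) Subgroup.le_normalizer)
    intro u hu
    have : (⟨u, hu⟩ : U) ∈ M := by rw [hM]; trivial
    exact this
  obtain ⟨π, τ, e⟩ := h.conj_mem h5 h2 h3 ih hpq hpr hqr (i := i) (g := k.1 * g)
    (H.mul_mem (hK.1 k.2).1.1 hg) (by
      have := hUW _ hc2
      convert this using 1
      simp [c2, mul_assoc])
  have := hd.wr π τ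
  rw [← e, Perm.mul_apply, Perm.mul_apply, (hK.1 k.2).1.2, (hK.1 k.2).2] at this
  exact ⟨_, this⟩

theorem over_all (h5 : 5 ≤ Fintype.card α) (n : ℕ) :
    ∀ (ι : Type) [DecidableEq ι] [Fintype ι], Fintype.card ι = n → Over ι α := by
  induction n using Nat.strong_induction_on with
  | _ n IH =>
  intro ι _ _ hn X hX
  by_cases h2 : 2 ≤ Fintype.card ι
  · by_cases h3 : ∃ g ∈ X, IsThreeCycle g
    · exact Or.inr ⟨h2, h3⟩
    push Not at h3
    have ih : ∀ i : ι, Over {j // j ≠ i} α := fun i =>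
      IH _ (by rw [← hn]; exact Fintype.card_subtype_lt (x := i) (by simp)) _ rfl
    refine Or.inl fun g hg => mem_Wr_of_adj h5 (hX.adj h5 h2 h3 ih hg) fun f f' i hd => ?_
    simpa using hX.adj h5 h2 h3 ih (X.inv_mem hg) _ _ i hd
  · have hs : Subsingleton ι := Fintype.card_le_one_iff_subsingleton.1 (by omega)
    refine Or.inl fun g _ => mem_Wr.2 ⟨1, fun i => ?_, fun f i => ?_⟩
    · letI : Unique ι := ⟨⟨i⟩, fun _ => Subsingleton.elim _ _⟩
      exact (Equiv.funUnique ι α).permCongr g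
    · show g f i = g (fun _ => f i) i
      rw [show (fun _ => f i) = f from funext fun j => congrArg f (Subsingleton.elim _ _)]

end Main

end Cfsg.Agent.Perm.PW
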