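import Mathlib
import Cfsg.Agent.GT.PConstrained
import Cfsg.Agent.Ch.PiPart

/-!
# Two elements of order `p` generating a `p`-solvable group with abelian Sylow subgroups
-/

set_option autoImplicit false
set_option linter.unusedSectionVars false

open Cfsg Subgroup

namespace Cfsg.Agent.Perm.PS

variable {p : ℕ} [hp : Fact p.Prime]

/-- All `p`-subgroups are abelian. -/
def Ab (p : ℕ) (G : Type*) [Group G] : Prop :=
  ∀ Q : Subgroup G, IsPGroup p Q → ∀ x ∈ Q, ∀ y ∈ Q, x * y = y * x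

theorem Ab.of_sylow {G : Type*} [Group G] [Finite G] (P : Sylow p G)
    (h : ∀ x ∈ (P : Subgroup G), ∀ y ∈ (P : Subgroup G), x * y = y * x) : Ab p G := by
  intro Q hQ x hx y hy
  obtain ⟨R, hR⟩ := hQ.exists_le_sylow
  obtain ⟨g, rfl⟩ := MulAction.exists_smul_eq G P R
  have h1 := hR hx
  have h2 := hR hy
  rw [Sylow.coe_subgroup_smul, mem_pointwise_smul_iff_inv_smul_mem] at h1 h2
  have h3 := h _ h1 _ h2
  simp only [← smul_mul'] at h3
  exact MulAction.injective _ h3

theorem Ab.subgroup {G : Type*} [Group G] (h : Ab p G) (H : Subgroup G) : Ab p H := by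
  intro Q hQ x hx y hy
  exact Subtype.ext (h (Q.map H.subtype) (hQ.map _) _ (mem_map_of_mem _ hx) _
    (mem_map_of_mem _ hy))

theorem isPGroup_zpowers {G : Type*} [Group G] {x : G} (hx : ∃ k, orderOf x = p ^ k) :
    IsPGroup p (zpowers x) := by
  obtain ⟨k, hk⟩ := hx
  exact IsPGroup.of_card (by rw [Nat.card_zpowers, hk])

theorem exists_conj_mem {G : Type*} [Group G] [Finite G] (P : Sylow p G) {x : G}
    (hx : ∃ k, orderOf x = p ^ k) : ∃ y ∈ (P : Subgroup G), IsConj x y := by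
  obtain ⟨R, hR⟩ := (isPGroup_zpowers hx).exists_le_sylow
  obtain ⟨g, rfl⟩ := MulAction.exists_smul_eq G P R
  have h1 := hR (mem_zpowers x)
  rw [Sylow.coe_subgroup_smul, mem_pointwise_smul_iff_inv_smul_mem] at h1
  refine ⟨_, h1, isConj_iff.2 ⟨g⁻¹, ?_⟩⟩
  simp [MulAut.smul_def]

section
variable {H : Type*} [Group H] [Finite H]

local notation "π" => QuotientGroup.mk' (pPrimeCore p H)

theorem cop : (Nat.card (pPrimeCore p H)).Coprime p := GT.coprime_card_pPrimeCore p

theorem mem_core (hs : IsPSolvable p H) (hab : Ab p H) (S : Sylow p H) {u : H}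
    (hu : u ∈ (S : Subgroup H)) : π u ∈ pCore p (H ⧸ pPrimeCore p H) := by
  refine hs.charP_quotient (mem_centralizer_iff.2 fun r hr => ?_)
  have h1 := GT.pCore_le_sylow (S.mapSurjective (QuotientGroup.mk'_surjective (pPrimeCore p H))) hr
  rw [Sylow.coe_mapSurjective] at h1
  obtain ⟨s, hs, rfl⟩ := h1
  rw [← map_mul, ← map_mul, hab _ S.isPGroup' s hs u hu]

theorem mem_core' (hs : IsPSolvable p H) (hab : Ab p H) {u : H} (hu : ∃ k, orderOf u = p ^ k) :
    π u ∈ pCore p (H ⧸ pPrimeCore p H) := by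
  obtain ⟨R, hR⟩ := (isPGroup_zpowers hu).exists_le_sylow
  exact mem_core hs hab R (hR (mem_zpowers u))

/-- The data for a pair. -/
structure Pr (p : ℕ) {H : Type*} [Group H] (a b : H) : Prop where
  solv : IsPSolvable p H
  ab : Ab p H
  ha : orderOf a = p
  hb : orderOf b = p
  gen : ∀ K : Subgroup H, a ∈ K → b ∈ K → K = ⊤

namespace Pr
variable {a b : H} (h : Pr p a b)
include h

theorem core_top : pCore p (H ⧸ pPrimeCore p H) = ⊤ := by
  have h1 := h.gen ((pCore p (H ⧸ pPrimeCore p H)).comap π)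
    (mem_core' h.solv h.ab ⟨1, by rw [h.ha, pow_one]⟩)
    (mem_core' h.solv h.ab ⟨1, by rw [h.hb, pow_one]⟩)
  rw [eq_top_iff]
  intro x _
  obtain ⟨y, rfl⟩ := QuotientGroup.mk'_surjective _ x
  have : y ∈ (pCore p (H ⧸ pPrimeCore p H)).comap π := h1 ▸ mem_top y
  exact this

theorem comm (u v : H) : π u * π v = π v * π u := by
  obtain ⟨S⟩ : Nonempty (Sylow p H) := inferInstance
  have h1 := GT.pCore_le_sylow (S.mapSurjective (QuotientGroup.mk'_surjective (pPrimeCore p H)))
  rw [h.core_top, Sylow.coe_mapSurjective] at h1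
  obtain ⟨s, hs, e1⟩ := h1 (mem_top (π u))
  obtain ⟨t, ht, e2⟩ := h1 (mem_top (π v))
  rw [← e1, ← e2, ← map_mul, ← map_mul, h.ab _ S.isPGroup' s hs t ht]

theorem pow_eq (u : H) : π u ^ p = 1 := by
  let K : Subgroup H :=
    { carrier := {u | π u ^ p = 1}
      mul_mem' := fun {x y} hx hy => by
        simp only [Set.mem_setOf_eq] at hx hy ⊢
        rw [map_mul, Commute.mul_pow (h.comm x y), hx, hy, one_mul]
      one_mem' := by simp
      inv_mem' := fun {x} hx => by
        simp only [Set.mem_setOf_eq] at hx ⊢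
        rw [map_inv, inv_pow, hx, inv_one] }
  have h1 := h.gen K (by
      change π a ^ p = 1
      rw [← map_pow, ← h.ha, pow_orderOf_eq_one, map_one])
    (by
      change π b ^ p = 1
      rw [← map_pow, ← h.hb, pow_orderOf_eq_one, map_one])
  have : u ∈ K := h1 ▸ mem_top u
  exact this

theorem eq_one_of_regular {u : H} (hu : ¬ p ∣ orderOf u) : π u = 1 := by
  have h1 : orderOf (π u) ∣ p := orderOf_dvd_of_pow_eq_one (h.pow_eq u)
  rcases (Nat.dvd_prime hp.out).1 h1 with h2 | h2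
  · exact orderOf_eq_one_iff.1 h2
  · exact absurd (h2 ▸ orderOf_map_dvd π u) hu

omit h in
theorem eq_one_of_pelt {u : H} (hu : ∃ k, orderOf u = p ^ k) (h1 : π u = 1) : u = 1 := by
  obtain ⟨k, hk⟩ := hu
  have h2 : u ∈ pPrimeCore p H := (QuotientGroup.eq_one_iff u).1 h1
  have h3 : orderOf u ∣ Nat.card (pPrimeCore p H) := orderOf_dvd_natCard _ h2
  have h4 : (orderOf u).Coprime p := Nat.Coprime.coprime_dvd_left h3 cop
  rw [← orderOf_eq_one_iff]
  have := Nat.Coprime.pow_right k h4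
  rwa [← hk, Nat.coprime_self] at this

theorem isConj_of_eq {u v : H} (hu : ∃ k, orderOf u = p ^ k) (hv : ∃ k, orderOf v = p ^ k)
    (e : π u = π v) : IsConj u v := by
  obtain ⟨R, hR⟩ := (isPGroup_zpowers hu).exists_le_sylow
  obtain ⟨w, hw, hc⟩ := exists_conj_mem R hv
  obtain ⟨g, rfl⟩ := isConj_iff.1 hc
  have huR : u ∈ (R : Subgroup H) := hR (mem_zpowers u)
  have h1 : u⁻¹ * (g * v * g⁻¹) = 1 := by
    refine eq_one_of_pelt (p := p) ?_ ?_
    · obtain ⟨k, hk⟩ := IsPGroup.iff_orderOf.1 R.isPGroup' ⟨_, mul_mem (inv_mem huR) hw⟩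
      exact ⟨k, by rw [← hk, Subgroup.orderOf_mk]⟩
    · rw [map_mul, map_mul, map_mul, h.comm g v, map_inv, map_inv, e]
      group
  rw [inv_mul_eq_one] at h1
  rw [h1]
  exact hc.symm

theorem isConj_of_regular (hr : ¬ p ∣ orderOf (a * b)) : IsConj b a⁻¹ := by
  refine h.isConj_of_eq ⟨1, by rw [h.hb, pow_one]⟩ ⟨1, by rw [orderOf_inv, h.ha, pow_one]⟩ ?_
  have := h.eq_one_of_regular hr
  rw [map_mul] at this
  rw [map_inv]
  exact eq_inv_of_mul_eq_one_right this

theorem eq_of_regular {i j : ℕ} (hi : i < p) (hj : j < p) (h1 : ¬ p ∣ orderOf (a * b ^ i))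
    (h2 : ¬ p ∣ orderOf (a * b ^ j)) : i = j := by
  have e1 := h.eq_one_of_regular h1
  have e2 := h.eq_one_of_regular h2
  rw [map_mul, map_pow] at e1 e2
  have e3 : π b ^ i = π b ^ j := mul_left_cancel (e1.trans e2.symm)
  have hb1 : π b ≠ 1 := fun e => by
    have := eq_one_of_pelt ⟨1, by rw [h.hb, pow_one]⟩ e
    have h3 := h.hb
    rw [this, orderOf_one] at h3
    exact hp.out.one_lt.ne h3
  have ho : orderOf (π b) = p := orderOf_eq_prime (h.pow_eq b) hb1
  exact pow_injOn_Iio_orderOf (by rw [ho]; exact hi) (by rw [ho]; exact hj) e3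

theorem pow_eq_one {w : H} (hw : ∃ k, orderOf w = p ^ k) : w ^ p = 1 := by
  refine eq_one_of_pelt ?_ (by rw [map_pow, h.pow_eq])
  obtain ⟨k, hk⟩ := hw
  have : orderOf (w ^ p) ∣ p ^ k := hk ▸ orderOf_pow_dvd p
  obtain ⟨l, -, hl⟩ := (Nat.dvd_prime_pow hp.out).1 this
  exact ⟨l, hl⟩

end Pr
end

section
variable {G : Type*} [Group G] [Finite G] {a b : G}

theorem pr (hab : Ab p G) (ha : orderOf a = p) (hb : orderOf b = p)
    (hs : IsPSolvable p (closure ({a, b} : Set G))) :
    Pr p (⟨a, subset_closure (by simp)⟩ : closure ({a, b} : Set G))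
      ⟨b, subset_closure (by simp)⟩ := by
  refine ⟨hs, hab.subgroup _, by rw [Subgroup.orderOf_mk, ha], by rw [Subgroup.orderOf_mk, hb],
    fun K h1 h2 => ?_⟩
  have h3 : closure ({a, b} : Set G) ≤ K.map (closure ({a, b} : Set G)).subtype := by
    rw [closure_le]
    rintro x (rfl | rfl)
    · exact mem_map_of_mem _ h1
    · exact mem_map_of_mem _ h2
  rw [eq_top_iff]
  intro x _
  obtain ⟨y, hy, e⟩ := h3 x.2
  exact (Subtype.ext e : y = x) ▸ hy

theorem isConj_of_regular (hab : Ab p G) (ha : orderOf a = p) (hb : orderOf b = p)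
    (hs : IsPSolvable p (closure ({a, b} : Set G))) (hr : ¬ p ∣ orderOf (a * b)) :
    IsConj b a⁻¹ := by
  have := (pr hab ha hb hs).isConj_of_regular (by
    rw [← Subgroup.orderOf_coe]; exact hr)
  exact (closure ({a, b} : Set G)).subtype.map_isConj this

theorem eq_of_regular (hab : Ab p G) (ha : orderOf a = p) (hb : orderOf b = p)
    (hs : IsPSolvable p (closure ({a, b} : Set G))) {i j : ℕ} (hi : i < p) (hj : j < p)
    (h1 : ¬ p ∣ orderOf (a * b ^ i)) (h2 : ¬ p ∣ orderOf (a * b ^ j)) : i = j :=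
  (pr hab ha hb hs).eq_of_regular hi hj (by rw [← Subgroup.orderOf_coe]; exact h1)
    (by rw [← Subgroup.orderOf_coe]; exact h2)

theorem orderOf_pPart (hab : Ab p G) (ha : orderOf a = p) (hb : orderOf b = p)
    (hs : IsPSolvable p (closure ({a, b} : Set G))) {j : ℕ} {w : G}
    (hw : IsPPart p (a * b ^ j) w) (h1 : w ≠ 1) : orderOf w = p := by
  have hm : w ∈ closure ({a, b} : Set G) := by
    refine (zpowers_le_of_mem ?_) (hw.mem_zpowers hp.out)
    exact mul_mem (subset_closure (by simp)) (pow_mem (subset_closure (by simp)) j)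
  have := (pr hab ha hb hs).pow_eq_one (w := ⟨w, hm⟩)
    (by rw [Subgroup.orderOf_mk]; exact hw.exists_orderOf)
  exact orderOf_eq_prime (congrArg Subtype.val this) h1

/-- At least `p - 2` of the products `a * b ^ j`, `1 ≤ j < p`, are `p`-singular. -/
theorem card_singular (hab : Ab p G) (ha : orderOf a = p) (hb : orderOf b = p)
    (hs : IsPSolvable p (closure ({a, b} : Set G))) :
    p - 2 ≤ ((Finset.Ico 1 p).filter fun j => p ∣ orderOf (a * b ^ j)).card := by
  have h1 := Finset.card_filter_add_card_filter_not (s := Finset.Ico 1 p)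
    (fun j => p ∣ orderOf (a * b ^ j))
  have h2 : ((Finset.Ico 1 p).filter fun j => ¬ p ∣ orderOf (a * b ^ j)).card ≤ 1 :=
    Finset.card_le_one.2 fun i hi j hj => by
      rw [Finset.mem_filter, Finset.mem_Ico] at hi hj
      exact eq_of_regular hab ha hb hs hi.1.2 hj.1.2 hi.2 hj.2
  rw [Nat.card_Ico] at h1
  omega

end

end Cfsg.Agent.Perm.PS
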