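import Mathlib
import Cfsg.Agent.Perm.PairSolv
import Cfsg.Agent.Blk.AbFrob
import Cfsg.Agent.Blk.PBPairs
import Cfsg.Agent.Ch.SmallDegree

/-!
# Groups in which any two elements of order `p` generate a `p`-solvable group: one class
-/

set_option autoImplicit false
set_option linter.unusedSectionVars false

open Cfsg Subgroup Cfsg.Agent.Ch Cfsg.Agent.Blk Cfsg.Agent.Blk.PB Cfsg.Agent.Blk.PC
  Cfsg.Agent.Blk.AF

namespace Cfsg.Agent.Perm.PS

variable {p : ℕ} [hp : Fact p.Prime] {G : Type*} [Group G]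

/-- Any two elements of order `p` generate a `p`-solvable group. -/
def Two (p : ℕ) (G : Type*) [Group G] : Prop :=
  ∀ x y : G, orderOf x = p → orderOf y = p → IsPSolvable p (closure ({x, y} : Set G))

theorem hyp_of_nc [Finite G] (P : Sylow p G)
    (hab : ∀ a ∈ (P : Subgroup G), ∀ b ∈ (P : Subgroup G), a * b = b * a)
    (h : ∀ y ∈ (P : Subgroup G), y ≠ 1 → HasNormalPComplement p (centralizer ({y} : Set G))) :
    Hyp P := by
  refine ⟨hab, fun y hy h1 => le_antisymm ?_ (le_inf (centralizer_le (Set.singleton_subset_iff.2 hy))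
    (centralizer_le_normalizer _))⟩
  rintro n ⟨hn, hn'⟩ x hx
  have hle : (P : Subgroup G) ≤ centralizer ({y} : Set G) := fun z hz =>
    mem_centralizer_singleton_iff.2 (hab z hz y hy)
  obtain ⟨u, hu, e⟩ := (h y hy h1).exists_conj_eq (P.subtype hle) ⟨n, hn⟩
  have hx' : n * x * n⁻¹ ∈ (P : Subgroup G) := GT.Tr.conj_mem_of_mem_normalizer hn' hx
  have := congrArg Subtype.val (e ⟨x, hle hx⟩ hx hx')
  change n * x * n⁻¹ = (u : G) * x * (u : G)⁻¹ at this
  rw [hab u hu x hx, mul_inv_cancel_right] at this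
  exact (mul_inv_eq_iff_eq_mul.1 this).symm

theorem count [Fintype G] (hab : Ab p G) (ht : Two p G) {x : G} (hx : orderOf x = p)
    (f : G → ℂ) (c : ℂ) (h0 : ∀ g, ¬ p ∣ orderOf g → f g = 0)
    (h1 : ∀ g w, IsPPart p g w → orderOf w = p → f g = c) :
    ∃ N : ℕ, (p - 2) * Nat.card G ^ 2 ≤ N ∧
      ∑ j ∈ Finset.Ico 1 p, ∑ a : G, ∑ b : G, f (a * x * a⁻¹ * (b * x ^ j * b⁻¹)) = N * c := by
  refine ⟨∑ a : G, ∑ b : G, ((Finset.Ico 1 p).filter fun j =>
    p ∣ orderOf (a * x * a⁻¹ * (b * x * b⁻¹) ^ j)).card, ?_, ?_⟩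
  · have : ∑ _a : G, ∑ _b : G, (p - 2) = (p - 2) * Nat.card G ^ 2 := by
      simp only [Finset.sum_const, Finset.card_univ, smul_eq_mul, Nat.card_eq_fintype_card]
      ring
    rw [← this]
    refine Finset.sum_le_sum fun a _ => Finset.sum_le_sum fun b _ => ?_
    have ha := (orderOf_conj_eq x a).trans hx
    have hb := (orderOf_conj_eq x b).trans hx
    exact card_singular hab ha hb (ht _ _ ha hb)
  · rw [Finset.sum_comm, Nat.cast_sum, Finset.sum_mul]
    refine Finset.sum_congr rfl fun a _ => ?_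
    rw [Finset.sum_comm, Nat.cast_sum, Finset.sum_mul]
    refine Finset.sum_congr rfl fun b _ => ?_
    have ha := (orderOf_conj_eq x a).trans hx
    have hb := (orderOf_conj_eq x b).trans hx
    rw [Finset.card_filter, Nat.cast_sum, Finset.sum_mul]
    refine Finset.sum_congr rfl fun j _ => ?_
    rw [← conj_pow]
    split_ifs with hd
    · obtain ⟨w, hw⟩ := exists_isPPart hp.out (a * x * a⁻¹ * (b * x * b⁻¹) ^ j)
      rw [h1 _ w hw (orderOf_pPart hab ha hb (ht _ _ ha hb) hw (hw.ne_one_of_dvd hd))]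
      simp
    · rw [h0 _ hd]; simp

theorem apply_ne [Finite G] [IsSimpleGroup G] {χ : IrrCharacter G} (h : χ ≠ irrOne G) {x : G}
    (hx : x ≠ 1) : (χ : G → ℂ) x ≠ (χ : G → ℂ) 1 := fun e => by
  rcases χ.isCharacter.charKer_normal.eq_bot_or_eq_top with h1 | h1
  · have := χ.isCharacter.mem_charKer.2 e
    rw [h1] at this
    exact hx this
  · exact charKer_ne_top h h1

theorem exists_int_of_const [Finite G] {P : Subgroup G}
    (hab : ∀ a ∈ P, ∀ b ∈ P, a * b = b * a) {x : G} (hx : x ∈ P) (h1 : x ≠ 1) {χ : G → ℂ}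
    (hχ : IsCharacter G χ) (h : ∀ y ∈ P, y ≠ 1 → χ y = χ x) : ∃ d : ℤ, χ x = d := by
  have := Fintype.ofFinite P
  obtain ⟨ψ, hψ⟩ := exists_monoidHom_units_ne_one_of_comm (G := P)
    (fun a b => Subtype.ext (hab _ a.2 _ b.2)) (g := ⟨x, hx⟩) fun e => h1 (congrArg Subtype.val e)
  have hψ1 : ψ ≠ 1 := fun e => hψ (by rw [e]; rfl)
  obtain ⟨n, hn⟩ := exists_int_aco P (th_gen ψ) hχ
  refine ⟨-n, ?_⟩
  have e : ∀ y : P, th ψ y * χ (y : G)⁻¹ = th ψ y * χ x := fun y => by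
    by_cases hy : y = 1
    · rw [hy, th_one, zero_mul, zero_mul]
    · rw [h _ (inv_mem y.2) (inv_ne_one.2 fun e => hy (Subtype.ext e))]
  rw [aco_eq, Finset.sum_congr rfl fun y _ => e y, ← Finset.sum_mul] at hn
  simp only [th, Finset.sum_sub_distrib, sum_monoidHom_units_eq_zero hψ1,
    Finset.sum_const, Finset.card_univ, nsmul_eq_mul, ← Nat.card_eq_fintype_card] at hn
  push_cast
  rw [← hn]
  field_simp [natCard_ne_zero P]
  ring

theorem numeric {ι : Type*} [DecidableEq ι] (s : Finset ι) (o : ι) (ho : o ∈ s) (d : ι → ℤ)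
    (n : ι → ℕ) (q : ℕ) (hn : ∀ i ∈ s, 0 < n i) (hd : d o = 1) (hno : n o = 1)
    (h1 : ∑ i ∈ s, d i ^ 2 = q) (h2 : ∑ i ∈ s, d i * n i = 0)
    (h3 : ∀ i ∈ s, i ≠ o → 0 < d i → d i + q ≤ n i) :
    ∑ i ∈ s, (d i : ℝ) ^ 3 / n i < q / 2 := by
  obtain ⟨j, hj, hdj⟩ : ∃ j ∈ s, d j < 0 := by
    by_contra hne
    push Not at hne
    have h4 := (Finset.sum_eq_zero_iff_of_nonneg fun i hi =>
      mul_nonneg (hne i hi) (Int.natCast_nonneg _)).1 h2 o ho
    rw [hd, hno] at h4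
    norm_num at h4
  have hjo : j ≠ o := fun e => by rw [e, hd] at hdj; omega
  have key : ∀ i ∈ s, (d i : ℝ) ^ 3 / n i ≤
      (d i : ℝ) ^ 2 / 2 + (if i = o then 1 / 2 else 0) - (if i = j then 1 / 2 else 0) ∧
      (i = j → (d i : ℝ) ^ 3 / n i <
      (d i : ℝ) ^ 2 / 2 + (if i = o then 1 / 2 else 0) - (if i = j then 1 / 2 else 0)) := by
    intro i hi
    have hni : (0 : ℝ) < n i := by exact_mod_cast hn i hi
    by_cases hij : i = j
    · subst hij
      have h5 : (d i : ℝ) ≤ -1 := by exact_mod_cast (by omega : d i ≤ -1)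
      have h6 : (d i : ℝ) ^ 3 / n i < 0 := div_neg_of_neg_of_pos
        (Odd.pow_neg (by decide) (by linarith)) hni
      have : (d i : ℝ) ^ 3 / n i <
          (d i : ℝ) ^ 2 / 2 + (if i = o then 1 / 2 else 0) - (if i = i then 1 / 2 else 0) := by
        rw [if_neg hjo, if_pos rfl]; nlinarith
      exact ⟨this.le, fun _ => this⟩
    refine ⟨?_, fun e => absurd e hij⟩
    rw [if_neg hij]
    by_cases hio : i = o
    · subst hio
      rw [if_pos rfl, hd, hno]; norm_num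
    rw [if_neg hio, div_le_iff₀ hni]
    rcases lt_or_ge 0 (d i) with h5 | h5
    · have h6 := h3 i hi hio h5
      have h7 : d i ^ 2 ≤ q := h1 ▸ Finset.single_le_sum (f := fun i => d i ^ 2)
        (fun i _ => sq_nonneg _) hi
      have h8 : (2 * d i : ℝ) ≤ n i := by
        have : 2 * d i ≤ n i := by nlinarith
        exact_mod_cast this
      nlinarith [sq_nonneg (d i : ℝ)]
    · have h6 : (d i : ℝ) ≤ 0 := by exact_mod_cast h5
      nlinarith [sq_nonneg (d i : ℝ), mul_nonneg (sq_nonneg (d i : ℝ)) hni.le]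
  refine (Finset.sum_lt_sum (fun i hi => (key i hi).1) ⟨j, hj, (key j hj).2 rfl⟩).trans_eq ?_
  rw [Finset.sum_sub_distrib, Finset.sum_add_distrib, Finset.sum_ite_eq' s o,
    Finset.sum_ite_eq' s j, if_pos ho, if_pos hj, ← Finset.sum_div]
  have : ∑ i ∈ s, (d i : ℝ) ^ 2 = q := by exact_mod_cast h1
  rw [this]; ring

theorem one_class [Finite G] [IsSimpleGroup G] {P : Sylow p G} (h : Hyp P) (ht : Two p G)
    {x : G} (hxP : x ∈ (P : Subgroup G)) (hx : orderOf x = p)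
    (hc : ∀ y ∈ (P : Subgroup G), y ≠ 1 → IsConj y x) : p = 2 := by
  classical
  have := Fintype.ofFinite G
  by_contra hp2
  have hp3 : 3 ≤ p := by have := hp.out.two_le; omega
  obtain ⟨M, hM⟩ := exists_isPModular hp.out
  have hab := Ab.of_sylow P h.comm
  have hx1 : x ≠ 1 := fun e => by rw [e, orderOf_one] at hx; omega
  have hcl : ∀ χ : IrrCharacter G, ∀ y ∈ (P : Subgroup G), y ≠ 1 →
      (χ : G → ℂ) y = (χ : G → ℂ) x := fun χ y hy h1 => by
    obtain ⟨g, rfl⟩ := isConj_iff.1 (hc y hy h1)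
    rw [χ.isCharacter.isClassFunction]
  choose d hd using fun χ : IrrCharacter G =>
    exists_int_of_const h.comm hxP hx1 χ.isCharacter (hcl χ)
  have hval : ∀ χ ∈ pb M G, ∀ g w, IsPPart p g w → w ≠ 1 → (χ : G → ℂ) g = d χ := by
    intro χ hχ g w hw h1
    obtain ⟨y, hy, hwy⟩ := exists_conj_mem P hw.exists_orderOf
    have hy1 : y ≠ 1 := fun e => h1 (by rw [e] at hwy; exact isConj_one_right.1 hwy.symm)
    rw [PB.apply_eq_of_isPPart hM (fun _ => mem_centralizer_singleton_iff)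
      (h.nc_centralizer hxP hx1) (mem_pb.1 hχ) hw (hwy.trans (hc y hy hy1)), hd]
  have hinv : ∀ χ : IrrCharacter G, (χ : G → ℂ) x⁻¹ = d χ := fun χ => by
    rw [hcl χ _ (inv_mem hxP) (inv_ne_one.2 hx1), hd]
  have h1 : ∑ χ ∈ pb M G, d χ ^ 2 = Nat.card (P : Subgroup G) := by
    have e := sum_mul_inv_of_isConj (M := M) hM ⟨1, by rw [hx, pow_one]⟩ (IsConj.refl x)
    rw [h.lam_eq hM hxP hx1] at e
    simp only [hinv, hd, ← sq] at e
    exact_mod_cast e
  have h2 : ∀ g, ¬ p ∣ orderOf g → ∑ χ ∈ pb M G, d χ * (χ : G → ℂ) g = 0 := fun g hg => by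
    rw [← sum_mul_eq_zero_of_regular hM hg (h := x) (by rw [hx])]
    exact Finset.sum_congr rfl fun χ _ => by rw [hd, mul_comm]
  obtain ⟨N, hN, e⟩ := count hab ht hx (fun g => ∑ χ ∈ pb M G, d χ * (χ : G → ℂ) g)
    (Nat.card (P : Subgroup G)) h2 (fun g w hw hw1 => by
      have : w ≠ 1 := fun e => by rw [e, orderOf_one] at hw1; omega
      rw [Finset.sum_congr rfl fun χ hχ => by rw [hval χ hχ g w hw this, ← sq]]
      exact_mod_cast h1)
  have e2 : ∀ j ∈ Finset.Ico 1 p, ∑ a : G, ∑ b : G, ∑ χ ∈ pb M G,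
      d χ * (χ : G → ℂ) (a * x * a⁻¹ * (b * x ^ j * b⁻¹)) = (Nat.card G : ℂ) ^ 2 *
        ((∑ χ ∈ pb M G, (d χ : ℝ) ^ 3 / charDegree (χ : G → ℂ) : ℝ) : ℂ) := by
    intro j hj
    rw [Finset.mem_Ico] at hj
    have hj1 : x ^ j ≠ 1 := pow_ne_one_of_lt_orderOf (by omega) (by rw [hx]; exact hj.2)
    rw [Finset.sum_congr rfl fun a _ => Finset.sum_comm, Finset.sum_comm]
    push_cast
    rw [Finset.mul_sum]
    refine Finset.sum_congr rfl fun χ _ => ?_
    have e3 := sum_pairs_irr χ x (x ^ j)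
    have h0 : (χ : G → ℂ) 1 ≠ 0 := by
      rw [← χ.2.coe_charDegree]; exact_mod_cast χ.2.charDegree_pos.ne'
    simp only [← Finset.mul_sum]
    rw [hcl χ _ (pow_mem hxP j) hj1, hd] at e3
    rw [χ.2.coe_charDegree, eq_div_of_mul_eq h0 ((mul_comm _ _).trans e3)]
    field_simp
  rw [Finset.sum_congr rfl e2, Finset.sum_const, Nat.card_Ico, nsmul_eq_mul] at e
  have e4 : ((p - 1 : ℕ) : ℝ) * ((Nat.card G : ℝ) ^ 2 *
      ∑ χ ∈ pb M G, (d χ : ℝ) ^ 3 / charDegree (χ : G → ℂ)) =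
      N * Nat.card (P : Subgroup G) := by exact_mod_cast e
  have hlt := numeric (pb M G) (irrOne G) (one_mem_pb hM) d (fun χ => charDegree (χ : G → ℂ))
    (Nat.card (P : Subgroup G)) (fun χ _ => χ.2.charDegree_pos)
    (by
      have : (1 : ℂ) = d (irrOne G) := hd (irrOne G)
      exact_mod_cast this.symm)
    (by
      have : (charDegree (irrOne G : G → ℂ) : ℂ) = 1 := (irrOne G).2.coe_charDegree
      exact_mod_cast this) h1
    (by
      have := h2 1 (by rw [orderOf_one]; exact hp.out.not_dvd_one)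
      rw [Finset.sum_congr rfl fun χ _ => by rw [← χ.2.coe_charDegree]] at this
      exact_mod_cast this)
    (fun χ _ hχ hpos => by
      obtain ⟨k, hk⟩ := (χ.isCharacter.isGeneralizedCharacter.sub
        (IsGeneralizedCharacter.one'.intCast_smul (d χ))).exists_apply_one_eq_card_mul
        (P : Subgroup G) (fun g hg hg1 => by simp [hcl χ g hg hg1, hd])
      have e5 := χ.2.coe_charDegree
      have e6 := apply_ne hχ hx1
      have e7 := χ.isCharacter.norm_le x
      rw [hd] at e6 e7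
      simp only [Pi.sub_apply, Pi.smul_apply, Pi.one_apply, smul_eq_mul, mul_one, ← e5] at hk e6
      have k1 : (charDegree (χ : G → ℂ) : ℤ) - d χ = Nat.card (P : Subgroup G) * k := by
        exact_mod_cast hk
      have k2 : d χ ≠ (charDegree (χ : G → ℂ) : ℤ) := by exact_mod_cast e6
      have k3 : |d χ| ≤ (charDegree (χ : G → ℂ) : ℤ) := by
        rw [Complex.norm_intCast] at e7; exact_mod_cast e7
      have k4 := le_abs_self (d χ)
      have k5 : (0 : ℤ) < Nat.card (P : Subgroup G) := by exact_mod_cast Nat.card_pos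
      have k6 : 0 < k := by
        by_contra hk0
        have := mul_nonpos_of_nonneg_of_nonpos k5.le (not_lt.1 hk0)
        omega
      nlinarith)
  have hG : (0 : ℝ) < (Nat.card G : ℝ) ^ 2 := pow_pos (by exact_mod_cast Nat.card_pos) 2
  have hq : (0 : ℝ) < Nat.card (P : Subgroup G) := by exact_mod_cast Nat.card_pos
  have hN' : ((p - 2 : ℕ) : ℝ) * (Nat.card G : ℝ) ^ 2 ≤ N := by exact_mod_cast hN
  obtain ⟨r, rfl⟩ : ∃ r, p = r + 3 := ⟨p - 3, by omega⟩
  rw [show r + 3 - 1 = r + 2 by omega] at e4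
  rw [show r + 3 - 2 = r + 1 by omega] at hN'
  push_cast at e4 hN'
  have hr : (0 : ℝ) ≤ r := Nat.cast_nonneg r
  set T := ∑ χ ∈ pb M G, (d χ : ℝ) ^ 3 / charDegree (χ : G → ℂ)
  set g2 := (Nat.card G : ℝ) ^ 2
  set q : ℝ := (Nat.card (P : Subgroup G) : ℝ)
  have k1 : (r + 1) * g2 * q ≤ (r + 2) * (g2 * T) := by
    rw [e4]; exact mul_le_mul_of_nonneg_right hN' hq.le
  have k2 : (r + 2) * (g2 * T) < (r + 2) * (g2 * (q / 2)) :=
    mul_lt_mul_of_pos_left (mul_lt_mul_of_pos_left hlt hG) (by linarith)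
  nlinarith [mul_pos hG hq, mul_nonneg hr (mul_pos hG hq).le]

end Cfsg.Agent.Perm.PS
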