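import Mathlib

/-!
# The projective plane of order 3: tables, and at most 5616 collineations
-/

set_option autoImplicit false

namespace Cfsg.Agent.Perm.P3

open Matrix

abbrev V := Fin 3 → ZMod 3
/-- points (`false`) and lines (`true`) -/
abbrev X := Bool × Fin 13

def idx (v : V) : Fin 13 :=
  [0, 4, 4, 1, 7, 10, 1, 10, 7, 0, 5, 6, 2, 8, 12, 3, 11, 9, 0, 6, 5, 3, 9, 11, 2, 12, 8].getD
    ((v 0).val + 3 * (v 1).val + 9 * (v 2).val) 0

def inc (p m : Fin 13) : Bool :=
  Nat.testBit 389515209005992732313513829080319019620122288333970 (13 * p.val + m.val)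

def adj (a b : X) : Bool := (a.1 != b.1) && inc a.2 b.2

theorem dot_iff : ∀ a φ : V, a ≠ 0 → φ ≠ 0 → (φ ⬝ᵥ a = 0 ↔ inc (idx a) (idx φ) = true) := by
  decide +kernel

theorem idx_eq : ∀ a b : V, a ≠ 0 → b ≠ 0 → idx a = idx b → b = a ∨ b = -a := by decide +kernel

theorem idx_surj : ∀ p, ∃ a : V, a ≠ 0 ∧ idx a = p := by decide +kernel

theorem idx_smul : ∀ (c : ZMod 3) (b : V), c • b ≠ 0 → idx (c • b) = idx b := by decide +kernel

theorem inc_iff : ∀ p l, inc p l = true → ∀ q m, inc q m = true →
    (inc q l = true ∧ inc p m = true ↔ p = q ∨ l = m) := by decide +kernel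

theorem inc_comm : ∀ p l, inc p l = inc l p := by decide +kernel

theorem exists_inc_ne : ∀ p l, ∃ m, inc p m = true ∧ m ≠ l := by decide +kernel

theorem exists_adj : ∀ a b : X, a.1 = b.1 → ∃ c, adj a c = true ∧ adj b c = true := by
  decide +kernel

theorem adj_unique : ∀ a b : X, a ≠ b → ∀ c, adj a c = true → adj b c = true →
    ∀ d, adj a d = true → adj b d = true → c = d := by decide +kernel

def rk (a : X) : ℕ := (if a.1 then [1, 2, 19, 3, 4, 20, 5, 21, 22, 10, 6, 11, 12]
  else [0, 0, 7, 13, 0, 8, 14, 9, 0, 15, 16, 17, 18]).getD a.2.val 0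

theorem rk_step : ∀ c : X, c = (false, 4) ∨ c = (false, 1) ∨ c = (false, 0) ∨ c = (false, 8) ∨
    ∃ a b, a ≠ b ∧ adj a c = true ∧ adj b c = true ∧ rk a < rk c ∧ rk b < rk c := by
  decide +kernel

def col (a b c : Fin 13) : Bool := Nat.testBit 23061834918603323896470339403092979674790924306028199413985620194739031534116871863472228301417236468613850109121574025898989164526940343947865574208453884326372096244079844177107650357811435360523754972877430465270292076635421366043428357787638945228620329415029929817309218429784765137901805688580452404407209677239201324057386295862050542132034410565251581558159364267097301979004446016684000106997630727537542724438287989852160165530777995212607630268939271691346871994791950633135324125037484419021809234161217422525374588851666417424902473572847700723223449620088660675367754240895426917020271591365100324906369829793233009470805765646199466179109786353663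
  (13 * (13 * a.val + b.val) + c.val)

theorem col_spec : ∀ a b c, col a b c = true → ∃ m, inc a m = true ∧ inc b m = true ∧
    inc c m = true := by decide +kernel

def frame (t : Fin 13 × Fin 13 × Fin 13 × Fin 13) : Bool :=
  !col t.1 t.2.1 t.2.2.1 && !col t.1 t.2.1 t.2.2.2 && !col t.1 t.2.2.1 t.2.2.2 &&
    !col t.2.1 t.2.2.1 t.2.2.2

theorem card_frame : (Finset.univ.filter fun t => frame t = true).card = 5616 := by
  decide +kernel

/-- collineations -/
def Col : Set (Equiv.Perm X) :=
  {σ | (∀ a b, adj (σ a) (σ b) = true ↔ adj a b = true) ∧ ∀ a, (σ a).1 = a.1}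

theorem ncard_Col : Col.ncard ≤ 5616 := by
  rw [← card_frame, ← Set.ncard_coe_finset]
  refine Set.ncard_le_ncard_of_injOn (fun σ => ((σ (false, 4)).2, (σ (false, 1)).2,
    (σ (false, 0)).2, (σ (false, 8)).2)) (fun σ hσ => ?_) fun σ hσ τ hτ e => ?_
  · have key : ∀ a b c : Fin 13, (∀ d, ¬ (adj (false, a) d = true ∧ adj (false, b) d = true ∧
        adj (false, c) d = true)) →
        col (σ (false, a)).2 (σ (false, b)).2 (σ (false, c)).2 = false := by
      intro a b c h
      by_contra hc
      obtain ⟨m, h1, h2, h3⟩ := col_spec _ _ _ (Bool.not_eq_false _ ▸ hc)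
      refine h (σ.symm (true, m)) ?_
      have h4 : ∀ a, inc (σ (false, a)).2 m = true → adj (false, a) (σ.symm (true, m)) = true :=
        fun a ha => by
          rw [← hσ.1, Equiv.apply_symm_apply, adj, hσ.2, ha]; rfl
      exact ⟨h4 a h1, h4 b h2, h4 c h3⟩
    refine Finset.mem_coe.mpr (Finset.mem_filter.mpr ⟨Finset.mem_univ _, ?_⟩)
    rw [frame, key 4 1 0 (by decide +kernel), key 4 1 8 (by decide +kernel),
      key 4 0 8 (by decide +kernel), key 1 0 8 (by decide +kernel)]
    rfl
  · simp only [Prod.mk.injEq] at e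
    have h0 : ∀ a, (σ a).2 = (τ a).2 → σ a = τ a := fun a h =>
      Prod.ext ((hσ.2 a).trans (hτ.2 a).symm) h
    have key : ∀ n (c : X), rk c = n → σ c = τ c := by
      intro n
      induction n using Nat.strong_induction_on with
      | _ n ih =>
        rintro c rfl
        rcases rk_step c with rfl | rfl | rfl | rfl | ⟨a, b, hab, ha, hb, h1, h2⟩
        exacts [h0 _ e.1, h0 _ e.2.1, h0 _ e.2.2.1, h0 _ e.2.2.2,
          adj_unique (σ a) (σ b) (σ.injective.ne hab) _ ((hσ.1 _ _).mpr ha) ((hσ.1 _ _).mpr hb) _
            (ih _ h1 a rfl ▸ (hτ.1 _ _).mpr ha) (ih _ h2 b rfl ▸ (hτ.1 _ _).mpr hb)]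
    exact Equiv.ext fun c => key _ c rfl

end Cfsg.Agent.Perm.P3
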