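import Mathlib

/-!
# Permutations of prime order: numbers of fixed points, conjugacy
-/

namespace Cfsg.Agent.Perm.PrimeOrd

open Equiv Finset

variable {α β : Type*} [Fintype α] [DecidableEq α] [Fintype β] [DecidableEq β] {r : ℕ}

/-- number of fixed points -/
def nfix (σ : Perm α) : ℕ := (univ.filter fun x => σ x = x).card

theorem nfix_add_support (σ : Perm α) : nfix σ + σ.support.card = Fintype.card α := by
  rw [nfix, Perm.support, card_filter_add_card_filter_not, card_univ]

theorem card_support_eq (hr : r.Prime) {σ : Perm α} (h : σ ^ r = 1) :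
    σ.support.card = r * σ.cycleType.card := by
  have := Fact.mk hr
  rw [← Perm.sum_cycleType, Perm.cycleType_of_pow_prime_eq_one h]
  simp [mul_comm]

theorem exists_nfix_add (hr : r.Prime) {σ : Perm α} (h : σ ^ r = 1) :
    ∃ c, nfix σ + r * c = Fintype.card α :=
  ⟨_, card_support_eq hr h ▸ nfix_add_support σ⟩

theorem exists_perm (hr : r.Prime) {c : ℕ} (h : r * c ≤ Fintype.card α) :
    ∃ σ : Perm α, σ ^ r = 1 ∧ nfix σ + r * c = Fintype.card α := by
  have := Fact.mk hr
  obtain ⟨σ, hσ⟩ := (Perm.exists_with_cycleType_iff α (m := Multiset.replicate c r)).mpr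
    ⟨by simpa [mul_comm] using h, fun a ha => Multiset.eq_of_mem_replicate ha ▸ hr.two_le⟩
  have h1 : σ ^ r = 1 :=
    Perm.pow_prime_eq_one_iff.mpr fun a ha => Multiset.eq_of_mem_replicate (hσ ▸ ha)
  refine ⟨σ, h1, ?_⟩
  rw [← nfix_add_support σ, card_support_eq hr h1, hσ, Multiset.card_replicate]

theorem orderOf_eq (hr : r.Prime) {σ : Perm α} (h : σ ^ r = 1) (hlt : nfix σ < Fintype.card α) :
    orderOf σ = r := by
  have := Fact.mk hr
  refine orderOf_eq_prime h ?_
  rintro rfl
  simp [nfix] at hlt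

theorem nfix_lt (hr : r.Prime) {σ : Perm α} (h : orderOf σ = r) : nfix σ < Fintype.card α := by
  have h1 := nfix_add_support σ
  have : σ.support.card ≠ 0 := by
    rw [Ne, Perm.card_support_eq_zero]
    rintro rfl
    exact hr.one_lt.ne (by simpa using h)
  omega

theorem nfix_permCongr (e : α ≃ β) (σ : Perm α) : nfix (e.permCongr σ) = nfix σ := by
  refine (card_equiv e fun x => ?_).symm
  rw [mem_filter, mem_filter]
  simp

theorem exists_equiv (hr : r.Prime) {σ : Perm α} {τ : Perm β} (hσ : σ ^ r = 1) (hτ : τ ^ r = 1)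
    (hc : Fintype.card β = Fintype.card α) (hf : nfix τ = nfix σ) :
    ∃ e : β ≃ α, ∀ y, σ (e y) = e (τ y) := by
  have := Fact.mk hr
  let e := Fintype.equivOfCardEq hc
  have h1 : (e.permCongr τ) ^ r = 1 := by
    change e.permCongrHom τ ^ r = 1
    rw [← map_pow, hτ, map_one]
  have h2 := nfix_add_support (e.permCongr τ)
  have h3 := nfix_add_support σ
  rw [nfix_permCongr, card_support_eq hr h1] at h2
  rw [card_support_eq hr hσ] at h3
  have h4 : (e.permCongr τ).cycleType.card = σ.cycleType.card :=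
    Nat.eq_of_mul_eq_mul_left hr.pos (by omega)
  obtain ⟨g, hg⟩ := isConj_iff.mp (Perm.isConj_of_cycleType_eq (σ := e.permCongr τ) (τ := σ) (by
    rw [Perm.cycleType_of_pow_prime_eq_one h1, h4, ← Perm.cycleType_of_pow_prime_eq_one hσ]))
  exact ⟨e.trans g, fun y => by simp [← hg]⟩

theorem exists_filter_add (hr : r.Prime) {σ : Perm α} (h : σ ^ r = 1) (p : α → Prop)
    [DecidablePred p] (hp : ∀ x, p (σ x) ↔ p x) :
    ∃ c, (univ.filter fun x => p x ∧ σ x = x).card + r * c = (univ.filter p).card := by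
  obtain ⟨c, hc⟩ := exists_nfix_add hr (σ := σ.subtypePerm hp) (by
    rw [Perm.subtypePerm_pow]; ext x; simp [h])
  refine ⟨c, ?_⟩
  rw [← Fintype.card_subtype p, ← hc, nfix]
  congr 1
  refine (card_bij (fun x _ => x.1) (fun x hx => ?_) (fun _ _ _ _ => Subtype.ext) fun x hx => ?_).symm
  · simpa [Subtype.ext_iff, x.2] using hx
  · simp only [mem_filter, mem_univ, true_and] at hx
    exact ⟨⟨x, hx.1⟩, by simpa [Subtype.ext_iff] using hx.2, rfl⟩

end Cfsg.Agent.Perm.PrimeOrd
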