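import Mathlib
import Cfsg.Agent.Perm.JordanSet
import Cfsg.Agent.Perm.Jordan

/-!
# Quasiprimitive groups with Jordan sets
-/

set_option autoImplicit false

namespace Cfsg.Agent.Perm

open MulAction Equiv

variable {G X : Type*} [Group G] [MulAction G X]

/-- The kernel of the action on the classes of an invariant equivalence relation. -/
def relKer (G : Type*) [Group G] [MulAction G X] {r : X → X → Prop} (hr : Equivalence r)
    (hinv : ∀ (g : G) x y, r x y → r (g • x) (g • y)) : Subgroup G where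
  carrier := {g | ∀ x, r (g • x) x}
  one_mem' := fun x => by simpa using hr.refl x
  mul_mem' := fun {a b} ha hb x => by rw [mul_smul]; exact hr.trans (ha _) (hb x)
  inv_mem' := fun {a} ha x => by simpa using hr.symm (hinv a⁻¹ _ _ (ha x))

theorem relKer_normal {r : X → X → Prop} (hr : Equivalence r)
    (hinv : ∀ (g : G) x y, r x y → r (g • x) (g • y)) : (relKer G hr hinv).Normal :=
  ⟨fun n hn g x => by simpa [mul_smul] using hinv g _ _ (hn (g⁻¹ • x))⟩

theorem quasi_rel (hqp : ∀ N : Subgroup G, N.Normal → N ≠ ⊥ → IsPretransitive N X)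
    {r : X → X → Prop} (hr : Equivalence r) (hinv : ∀ (g : G) x y, r x y → r (g • x) (g • y))
    {g : G} (hg1 : g ≠ 1) (hg : ∀ x, r (g • x) x) (x y : X) : r x y := by
  have := hqp _ (relKer_normal hr hinv) (fun h => hg1 (by
    have : g ∈ relKer G hr hinv := hg
    rwa [h] at this))
  obtain ⟨u, hu, rfl⟩ := exists_mem_smul_eq (relKer G hr hinv) y x
  exact hu y

/-- For a quasiprimitive group with a Jordan set `Γ`, a proper invariant equivalence relation
has `Γ` as a union of at least two classes. -/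
theorem quasi_jordan_rel (hqp : ∀ N : Subgroup G, N.Normal → N ≠ ⊥ → IsPretransitive N X)
    {r : X → X → Prop} (hr : Equivalence r) (hinv : ∀ (g : G) x y, r x y → r (g • x) (g • y))
    (hnt : ¬ ∀ x y, r x y) {Γ : Set X} (hΓ : Γ.Nontrivial)
    (hJ : ∀ a ∈ Γ, ∀ b ∈ Γ, ∃ g : G, (∀ x ∉ Γ, g • x = x) ∧ g • a = b) :
    (∃ a ∈ Γ, ∃ b ∈ Γ, ¬ r a b) ∧ ∀ x ∈ Γ, ∀ y, r x y → y ∈ Γ := by
  have h1 : ∃ a ∈ Γ, ∃ b ∈ Γ, ¬ r a b := by
    by_contra h
    push Not at h
    obtain ⟨a, ha, b, hb, hab⟩ := hΓ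
    obtain ⟨g, hg, hgab⟩ := hJ a ha b hb
    refine hnt (quasi_rel hqp hr hinv (g := g) (by rintro rfl; exact hab (by simpa using hgab))
      fun x => ?_)
    by_cases hx : x ∈ Γ
    · refine h _ ?_ x hx
      by_contra h2
      exact h2 (by rwa [smul_left_cancel g (hg _ h2)])
    · rw [hg x hx]; exact hr.refl x
  refine ⟨h1, fun x hx y hxy => ?_⟩
  by_contra hy
  obtain ⟨a, ha, b, hb, hab⟩ := h1
  have key : ∀ c ∈ Γ, r c y := fun c hc => by
    obtain ⟨g, hg, rfl⟩ := hJ x hx c hc
    simpa [hg y hy] using hinv g x y hxy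
  exact hab (hr.trans (key a ha) (hr.symm (key b hb)))

theorem quasi_trans (hqp : ∀ N : Subgroup G, N.Normal → N ≠ ⊥ → IsPretransitive N X)
    {g : G} (hg : g ≠ 1) : IsPretransitive G X :=
  isPretransitive_of_subgroup ⊤ (hqp ⊤ inferInstance fun h => hg (by
    have : g ∈ (⊤ : Subgroup G) := trivial
    rwa [h] at this))

theorem card_filter_mem_of_fibers {Y : Type*} [Fintype X] [DecidableEq Y] (f : X → Y) {b : ℕ}
    (hf : ∀ y, (Finset.univ.filter fun x => f x = y).card = b) (T : Finset Y) :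
    (Finset.univ.filter fun x => f x ∈ T).card = T.card * b := by
  rw [Finset.card_eq_sum_card_fiberwise (f := f) (s := Finset.univ.filter fun x => f x ∈ T) (t := T)
    (fun x hx => (Finset.mem_filter.1 hx).2),
    ← smul_eq_mul, ← Finset.sum_const]
  refine Finset.sum_congr rfl fun y hy => ?_
  rw [← hf y, Finset.filter_filter]
  congr 1
  ext x
  simp only [Finset.mem_filter, Finset.mem_univ, true_and]
  exact ⟨fun h => h.2, fun h => ⟨h ▸ hy, h⟩⟩

/-- If a subgroup contains all 3-cycles fixing `B` then it contains all even permutations fixing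
`B`. -/
theorem mem_of_three_cycles_fix {Y : Type*} [Fintype Y] [DecidableEq Y] (U : Subgroup (Perm Y))
    (B : Y) (h : ∀ τ : Perm Y, τ.IsThreeCycle → τ B = B → τ ∈ U) {σ : Perm Y}
    (hσ : Perm.sign σ = 1) (hB : σ B = B) : σ ∈ U := by
  have hinv : ∀ y, σ y ≠ B ↔ y ≠ B := fun y => by
    rw [← hB, σ.injective.ne_iff, hB]
  have hs : ∀ y, σ y ≠ y → y ≠ B := fun y hy e => hy (e ▸ hB)
  rw [← Perm.ofSubtype_subtypePerm hinv hs]
  have h1 : alternatingGroup {y // y ≠ B} ≤ U.comap Perm.ofSubtype := by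
    rw [← Perm.closure_three_cycles_eq_alternating, Subgroup.closure_le]
    intro τ hτ
    refine h _ ?_ (Perm.ofSubtype_apply_of_not_mem _ (by simp))
    rw [Perm.IsThreeCycle, Perm.cycleType_ofSubtype]
    exact hτ
  exact h1 (by rw [Perm.mem_alternatingGroup, Perm.sign_subtypePerm _ _ hs, hσ])

theorem exists_even_conj_three {Y : Type*} [Fintype Y] [DecidableEq Y] {τ τ' : Perm Y}
    (h : τ.IsThreeCycle) (h' : τ'.IsThreeCycle) {d d' : Y} (hd : τ d = d) (hd' : τ' d' = d') :
    ∃ π : Perm Y, Perm.sign π = 1 ∧ π d = d' ∧ (π * τ * π⁻¹ = τ' ∨ π * τ * π⁻¹ = τ'⁻¹) := by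
  have key : ∀ {a b c d : Y}, a ≠ b → a ≠ c → b ≠ c → Sym.cyc3 a b c d = d →
      [a, b, c, d].Nodup := by
    intro a b c d hab hac hbc h
    have : d ∉ (Sym.cyc3 a b c).support := by simpa using h
    rw [Sym.support_cyc3 hab hac hbc] at this
    simp only [Finset.mem_insert, Finset.mem_singleton, not_or] at this
    simp [hab, hac, hbc, Ne.symm this.1, Ne.symm this.2.1, Ne.symm this.2.2]
  obtain ⟨a, b, c, hab, hac, hbc, rfl⟩ := Sym.exists_eq_cyc3 h
  obtain ⟨a', b', c', hab', hac', hbc', rfl⟩ := Sym.exists_eq_cyc3 h'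
  have h1 := key hab hac hbc hd
  obtain ⟨π, rfl, rfl, rfl, rfl⟩ := exists_smul_eq_four (Perm.isMultiplyPretransitive Y 4) h1
    (key hab' hac' hbc' hd')
  rcases Int.units_eq_one_or (Perm.sign π) with hs | hs
  · exact ⟨π, hs, rfl, Or.inl (Sym.conj_cyc3 _ _ _ _)⟩
  · simp only [List.nodup_cons, List.mem_cons, List.not_mem_nil, or_false, not_or] at h1
    refine ⟨π * swap b c, by simp [hs, hbc], ?_, Or.inr ?_⟩
    · rw [Perm.mul_apply, swap_apply_of_ne_of_ne (Ne.symm h1.2.1.2) (Ne.symm h1.2.2.1)]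
      rfl
    · rw [Sym.conj_cyc3, Sym.cyc3_inv hab' hac' hbc']
      simp [swap_apply_of_ne_of_ne hab hac]

universe u in
/-- Marggraf's theorem for quasiprimitive groups. -/
theorem quasi_marggraf {G : Type*} [Group G] (n : ℕ) : ∀ (X : Type u) [MulAction G X]
    [FaithfulSMul G X] [Fintype X] [DecidableEq X], Fintype.card X = n →
    (∀ N : Subgroup G, N.Normal → N ≠ ⊥ → IsPretransitive N X) → ∀ Γ : Finset X, 1 < Γ.card →
    2 * Γ.card < n → (∀ a ∈ Γ, ∀ b ∈ Γ, ∃ g : G, (∀ x ∉ Γ, g • x = x) ∧ g • a = b) →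
    alternatingGroup X ≤ (toPermHom G X).range := by
  induction n using Nat.strong_induction_on with
  | _ n ih =>
  intro X _ _ _ _ hn hqp Γ h1 h2 hJ
  classical
  have hΓ : (Γ : Set X).Nontrivial := Finset.one_lt_card_iff_nontrivial.1 h1
  have htr : IsPretransitive G X := by
    obtain ⟨a, ha, b, hb, hab⟩ := hΓ
    obtain ⟨g, -, hg⟩ := hJ a ha b hb
    exact quasi_trans hqp (g := g) (by rintro rfl; exact hab (by simpa using hg))
  suffices hp : IsPreprimitive G X by
    refine IsJC.alt_le (Δ := Γᶜ) (fun a ha b hb => ?_) (isPreprimitive_range_iff.2 hp)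
      (by rw [Finset.card_compl]; omega) (by rw [Finset.card_compl]; omega)
    obtain ⟨g, h3, h4⟩ := hJ a (by simpa using ha) b (by simpa using hb)
    exact ⟨⟨toPermHom G X g, g, rfl⟩, fun x hx => h3 x (by simpa using hx), h4⟩
  apply isPreprimitive_of_rel
  intro r hr hinv
  by_contra hcon
  rw [not_or] at hcon
  obtain ⟨⟨a, ha, b, hb, hab⟩, hcl⟩ := quasi_jordan_rel hqp hr hinv hcon.2 hΓ hJ
  let s : Setoid X := ⟨r, hr⟩
  let : MulAction G (Quotient s) :=
    { smul := fun g => Quotient.map (g • ·) (hinv g)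
      one_smul := fun y => Quotient.inductionOn y fun x => congrArg (Quotient.mk s) (one_smul G x)
      mul_smul := fun g h y => Quotient.inductionOn y fun x =>
        congrArg (Quotient.mk s) (mul_smul g h x) }
  have hsm : ∀ (g : G) (x : X), g • Quotient.mk s x = Quotient.mk s (g • x) := fun _ _ => rfl
  have heq : ∀ x y : X, Quotient.mk s x = Quotient.mk s y ↔ r x y := fun _ _ => Quotient.eq
  have hf1 : ∀ g : G, (∀ y : Quotient s, g • y = y) → g = 1 := fun g hg => by
    by_contra h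
    exact hcon.2 (quasi_rel hqp hr hinv h fun x => (heq _ _).1 (hg (Quotient.mk s x)))
  have : FaithfulSMul G (Quotient s) := ⟨fun {g h} e => by
    rw [← inv_mul_eq_one]
    exact hf1 _ fun y => by rw [mul_smul, ← e, inv_smul_smul]⟩
  have := Fintype.ofFinite (Quotient s)
  obtain ⟨x₀, x₁, h01, hne⟩ : ∃ x₀ x₁, r x₀ x₁ ∧ x₀ ≠ x₁ := by
    have := hcon.1
    push Not at this
    exact this
  set k := (Finset.univ.filter fun x => Quotient.mk s x = Quotient.mk s x₀).card with hk
  have hk2 : 1 < k := Finset.one_lt_card.2 ⟨x₀, by simp, x₁, by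
    simpa using (heq _ _).2 (hr.symm h01), hne⟩
  have hfib : ∀ y : Quotient s, (Finset.univ.filter fun x => Quotient.mk s x = y).card = k := by
    intro y
    induction y using Quotient.inductionOn with
    | _ y =>
    obtain ⟨g, rfl⟩ := exists_smul_eq G x₀ y
    symm
    refine Finset.card_bij (fun x _ => g • x) (fun x hx => ?_) (fun _ _ _ _ e => smul_left_cancel g e)
      (fun x hx => ⟨g⁻¹ • x, ?_, smul_inv_smul _ _⟩)
    · simp only [Finset.mem_filter, Finset.mem_univ, true_and] at hx ⊢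
      rw [← hsm, hx, hsm]
    · simp only [Finset.mem_filter, Finset.mem_univ, true_and] at hx ⊢
      rw [← hsm, hx, hsm, inv_smul_smul]
  set Γ' := Γ.image (Quotient.mk s) with hΓ'
  have hmem : ∀ x, Quotient.mk s x ∈ Γ' ↔ x ∈ Γ := fun x => ⟨fun h => by
    obtain ⟨y, hy, e⟩ := Finset.mem_image.1 h
    exact hcl y hy x ((heq _ _).1 e), fun h => Finset.mem_image_of_mem _ h⟩
  have c1 := card_filter_mem_of_fibers _ hfib Γ'
  have c2 := card_filter_mem_of_fibers _ hfib Finset.univ
  simp only [hmem, Finset.filter_mem_eq_inter, Finset.univ_inter] at c1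
  simp only [Finset.mem_univ, Finset.filter_true, Finset.card_univ, hn] at c2
  have h1' : 1 < Γ'.card := Finset.one_lt_card.2 ⟨_, (hmem a).2 ha, _, (hmem b).2 hb,
    fun e => hab ((heq _ _).1 e)⟩
  have h2' : 2 * Γ'.card < Fintype.card (Quotient s) := by
    apply Nat.lt_of_mul_lt_mul_right (a := k)
    rw [mul_assoc, ← c1, ← c2]
    exact h2
  have hA := ih (Fintype.card (Quotient s)) (by nlinarith) (Quotient s) rfl (fun N hN hN1 => by
      have := hqp N hN hN1
      refine ⟨fun y z => ?_⟩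
      induction y using Quotient.inductionOn
      induction z using Quotient.inductionOn
      rename_i y z
      obtain ⟨g, rfl⟩ := exists_smul_eq N y z
      exact ⟨g, rfl⟩) Γ' h1' h2' (fun y hy z hz => by
      induction y using Quotient.inductionOn
      induction z using Quotient.inductionOn
      rename_i y z
      obtain ⟨g, h3, rfl⟩ := hJ y ((hmem y).1 hy) z ((hmem z).1 hz)
      refine ⟨g, fun w hw => ?_, rfl⟩
      induction w using Quotient.inductionOn
      rename_i w
      rw [hsm, h3 w fun h => hw ((hmem w).2 h)])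
  set ρ := toPermHom G (Quotient s) with hρ
  have hρi : Function.Injective ρ := toPerm_injective
  obtain ⟨h, hh, hha⟩ := hJ a ha b hb
  obtain ⟨c, d, hc, hd, hcd⟩ := Finset.one_lt_card_iff.1
    (show 1 < Γ'ᶜ.card by rw [Finset.card_compl]; omega)
  obtain ⟨e, he, hecd⟩ := Finset.exists_mem_notMem_of_card_lt_card (s := {c, d}) (t := Γ'ᶜ)
    (by rw [Finset.card_compl, Finset.card_pair hcd]; omega)
  simp only [Finset.mem_compl, Finset.mem_insert, Finset.mem_singleton, not_or] at hc hd he hecd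
  have ha' := (hmem a).2 ha
  have hac : Quotient.mk s a ≠ c := fun e => hc (e ▸ ha')
  have had : Quotient.mk s a ≠ d := fun e => hd (e ▸ ha')
  have hae : Quotient.mk s a ≠ e := fun e' => he (e' ▸ ha')
  obtain ⟨u, hu⟩ := hA (Sym.cyc3_mem_alternatingGroup hac hcd)
  have hhq : ∀ y ∉ Γ', ρ h y = y := fun y hy => by
    induction y using Quotient.inductionOn
    rename_i y
    exact congrArg (Quotient.mk s) (hh y fun h => hy ((hmem y).2 h))
  have h3 := (Sym.isThreeCycle_commutator_of_inter (g := ρ h) (h := ρ u) (a := Quotient.mk s a)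
    (fun e => hab (hr.symm (hha ▸ (heq _ _).1 e)))
    (by rw [hu, Sym.cyc3_apply_fst hac had]; exact hac.symm) (fun y h1 h2 => by
      by_contra h3
      have hy : y ∈ Γ' := by_contra fun h => h1 (hhq y h)
      rw [hu] at h2
      exact h2 (Sym.cyc3_apply_of_ne h3 (fun e => hc (e ▸ hy)) (fun e => hd (e ▸ hy))))).2
  have hue : u • e = e := by
    change ρ u e = e
    rw [hu]
    exact Sym.cyc3_apply_of_ne hae.symm hecd.1 hecd.2
  have hw : ∀ x, Quotient.mk s x = e → (h * u * h⁻¹ * u⁻¹) • x = x := by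
    intro x hx
    have h4 : u⁻¹ • x ∉ Γ := by rw [← hmem, ← hsm, hx, inv_smul_eq_iff.2 hue.symm]; exact he
    rw [mul_smul, mul_smul, mul_smul, inv_smul_eq_iff.2 (hh _ h4).symm, smul_inv_smul]
    exact hh x (by rw [← hmem, hx]; exact he)
  have h4 : ρ (h * u * h⁻¹ * u⁻¹) = ρ h * ρ u * (ρ h)⁻¹ * (ρ u)⁻¹ := by simp only [map_mul, map_inv]
  rw [← h4] at h3
  have hwe : ρ (h * u * h⁻¹ * u⁻¹) e = e := by
    induction e using Quotient.inductionOn
    exact congrArg (Quotient.mk s) (hw _ rfl)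
  generalize h * u * h⁻¹ * u⁻¹ = w at h3 hw hwe
  have hU : ∀ σ : Perm (Quotient s), Perm.sign σ = 1 → σ (Quotient.mk s x₀) = Quotient.mk s x₀ →
      σ ∈ (stabilizer G x₀).map ρ := fun σ h5 h6 => mem_of_three_cycles_fix _ _ (fun τ hτ hτ' => by
    obtain ⟨π, h7, h8, h9⟩ := exists_even_conj_three h3 hτ hwe hτ'
    obtain ⟨p, rfl⟩ := hA h7
    have h10 : ρ (p * w * p⁻¹) ∈ (stabilizer G x₀).map ρ := ⟨_, by
      change (p * w * p⁻¹) • x₀ = x₀
      rw [mul_smul, mul_smul, hw _ (by rw [← hsm, ← h8]; exact inv_smul_smul p e), smul_inv_smul],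
      rfl⟩
    rw [map_mul, map_mul, map_inv] at h10
    rcases h9 with h9 | h9
    · exact h9 ▸ h10
    · rw [← Subgroup.inv_mem_iff]
      exact h9 ▸ h10) h5 h6
  have := hqp ((alternatingGroup _).comap ρ) inferInstance (fun e => by
    have : w ∈ (alternatingGroup _).comap ρ := h3.mem_alternatingGroup
    rw [e, Subgroup.mem_bot] at this
    rw [this, map_one] at h3
    exact h3.isCycle.ne_one rfl)
  obtain ⟨g, hg, hgx⟩ := exists_mem_smul_eq ((alternatingGroup _).comap ρ) x₀ x₁
  obtain ⟨v, hv, e⟩ := hU (ρ g) hg ((heq (g • x₀) x₀).2 (hgx ▸ hr.symm h01))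
  rw [← hρi e] at hgx
  exact hne (hv.symm.trans hgx)

end Cfsg.Agent.Perm
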