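import Mathlib
import Cfsg.Agent.Perm.FixTools
import Cfsg.Agent.Perm.Burnside
import Cfsg.Agent.Spor.SrgBasic

/-!
# Rank three groups whose point stabilizer is a Frobenius group on a suborbit: set-up
-/

set_option autoImplicit false
set_option linter.unusedSectionVars false

namespace Cfsg.Agent.Perm.R3

open MulAction Finset
open scoped Classical

section tools
variable {G X : Type*} [Group G] [MulAction G X]

theorem card_orb (H : Subgroup G) (x : X) (S : Finset X) (h : ∀ y, y ∈ S ↔ ∃ g ∈ H, g • x = y) :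
    S.card * Nat.card ↥(H ⊓ stabilizer G x) = Nat.card H := by
  rw [← Fx.card_orbit_mul H x]
  congr 1
  exact (Nat.subtype_card S fun y => (h y).trans Fx.mem_orbit_sub.symm).symm

theorem card_orb_le [Finite G] (H : Subgroup G) (x : X) (S : Finset X)
    (h : ∀ y ∈ S, ∃ g ∈ H, g • x = y) :
    S.card * Nat.card ↥(H ⊓ stabilizer G x) ≤ Nat.card H := by
  rw [← Fx.card_orbit_mul H x]
  refine Nat.mul_le_mul_right _ ?_
  rw [← Nat.card_eq_finsetCard]
  have : Finite (orbit H x) := Finite.finite_mulAction_orbit x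
  exact Nat.card_le_card_of_injective (fun y : S => (⟨y.1, Fx.mem_orbit_sub.2 (h y.1 y.2)⟩ :
    orbit H x)) fun a b e => Subtype.ext (by simpa using e)

theorem card_le_orb (H : Subgroup G) (x : X) (S : Finset X)
    (h : ∀ g ∈ H, g • x ∈ S) :
    Nat.card H ≤ S.card * Nat.card ↥(H ⊓ stabilizer G x) := by
  rw [← Fx.card_orbit_mul H x]
  refine Nat.mul_le_mul_right _ ?_
  rw [← Nat.card_eq_finsetCard]
  refine Nat.card_le_card_of_injective (fun y : orbit H x => (⟨y.1, ?_⟩ : S))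
    fun a b e => Subtype.ext (by simpa using e)
  obtain ⟨g, hg, e⟩ := Fx.mem_orbit_sub.1 y.2
  exact e ▸ h g hg

theorem dvd_fin (H : Subgroup G) (S : Finset X) (hS : ∀ h ∈ H, ∀ x ∈ S, h • x ∈ S)
    (hsr : ∀ h ∈ H, ∀ x ∈ S, h • x = x → h = 1) : Nat.card H ∣ S.card := by
  have := Fx.card_dvd_of_semiregular H (S : Set X) hS hsr
  rwa [show Nat.card (S : Set X) = S.card from Nat.card_eq_finsetCard S] at this

theorem card_smul [Fintype X] (g : G) (P Q : X → Prop) [DecidablePred P] [DecidablePred Q]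
    (h : ∀ x, P x ↔ Q (g • x)) :
    (univ.filter P).card = (univ.filter Q).card :=
  Finset.card_equiv (MulAction.toPerm g) fun x => by simp [h x]

theorem card_conj (g : G) (H H' : Subgroup G) (h : ∀ x, x ∈ H ↔ g * x * g⁻¹ ∈ H') :
    Nat.card H = Nat.card H' :=
  Nat.card_congr (Equiv.subtypeEquiv (MulAut.conj g).toEquiv fun x => by simpa using h x)

theorem card_conj_fin [Fintype G] (g : G) (P Q : G → Prop) [DecidablePred P] [DecidablePred Q]
    (h : ∀ x, P x ↔ Q (g * x * g⁻¹)) :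
    (univ.filter P).card = (univ.filter Q).card :=
  Finset.card_equiv (MulAut.conj g).toEquiv fun x => by simp [h x]

theorem card_sub [Fintype G] (H : Subgroup G) [DecidablePred (· ∈ H)] :
    (univ.filter (· ∈ H)).card = Nat.card H :=
  (Nat.subtype_card _ fun x => by simp).symm

theorem conj_fix (g x : G) (a : X) : (g * x * g⁻¹) • g • a = g • a ↔ x • a = a := by
  rw [conj_smul_smul, smul_left_cancel_iff]

/-- exchange of the two arguments of an invariant count -/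
theorem sum_swap [Fintype X] [IsPretransitive G X] (F : X → X → ℕ)
    (hF : ∀ (g : G) a b, F (g • a) (g • b) = F a b) (a : X) : ∑ x, F x a = ∑ x, F a x := by
  have h1 : ∀ b, ∑ x, F x b = ∑ x, F x a := by
    intro b
    obtain ⟨g, rfl⟩ := exists_smul_eq G a b
    exact (Fintype.sum_equiv (MulAction.toPerm g) _ _ fun x => by simp [hF]).symm
  have h2 : ∀ b, ∑ x, F b x = ∑ x, F a x := by
    intro b
    obtain ⟨g, rfl⟩ := exists_smul_eq G a b
    exact (Fintype.sum_equiv (MulAction.toPerm g) _ _ fun x => by simp [hF]).symm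
  have h3 : ∑ b, ∑ x, F x b = ∑ b, ∑ x, F b x := Finset.sum_comm
  simp only [h1, h2, sum_const, card_univ, smul_eq_mul] at h3
  exact Nat.eq_of_mul_eq_mul_left (Fintype.card_pos_iff.2 ⟨a⟩) h3

end tools

/-- the hypotheses, in graph form -/
structure Hyp (G X : Type*) [Group G] [MulAction G X] where
  Γ : SimpleGraph X
  A : X
  B : X
  C : X
  prim : IsPreprimitive G X
  inv : ∀ (g : G) {a b : X}, Γ.Adj a b → Γ.Adj (g • a) (g • b)
  etr : ∀ {a b c d : X}, Γ.Adj a b → Γ.Adj c d → ∃ g : G, g • a = c ∧ g • b = d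
  ntr : ∀ {a b c d : X}, Γᶜ.Adj a b → Γᶜ.Adj c d → ∃ g : G, g • a = c ∧ g • b = d
  frob : ∀ (g : G) {a b c : X}, Γ.Adj a b → Γ.Adj a c → b ≠ c → g • a = a → g • b = b →
    g • c = c → g = 1
  hAB : Γ.Adj A B
  hAC : Γᶜ.Adj A C
  fix : ∃ g : G, g ≠ 1 ∧ g • A = A ∧ g • B = B
  two : ∃ B', Γ.Adj A B' ∧ B' ≠ B

namespace Hyp

variable {G X : Type*} [Group G] [MulAction G X] (R : Hyp G X)

theorem adj_smul (g : G) (a b : X) : R.Γ.Adj (g • a) (g • b) ↔ R.Γ.Adj a b :=
  ⟨fun h => by simpa using R.inv g⁻¹ h, R.inv g⟩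

theorem non_smul (g : G) (a b : X) : R.Γᶜ.Adj (g • a) (g • b) ↔ R.Γᶜ.Adj a b := by
  simp [SimpleGraph.compl_adj, R.adj_smul]

theorem adj_fix {g : G} {a b : X} (hg : g • a = a) : R.Γ.Adj a (g • b) ↔ R.Γ.Adj a b := by
  conv_lhs => rw [← hg]
  exact R.adj_smul g a b

theorem non_fix {g : G} {a b : X} (hg : g • a = a) : R.Γᶜ.Adj a (g • b) ↔ R.Γᶜ.Adj a b := by
  conv_lhs => rw [← hg]
  exact R.non_smul g a b

theorem tri (a b : X) : a = b ∨ R.Γ.Adj a b ∨ R.Γᶜ.Adj a b := by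
  rw [SimpleGraph.compl_adj]; tauto

theorem not_non {a b : X} (h : R.Γ.Adj a b) : ¬ R.Γᶜ.Adj a b := fun h' => h'.2 h

include R in
theorem trans (a b : X) : ∃ g : G, g • a = b := by
  have := R.prim
  exact exists_smul_eq G a b

theorem exists_adj (a : X) : ∃ b, R.Γ.Adj a b := by
  obtain ⟨g, rfl⟩ := R.trans R.A a
  exact ⟨_, R.inv g R.hAB⟩

theorem exists_non (a : X) : ∃ b, R.Γᶜ.Adj a b := by
  obtain ⟨g, rfl⟩ := R.trans R.A a
  exact ⟨_, (R.non_smul g _ _).2 R.hAC⟩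

theorem exists_adj_ne {a b : X} (h : R.Γ.Adj a b) : ∃ c, R.Γ.Adj a c ∧ c ≠ b := by
  obtain ⟨g, rfl, rfl⟩ := R.etr R.hAB h
  obtain ⟨c, h1, h2⟩ := R.two
  exact ⟨g • c, R.inv g h1, fun e => h2 (smul_left_cancel g e)⟩

theorem exK [Finite G] (a : X) : ∃ K : Subgroup G,
    (∀ g, g ∈ K ↔ g • a = a ∧ (g = 1 ∨ ∀ b, R.Γ.Adj a b → g • b ≠ b)) ∧
      ∀ b b', R.Γ.Adj a b → R.Γ.Adj a b' → ∃ x ∈ K, x • b = b' := by
  let S := Fx.subAct (stabilizer G a) {x | R.Γ.Adj a x} fun g hg x hx => (R.adj_fix hg).2 hx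
  have : IsPretransitive (stabilizer G a) S := ⟨fun x y => by
    obtain ⟨g, h1, h2⟩ := R.etr x.2 y.2
    exact ⟨⟨g, h1⟩, Subtype.ext h2⟩⟩
  have : Nontrivial S := by
    obtain ⟨b, hb⟩ := R.exists_adj a
    obtain ⟨c, hc, hcb⟩ := R.exists_adj_ne hb
    exact ⟨⟨⟨c, hc⟩, ⟨b, hb⟩, fun e => hcb (congrArg Subtype.val e)⟩⟩
  obtain ⟨K, -, h2, -, h4⟩ := exists_frobenius_kernel (G := stabilizer G a) (X := S)
    fun g b c hbc hb hc => Subtype.ext (R.frob g.1 b.2 c.2 (fun e => hbc (Subtype.ext e)) g.2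
      (congrArg Subtype.val hb) (congrArg Subtype.val hc))
  refine ⟨K.map (stabilizer G a).subtype, fun g => ⟨?_, ?_⟩, fun b b' hb hb' => ?_⟩
  · rintro ⟨x, hx, rfl⟩
    refine ⟨x.2, ((h4 x).1 hx).imp (fun e => by simp [e]) fun H b hb e => H ⟨b, hb⟩ (Subtype.ext e)⟩
  · rintro ⟨h1, h5⟩
    refine ⟨⟨g, h1⟩, (h4 _).2 (h5.imp (fun e => Subtype.ext e) fun H b e => ?_), rfl⟩
    exact H b.1 b.2 (congrArg Subtype.val e)
  · obtain ⟨x, hx, e⟩ := exists_mem_smul_eq K (⟨b, hb⟩ : S) ⟨b', hb'⟩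
    exact ⟨x.1, ⟨x, hx, rfl⟩, congrArg Subtype.val e⟩

variable [Fintype G] [Fintype X]

/-- the Frobenius kernel of the stabilizer of `a` -/
noncomputable def K (a : X) : Subgroup G := (R.exK a).choose

/-- neighbours -/
noncomputable def nb (a : X) : Finset X := univ.filter (R.Γ.Adj a ·)
/-- non-neighbours -/
noncomputable def nn (a : X) : Finset X := univ.filter (R.Γᶜ.Adj a ·)
/-- common neighbours -/
noncomputable def cm (a b : X) : Finset X := univ.filter fun x => R.Γ.Adj a x ∧ R.Γ.Adj b x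
/-- valency -/
noncomputable def k : ℕ := (R.nb R.A).card
/-- valency of the complement -/
noncomputable def l : ℕ := (R.nn R.A).card
/-- order of an edge stabilizer -/
noncomputable def h : ℕ := Nat.card ↥(stabilizer G R.A ⊓ stabilizer G R.B)
/-- order of a non-edge stabilizer -/
noncomputable def j : ℕ := Nat.card ↥(stabilizer G R.A ⊓ stabilizer G R.C)
/-- order of the kernel part of a non-edge stabilizer -/
noncomputable def j0 : ℕ := Nat.card ↥(R.K R.A ⊓ stabilizer G R.C)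
/-- the parameter lambda -/
noncomputable def lam : ℕ := (R.cm R.A R.B).card
/-- the parameter mu -/
noncomputable def mu : ℕ := (R.cm R.A R.C).card

omit [Fintype G] in
@[simp] theorem mem_nb {a b : X} : b ∈ R.nb a ↔ R.Γ.Adj a b := by simp [nb]
omit [Fintype G] in
@[simp] theorem mem_nn {a b : X} : b ∈ R.nn a ↔ R.Γᶜ.Adj a b := by simp [nn]
omit [Fintype G] in
@[simp] theorem mem_cm {a b x : X} : x ∈ R.cm a b ↔ R.Γ.Adj a x ∧ R.Γ.Adj b x := by simp [cm]

omit [Fintype X] in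
theorem mem_K {a : X} {g : G} :
    g ∈ R.K a ↔ g • a = a ∧ (g = 1 ∨ ∀ b, R.Γ.Adj a b → g • b ≠ b) := (R.exK a).choose_spec.1 g

omit [Fintype X] in
theorem K_trans {a b b' : X} (h : R.Γ.Adj a b) (h' : R.Γ.Adj a b') : ∃ x ∈ R.K a, x • b = b' :=
  (R.exK a).choose_spec.2 b b' h h'

omit [Fintype X] in
theorem K_fix {a : X} {g : G} (hg : g ∈ R.K a) : g • a = a := (R.mem_K.1 hg).1

omit [Fintype X] in
theorem K_free {a b : X} {g : G} (hg : g ∈ R.K a) (h : R.Γ.Adj a b) (e : g • b = b) : g = 1 :=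
  (R.mem_K.1 hg).2.resolve_right fun H => H b h e

omit [Fintype X] in
theorem exists_fix {a : X} {g : G} (h1 : g • a = a) (hg : g ∉ R.K a) :
    ∃ b, R.Γ.Adj a b ∧ g • b = b := by
  by_contra hc
  push Not at hc
  exact hg (R.mem_K.2 ⟨h1, Or.inr hc⟩)

omit [Fintype X] in
theorem K_conj (y : G) {a : X} {g : G} : y * g * y⁻¹ ∈ R.K (y • a) ↔ g ∈ R.K a := by
  simp only [R.mem_K, conj_fix]
  refine and_congr_right fun _ => or_congr (by simp [mul_inv_eq_one]) ⟨fun H b hb e => ?_,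
    fun H b hb e => ?_⟩
  · exact H (y • b) (R.inv y hb) ((conj_fix y g b).2 e)
  · obtain ⟨c, rfl⟩ : ∃ c, y • c = b := ⟨y⁻¹ • b, by simp⟩
    exact H c ((R.adj_smul y a c).1 hb) ((conj_fix y g c).1 e)

omit [Fintype X] in
theorem K_conj' {y : G} {a : X} (hy : y • a = a) {g : G} (hg : g ∈ R.K a) :
    y * g * y⁻¹ ∈ R.K a := by
  have := (R.K_conj y).2 hg
  rwa [hy] at this

omit [Fintype X] in
theorem K_comm {y x : G} {a : X} (hy : y • a = a) (hx : x ∈ R.K a) (h1 : x ≠ 1)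
    (hc : y * x = x * y) : y ∈ R.K a := by
  by_contra hK
  obtain ⟨b, hb, e⟩ := R.exists_fix hy hK
  have hne : x • b ≠ b := fun e' => h1 (R.K_free hx hb e')
  have : y = 1 := R.frob y ((R.adj_fix (R.K_fix hx)).2 hb) hb hne hy
    (by rw [← mul_smul, hc, mul_smul, e]) e
  exact hK (this ▸ one_mem _)

omit [Fintype G] in
theorem card_nb (a : X) : (R.nb a).card = R.k := by
  obtain ⟨g, rfl⟩ := R.trans R.A a
  exact (card_smul g _ _ fun x => (R.adj_smul g _ _).symm).symm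

omit [Fintype G] in
theorem card_nn (a : X) : (R.nn a).card = R.l := by
  obtain ⟨g, rfl⟩ := R.trans R.A a
  exact (card_smul g _ _ fun x => (R.non_smul g _ _).symm).symm

omit [Fintype G] in
theorem card_cm_adj {a b : X} (h : R.Γ.Adj a b) : (R.cm a b).card = R.lam := by
  obtain ⟨g, rfl, rfl⟩ := R.etr R.hAB h
  refine (card_smul g _ _ fun x => ?_).symm
  simp only [R.adj_smul]

omit [Fintype G] in
theorem card_cm_non {a b : X} (h : R.Γᶜ.Adj a b) : (R.cm a b).card = R.mu := by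
  obtain ⟨g, rfl, rfl⟩ := R.ntr R.hAC h
  refine (card_smul g _ _ fun x => ?_).symm
  simp only [R.adj_smul]

omit [Fintype G] [Fintype X] in
theorem card_st_adj {a b : X} (h : R.Γ.Adj a b) :
    Nat.card ↥(stabilizer G a ⊓ stabilizer G b) = R.h := by
  obtain ⟨g, rfl, rfl⟩ := R.etr R.hAB h
  exact (card_conj g _ _ fun x => by simp only [Subgroup.mem_inf, mem_stabilizer_iff, conj_fix]).symm

omit [Fintype G] [Fintype X] in
theorem card_st_non {a b : X} (h : R.Γᶜ.Adj a b) :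
    Nat.card ↥(stabilizer G a ⊓ stabilizer G b) = R.j := by
  obtain ⟨g, rfl, rfl⟩ := R.ntr R.hAC h
  exact (card_conj g _ _ fun x => by simp only [Subgroup.mem_inf, mem_stabilizer_iff, conj_fix]).symm

omit [Fintype X] in
theorem card_K_non {a b : X} (h : R.Γᶜ.Adj a b) :
    Nat.card ↥(R.K a ⊓ stabilizer G b) = R.j0 := by
  obtain ⟨g, rfl, rfl⟩ := R.ntr R.hAC h
  exact (card_conj g _ _ fun x => by
    simp only [Subgroup.mem_inf, mem_stabilizer_iff, conj_fix, R.K_conj]).symm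

theorem card_K (a : X) : Nat.card (R.K a) = R.k := by
  obtain ⟨b, hb⟩ := R.exists_adj a
  have := card_orb (R.K a) b (R.nb a) fun y => by
    rw [R.mem_nb]
    exact ⟨fun hy => R.K_trans hb hy, fun ⟨g, hg, e⟩ => e ▸ (R.adj_fix (R.K_fix hg)).2 hb⟩
  have h2 : R.K a ⊓ stabilizer G b = ⊥ :=
    (Subgroup.eq_bot_iff_forall _).2 fun g hg => R.K_free hg.1 hb hg.2
  rw [h2, Subgroup.card_bot, mul_one, R.card_nb] at this
  exact this.symm

omit [Fintype G] in
theorem card_st (a : X) : Nat.card (stabilizer G a) = R.k * R.h := by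
  obtain ⟨b, hb⟩ := R.exists_adj a
  have := card_orb (stabilizer G a) b (R.nb a) fun y => by
    rw [R.mem_nb]
    exact ⟨fun hy => R.etr hb hy, fun ⟨g, hg, e⟩ => e ▸ (R.adj_fix hg).2 hb⟩
  rw [R.card_nb, R.card_st_adj hb] at this
  exact this.symm

omit [Fintype G] in
theorem lj : R.l * R.j = R.k * R.h := by
  have := card_orb (stabilizer G R.A) R.C (R.nn R.A) fun y => by
    rw [R.mem_nn]
    exact ⟨fun hy => R.ntr R.hAC hy, fun ⟨g, hg, e⟩ => e ▸ (R.non_fix hg).2 R.hAC⟩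
  rwa [R.card_st] at this

omit [Fintype G] in
theorem card_X : Fintype.card X = 1 + R.k + R.l := by
  have h1 : (univ : Finset X) = insert R.A (R.nb R.A ∪ R.nn R.A) := by
    ext x
    simp only [mem_univ, mem_insert, mem_union, R.mem_nb, R.mem_nn, true_iff]
    exact (R.tri R.A x).imp Eq.symm id
  rw [← card_univ, h1, card_insert_of_notMem (by simp), card_union_of_disjoint]
  · simp only [k, l]; ring
  · rw [disjoint_left]
    intro x hx hx'
    exact R.not_non (R.mem_nb.1 hx) (R.mem_nn.1 hx')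

omit [Fintype G] in
theorem card_G : Nat.card G = (1 + R.k + R.l) * (R.k * R.h) := by
  have := R.prim
  rw [Fx.card_eq_card_mul (G := G) R.A, R.card_st, Nat.card_eq_fintype_card, R.card_X]

omit [Fintype G] in
theorem srg : R.Γ.IsSRGWith (1 + R.k + R.l) R.k R.lam R.mu :=
  Spor.Srg.srg_mk R.card_X (fun v => R.card_nb v) (fun _ _ h => R.card_cm_adj h)
    fun _ _ h h' => R.card_cm_non ⟨h, h'⟩

omit [Fintype X] in
theorem two_le_h : 2 ≤ R.h := by
  obtain ⟨g, h1, h2, h3⟩ := R.fix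
  have : Nontrivial ↥(stabilizer G R.A ⊓ stabilizer G R.B) :=
    ⟨⟨⟨g, h2, h3⟩, 1, fun e => h1 (congrArg Subtype.val e)⟩⟩
  exact Finite.one_lt_card

omit [Fintype X] in
theorem j_pos : 0 < R.j := Nat.card_pos

omit [Fintype X] in
theorem j0_pos : 0 < R.j0 := Nat.card_pos

omit [Fintype G] in
theorem l_pos : 0 < R.l := card_pos.2 ⟨R.C, R.mem_nn.2 R.hAC⟩

omit [Fintype G] in
theorem k_pos : 0 < R.k := card_pos.2 ⟨R.B, R.mem_nb.2 R.hAB⟩

omit [Fintype G] in
theorem exists_b : ∃ b, R.k = R.h * b + 1 := by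
  have := dvd_fin (stabilizer G R.A ⊓ stabilizer G R.B) ((R.nb R.A).erase R.B)
    (fun g hg x hx => by
      rw [mem_erase, R.mem_nb] at hx ⊢
      refine ⟨fun e => hx.1 (smul_left_cancel g (e.trans (Eq.symm hg.2))), (R.adj_fix hg.1).2 hx.2⟩)
    fun g hg x hx e => by
      rw [mem_erase, R.mem_nb] at hx
      exact R.frob g hx.2 R.hAB hx.1 hg.1 e hg.2
  rw [card_erase_of_mem (R.mem_nb.2 R.hAB)] at this
  obtain ⟨b, hb⟩ := this
  have := R.k_pos
  exact ⟨b, by simp only [k, h] at *; omega⟩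

omit [Fintype G] in
theorem h_dvd_lam : R.h ∣ R.lam :=
  dvd_fin (stabilizer G R.A ⊓ stabilizer G R.B) (R.cm R.A R.B)
    (fun g hg x hx => by
      rw [R.mem_cm] at hx ⊢
      exact ⟨(R.adj_fix hg.1).2 hx.1, (R.adj_fix hg.2).2 hx.2⟩)
    fun g hg x hx e => by
      rw [R.mem_cm] at hx
      exact R.frob g hx.1 R.hAB hx.2.ne' hg.1 e hg.2

omit [Fintype G] in
theorem coprime_kh : R.k.Coprime R.h := by
  obtain ⟨b, hb⟩ := R.exists_b
  rw [hb]
  simp

theorem mem_K_pow {a : X} {g : G} : g ∈ R.K a ↔ g • a = a ∧ g ^ R.k = 1 := by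
  constructor
  · intro hg
    refine ⟨R.K_fix hg, ?_⟩
    have := pow_card_eq_one' (G := R.K a) (x := ⟨g, hg⟩)
    rw [R.card_K] at this
    exact congrArg Subtype.val this
  · rintro ⟨h1, h2⟩
    by_contra hK
    obtain ⟨b, hb, e⟩ := R.exists_fix h1 hK
    have := pow_card_eq_one' (G := ↥(stabilizer G a ⊓ stabilizer G b)) (x := ⟨g, h1, e⟩)
    rw [R.card_st_adj hb] at this
    have h3 : g ^ R.h = 1 := congrArg Subtype.val this
    have : g = 1 := by
      have := pow_gcd_eq_one.2 ⟨h2, h3⟩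
      rwa [R.coprime_kh, pow_one] at this
    exact hK (this ▸ one_mem _)

theorem K_of_fix {a c : X} {g : G} (hg : g ∈ R.K a) (e : g • c = c) : g ∈ R.K c :=
  R.mem_K_pow.2 ⟨e, (R.mem_K_pow.1 hg).2⟩

/-- a non-identity element of a kernel fixes no edge -/
theorem K_edge {a c d : X} {g : G} (hg : g ∈ R.K a) (h : R.Γ.Adj c d) (e : g • c = c)
    (e' : g • d = d) : g = 1 := R.K_free (R.K_of_fix hg e) h e'

omit [Fintype G] in
theorem mu_pos : 0 < R.mu := by
  by_contra h0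
  have h0 : R.mu = 0 := by omega
  have := prim_rel R.prim (fun x y => x = y ∨ R.Γ.Adj x y) ⟨fun _ => Or.inl rfl,
    fun h => h.imp Eq.symm (·.symm), ?_⟩
    fun g x y h => h.imp (fun e => by rw [e]) (R.inv g)
  · rcases this with H | H
    · exact R.hAB.ne (H _ _ (Or.inr R.hAB))
    · exact (H R.A R.C).elim R.hAC.1 R.hAC.2
  · rintro x y z (rfl | h1) h2
    · exact h2
    · rcases h2 with rfl | h2
      · exact Or.inr h1
      · rcases R.tri x z with e | e | e
        · exact Or.inl e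
        · exact Or.inr e
        · have := R.card_cm_non e
          rw [h0, card_eq_zero] at this
          exact absurd (R.mem_cm.2 ⟨h1, h2.symm⟩) (by simp [this])

omit [Fintype G] in
theorem mu_lt : R.mu < R.k := by
  have hle : ∀ a c, (R.cm a c) ⊆ R.nb a := fun a c x hx => R.mem_nb.2 (R.mem_cm.1 hx).1
  by_contra h0
  have key : ∀ {x y z : X}, R.Γᶜ.Adj x y → R.Γ.Adj x z → R.Γ.Adj y z := by
    intro x y z h1 h2
    have : R.cm x y = R.nb x := eq_of_subset_of_card_le (hle x y) (by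
      rw [R.card_nb, R.card_cm_non h1]; omega)
    exact (R.mem_cm.1 (this ▸ R.mem_nb.2 h2)).2
  have := prim_rel R.prim (fun x y => ¬ R.Γ.Adj x y) ⟨fun _ => R.Γ.irrefl,
    fun h h' => h h'.symm, ?_⟩
    fun g x y h h' => h ((R.adj_smul g x y).1 h')
  · rcases this with H | H
    · exact R.hAC.1 (H _ _ R.hAC.2)
    · exact H _ _ R.hAB
  · intro x y z h1 h2 h3
    by_cases e : x = y
    · exact h2 (e ▸ h3)
    · exact h2 (key ⟨e, h1⟩ h3)

omit [Fintype G] in
/-- neighbours of `c` among the non-neighbours of `a` -/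
theorem card_nn_adj {a c : X} (h : R.Γᶜ.Adj a c) :
    ((R.nn a).filter (R.Γ.Adj c ·)).card + R.mu = R.k := by
  rw [← R.card_cm_non h, ← R.card_nb c, ← card_union_of_disjoint]
  · congr 1
    ext x
    simp only [mem_union, mem_filter, R.mem_nn, R.mem_cm, R.mem_nb]
    constructor
    · rintro (h1 | h1) <;> exact h1.2
    · intro h1
      rcases R.tri a x with rfl | e | e
      · exact absurd h1.symm h.2
      · exact Or.inr ⟨e, h1⟩
      · exact Or.inl ⟨e, h1⟩
  · rw [disjoint_left]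
    intro x hx hx'
    exact R.not_non (R.mem_cm.1 hx').1 (R.mem_nn.1 (mem_filter.1 hx).1)

omit [Fintype G] in
theorem exists_non_adj {a c : X} (h : R.Γᶜ.Adj a c) : ∃ d, R.Γᶜ.Adj a d ∧ R.Γ.Adj c d := by
  have h1 := R.card_nn_adj h
  have := R.mu_lt
  obtain ⟨d, hd⟩ := card_pos.1 (show 0 < ((R.nn a).filter (R.Γ.Adj c ·)).card by omega)
  exact ⟨d, R.mem_nn.1 (mem_filter.1 hd).1, (mem_filter.1 hd).2⟩

theorem params : ∃ a b, 0 < a ∧ a ≤ b ∧ R.k = R.h * b + 1 ∧ R.lam + R.h * a = R.h * b ∧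
    R.mu = a * R.j := by
  obtain ⟨b, hb⟩ := R.exists_b
  obtain ⟨d, hd⟩ := R.h_dvd_lam
  have h1 := R.srg.param_eq _ (by omega)
  have h2 := R.lj
  have hl : 1 + R.k + R.l - R.k - 1 = R.l := by omega
  rw [hl] at h1
  have hm := R.mu_pos
  have hl0 := R.l_pos
  have hpos : 0 < R.k - R.lam - 1 := by
    by_contra h0
    have : R.k - R.lam - 1 = 0 := by omega
    rw [this, mul_zero] at h1
    have := Nat.mul_pos hl0 hm
    omega
  have hdb : d < b := by
    have : R.h * d < R.h * b := by omega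
    exact lt_of_mul_lt_mul_left this (Nat.zero_le _)
  obtain ⟨a, rfl⟩ : ∃ a, b = d + a := ⟨b - d, by omega⟩
  have e : R.k - R.lam - 1 = R.h * a := by rw [hb, hd, mul_add]; omega
  refine ⟨a, d + a, by omega, by omega, hb, by rw [hd]; ring, ?_⟩
  rw [e, ← mul_assoc, ← h2] at h1
  exact Nat.eq_of_mul_eq_mul_left hl0 (by rw [← h1]; ring)

theorem j_le_mu : R.j ≤ R.mu := by
  obtain ⟨a, b, h1, -, -, -, h2⟩ := R.params
  rw [h2]
  exact Nat.le_mul_of_pos_left _ h1

/-- a subset of the kernel invariant under the stabilizer fixes no further point -/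
theorem eq_one_of_normal {a c : X} (T : Set G) (hT : ∀ x ∈ T, x ∈ R.K a)
    (hn : ∀ y : G, y • a = a → ∀ x ∈ T, y * x * y⁻¹ ∈ T) (hc : c ≠ a) (hf : ∀ x ∈ T, x • c = c) :
    ∀ x ∈ T, x = 1 := by
  intro x hx
  rcases R.tri a c with e | e | e
  · exact absurd e.symm hc
  · exact R.K_free (hT x hx) e (hf x hx)
  · obtain ⟨d, h1, h2⟩ := R.exists_non_adj e
    obtain ⟨y, hy, rfl⟩ := R.ntr e h1
    have hy' : y⁻¹ • a = a := by rw [inv_smul_eq_iff, hy]
    have := hf _ (hn y⁻¹ hy' x hx)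
    refine R.K_edge (hT x hx) h2 (hf x hx) ?_
    rw [inv_inv, mul_smul, mul_smul, inv_smul_eq_iff] at this
    exact this

theorem j0_lt : R.j0 < R.k := by
  have h1 : R.j0 ≤ R.j := Subgroup.card_le_of_le (inf_le_inf_right _ fun g hg => R.K_fix hg)
  have := R.j_le_mu
  have := R.mu_lt
  omega

end Hyp

end Cfsg.Agent.Perm.R3
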