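import Mathlib
import Cfsg.Agent.Perm.R3A
import Cfsg.Agent.Perm.RankOneNilp
import Cfsg.Agent.GT.FixedPointFreeThompson

/-!
# Rank three groups with Frobenius stabilizer: the kernel has odd order
-/

set_option autoImplicit false
set_option linter.unusedSectionVars false

namespace Cfsg.Agent.Perm.R3

open MulAction Finset
open scoped Classical

section tools
variable {G : Type*} [Group G]

theorem dvd_conj (H : Subgroup G) (S : Finset G) (hS : ∀ y ∈ H, ∀ x ∈ S, y * x * y⁻¹ ∈ S)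
    (hsr : ∀ y ∈ H, ∀ x ∈ S, y * x * y⁻¹ = x → y = 1) : Nat.card H ∣ S.card :=
  @dvd_fin G G _ (MulAction.compHom G (MulAut.conj : G →* MulAut G)) H S hS hsr

theorem card_le_sub [Finite G] (S : Finset G) (H : Subgroup G)
    (h : ∀ u ∈ S, ∀ v ∈ S, u⁻¹ * v ∈ H) : S.card ≤ Nat.card H := by
  rcases S.eq_empty_or_nonempty with rfl | ⟨u, hu⟩
  · simp
  · rw [← Nat.card_eq_finsetCard]
    exact Nat.card_le_card_of_injective (fun v : S => (⟨u⁻¹ * v, h u hu v v.2⟩ : H))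
      fun a b e => Subtype.ext (by simpa using e)

theorem swap_back {X : Type*} [MulAction G X] {u : G} (hu : u * u = 1) {a y : X} (e : u • a = y) :
    u • y = a := by rw [← e, ← mul_smul, hu, one_smul]

theorem inv_eq_self {u : G} (hu : u * u = 1) : u⁻¹ = u := inv_eq_of_mul_eq_one_right hu

end tools

namespace Hyp

variable {G X : Type*} [Group G] [MulAction G X] (R : Hyp G X) [Fintype G] [Fintype X]

theorem card_movers (T : Finset G) (a : X) (hT : ∀ u ∈ T, u • a ≠ a) :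
    T.card = ∑ y ∈ R.nb a, (T.filter (· • a = y)).card +
      ∑ y ∈ R.nn a, (T.filter (· • a = y)).card := by
  rw [← sum_union]
  · refine card_eq_sum_card_fiberwise fun u hu => ?_
    simp only [coe_union, Set.mem_union, mem_coe, R.mem_nb, R.mem_nn]
    exact (R.tri a (u • a)).resolve_left (hT u hu).symm
  · rw [disjoint_left]
    intro x hx hx'
    exact R.not_non (R.mem_nb.1 hx) (R.mem_nn.1 hx')

theorem fiber_le (T : Finset G) (a y : X) (hT : ∀ u ∈ T, u * u = 1) :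
    (T.filter (· • a = y)).card ≤ Nat.card ↥(stabilizer G a ⊓ stabilizer G y) := by
  refine card_le_sub _ _ fun u hu v hv => ?_
  rw [mem_filter] at hu hv
  refine Subgroup.mem_inf.2 ⟨?_, ?_⟩ <;> rw [mem_stabilizer_iff, mul_smul, inv_smul_eq_iff]
  · rw [hu.2, hv.2]
  · rw [swap_back (hT u hu.1) hu.2, swap_back (hT v hv.1) hv.2]

theorem card_le_movers (T : Finset G) (a : X) (hT : ∀ u ∈ T, u • a ≠ a)
    (h2 : ∀ u ∈ T, u * u = 1) : T.card ≤ 2 * (R.k * R.h) := by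
  rw [R.card_movers T a hT]
  have h1 : ∑ y ∈ R.nb a, (T.filter (· • a = y)).card ≤ (R.nb a).card • R.h :=
    sum_le_card_nsmul _ _ _ fun y hy => (fiber_le T a y h2).trans (R.card_st_adj (R.mem_nb.1 hy)).le
  have h3 : ∑ y ∈ R.nn a, (T.filter (· • a = y)).card ≤ (R.nn a).card • R.j :=
    sum_le_card_nsmul _ _ _ fun y hy => (fiber_le T a y h2).trans (R.card_st_non (R.mem_nn.1 hy)).le
  rw [R.card_nb, smul_eq_mul] at h1
  rw [R.card_nn, smul_eq_mul, R.lj] at h3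
  omega

theorem non_of_K {a c : X} {g : G} (hg : g ∈ R.K a) (h1 : g ≠ 1) (e : g • c = c) (hc : a ≠ c) :
    R.Γᶜ.Adj a c := ⟨hc, fun h => h1 (R.K_free hg h e)⟩

theorem K_nilpotent (a : X) : Group.IsNilpotent (R.K a) := by
  obtain ⟨b, hb⟩ := R.exists_adj a
  refine GT.Frob.isNilpotent_of_semiregular (A := stabilizer G a ⊓ stabilizer G b)
    (fun y hy => ?_) (fun e => ?_) fun y hy h1 => ?_
  · rw [Subgroup.mem_normalizer_iff]
    intro x
    have := R.K_conj y (a := a) (g := x)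
    rw [show y • a = a from hy.1] at this
    exact this.symm
  · have h1 := R.card_st_adj hb
    have := R.two_le_h
    rw [e, Subgroup.card_bot] at h1
    omega
  · rw [Subgroup.eq_bot_iff_forall]
    intro x hx
    by_contra hx1
    have := R.K_comm hy.1 hx.1 hx1 (Subgroup.mem_centralizer_singleton_iff.1 hx.2).symm
    exact h1 (R.K_free this hb hy.2)

/-- the central involutions of the kernel -/
noncomputable def Z (a : X) : Subgroup G where
  carrier := {z | z ∈ R.K a ∧ z * z = 1 ∧ ∀ x ∈ R.K a, z * x = x * z}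
  one_mem' := ⟨one_mem _, one_mul _, fun x _ => by simp⟩
  mul_mem' := by
    rintro y z ⟨h1, h2, h3⟩ ⟨h4, h5, h6⟩
    refine ⟨mul_mem h1 h4, ?_, fun x hx => ?_⟩
    · rw [mul_assoc, ← mul_assoc z, h6 y h1, mul_assoc y z, h5, mul_one, h2]
    · rw [mul_assoc, h6 x hx, ← mul_assoc, h3 x hx, mul_assoc]
  inv_mem' := by
    rintro z ⟨h1, h2, h3⟩
    rw [inv_eq_self h2]
    exact ⟨h1, h2, h3⟩

theorem mem_Z {a : X} {z : G} :
    z ∈ R.Z a ↔ z ∈ R.K a ∧ z * z = 1 ∧ ∀ x ∈ R.K a, z * x = x * z := Iff.rfl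

theorem Z_conj1 (y : G) {a : X} {z : G} (hz : z ∈ R.Z a) : y * z * y⁻¹ ∈ R.Z (y • a) := by
  obtain ⟨h1, h2, h3⟩ := hz
  refine ⟨(R.K_conj y).2 h1, by rw [conj_mul, h2]; simp, fun x hx => ?_⟩
  obtain ⟨x, rfl⟩ : ∃ x', x = y * x' * y⁻¹ := ⟨y⁻¹ * x * y, by group⟩
  rw [conj_mul, conj_mul, h3 x ((R.K_conj y).1 hx)]

theorem Z_conj (y : G) {a : X} {z : G} : y * z * y⁻¹ ∈ R.Z (y • a) ↔ z ∈ R.Z a :=
  ⟨fun h => by simpa [mul_assoc] using R.Z_conj1 y⁻¹ h, R.Z_conj1 y⟩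

theorem Z_conj' {y : G} {a : X} (hy : y • a = a) {z : G} (hz : z ∈ R.Z a) :
    y * z * y⁻¹ ∈ R.Z a := by
  have := R.Z_conj1 y hz
  rwa [hy] at this

theorem card_Z (a : X) : Nat.card (R.Z a) = Nat.card (R.Z R.A) := by
  obtain ⟨g, rfl⟩ := R.trans R.A a
  exact (card_conj g _ _ fun x => (R.Z_conj g).symm).symm

theorem card_Z_non {a c : X} (h : R.Γᶜ.Adj a c) :
    Nat.card ↥(R.Z a ⊓ stabilizer G c) = Nat.card ↥(R.Z R.A ⊓ stabilizer G R.C) := by
  obtain ⟨g, rfl, rfl⟩ := R.ntr R.hAC h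
  exact (card_conj g _ _ fun x => by
    simp only [Subgroup.mem_inf, mem_stabilizer_iff, conj_fix, R.Z_conj]).symm

theorem exists_Z (hk : Even R.k) (a : X) : ∃ z ∈ R.Z a, z ≠ 1 := by
  have := R.K_nilpotent a
  obtain ⟨z, h1, h2, h3⟩ := RankOne.exists_central_involution (P := R.K a) (by rwa [R.card_K])
  refine ⟨z, ⟨z.2, congrArg Subtype.val h3, fun x hx => ?_⟩, fun e => h2 (Subtype.ext e)⟩
  exact congrArg Subtype.val (Subgroup.mem_center_iff.1 h1 ⟨x, hx⟩).symm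

theorem exists_Z_move (hk : Even R.k) {a c : X} (hc : c ≠ a) : ∃ z ∈ R.Z a, z • c ≠ c := by
  by_contra H
  push Not at H
  obtain ⟨z, h1, h2⟩ := R.exists_Z hk a
  exact h2 (R.eq_one_of_normal (R.Z a) (fun x hx => hx.1) (fun y hy x hx => R.Z_conj' hy hx) hc H
    z h1)

theorem h_dvd_Z : R.h ∣ Nat.card (R.Z R.A) - 1 := by
  have := dvd_conj (stabilizer G R.A ⊓ stabilizer G R.B) ((univ.filter (· ∈ R.Z R.A)).erase 1)
    (fun y hy x hx => by
      simp only [mem_erase, mem_filter, mem_univ, true_and] at hx ⊢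
      exact ⟨fun e => hx.1 (by simpa [mul_inv_eq_one] using e), R.Z_conj' hy.1 hx.2⟩)
    fun y hy x hx e => by
      simp only [mem_erase, mem_filter, mem_univ, true_and] at hx
      exact R.K_free (R.K_comm hy.1 hx.2.1 hx.1 (mul_inv_eq_iff_eq_mul.1 e)) R.hAB hy.2
  rwa [card_erase_of_mem (by simp), card_sub] at this

theorem card_move (H : Subgroup G) (c : X) :
    (univ.filter fun u => u ∈ H ∧ u • c ≠ c).card + Nat.card ↥(H ⊓ stabilizer G c) =
      Nat.card H := by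
  rw [← card_sub, ← card_sub, ← card_union_of_disjoint]
  · congr 1
    ext u
    simp only [mem_union, mem_filter, mem_univ, true_and, Subgroup.mem_inf, mem_stabilizer_iff]
    tauto
  · rw [disjoint_left]
    intro u hu hu'
    simp only [mem_filter, mem_univ, true_and, Subgroup.mem_inf, mem_stabilizer_iff] at hu hu'
    exact hu.2 hu'.2

theorem free_of_j0 (h0 : R.j0 = 1) {a c : X} {g : G} (hg : g ∈ R.K a) (hc : a ≠ c)
    (e : g • c = c) : g = 1 := by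
  by_contra h1
  have := R.card_K_non (R.non_of_K hg h1 e hc)
  rw [h0, Subgroup.card_eq_one] at this
  exact h1 ((Subgroup.eq_bot_iff_forall _).1 this g ⟨hg, e⟩)

theorem k_dvd_l (h0 : R.j0 = 1) : R.k ∣ R.l := by
  rw [← R.card_K R.A]
  exact dvd_fin _ (R.nn R.A) (fun g hg x hx => R.mem_nn.2 ((R.non_fix (R.K_fix hg)).2
    (R.mem_nn.1 hx))) fun g hg x hx e => R.free_of_j0 h0 hg (R.mem_nn.1 hx).1 e

/-- when `j0 = 1`, an element fixing two non-adjacent points fixes a second non-neighbour -/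
theorem exists_second (h0 : R.j0 = 1) {a c : X} (h : R.Γᶜ.Adj a c) {y : G} (h1 : y ≠ 1)
    (ha : y • a = a) (hc : y • c = c) :
    ∃ d, R.Γᶜ.Adj a d ∧ R.Γ.Adj c d ∧ y • d = d ∧ ∀ x ∈ R.K a, x • c ≠ d := by
  obtain ⟨d, h2, h3⟩ := R.exists_fix hc fun hK => h1 (R.free_of_j0 h0 hK h.1.symm ha)
  refine ⟨d, ⟨fun e => h.2 (e ▸ h2.symm), fun h4 => h1 (R.frob y h4.symm h2.symm h.1 h3 ha hc)⟩,
    h2, h3, fun x hx e => ?_⟩
  have h5 : x⁻¹ * (y * x * y⁻¹) = 1 := R.free_of_j0 h0 (mul_mem (inv_mem hx) (R.K_conj' ha hx))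
    h.1 (by rw [mul_smul, inv_smul_eq_iff, mul_smul, mul_smul, inv_smul_eq_iff.2 hc.symm, e, h3])
  have h6 : y * x = x * y := by
    rw [inv_mul_eq_one] at h5
    exact (mul_inv_eq_iff_eq_mul.1 h5.symm)
  have hx1 : x ≠ 1 := by
    rintro rfl
    exact h2.ne (by simpa using e)
  exact h1 (R.free_of_j0 h0 (R.K_comm ha hx hx1 h6) h.1 hc)

theorem l_ne_k (h0 : R.j0 = 1) : R.l ≠ R.k := by
  intro e
  have h1 := R.lj
  rw [e] at h1
  have h2 : R.j = R.h := Nat.eq_of_mul_eq_mul_left R.k_pos h1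
  have h3 := R.two_le_h
  have : Nontrivial ↥(stabilizer G R.A ⊓ stabilizer G R.C) :=
    Finite.one_lt_card_iff_nontrivial.1 (by change 1 < R.j; omega)
  obtain ⟨y, hy⟩ := exists_ne (1 : ↥(stabilizer G R.A ⊓ stabilizer G R.C))
  obtain ⟨d, h4, -, -, h5⟩ := R.exists_second h0 R.hAC (fun e => hy (Subtype.ext e)) y.2.1 y.2.2
  have h6 := card_orb (R.K R.A) R.C (univ.filter fun x => ∃ g ∈ R.K R.A, g • R.C = x) (by simp)
  rw [R.card_K_non R.hAC, h0, mul_one, R.card_K] at h6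
  have h7 : (univ.filter fun x => ∃ g ∈ R.K R.A, g • R.C = x) = R.nn R.A := by
    refine eq_of_subset_of_card_le (fun x hx => ?_) (by rw [h6, R.card_nn, e])
    obtain ⟨g, hg, rfl⟩ := (mem_filter.1 hx).2
    exact R.mem_nn.2 ((R.non_fix (R.K_fix hg)).2 R.hAC)
  obtain ⟨g, hg, e'⟩ := (mem_filter.1 (h7 ▸ R.mem_nn.2 h4)).2
  exact h5 g hg e'

theorem two_le_Z (hk : Even R.k) : 2 ≤ Nat.card (R.Z R.A) := by
  obtain ⟨z, h1, h2⟩ := R.exists_Z hk R.A
  have : Nontrivial (R.Z R.A) := ⟨⟨⟨z, h1⟩, 1, fun e => h2 (congrArg Subtype.val e)⟩⟩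
  exact Finite.one_lt_card

theorem even_a (hk : Even R.k) (h0 : R.j0 = 1) : False := by
  have h1 := card_mul_le_card_mul (s := univ.erase R.A)
    (t := univ.filter fun u : G => u * u = 1 ∧ u • R.A ≠ R.A) (fun E u => u ∈ R.Z E)
    (m := Nat.card (R.Z R.A) - 1) (n := 1) (fun E hE => ?_) (fun u hu => ?_)
  · have h2 := R.card_le_movers (univ.filter fun u : G => u * u = 1 ∧ u • R.A ≠ R.A) R.A
      (fun u hu => (mem_filter.1 hu).2.2) (fun u hu => (mem_filter.1 hu).2.1)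
    rw [card_erase_of_mem (mem_univ _), card_univ, R.card_X] at h1
    have h3 : R.h ≤ Nat.card (R.Z R.A) - 1 :=
      Nat.le_of_dvd (by have := R.two_le_Z hk; omega) R.h_dvd_Z
    have h4 : (1 + R.k + R.l - 1) * R.h ≤ 2 * (R.k * R.h) :=
      (Nat.mul_le_mul_left _ h3).trans (by omega)
    have h5 : R.l ≤ R.k := by
      rw [← mul_assoc] at h4
      have := Nat.le_of_mul_le_mul_right h4 (by have := R.two_le_h; omega)
      omega
    exact R.l_ne_k h0 (le_antisymm h5 (Nat.le_of_dvd R.l_pos (R.k_dvd_l h0)))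
  · have hE : E ≠ R.A := (mem_erase.1 hE).1
    rw [← R.card_Z E, ← card_sub, ← card_erase_of_mem (a := 1) (by simp)]
    refine card_le_card fun u hu => ?_
    simp only [mem_erase, mem_filter, mem_univ, true_and, mem_bipartiteAbove] at hu ⊢
    exact ⟨⟨hu.2.2.1, fun e => hu.1 (R.free_of_j0 h0 hu.2.1 hE e)⟩, hu.2⟩
  · refine card_le_one.2 fun E hE E' hE' => ?_
    simp only [mem_erase, mem_filter, mem_univ, true_and, mem_bipartiteBelow] at hu hE hE'
    by_contra hne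
    have := R.free_of_j0 h0 hE.2.1 hne (R.K_fix hE'.2.1)
    exact hu.2 (by rw [this, one_smul])

/-- the common kernel subgroup of two points of the fixed set of `J0` -/
theorem J0_eq {a c e e' : X} (h : R.Γᶜ.Adj a c) (h0 : R.j0 ≠ 1)
    (he : ∀ x ∈ R.K a, x • c = c → x • e = e) (he' : ∀ x ∈ R.K a, x • c = c → x • e' = e')
    (hne : e ≠ e') :
    R.Γᶜ.Adj e e' ∧ R.K e ⊓ stabilizer G e' = R.K a ⊓ stabilizer G c := by
  have : Nontrivial ↥(R.K a ⊓ stabilizer G c) := Finite.one_lt_card_iff_nontrivial.1 (by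
    rw [R.card_K_non h]; have := R.j0_pos; omega)
  obtain ⟨x, hx⟩ := exists_ne (1 : ↥(R.K a ⊓ stabilizer G c))
  have h1 : R.Γᶜ.Adj e e' := R.non_of_K (R.K_of_fix x.2.1 (he x x.2.1 x.2.2))
    (fun e => hx (Subtype.ext e)) (he' x x.2.1 x.2.2) hne
  refine ⟨h1, (Subgroup.eq_of_le_of_card_ge (fun y hy => ?_) ?_).symm⟩
  · exact ⟨R.K_of_fix hy.1 (he y hy.1 hy.2), he' y hy.1 hy.2⟩
  · rw [R.card_K_non h, R.card_K_non h1]

theorem exists_J0 {a c : X} (h : R.Γᶜ.Adj a c) (h0 : R.j0 ≠ 1) :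
    ∃ x ∈ R.K a, x ≠ 1 ∧ x • c = c := by
  have : Nontrivial ↥(R.K a ⊓ stabilizer G c) := Finite.one_lt_card_iff_nontrivial.1 (by
    rw [R.card_K_non h]; have := R.j0_pos; omega)
  obtain ⟨x, hx⟩ := exists_ne (1 : ↥(R.K a ⊓ stabilizer G c))
  exact ⟨x, x.2.1, fun e => hx (Subtype.ext e), x.2.2⟩

theorem Z_le_two_mul (h0 : R.j0 ≠ 1) :
    Nat.card (R.Z R.A) ≤ 2 * Nat.card ↥(R.Z R.A ⊓ stabilizer G R.C) := by
  set L : X → Prop := fun e => ∀ x ∈ R.K R.A, x • R.C = R.C → x • e = e with hL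
  have hA : L R.A := fun x hx _ => R.K_fix hx
  have hC : L R.C := fun x _ e => e
  set S := (univ.filter L).erase R.A with hS
  have hmemS : ∀ e, e ∈ S ↔ e ≠ R.A ∧ L e := fun e => by simp [hS]
  set T := univ.filter fun u : G => u • R.A ≠ R.A ∧ ∃ e, L e ∧ u ∈ R.Z e with hT
  have hcomm : ∀ u e, L e → u ∈ R.Z e → ∀ x ∈ R.K R.A, x • R.C = R.C → u * x = x * u :=
    fun u e he hu x hx hx' => hu.2.2 x (R.K_of_fix hx (he x hx hx'))
  have h1 := card_mul_le_card_mul (s := S) (t := T) (fun E u => u ∈ R.Z E)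
    (m := Nat.card (R.Z R.A) - Nat.card ↥(R.Z R.A ⊓ stabilizer G R.C)) (n := 1)
    (fun E hE => ?_) (fun u hu => ?_)
  · have h2 := card_le_mul_card_image_of_maps_to (s := T) (t := S) (f := fun u => u • R.A)
      (fun u hu => ?_) (Nat.card ↥(R.Z R.A ⊓ stabilizer G R.C)) fun y hy => ?_
    · have h3 : 0 < S.card := card_pos.2 ⟨R.C, (hmemS _).2 ⟨R.hAC.1.symm, hC⟩⟩
      have h4 := Nat.le_of_mul_le_mul_left ((h1.trans (mul_one _).le).trans
        (h2.trans (mul_comm _ _).le)) h3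
      omega
    · obtain ⟨h3, e, h4, h5⟩ := (mem_filter.1 hu).2
      refine (hmemS _).2 ⟨h3, fun x hx hx' => ?_⟩
      rw [← mul_smul, ← hcomm u e h4 h5 x hx hx', mul_smul, R.K_fix hx]
    · rcases (T.filter fun u => u • R.A = y).eq_empty_or_nonempty with e | ⟨u0, hu0⟩
      · rw [e]; simp
      obtain ⟨hy1, hy2⟩ := (hmemS y).1 hy
      obtain ⟨x0, hx0, hx1, hx2⟩ := R.exists_J0 R.hAC h0
      have key : ∀ u ∈ T.filter fun u => u • R.A = y, ∀ v ∈ T.filter fun u => u • R.A = y,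
          ∀ e, L e → (u⁻¹ * v) • e = e := by
        intro u hu v hv e he
        obtain ⟨hu, hu'⟩ := mem_filter.1 hu
        obtain ⟨hv, hv'⟩ := mem_filter.1 hv
        obtain ⟨-, e1, h4, h5⟩ := (mem_filter.1 hu).2
        obtain ⟨-, e2, h6, h7⟩ := (mem_filter.1 hv).2
        have a1 : (u⁻¹ * v) • R.A = R.A := by rw [mul_smul, inv_smul_eq_iff, hu', hv']
        have a2 : (u⁻¹ * v) • y = y := by
          rw [mul_smul, inv_smul_eq_iff, swap_back h5.2.1 hu', swap_back h7.2.1 hv']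
        have a3 : u⁻¹ * v ∈ R.K R.A := R.K_comm a1 hx0 hx1 (by
          rw [inv_eq_self h5.2.1, mul_assoc, hcomm v e2 h6 h7 x0 hx0 hx2, ← mul_assoc,
            hcomm u e1 h4 h5 x0 hx0 hx2, mul_assoc])
        have a4 : u⁻¹ * v ∈ R.K R.A ⊓ stabilizer G R.C :=
          (R.J0_eq R.hAC h0 hA hy2 hy1.symm).2 ▸ Subgroup.mem_inf.2 ⟨a3, a2⟩
        exact he _ a4.1 a4.2
      obtain ⟨h3, e0, h4, h5⟩ := (mem_filter.1 (mem_filter.1 hu0).1).2
      have he0 : e0 ≠ R.A := by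
        rintro rfl
        exact h3 (R.K_fix h5.1)
      have hZ : ∀ v ∈ T.filter fun u => u • R.A = y, v ∈ R.Z e0 := by
        intro v hv
        obtain ⟨h6, e1, h7, h8⟩ := (mem_filter.1 (mem_filter.1 hv).1).2
        by_cases e : e1 = e0
        · exact e ▸ h8
        · have a1 := key u0 hu0 v hv e0 h4
          rw [mul_smul, inv_smul_eq_iff, R.K_fix h5.1] at a1
          have a2 : v ∈ R.K R.A ⊓ stabilizer G R.C :=
            (R.J0_eq R.hAC h0 h7 h4 e).2 ▸ Subgroup.mem_inf.2 ⟨h8.1, a1⟩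
          exact absurd (R.K_fix a2.1) h6
      rw [← R.card_Z_non (R.J0_eq R.hAC h0 h4 hA he0).1]
      exact card_le_sub _ _ fun u hu v hv =>
        Subgroup.mem_inf.2 ⟨mul_mem (inv_mem (hZ u hu)) (hZ v hv), key u hu v hv _ hA⟩
  · obtain ⟨hE1, hE2⟩ := (hmemS E).1 hE
    have := card_move (R.Z E) R.A
    rw [R.card_Z_non (R.J0_eq R.hAC h0 hE2 hA hE1).1, R.card_Z] at this
    refine le_trans (by omega : _ ≤ (univ.filter fun u => u ∈ R.Z E ∧ u • R.A ≠ R.A).card)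
      (card_le_card fun u hu => ?_)
    simp only [mem_filter, mem_univ, true_and, mem_bipartiteAbove, hT] at hu ⊢
    exact ⟨⟨hu.2, E, hE2, hu.1⟩, hu.1⟩
  · refine card_le_one.2 fun E hE E' hE' => ?_
    simp only [mem_bipartiteBelow, hmemS] at hE hE'
    by_contra hne
    have a2 : u ∈ R.K R.A ⊓ stabilizer G R.C := (R.J0_eq R.hAC h0 hE.1.2 hE'.1.2 hne).2 ▸
      Subgroup.mem_inf.2 ⟨hE.2.1, R.K_fix hE'.2.1⟩
    exact (mem_filter.1 hu).2.1 (R.K_fix a2.1)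

theorem Z_params (hk : Even R.k) (h0 : R.j0 ≠ 1) :
    Nat.card ↥(R.Z R.A ⊓ stabilizer G R.C) = 2 ∧ R.h = 3 := by
  have h1 := R.Z_le_two_mul h0
  obtain ⟨z, hz, hz'⟩ := R.exists_Z_move hk R.hAC.1.symm
  have h2 : Nat.card ↥(R.Z R.A ⊓ stabilizer G R.C) < Nat.card (R.Z R.A) := by
    have := card_move (R.Z R.A) R.C
    have : 0 < (univ.filter fun u => u ∈ R.Z R.A ∧ u • R.C ≠ R.C).card :=
      card_pos.2 ⟨z, by simp [hz, hz']⟩
    omega
  obtain ⟨d, hd1, hd2⟩ := R.exists_non_adj R.hAC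
  have h3 := card_orb (R.Z R.A) d (univ.filter fun x => ∃ g ∈ R.Z R.A, g • d = x) (by simp)
  have h4 := card_le_orb (R.Z R.A ⊓ stabilizer G R.C) d
    (univ.filter fun x => ∃ g ∈ R.Z R.A, g • d = x) fun g hg => by simpa using ⟨g, hg.1, rfl⟩
  have h5 : R.Z R.A ⊓ stabilizer G R.C ⊓ stabilizer G d = ⊥ :=
    (Subgroup.eq_bot_iff_forall _).2 fun g hg => R.K_edge hg.1.1.1 hd2 hg.1.2 hg.2
  rw [h5, Subgroup.card_bot, mul_one] at h4
  rw [R.card_Z_non hd1] at h3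
  have h6 := R.h_dvd_Z
  have h7 := R.two_le_h
  have h8 := R.coprime_kh
  have h9 : 0 < Nat.card ↥(R.Z R.A ⊓ stabilizer G R.C) := Nat.card_pos
  have h10 : ¬ 2 ∣ R.h := fun h2 => by
    have := Nat.dvd_gcd hk.two_dvd h2
    rw [h8] at this
    omega
  generalize Nat.card ↥(R.Z R.A ⊓ stabilizer G R.C) = ζ0 at *
  generalize Nat.card (R.Z R.A) = ζ at *
  generalize (univ.filter fun x => ∃ g ∈ R.Z R.A, g • d = x).card = s at *
  have hs : s = 2 := by
    subst h3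
    have a1 : s ≤ 2 := Nat.le_of_mul_le_mul_right h1 h9
    have a2 : 1 < s := by
      by_contra hc
      have : s ≤ 1 := by omega
      have := Nat.mul_le_mul_right ζ0 this
      omega
    omega
  subst hs
  have : ζ0 = 1 ∨ ζ0 = 2 := by omega
  rcases this with rfl | rfl
  · subst h3
    have := Nat.le_of_dvd (by norm_num) h6
    omega
  · subst h3
    have := Nat.le_of_dvd (by norm_num) h6
    omega

theorem even_b (hk : Even R.k) (h0 : R.j0 ≠ 1) : False := by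
  obtain ⟨hz2, hh⟩ := R.Z_params hk h0
  have uniq : ∀ {a c : X}, R.Γᶜ.Adj a c → ∃ z ∈ R.Z a, z ≠ 1 ∧ z • c = c ∧
      ∀ z' ∈ R.Z a, z' ≠ 1 → z' • c = c → z' = z := by
    intro a c h
    obtain ⟨z, h1, h2⟩ := (Nat.card_eq_two_iff' (1 : ↥(R.Z a ⊓ stabilizer G c))).1
      ((R.card_Z_non h).trans hz2)
    exact ⟨z, z.2.1, fun e => h1 (Subtype.ext e), z.2.2, fun z' a1 a2 a3 =>
      congrArg Subtype.val (h2 ⟨z', a1, a3⟩ fun e => a2 (congrArg Subtype.val e))⟩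
  have uniq' : ∀ {a c : X} {z z' : G}, a ≠ c → z ∈ R.Z a → z' ∈ R.Z a → z ≠ 1 → z' ≠ 1 →
      z • c = c → z' • c = c → z = z' := by
    intro a c z z' h a1 a2 a3 a4 a5 a6
    obtain ⟨w, -, -, -, hw⟩ := uniq (R.non_of_K a1.1 a3 a5 h)
    rw [hw z a1 a3 a5, hw z' a2 a4 a6]
  have trK : ∀ {a c c' : X} {z : G}, z ∈ R.Z a → z ≠ 1 → a ≠ c → a ≠ c' → z • c = c →
      z • c' = c' → ∃ x ∈ R.K a, x • c = c' := by
    intro a c c' z a1 a2 a3 a4 a5 a6
    obtain ⟨g, b1, b2⟩ := R.ntr (R.non_of_K a1.1 a2 a5 a3) (R.non_of_K a1.1 a2 a6 a4)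
    have : g * z * g⁻¹ = z := uniq' a4 (R.Z_conj' b1 a1) a1 (by simpa [mul_inv_eq_one] using a2) a2
      (by rw [← b2, conj_fix, a5]) a6
    exact ⟨g, R.K_comm b1 a1.1 a2 (mul_inv_eq_iff_eq_mul.1 this), b2⟩
  have sym : ∀ {a c : X} {z : G}, z ∈ R.Z a → z • c = c → z ∈ R.Z c := by
    intro a c z a1 a2
    by_cases a3 : z = 1
    · exact a3 ▸ one_mem _
    by_cases a4 : a = c
    · exact a4 ▸ a1
    obtain ⟨z', b1, b2, b3, -⟩ := uniq (R.non_of_K a1.1 a3 a2 a4).symm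
    obtain ⟨z2, c1, c2⟩ := R.exists_Z_move hk (Ne.symm a4)
    have hc : z2 * z' = z' * z2 := c1.2.2 z' (R.K_of_fix b1.1 b3)
    obtain ⟨x, d1, d2⟩ := trK b1 b2 (Ne.symm c2) (Ne.symm a4)
      (by rw [← mul_smul, ← hc, mul_smul, R.K_fix b1.1]) b3
    have d3 := R.Z_conj1 (x * z2) b1
    rw [mul_smul, d2, mul_assoc x, hc, ← mul_assoc, ← b1.2.2 x d1, mul_assoc z', mul_assoc z',
      mul_inv_cancel, mul_one] at d3
    rw [uniq' a4 a1 d3 a3 b2 a2 (R.K_fix b1.1)]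
    exact b1
  have star : ∀ {e b e1 e2 : X} {z : G}, z ∈ R.Z e → z ≠ 1 → z • b ≠ b → e1 ≠ e2 → z • e1 = e1 →
      z • e2 = e2 → R.Γᶜ.Adj b e1 → R.Γᶜ.Adj b e2 → False := by
    intro e b e1 e2 z a1 a2 a3 a4 a5 a6 a7 a8
    obtain ⟨u1, b1, b2, b3, -⟩ := uniq a7
    obtain ⟨u2, c1, c2, c3, -⟩ := uniq a8
    have d1 := sym a1 a5
    have d2 := sym a1 a6
    have f : ∀ {u : G} {e' : X}, u ∈ R.Z b → u • e' = e' → z ∈ R.Z e' → u • z • b = z • b := by
      intro u e' g1 g2 g3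
      rw [← mul_smul, ← g3.2.2 u (R.K_of_fix g1.1 g2), mul_smul, R.K_fix g1.1]
    have d3 : u1 = u2 := uniq' (Ne.symm a3) b1 c1 b2 c2 (f b1 b3 d1) (f c1 c3 d2)
    subst d3
    have := uniq' a4 (sym b1 b3) d1 b2 a2 c3 a6
    exact a3 (this ▸ R.K_fix b1.1)
  -- numerical data
  have hj : R.j = R.j0 := by
    refine congrArg (fun H : Subgroup G => Nat.card H) (le_antisymm (fun y hy => ⟨?_, hy.2⟩)
      (inf_le_inf_right _ fun g hg => R.K_fix hg))
    obtain ⟨z, b1, b2, b3, b4⟩ := uniq R.hAC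
    have := b4 _ (R.Z_conj' hy.1 b1) (by simpa [mul_inv_eq_one] using b2)
      (by rw [← show y • R.C = R.C from hy.2, conj_fix, b3])
    exact R.K_comm hy.1 b1.1 b2 (mul_inv_eq_iff_eq_mul.1 this)
  obtain ⟨z, z1, z2, z3, -⟩ := uniq R.hAC
  set O := univ.filter fun x => ∃ g ∈ R.K R.A, g • R.C = x with hO
  have hmO : ∀ x, x ∈ O ↔ R.A ≠ x ∧ z • x = x := by
    intro x
    simp only [hO, mem_filter, mem_univ, true_and]
    constructor
    · rintro ⟨g, hg, rfl⟩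
      exact ⟨((R.non_fix (R.K_fix hg)).2 R.hAC).1, by rw [← mul_smul, z1.2.2 g hg, mul_smul, z3]⟩
    · rintro ⟨h1, h2⟩
      exact trK z1 z2 R.hAC.1 h1 z3 h2
  have hm := card_orb (R.K R.A) R.C O (by simp [hO])
  rw [R.card_K_non R.hAC, R.card_K] at hm
  have hl : R.l = 3 * O.card := by
    have := R.lj
    rw [hj, hh, ← hm] at this
    exact Nat.eq_of_mul_eq_mul_right R.j0_pos (by rw [this]; ring)
  have hj0 : R.j0 ≤ O.card := by
    obtain ⟨d, hd1, hd2⟩ := R.exists_non_adj R.hAC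
    have h3 := card_orb (R.K R.A) d (univ.filter fun x => ∃ g ∈ R.K R.A, g • d = x) (by simp)
    have h4 := card_le_orb (R.K R.A ⊓ stabilizer G R.C) d
      (univ.filter fun x => ∃ g ∈ R.K R.A, g • d = x) fun g hg => by simpa using ⟨g, hg.1, rfl⟩
    have h5 : R.K R.A ⊓ stabilizer G R.C ⊓ stabilizer G d = ⊥ :=
      (Subgroup.eq_bot_iff_forall _).2 fun g hg => R.K_edge hg.1.1 hd2 hg.1.2 hg.2
    rw [h5, Subgroup.card_bot, mul_one, R.card_K_non R.hAC] at h4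
    rw [R.card_K_non hd1, R.card_K, ← hm] at h3
    rwa [Nat.eq_of_mul_eq_mul_right R.j0_pos h3] at h4
  have hcount := card_mul_le_card_mul (s := O) (t := R.nb R.A) (fun e b => R.Γᶜ.Adj e b)
    (m := 2 * O.card) (n := 1) (fun e he => ?_) (fun b hb => ?_)
  · rw [R.card_nb, ← hm, mul_one] at hcount
    have hpos : 0 < O.card := card_pos.2 ⟨R.C, (hmO _).2 ⟨R.hAC.1, z3⟩⟩
    have := Nat.le_of_mul_le_mul_left hcount hpos
    omega
  · obtain ⟨e1, e2⟩ := (hmO e).1 he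
    have hsub : R.nn e ⊆ (R.nb R.A).bipartiteAbove (fun e b => R.Γᶜ.Adj e b) e ∪
        insert R.A (O.erase e) := by
      intro x hx
      rw [R.mem_nn] at hx
      simp only [mem_union, mem_bipartiteAbove, R.mem_nb, mem_insert, mem_erase, hmO]
      rcases R.tri R.A x with rfl | h1 | h1
      · exact Or.inr (Or.inl rfl)
      · exact Or.inl ⟨h1, hx⟩
      · refine Or.inr (Or.inr ⟨hx.1.symm, h1.1, ?_⟩)
        obtain ⟨w, w1, w2, w3, -⟩ := uniq h1
        by_cases hw : w • e = e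
        · rw [uniq' e1 z1 w1 z2 w2 e2 hw, w3]
        · exact (star w1 w2 hw h1.1 (R.K_fix w1.1) w3 (R.non_of_K z1.1 z2 e2 e1).symm hx).elim
    have h1 := (card_le_card hsub).trans (card_union_le _ _)
    have h2 := card_insert_le R.A (O.erase e)
    rw [card_erase_of_mem he] at h2
    have h3 : 0 < O.card := card_pos.2 ⟨e, he⟩
    rw [R.card_nn, hl] at h1
    omega
  · refine card_le_one.2 fun e he e' he' => ?_
    simp only [mem_bipartiteBelow, hmO] at he he'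
    by_contra hne
    exact star z1 z2 (fun h1 => z2 (R.K_free z1.1 (R.mem_nb.1 hb) h1)) hne he.1.2 he'.1.2
      he.2.symm he'.2.symm

theorem odd_k : Odd R.k := by
  rw [← Nat.not_even_iff_odd]
  intro hk
  by_cases h0 : R.j0 = 1
  · exact R.even_a hk h0
  · exact R.even_b hk h0

theorem even_h (hG : Even (Nat.card G)) : Even R.h := by
  rw [← Nat.not_odd_iff_even]
  intro hh
  have h1 := R.odd_k
  have h2 : Odd R.l := Odd.of_dvd_nat (h1.mul hh) ⟨R.j, R.lj.symm⟩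
  rw [R.card_G, ← Nat.not_odd_iff_even] at hG
  exact hG ((((odd_one.add_odd h1)).add_odd h2).mul (h1.mul hh))

end Hyp

end Cfsg.Agent.Perm.R3
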