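import Mathlib
import Cfsg.Agent.Perm.R3B

/-!
# Rank three groups with Frobenius stabilizer: involutions, and the case `j0 > 1`
-/

set_option autoImplicit false
set_option linter.unusedSectionVars false

namespace Cfsg.Agent.Perm.R3

open MulAction Finset
open scoped Classical

theorem exists_inv_of_even {G : Type*} [Group G] [Finite G] (H : Subgroup G)
    (h : Even (Nat.card H)) : ∃ u ∈ H, u * u = 1 ∧ u ≠ 1 := by
  obtain ⟨u, hu⟩ := exists_prime_orderOf_dvd_card' (G := H) 2 h.two_dvd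
  refine ⟨u, u.2, ?_, fun e => ?_⟩
  · have := pow_orderOf_eq_one u
    rw [hu, pow_two] at this
    exact congrArg Subtype.val this
  · rw [show u = 1 from Subtype.ext e, orderOf_one] at hu
    omega

theorem even_of_inv {G : Type*} [Group G] [Finite G] (H : Subgroup G) {u : G} (hu : u ∈ H)
    (h2 : u * u = 1) (h1 : u ≠ 1) : Even (Nat.card H) := by
  have : orderOf u = 2 := orderOf_eq_prime (by rw [pow_two, h2]) h1
  exact even_iff_two_dvd.2 (this ▸ H.orderOf_dvd_natCard hu)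

namespace Hyp

variable {G X : Type*} [Group G] [MulAction G X] (R : Hyp G X) [Fintype G] [Fintype X]

theorem surj_comm {a : X} (P : Subgroup G) (hP : P ≤ R.K a) {g : G} (ha : g • a = a)
    (hg : g ∉ R.K a) (hn : ∀ x ∈ P, g * x * g⁻¹ ∈ P) :
    ∀ w ∈ P, ∃ z ∈ P, z⁻¹ * (g * z * g⁻¹) = w := by
  intro w hw
  have : Function.Injective
      (fun z : P => (⟨(z : G)⁻¹ * (g * z * g⁻¹), mul_mem (inv_mem z.2) (hn z z.2)⟩ : P)) := by
    intro x y e
    have e' : (x : G)⁻¹ * (g * x * g⁻¹) = (y : G)⁻¹ * (g * y * g⁻¹) := congrArg Subtype.val e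
    by_contra hne
    refine hg (R.K_comm ha (hP (mul_mem y.2 (inv_mem x.2)))
      (fun e => hne (Subtype.ext (mul_inv_eq_one.1 e).symm)) ?_)
    calc g * (y * (x : G)⁻¹) = y * ((y : G)⁻¹ * (g * y * g⁻¹)) * g * (x : G)⁻¹ := by group
      _ = y * (x : G)⁻¹ * g := by rw [← e']; group
  obtain ⟨z, hz⟩ := Finite.surjective_of_injective this ⟨w, hw⟩
  exact ⟨z, z.2, congrArg Subtype.val hz⟩

theorem K_sq {a : X} {x : G} (hx : x ∈ R.K a) (h2 : x * x = 1) : x = 1 := by
  by_contra h1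
  have := even_of_inv _ hx h2 h1
  rw [R.card_K] at this
  exact Nat.not_even_iff_odd.2 R.odd_k this

/-- involutions fixing `a` -/
def IsInv (u : G) (a : X) : Prop := u * u = 1 ∧ u ≠ 1 ∧ u • a = a

theorem inv_not_K {a : X} {u : G} (hu : IsInv u a) : u ∉ R.K a :=
  fun h => hu.2.1 (R.K_sq h hu.1)

theorem inverts {a : X} {u x : G} (hu : IsInv u a) (hx : x ∈ R.K a) : u * x * u = x⁻¹ := by
  obtain ⟨z, -, rfl⟩ := R.surj_comm (R.K a) le_rfl hu.2.2 (R.inv_not_K hu)
    (fun x hx => R.K_conj' hu.2.2 hx) x hx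
  rw [inv_eq_self hu.1]
  calc u * (z⁻¹ * (u * z * u)) * u = u * z⁻¹ * u * z * (u * u) := by group
    _ = (z⁻¹ * (u * z * u))⁻¹ := by
      rw [hu.1]
      simp only [mul_inv_rev, inv_inv, inv_eq_self hu.1]
      group

theorem inverts' {a : X} {u x : G} (hu : IsInv u a) (hx : x ∈ R.K a) : u * x = x⁻¹ * u := by
  rw [← R.inverts hu hx, mul_assoc, hu.1, mul_one]

theorem exists_inv_adj (hh : Even R.h) {a b : X} (h : R.Γ.Adj a b) :
    ∃ u : G, IsInv u a ∧ u • b = b := by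
  obtain ⟨u, h1, h2, h3⟩ := exists_inv_of_even (stabilizer G a ⊓ stabilizer G b)
    (by rwa [R.card_st_adj h])
  exact ⟨u, ⟨h2, h3, h1.1⟩, h1.2⟩

theorem exists_inv_non (hj : Even R.j) {a b : X} (h : R.Γᶜ.Adj a b) :
    ∃ u : G, IsInv u a ∧ u • b = b := by
  obtain ⟨u, h1, h2, h3⟩ := exists_inv_of_even (stabilizer G a ⊓ stabilizer G b)
    (by rwa [R.card_st_non h])
  exact ⟨u, ⟨h2, h3, h1.1⟩, h1.2⟩

theorem even_j {a b : X} (h : R.Γᶜ.Adj a b) {u : G} (hu : IsInv u a) (e : u • b = b) :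
    Even R.j := by
  rw [← R.card_st_non h]
  exact even_of_inv _ (Subgroup.mem_inf.2 ⟨hu.2.2, e⟩) hu.1 hu.2.1

theorem exists_inv (hh : Even R.h) (a : X) : ∃ u : G, IsInv u a := by
  obtain ⟨b, hb⟩ := R.exists_adj a
  obtain ⟨u, hu, -⟩ := R.exists_inv_adj hh hb
  exact ⟨u, hu⟩

theorem K_abelian (hh : Even R.h) {a : X} {x y : G} (hx : x ∈ R.K a) (hy : y ∈ R.K a) :
    x * y = y * x := by
  obtain ⟨u, hu⟩ := R.exists_inv hh a
  have h1 := R.inverts hu (mul_mem hx hy)
  have h2 : u * (x * y) * u = (u * x * u) * (u * y * u) := by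
    calc u * (x * y) * u = u * x * (u * u) * y * u := by rw [hu.1]; group
      _ = _ := by group
  rw [h2, R.inverts hu hx, R.inverts hu hy, ← mul_inv_rev] at h1
  exact (inv_injective h1).symm

theorem exists_K_ne (a : X) : ∃ x ∈ R.K a, x ≠ 1 := by
  obtain ⟨b, hb⟩ := R.exists_adj a
  obtain ⟨c, hc, hcb⟩ := R.exists_adj_ne hb
  obtain ⟨x, hx, e⟩ := R.K_trans hb hc
  exact ⟨x, hx, fun e' => hcb (by rw [← e, e', one_smul])⟩

theorem comm_of_inverts {u v x : G} (hu : u * x = x⁻¹ * u) (hv : v * x = x⁻¹ * v) :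
    u⁻¹ * v * x = x * (u⁻¹ * v) := by
  rw [mul_assoc, hv]
  calc u⁻¹ * (x⁻¹ * v) = u⁻¹ * (x⁻¹ * u) * u⁻¹ * v := by group
    _ = x * (u⁻¹ * v) := by rw [← hu]; group

theorem inv_mul_inv {a : X} {u v : G} (hu : IsInv u a) (hv : IsInv v a) : u⁻¹ * v ∈ R.K a := by
  obtain ⟨x, hx, h1⟩ := R.exists_K_ne a
  exact R.K_comm (by rw [mul_smul, hv.2.2, inv_smul_eq_iff, hu.2.2]) hx h1
    (comm_of_inverts (R.inverts' hu hx) (R.inverts' hv hx))

theorem mul_inv_K {a : X} {u x : G} (hu : IsInv u a) (hx : x ∈ R.K a) : IsInv (x * u) a := by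
  refine ⟨?_, fun e => R.inv_not_K hu ?_, by rw [mul_smul, hu.2.2, R.K_fix hx]⟩
  · calc x * u * (x * u) = x * (u * x * u) := by group
      _ = 1 := by rw [R.inverts hu hx, mul_inv_cancel]
  · rw [eq_inv_of_mul_eq_one_right e]
    exact inv_mem hx

theorem card_inv_filter {a : X} {u0 : G} (hu : IsInv u0 a) (P : G → Prop) [DecidablePred P] :
    (univ.filter fun u => IsInv u a ∧ P u).card =
      (univ.filter fun x => x ∈ R.K a ∧ P (x * u0)).card := by
  refine (Finset.card_equiv (Equiv.mulRight u0) fun x => ?_).symm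
  simp only [mem_filter, mem_univ, true_and, Equiv.coe_mulRight]
  refine and_congr_left fun _ => ⟨R.mul_inv_K hu, fun h => ?_⟩
  have := R.inv_mul_inv h hu
  rw [inv_eq_self h.1, mul_assoc, hu.1, mul_one] at this
  exact this

theorem card_inv (hh : Even R.h) (a : X) : (univ.filter fun u : G => IsInv u a).card = R.k := by
  obtain ⟨u, hu⟩ := R.exists_inv hh a
  have := R.card_inv_filter hu fun _ => True
  simp only [and_true] at this
  rw [this, card_sub, R.card_K]

theorem inv_conj (g : G) {u : G} {a : X} : IsInv (g * u * g⁻¹) (g • a) ↔ IsInv u a := by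
  simp only [IsInv, conj_mul, conj_fix, ne_eq, conj_eq_one_iff]

include R in
theorem conj_inv {a b : X} {u v : G} (hu : IsInv u a) (hv : IsInv v b) :
    ∃ g : G, g * u * g⁻¹ = v := by
  obtain ⟨g, rfl⟩ := R.trans a b
  have h1 := (inv_conj g).2 hu
  have h2 := R.inv_mul_inv h1 hv
  obtain ⟨n, hn⟩ := R.odd_k
  set x := (g * u * g⁻¹)⁻¹ * v with hx
  have h3 : x ^ (n + 1) * x ^ (n + 1) = x := by
    rw [← pow_add, show n + 1 + (n + 1) = R.k + 1 by omega, pow_succ, (R.mem_K_pow.1 h2).2, one_mul]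
  refine ⟨(x ^ (n + 1))⁻¹ * g, ?_⟩
  calc (x ^ (n + 1))⁻¹ * g * u * ((x ^ (n + 1))⁻¹ * g)⁻¹
      = (x ^ (n + 1))⁻¹ * (g * u * g⁻¹) * x ^ (n + 1) := by group
    _ = g * u * g⁻¹ * (x ^ (n + 1) * x ^ (n + 1)) := by
      rw [← R.inverts' h1 (pow_mem h2 _), mul_assoc]
    _ = v := by rw [h3, hx]; group

theorem j0_sq : R.j0 * R.j0 ≤ R.k := by
  obtain ⟨d, hd1, hd2⟩ := R.exists_non_adj R.hAC
  have h3 := card_orb (R.K R.A) d (univ.filter fun x => ∃ g ∈ R.K R.A, g • d = x) (by simp)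
  have h4 := card_le_orb (R.K R.A ⊓ stabilizer G R.C) d
    (univ.filter fun x => ∃ g ∈ R.K R.A, g • d = x) fun g hg => by simpa using ⟨g, hg.1, rfl⟩
  have h5 : R.K R.A ⊓ stabilizer G R.C ⊓ stabilizer G d = ⊥ :=
    (Subgroup.eq_bot_iff_forall _).2 fun g hg => R.K_edge hg.1.1 hd2 hg.1.2 hg.2
  rw [h5, Subgroup.card_bot, mul_one, R.card_K_non R.hAC] at h4
  rw [R.card_K_non hd1, R.card_K] at h3
  rw [← h3]
  exact Nat.mul_le_mul_right _ h4

/-- the fixed set of `J0` -/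
def InL (e : X) : Prop := ∀ x ∈ R.K R.A, x • R.C = R.C → x • e = e

theorem L_count (h0 : R.j0 ≠ 1) (hh : Even R.h) (p : ℕ)
    (hp : ∀ u : G, (univ.filter fun e => R.InL e ∧ IsInv u e).card ≤ p) :
    R.k ≤ R.j0 * (p + 1) := by
  have hA : R.InL R.A := fun x hx _ => R.K_fix hx
  have hC : R.InL R.C := fun x _ e => e
  set S := (univ.filter R.InL).erase R.A with hS
  have hmemS : ∀ e, e ∈ S ↔ e ≠ R.A ∧ R.InL e := fun e => by simp [hS]
  set T := univ.filter fun u : G => u • R.A ≠ R.A ∧ ∃ e, R.InL e ∧ IsInv u e with hT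
  have hinv : ∀ u e, R.InL e → IsInv u e → ∀ x ∈ R.K R.A, x • R.C = R.C → u * x = x⁻¹ * u :=
    fun u e he hu x hx hx' => R.inverts' hu (R.K_of_fix hx (he x hx hx'))
  have h1 := card_mul_le_card_mul (s := S) (t := T) (fun E u => IsInv u E)
    (m := R.k - R.j0) (n := p) (fun E hE => ?_) (fun u hu => ?_)
  · have h2 := card_le_mul_card_image_of_maps_to (s := T) (t := S) (f := fun u => u • R.A)
      (fun u hu => ?_) R.j0 fun y hy => ?_
    · have h3 : 0 < S.card := card_pos.2 ⟨R.C, (hmemS _).2 ⟨R.hAC.1.symm, hC⟩⟩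
      have h4 : S.card * (R.k - R.j0) ≤ S.card * (R.j0 * p) :=
        h1.trans ((Nat.mul_le_mul_right _ h2).trans (le_of_eq (by ring)))
      have := Nat.le_of_mul_le_mul_left h4 h3
      rw [mul_add]
      omega
    · obtain ⟨h3, e, h4, h5⟩ := (mem_filter.1 hu).2
      refine (hmemS _).2 ⟨h3, fun x hx hx' => ?_⟩
      have := hinv u e h4 h5 x⁻¹ (inv_mem hx) (by rw [inv_smul_eq_iff, hx'])
      rw [inv_inv] at this
      rw [← mul_smul, ← this, mul_smul, R.K_fix (inv_mem hx)]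
    · obtain ⟨hy1, hy2⟩ := (hmemS y).1 hy
      obtain ⟨x0, hx0, hx1, hx2⟩ := R.exists_J0 R.hAC h0
      rw [← R.card_K_non (R.J0_eq R.hAC h0 hA hy2 hy1.symm).1]
      refine card_le_sub _ _ fun u hu v hv => ?_
      obtain ⟨hu, hu'⟩ := mem_filter.1 hu
      obtain ⟨hv, hv'⟩ := mem_filter.1 hv
      obtain ⟨-, e1, h4, h5⟩ := (mem_filter.1 hu).2
      obtain ⟨-, e2, h6, h7⟩ := (mem_filter.1 hv).2
      have a1 : (u⁻¹ * v) • R.A = R.A := by rw [mul_smul, inv_smul_eq_iff, hu', hv']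
      have a2 : (u⁻¹ * v) • y = y := by
        rw [mul_smul, inv_smul_eq_iff, swap_back h5.1 hu', swap_back h7.1 hv']
      exact Subgroup.mem_inf.2 ⟨R.K_comm a1 hx0 hx1
        (comm_of_inverts (hinv u e1 h4 h5 x0 hx0 hx2) (hinv v e2 h6 h7 x0 hx0 hx2)), a2⟩
  · obtain ⟨hE1, hE2⟩ := (hmemS E).1 hE
    have a1 := card_filter_add_card_filter_not (s := univ.filter fun u : G => IsInv u E)
      (fun u => u • R.A = R.A)
    rw [R.card_inv hh] at a1
    have a2 : ((univ.filter fun u : G => IsInv u E).filter fun u => u • R.A = R.A).card ≤ R.j0 := by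
      rw [← R.card_K_non (R.J0_eq R.hAC h0 hE2 hA hE1).1]
      refine card_le_sub _ _ fun u hu v hv => ?_
      simp only [mem_filter, mem_univ, true_and] at hu hv
      exact Subgroup.mem_inf.2 ⟨R.inv_mul_inv hu.1 hv.1,
        by rw [mem_stabilizer_iff, mul_smul, inv_smul_eq_iff, hu.2, hv.2]⟩
    refine le_trans (by omega : _ ≤
      ((univ.filter fun u : G => IsInv u E).filter fun u => ¬ u • R.A = R.A).card)
      (card_le_card fun u hu => ?_)
    simp only [mem_filter, mem_univ, true_and, mem_bipartiteAbove, hT] at hu ⊢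
    exact ⟨⟨hu.2, E, hE2, hu.1⟩, hu.1⟩
  · refine le_trans (card_le_card fun e he => ?_) (hp u)
    simp only [mem_filter, mem_univ, true_and, mem_bipartiteBelow, hmemS] at he ⊢
    exact ⟨he.1.2, he.2⟩

theorem L_fix (h0 : R.j0 ≠ 1) (hh : Even R.h) (u : G) :
    ((univ.filter fun e => R.InL e ∧ IsInv u e).card - 1) * R.k ≤
      ((univ.filter R.InL).card - 1) * R.j0 := by
  rcases (univ.filter fun e => R.InL e ∧ IsInv u e).eq_empty_or_nonempty with e | ⟨e0, he0⟩
  · rw [e]; simp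
  obtain ⟨h1, h2⟩ := (mem_filter.1 he0).2
  rw [← card_erase_of_mem he0, ← card_erase_of_mem (a := e0) (by simpa using h1), ← R.card_K e0,
    ← card_sub, ← card_product, mul_comm _ R.j0]
  refine card_le_mul_card_image_of_maps_to (f := fun q => q.2 • q.1) (fun q hq => ?_) _
    fun y hy => ?_
  · simp only [mem_product, mem_erase, mem_filter, mem_univ, true_and] at hq ⊢
    refine ⟨fun e => hq.1.1 (smul_left_cancel q.2 (e.trans (R.K_fix hq.2).symm)),
      fun x hx hx' => ?_⟩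
    rw [← mul_smul, R.K_abelian hh (R.K_of_fix hx (h1 x hx hx')) hq.2, mul_smul, hq.1.2.1 x hx hx']
  · simp only [mem_erase, mem_filter, mem_univ, true_and] at hy
    have key : ∀ q ∈ ((univ.filter fun e => R.InL e ∧ IsInv u e).erase e0 ×ˢ
        univ.filter (· ∈ R.K e0)).filter fun q => q.2 • q.1 = y,
        ∀ q' ∈ ((univ.filter fun e => R.InL e ∧ IsInv u e).erase e0 ×ˢ
        univ.filter (· ∈ R.K e0)).filter fun q => q.2 • q.1 = y, q.1 = q'.1 := by
      rintro ⟨e, x⟩ hq ⟨e', x'⟩ hq'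
      simp only [mem_product, mem_erase, mem_filter, mem_univ, true_and] at hq hq'
      set z := x'⁻¹ * x with hz
      have a1 : z ∈ R.K e0 := mul_mem (inv_mem hq'.1.2) hq.1.2
      have a2 : z • e = e' := by rw [hz, mul_smul, inv_smul_eq_iff, hq.2, hq'.2]
      have a3 : (z * z) • e = e := by
        have := hq'.1.1.2.2.2.2
        rw [← a2, ← mul_smul, R.inverts' h2 a1, mul_smul, hq.1.1.2.2.2.2, inv_smul_eq_iff] at this
        rw [mul_smul, ← this]
      obtain ⟨n, hn⟩ := R.odd_k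
      have a4 : (z * z) ^ (n + 1) = z := by
        rw [← pow_two, ← pow_mul, show 2 * (n + 1) = R.k + 1 by omega, pow_succ,
          (R.mem_K_pow.1 a1).2, one_mul]
      have a5 : (z * z) ^ (n + 1) ∈ stabilizer G e := pow_mem (mem_stabilizer_iff.2 a3) _
      rw [a4] at a5
      exact a5.symm.trans a2
    rw [← R.card_K_non (R.J0_eq R.hAC h0 h1 hy.2 hy.1.symm).1,
      ← card_image_of_injOn (f := Prod.snd)]
    · refine card_le_sub _ _ fun x hx x' hx' => ?_
      obtain ⟨q, hq, rfl⟩ := mem_image.1 hx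
      obtain ⟨q', hq', rfl⟩ := mem_image.1 hx'
      have a1 := key q hq q' hq'
      simp only [mem_product, mem_erase, mem_filter, mem_univ, true_and] at hq hq'
      refine Subgroup.mem_inf.2 ⟨mul_mem (inv_mem hq.1.2) hq'.1.2, ?_⟩
      rw [mem_stabilizer_iff, R.K_abelian hh (inv_mem hq.1.2) hq'.1.2, mul_smul]
      conv_lhs => rw [← hq.2, inv_smul_smul, a1, hq'.2]
    · intro q hq q' hq' e
      exact Prod.ext (key q hq q' hq') e

theorem L_norm (h0 : R.j0 ≠ 1) :
    ((univ.filter R.InL).card - 1) * R.j * R.j0 ≤ R.k * (R.k - R.j0) := by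
  have hA : R.InL R.A := fun x hx _ => R.K_fix hx
  set J := R.K R.A ⊓ stabilizer G R.C with hJ
  set Y := stabilizer G R.A ⊓ Subgroup.normalizer (J : Set G) with hY
  have hmem : ∀ y : G, y • R.A = R.A → R.InL (y • R.C) → y ∈ Y := by
    intro y h1 h2
    refine Subgroup.mem_inf.2 ⟨h1, Subgroup.mem_normalizer_iff.2 fun x => ?_⟩
    have a1 : R.A ≠ y • R.C := ((R.non_fix h1).2 R.hAC).1
    conv_rhs => rw [hJ, ← (R.J0_eq R.hAC h0 hA h2 a1).2]
    have := R.K_conj y (a := R.A) (g := x)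
    rw [h1] at this
    simp only [hJ, Subgroup.mem_inf, mem_stabilizer_iff, conj_fix, this]
  have h1 := card_orb_le Y R.C ((univ.filter R.InL).erase R.A) fun e he => by
    simp only [mem_erase, mem_filter, mem_univ, true_and] at he
    obtain ⟨y, a1, a2⟩ := R.ntr R.hAC (R.J0_eq R.hAC h0 hA he.2 he.1.symm).1
    exact ⟨y, hmem y a1 (a2 ▸ he.2), a2⟩
  have h2 : Y ⊓ stabilizer G R.C = stabilizer G R.A ⊓ stabilizer G R.C :=
    le_antisymm (inf_le_inf_right _ inf_le_left) fun y hy => Subgroup.mem_inf.2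
      ⟨hmem y hy.1 (by rw [show y • R.C = R.C from hy.2]; exact fun x _ e => e), hy.2⟩
  rw [h2, card_erase_of_mem (by simpa using hA), R.card_st_non R.hAC] at h1
  have hcm := card_move (R.K R.A) R.C
  rw [R.card_K_non R.hAC, R.card_K] at hcm
  have hlt := R.j0_lt
  obtain ⟨x0, hx0⟩ := card_pos.1
    (show 0 < (univ.filter fun u => u ∈ R.K R.A ∧ u • R.C ≠ R.C).card by omega)
  simp only [mem_filter, mem_univ, true_and] at hx0
  have hn : ∀ y ∈ Y, ∀ x, x ∈ J ↔ y * x * y⁻¹ ∈ J := fun y hy =>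
    Subgroup.mem_normalizer_iff.1 hy.2
  have h3 := card_mul_le_card_mul (s := univ.filter (· ∈ Y))
    (t := univ.filter fun u => u ∈ R.K R.A ∧ u • R.C ≠ R.C)
    (fun y w => (y * x0 * y⁻¹)⁻¹ * w ∈ J) (m := R.j0) (n := R.k) (fun y hy => ?_) (fun w hw => ?_)
  · rw [card_sub] at h3
    calc _ ≤ Nat.card Y * R.j0 := Nat.mul_le_mul_right _ h1
      _ ≤ _ := h3
      _ = _ := by rw [mul_comm]; congr 1; omega
  · have hy : y ∈ Y := (mem_filter.1 hy).2
    rw [← R.card_K_non R.hAC, ← card_sub]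
    refine card_le_card_of_injOn (fun z => y * x0 * y⁻¹ * z) (fun z hz => ?_)
      fun z _ z' _ e => mul_left_cancel e
    have hz : z ∈ J := (mem_filter.1 hz).2
    simp only [mem_univ, true_and, mem_coe, mem_bipartiteAbove,
      mem_filter, inv_mul_cancel_left]
    refine ⟨⟨mul_mem (R.K_conj' hy.1 hx0.1) hz.1, fun e => hx0.2 ?_⟩, hz⟩
    rw [mul_smul, show z • R.C = R.C from hz.2] at e
    exact ((hn y hy x0).2 (Subgroup.mem_inf.2 ⟨R.K_conj' hy.1 hx0.1, e⟩)).2
  · rw [← R.card_K R.A]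
    refine card_le_sub _ _ fun y hy y' hy' => ?_
    simp only [mem_bipartiteBelow, mem_filter, mem_univ, true_and] at hy hy'
    by_contra hK
    have a0 : y⁻¹ * y' ∈ Y := mul_mem (inv_mem hy.1) hy'.1
    have a1 : x0⁻¹ * (y⁻¹ * y' * x0 * (y⁻¹ * y')⁻¹) ∈ J := by
      rw [hn y hy.1]
      have := mul_mem hy.2 (inv_mem hy'.2)
      convert this using 1
      group
    obtain ⟨z, hz, e⟩ := R.surj_comm J inf_le_left a0.1 hK (fun x hx => (hn _ a0 x).1 hx) _ a1
    refine hK (R.K_comm a0.1 (mul_mem hx0.1 (inv_mem hz.1)) (fun e' => hx0.2 ?_) ?_)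
    · rw [mul_inv_eq_one.1 e']
      exact hz.2
    · generalize y⁻¹ * y' = g at *
      calc g * (x0 * z⁻¹) = x0 * (x0⁻¹ * (g * x0 * g⁻¹)) * g * z⁻¹ := by group
        _ = x0 * z⁻¹ * g := by rw [← e]; group

theorem L_ge (hh : Even R.h) : R.k ≤ ((univ.filter R.InL).card - 1) * R.j0 := by
  have hA : R.InL R.A := fun x hx _ => R.K_fix hx
  have := card_le_orb (R.K R.A) R.C ((univ.filter R.InL).erase R.A) fun g hg => by
    simp only [mem_erase, mem_filter, mem_univ, true_and]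
    exact ⟨((R.non_fix (R.K_fix hg)).2 R.hAC).1.symm, fun x hx hx' => by
      rw [← mul_smul, R.K_abelian hh hx hg, mul_smul, hx']⟩
  rwa [card_erase_of_mem (by simpa using hA), R.card_K, R.card_K_non R.hAC] at this

theorem big_j0 (h0 : R.j0 ≠ 1) (hh : Even R.h) : R.k = 9 ∧ R.h = 4 ∧ R.l = 6 := by
  have hk := R.odd_k
  have hlt := R.j0_lt
  have hpos := R.j0_pos
  obtain ⟨m, hm⟩ : R.j0 ∣ R.k := by
    rw [← R.card_K R.A]; exact Subgroup.card_dvd_of_le inf_le_left
  obtain ⟨j1, hj1⟩ : R.j0 ∣ R.j :=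
    Subgroup.card_dvd_of_le (inf_le_inf_right _ fun g hg => R.K_fix hg)
  have hodd := hk
  rw [hm, Nat.odd_mul] at hodd
  have hje : Even R.j := by
    by_contra hj
    have := R.L_count h0 hh 1 fun u => card_le_one.2 fun e he e' he' => by
      simp only [mem_filter, mem_univ, true_and] at he he'
      by_contra hne
      exact hj (R.even_j (R.J0_eq R.hAC h0 he.1 he'.1 hne).1 he.2 he'.2.2.2)
    rw [hm] at this hlt
    have a1 := Nat.le_of_mul_le_mul_left this hpos
    obtain ⟨n, hn⟩ := hodd.2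
    have : m = 1 := by omega
    subst this
    omega
  have hj1e : Even j1 := by
    rw [hj1, Nat.even_mul] at hje
    exact hje.resolve_left (Nat.not_even_iff_odd.2 hodd.1)
  have hj1p : 0 < j1 := by
    have := R.j_pos
    rw [hj1] at this
    exact Nat.pos_of_mul_pos_left this
  set s := (univ.filter R.InL).card - 1 with hs
  have h1 := R.L_count h0 hh (s * R.j0 / R.k + 1) fun u => by
    have := (Nat.le_div_iff_mul_le R.k_pos).2 (R.L_fix h0 hh u)
    rw [← hs] at this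
    omega
  have h2 := R.L_norm h0
  have h3 := (Nat.le_div_iff_mul_le R.k_pos).2 ((one_mul _).le.trans (R.L_ge hh))
  have h4 := Nat.div_mul_le_self (s * R.j0) R.k
  rw [← hs] at h2 h3
  generalize s * R.j0 / R.k = v at *
  have h5 : v * R.j ≤ R.k - R.j0 := by
    refine Nat.le_of_mul_le_mul_left ?_ R.k_pos
    calc R.k * (v * R.j) = v * R.k * R.j := by ring
      _ ≤ s * R.j0 * R.j := Nat.mul_le_mul_right _ h4
      _ = s * R.j * R.j0 := by ring
      _ ≤ _ := h2
  have h6 : m ≤ v + 2 := by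
    rw [hm] at h1
    exact Nat.le_of_mul_le_mul_left h1 hpos
  have h7 : v * j1 + 1 ≤ m := by
    refine Nat.le_of_mul_le_mul_left ?_ hpos
    rw [← hm]
    rw [hj1] at h5
    have : R.j0 * (v * j1 + 1) = v * (R.j0 * j1) + R.j0 := by ring
    omega
  obtain ⟨i, hi⟩ := hj1e
  have hv : v = 1 := by
    have : v * 2 ≤ v * j1 := Nat.mul_le_mul_left v (by omega)
    omega
  subst hv
  have hi1 : i = 1 := by omega
  have hm3 : m = 3 := by omega
  subst hi1 hi hm3
  have h8 := R.j0_sq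
  have hj03 : R.j0 = 3 := by
    rw [hm] at h8
    have := Nat.le_of_mul_le_mul_left h8 hpos
    obtain ⟨n, hn⟩ := hodd.1
    omega
  rw [hj03] at hm hj1
  obtain ⟨a, b, a1, a2, a3, a4, a5⟩ := R.params
  have hmu := R.mu_lt
  have hlj := R.lj
  rw [hj1] at a5 hlj
  have ha : a = 1 := by omega
  subst ha
  have hh8 : R.h ∣ 8 := ⟨b, by omega⟩
  have hle := Nat.le_of_dvd (by norm_num) hh8
  have h2h := R.two_le_h
  obtain ⟨d, hd1, hd2⟩ := R.exists_non_adj R.hAC
  have : R.h = 2 ∨ R.h = 4 ∨ R.h = 8 := by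
    generalize R.h = h at *
    interval_cases h <;> simp_all
  rcases this with e | e | e
  · exfalso
    have b1 := R.card_nn_adj R.hAC
    have b2 : (R.nn R.A).filter (R.Γ.Adj R.C ·) ⊆ (R.nn R.A).erase R.C := fun x hx =>
      mem_erase.2 ⟨(mem_filter.1 hx).2.ne', (mem_filter.1 hx).1⟩
    have b3 := card_le_card b2
    rw [card_erase_of_mem (R.mem_nn.2 R.hAC), R.card_nn] at b3
    rw [hm, e] at hlj
    omega
  · rw [hm, e] at hlj
    omega
  · exfalso
    rw [e] at a3 a4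
    have b1 : R.cm R.A R.C ∪ R.cm R.A d ⊆ R.nb R.A := fun x hx => by
      rcases mem_union.1 hx with h | h <;> exact R.mem_nb.2 (R.mem_cm.1 h).1
    have b2 := card_le_card b1
    have b3 := card_union_add_card_inter (R.cm R.A R.C) (R.cm R.A d)
    have b4 : R.cm R.A R.C ∩ R.cm R.A d ⊆ R.cm R.C d := fun x hx =>
      R.mem_cm.2 ⟨(R.mem_cm.1 (mem_inter.1 hx).1).2, (R.mem_cm.1 (mem_inter.1 hx).2).2⟩
    have b5 := card_le_card b4
    rw [R.card_cm_non R.hAC, R.card_cm_non hd1] at b3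
    rw [R.card_cm_adj hd2] at b5
    rw [R.card_nb] at b2
    omega

end Hyp

end Cfsg.Agent.Perm.R3
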