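import Mathlib
import Cfsg.Agent.Perm.R3B

/-!
# Rank three groups with Frobenius stabilizer: the three-quarters lemma and arithmetic
-/

set_option autoImplicit false

namespace Cfsg.Agent.Perm.R3

open Finset
open scoped Classical

section grp
variable {G : Type*} [Group G] [Fintype G]

theorem eq_of_half {H J : Subgroup G} (h : H ≤ J) (hc : Nat.card J < 2 * Nat.card H) : H = J := by
  obtain ⟨m, hm⟩ := Subgroup.card_dvd_of_le h
  have h0 : 0 < Nat.card J := Nat.card_pos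
  refine Subgroup.eq_of_le_of_card_ge h ?_
  rcases m with _ | _ | m
  · omega
  · omega
  · rw [hm] at hc
    nlinarith

theorem le_of_half {J D : Subgroup G} (S : Finset G) (hS : ∀ x ∈ S, x ∈ J ∧ x ∈ D)
    (hc : Nat.card J < 2 * S.card) : J ≤ D := by
  have h1 : S.card ≤ Nat.card ↥(J ⊓ D) := by
    rw [← card_sub]
    exact card_le_card fun x hx => mem_filter.2 ⟨mem_univ _, Subgroup.mem_inf.2 (hS x hx)⟩
  rw [← eq_of_half (inf_le_left : J ⊓ D ≤ J) (by omega)]
  exact inf_le_right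

/-- an automorphism inverting more than three quarters of a group forces commutativity -/
theorem comm_of_quarter (J : Subgroup G) (u : G) (S : Finset G)
    (hS : ∀ x ∈ S, x ∈ J ∧ u * x = x⁻¹ * u) (hc : 3 * Nat.card J < 4 * S.card) :
    ∀ x ∈ J, ∀ y ∈ J, x * y = y * x := by
  have h1 : ∀ x ∈ S, J ≤ Subgroup.centralizer {x} := by
    intro x hx
    refine le_of_half (S ∩ S.image (x⁻¹ * ·)) (fun y hy => ?_) ?_
    · obtain ⟨h1, h2⟩ := mem_inter.1 hy
      obtain ⟨z, hz, rfl⟩ := mem_image.1 h2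
      refine ⟨(hS _ h1).1, Subgroup.mem_centralizer_singleton_iff.2 ?_⟩
      have a1 := (hS _ h1).2
      have a2 := (hS _ hz).2
      have a3 := (hS _ hx).2
      have a4 : u * x⁻¹ = x * u := by
        calc u * x⁻¹ = x * (x⁻¹ * u) * x⁻¹ := by group
          _ = x * u := by rw [← a3]; group
      rw [← mul_assoc, a4, mul_assoc, a2, ← mul_assoc] at a1
      have a5 := mul_right_cancel a1
      calc x⁻¹ * z * x = x⁻¹ * z * (x * z⁻¹) * z := by group
        _ = x * (x⁻¹ * z) := by rw [a5]; group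
    · have a1 := card_union_add_card_inter S (S.image (x⁻¹ * ·))
      rw [card_image_of_injective _ (mul_right_injective _)] at a1
      have a2 : (S ∪ S.image (x⁻¹ * ·)).card ≤ Nat.card J := by
        rw [← card_sub]
        refine card_le_card fun y hy => mem_filter.2 ⟨mem_univ _, ?_⟩
        rcases mem_union.1 hy with h | h
        · exact (hS _ h).1
        · obtain ⟨z, hz, rfl⟩ := mem_image.1 h
          exact mul_mem (inv_mem (hS _ hx).1) (hS _ hz).1
      omega
  intro x hx y hy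
  have := le_of_half (J := J) (D := Subgroup.centralizer {y}) S (fun z hz => ⟨(hS z hz).1,
    Subgroup.mem_centralizer_singleton_iff.2
      (Subgroup.mem_centralizer_singleton_iff.1 (h1 z hz hy)).symm⟩) (by omega) hx
  exact Subgroup.mem_centralizer_singleton_iff.1 this

theorem full_of_comm (J : Subgroup G) (u t : G) (S : Finset G)
    (hS : ∀ x ∈ S, x ∈ J ∧ u * x = x⁻¹ * u)
    (hcl : ∀ x ∈ S, ∀ y ∈ J, u⁻¹ * (y * (u * x) * y⁻¹) ∈ S)
    (ht : ∀ y ∈ J, y * y = 1 → y = 1 ∨ y = t) (hab : ∀ x ∈ J, ∀ y ∈ J, x * y = y * x)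
    (hc : Nat.card J < 2 * S.card) : Nat.card J ≤ S.card := by
  let D : Subgroup G :=
    { carrier := {x | x ∈ J ∧ u * x = x⁻¹ * u}
      one_mem' := ⟨one_mem _, by simp⟩
      mul_mem' := by
        rintro x y ⟨h1, h2⟩ ⟨h3, h4⟩
        refine ⟨mul_mem h1 h3, ?_⟩
        rw [← mul_assoc, h2, mul_assoc, h4, hab x h1 y h3]
        group
      inv_mem' := by
        rintro x ⟨h1, h2⟩
        refine ⟨inv_mem h1, ?_⟩
        calc u * x⁻¹ = x * (x⁻¹ * u) * x⁻¹ := by group
          _ = x⁻¹⁻¹ * u := by rw [← h2]; group }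
  have hD : J ≤ D := le_of_half S (fun x hx => ⟨(hS x hx).1, hS x hx⟩) hc
  rw [← card_sub]
  refine card_le_card fun x hx => ?_
  have hx : x ∈ J := (mem_filter.1 hx).2
  by_contra hxS
  have h1 := card_le_mul_card_image_of_maps_to (s := univ.filter (· ∈ J))
    (t := univ.filter (· ∈ J) \ S) (f := fun y => x * (y * y)) (fun y hy => ?_) 2 fun q hq => ?_
  · have h2 : S ⊆ univ.filter (· ∈ J) := fun z hz => mem_filter.2 ⟨mem_univ _, (hS z hz).1⟩
    have h3 := card_le_card h2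
    rw [card_sdiff_of_subset h2] at h1
    rw [card_sub] at h1 h3
    omega
  · have hy : y ∈ J := (mem_filter.1 hy).2
    refine mem_sdiff.2 ⟨mem_filter.2 ⟨mem_univ _, mul_mem hx (mul_mem hy hy)⟩, fun h => hxS ?_⟩
    have a1 := hcl _ h y hy
    have a2 : y * u = u * y⁻¹ := by
      have := (hD (inv_mem hy)).2
      rw [inv_inv] at this
      exact this.symm
    convert a1 using 1
    calc x = y⁻¹ * (y * x) := by group
      _ = y⁻¹ * (x * y) := by rw [hab x hx y hy]
      _ = u⁻¹ * (u * y⁻¹ * (x * (y * y)) * y⁻¹) := by group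
      _ = _ := by rw [← a2]; group
  · rcases ((univ.filter (· ∈ J)).filter fun y => x * (y * y) = q).eq_empty_or_nonempty with
      e | ⟨y0, hy0⟩
    · rw [e]; simp
    refine le_trans (card_le_card fun y hy => ?_) (card_le_two (a := y0) (b := y0 * t))
    simp only [mem_filter, mem_univ, true_and] at hy hy0
    have a1 : y * y = y0 * y0 := mul_left_cancel (hy.2.trans hy0.2.symm)
    have a2 := ht (y0⁻¹ * y) (mul_mem (inv_mem hy0.1) hy.1) (by
      calc y0⁻¹ * y * (y0⁻¹ * y) = y0⁻¹ * (y * y0⁻¹) * y := by group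
        _ = y0⁻¹ * y0⁻¹ * (y * y) := by rw [hab y hy.1 _ (inv_mem hy0.1)]; group
        _ = 1 := by rw [a1]; group)
    simp only [mem_insert, mem_singleton]
    exact a2.imp (fun e => (inv_mul_eq_one.1 e).symm) fun e => by rw [← e]; group

end grp

theorem num_odd {w j b : ℕ} (hw : 2 ≤ w) (hj : Odd j) (hb : 0 < b)
    (h : (w + 1) * (w * j * b + 1) ≤ 4 * (w * j) + 1) : w = 2 ∧ b = 1 := by
  have hj0 : 0 < j := hj.pos
  have h1 : w * j ≤ w * j * b := Nat.le_mul_of_pos_right _ hb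
  have hw2 : w = 2 := by
    by_contra hne
    have : 4 * (w * j * b + 1) ≤ (w + 1) * (w * j * b + 1) := Nat.mul_le_mul_right _ (by omega)
    omega
  subst hw2
  refine ⟨rfl, ?_⟩
  by_contra hne
  have : 2 * j * 2 ≤ 2 * j * b := Nat.mul_le_mul_left _ (by omega)
  omega

theorem num_w2 {j r s : ℕ} (h1 : r + j = s) (h2 : r * s + j = 2 * j + 1)
    (h3 : (r + s) ∣ 2 * j + 1 + 3 * (2 * j + 1) * r) : j + 2 ∣ 12 := by
  subst h1
  have hr : r = 1 := by
    rcases r with _ | _ | r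
    · omega
    · rfl
    · nlinarith
  subst hr
  have : 1 + (1 + j) = j + 2 := by ring
  rw [this] at h3
  have h4 : 2 * j + 1 + 3 * (2 * j + 1) * 1 + 12 = (j + 2) * 8 := by ring
  exact (Nat.dvd_add_right h3).1 ⟨8, h4⟩

theorem var_c {W j c : ℤ} (e5 : W + 3 ≤ 2 * j) (e6 : 0 ≤ c) (e7 : 1 ≤ W)
    (e9 : (W * j + 1 - (c + 2) * j) ^ 2 ≤
      W * ((W + 1) * j + 1 + ((W + 1) * j - (c + 2) * j) * j - j ^ 2 - ((c + 2) * j) ^ 2)) :
    False := by
  have f1 : j * (j * ((c + 2) * ((W + 1) * (c + 2) - W))) ≤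
      j * (W ^ 2 - W + 2 * (c + 2)) + W - 1 := by linarith
  have hW : 0 ≤ W := by linarith
  have f2 : 2 * ((W + 2) + c) ≤ (c + 2) * ((W + 1) * (c + 2) - W) := by
    nlinarith [mul_nonneg e6 e6, mul_nonneg e6 hW, mul_nonneg (mul_nonneg e6 e6) hW]
  have hj : 0 ≤ j := by linarith
  have f3 : (W + 3) * ((W + 2) + c) ≤ j * ((c + 2) * ((W + 1) * (c + 2) - W)) :=
    (mul_le_mul_of_nonneg_right e5 (by linarith)).trans (by
      have := mul_le_mul_of_nonneg_left f2 hj
      linarith)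
  have f4 := mul_le_mul_of_nonneg_left f3 hj
  have f5 : 0 ≤ j * (W * c) := mul_nonneg hj (mul_nonneg hW e6)
  have f6 : 0 ≤ j * c := mul_nonneg hj e6
  have f7 : 1 * W ≤ j * W := mul_le_mul_of_nonneg_right (by linarith) hW
  nlinarith

theorem var_b {W j c : ℤ} (e6 : 0 ≤ c) (e7 : 1 ≤ W) (e8 : 2 ≤ j)
    (e3 : (2 * j) ^ 2 + ((W + 1 + c) * j) ^ 2 ≤
      (W + 1) * j * 2 + 1 + ((W + 1) * j * 2 - (W + 1 + c) * j) * (2 * j)) : False := by
  have f1 : j * (j * (W ^ 2 + 3 + c ^ 2 + 2 * (W + 2) * c)) ≤ 2 * (W + 1) * j + 1 := by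
    linarith
  have hW : 0 ≤ W := by linarith
  have f0 : W ^ 2 + 3 ≤ W ^ 2 + 3 + c ^ 2 + 2 * (W + 2) * c := by
    nlinarith [mul_nonneg e6 e6, mul_nonneg e6 hW]
  have f2 : 2 * (W ^ 2 + 3) ≤ j * (W ^ 2 + 3 + c ^ 2 + 2 * (W + 2) * c) :=
    mul_le_mul e8 f0 (by positivity) (by linarith)
  have f3 := mul_le_mul_of_nonneg_left f2 (by linarith : (0 : ℤ) ≤ j)
  have f4 : 2 * 2 ≤ j * (W ^ 2 - W + 2) := mul_le_mul e8 (by nlinarith) (by norm_num) (by linarith)
  nlinarith

theorem num_b1 {W i c N1 N2 r s e p Q : ℕ} (hW : 1 ≤ W) (hi : 1 ≤ i)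
    (h1 : (W + 3) * N1 = (W + 1) * (i + i) * c)
    (h2 : (W + 3) * N2 + c * (i + i) = (W + 2) * (i + i))
    (hq : 3 * (i + i) < 4 * N2 ∨ (i + i = 4 ∧ 2 < N2) → i + i ≤ N2)
    (hr : r + (i + i) = s) (hs : r * s + (i + i) = (W + 1) * (i + i) + 1)
    (hm : (r + s) ∣ (W + 1) * (i + i) + 1 + (W + 2) * ((W + 1) * (i + i) + 1) * r)
    (he : e + c * (i + i) = W * (i + i) + 1) (hp : p + c * (i + i) = (W + 1) * (i + i))
    (hv1 : (i + i) ^ 2 + (c * (i + i)) ^ 2 + Q ≤ (W + 1) * (i + i) + 1 + p * (i + i))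
    (hv2 : e ^ 2 ≤ W * Q) : W = 1 ∧ i = 1 := by
  have d1 : W + 3 ∣ 2 * (i + i) := by
    have a1 : W + 3 ∣ 2 * ((i + i) * c) := by
      have : (W + 3) * N1 + 2 * ((i + i) * c) = (W + 3) * ((i + i) * c) := by
        rw [h1]; ring
      exact (Nat.dvd_add_right (dvd_mul_right _ _)).1 ⟨_, this⟩
    have a2 : W + 3 ∣ 2 * ((i + i) * c) + 2 * (i + i) := by
      have : (W + 3) * (2 * N2) + (2 * ((i + i) * c) + 2 * (i + i)) =
          (W + 3) * (2 * (i + i)) := by linarith
      exact (Nat.dvd_add_right (dvd_mul_right _ _)).1 ⟨_, this⟩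
    exact (Nat.dvd_add_right a1).1 a2
  have d2 := Nat.le_of_dvd (by omega) d1
  have hc1 : c ≤ 1 := by
    by_contra hc
    obtain ⟨c, rfl⟩ : ∃ c', c = c' + 2 := ⟨c - 2, by omega⟩
    generalize i + i = j at *
    have e1 : (e : ℤ) = W * j + 1 - (c + 2) * j := by zify at he; linarith
    have e2 : (p : ℤ) = (W + 1) * j - (c + 2) * j := by zify at hp; linarith
    have e3 : (j : ℤ) ^ 2 + ((c + 2) * j) ^ 2 + Q ≤ (W + 1) * j + 1 + p * j := by
      exact_mod_cast hv1
    have e4 : (e : ℤ) ^ 2 ≤ W * Q := by exact_mod_cast hv2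
    have e9 : (e : ℤ) ^ 2 ≤ W * ((W + 1) * j + 1 + p * j - j ^ 2 - ((c + 2) * j) ^ 2) :=
      e4.trans (mul_le_mul_of_nonneg_left (by linarith) (Int.natCast_nonneg _))
    rw [e1, e2] at e9
    exact var_c (by exact_mod_cast d2) (Int.natCast_nonneg c) (by exact_mod_cast hW) e9
  have hN2' : N2 < i + i := by
    by_contra hc
    have : (W + 3) * (i + i) ≤ (W + 3) * N2 := Nat.mul_le_mul_left _ (by omega)
    have : 0 ≤ c * (i + i) := Nat.zero_le _
    linarith
  have q1 : 4 * N2 ≤ 3 * (i + i) := by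
    by_contra hc
    have := hq (Or.inl (by omega))
    omega
  have q2 : i = 2 → N2 ≤ 2 := by
    intro h
    by_contra hc
    have := hq (Or.inr ⟨by omega, by omega⟩)
    omega
  have q3 := Nat.mul_le_mul_left (W + 3) q1
  have hs' : r * (r + (i + i)) = W * (i + i) + 1 := by rw [hr]; linarith
  have hr1 : r ≤ W := by
    by_contra hc
    have : (W + 1) * (r + (i + i)) ≤ r * (r + (i + i)) := Nat.mul_le_mul_right _ (by omega)
    have : 0 ≤ (W + 1) * r := Nat.zero_le _
    linarith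
  clear hq d1 d2 h1
  interval_cases c
  · have hW : W = 1 := by
      by_contra hc
      have : 2 * i ≤ W * i := Nat.mul_le_mul_right _ (by omega)
      linarith
    subst hW
    have h5 := num_w2 hr hs hm
    have := Nat.le_of_dvd (by norm_num) h5
    have : i ≤ 5 := by omega
    interval_cases i <;> omega
  · have hW5 : W ≤ 5 := by
      by_contra hc
      have : 6 * i ≤ W * i := Nat.mul_le_mul_right _ (by omega)
      linarith
    clear hm q3 hs
    interval_cases W
    · have : e = 1 := by omega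
      subst this
      have : p = i + i := by omega
      subst this
      have : i = 1 := by nlinarith
      exact ⟨rfl, this⟩
    all_goals (clear hv1 hv2; interval_cases r <;> omega)

theorem num_even {w j a b c d N1 N2 r s e p Q : ℕ} (hw : 2 ≤ w) (hj : Even j) (hj0 : 0 < j)
    (ha : 0 < a) (hb : b = d + a) (h1 : (w + 2) * N1 = w * j * (d + c))
    (h2 : (w + 2) * N2 + c * j = j * a + w * j * b) (hN1 : N1 ≤ w * j) (hN2 : N2 ≤ j)
    (hq : 3 * j < 4 * N2 ∨ (j = 4 ∧ 2 < N2) → j ≤ N2)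
    (hr : r + a * j = s + w * j * d) (hs : r * s + a * j = w * j * b + 1)
    (hm : (r + s) ∣ w * j * b + 1 + (w + 1) * (w * j * b + 1) * r)
    (he : e + c * j + a * j = w * j * b + 1) (hp : p + c * j = w * j * b)
    (hv1 : (a * j) ^ 2 + (c * j) ^ 2 + Q ≤ w * j * b + 1 + c * j * (w * j * d) + p * (a * j))
    (hv2 : e ^ 2 ≤ (w - 1) * Q) : w = 2 ∧ j = 2 ∧ b = 1 := by
  obtain ⟨i, rfl⟩ := hj
  obtain ⟨W, rfl⟩ : ∃ W, w = W + 1 := ⟨w - 1, by omega⟩
  simp only [Nat.add_sub_cancel] at hv2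
  have hi : 1 ≤ i := by omega
  have b1 : d + c ≤ W + 1 + 2 := by
    refine Nat.le_of_mul_le_mul_left ?_ (show 0 < (W + 1) * (i + i) by positivity)
    rw [← h1, mul_comm ((W + 1) * (i + i))]
    exact Nat.mul_le_mul_left _ hN1
  have b2 : a + (W + 1) * b ≤ W + 1 + 2 + c := by
    refine Nat.le_of_mul_le_mul_left ?_ hj0
    have := Nat.mul_le_mul_left (W + 1 + 2) hN2
    linarith
  have b3 : b ≤ 2 := by
    by_contra hc
    have : (W + 2) * 3 ≤ (W + 2) * b := Nat.mul_le_mul_left _ (by omega)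
    have : (d : ℤ) + a = b := by exact_mod_cast hb.symm
    zify at *
    linarith
  have hcase : (a = 1 ∧ d = 0) ∨ (a = 1 ∧ d = 1) ∨ (a = 2 ∧ d = 0) := by omega
  rcases hcase with ⟨rfl, rfl⟩ | ⟨rfl, rfl⟩ | ⟨rfl, rfl⟩ <;> subst hb
  · simp only [zero_add, mul_one, one_mul, mul_zero, add_zero] at *
    obtain ⟨rfl, rfl⟩ := num_b1 (by omega) hi h1 (by linarith) hq hr hs hm (by linarith) hp hv1 hv2
    simp
  · exfalso
    have hr' : r = s + W * (i + i) := by linarith
    subst hr'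
    have : 1 * (i + i) ≤ W * (i + i) := Nat.mul_le_mul_right _ (by omega)
    have hs' : s * s + s * (W * (i + i)) = 2 * (W * (i + i)) + (i + i) + 1 := by linarith
    generalize W * (i + i) = t at hs' this
    clear * - hs' this hi
    rcases s with _ | _ | _ | s
    · omega
    · omega
    · omega
    · nlinarith
  · exfalso
    obtain ⟨c, rfl⟩ : ∃ c', c = W + 1 + c' := ⟨c - (W + 1), by omega⟩
    have hj2 : 2 ≤ i + i := by omega
    generalize i + i = j at *
    have e2 : (p : ℤ) = (W + 1) * j * 2 - (W + 1 + c) * j := by zify at hp; linarith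
    have e3 : (2 * (j : ℤ)) ^ 2 + ((W + 1 + c) * j) ^ 2 + Q ≤ (W + 1) * j * 2 + 1 + p * (2 * j) := by
      simp only [zero_add, mul_zero, add_zero] at hv1
      exact_mod_cast hv1
    rw [e2] at e3
    have e9 : (0 : ℤ) ≤ Q := Int.natCast_nonneg Q
    exact var_b (W := W) (j := j) (c := c) (Int.natCast_nonneg c)
      (by exact_mod_cast (show 1 ≤ W by omega)) (by exact_mod_cast hj2) (by linarith)

end Cfsg.Agent.Perm.R3
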