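import Mathlib

/-!
# Integrality of the eigenvalues and multiplicities of a strongly regular graph
-/

set_option autoImplicit false

namespace Cfsg.Agent.Perm.SrgEig

open Matrix

theorem trace_nat {V : Type*} [Fintype V] [DecidableEq V] (E : Matrix V V ℝ) (hE : E * E = E) :
    ∃ g : ℕ, E.trace = g := by
  have h1 : IsIdempotentElem (Matrix.toLin' E) := by
    change Matrix.toLin' E ∘ₗ Matrix.toLin' E = _
    rw [← Matrix.toLin'_mul, hE]
  have h2 := (LinearMap.IsIdempotentElem.isProj_range _ h1).trace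
  rw [Matrix.trace_toLin'_eq] at h2
  exact ⟨_, h2⟩

theorem srg_eig {V : Type*} [Fintype V] [DecidableEq V] {Γ : SimpleGraph V} [DecidableRel Γ.Adj]
    {n k l m : ℕ} (h : Γ.IsSRGWith n k l m) (hn : 0 < n) (hmk : m < k)
    (hc : 2 * (k : ℤ) + ((n : ℤ) - 1) * ((l : ℤ) - m) ≠ 0) :
    ∃ r s : ℕ, r + m = s + l ∧ r * s + m = k ∧ (r + s) ∣ k + (n - 1) * r := by
  set A : Matrix V V ℝ := Γ.adjMatrix ℝ with hA
  set J : Matrix V V ℝ := Matrix.of fun _ _ => 1 with hJ
  have hcard : (Fintype.card V : ℝ) = n := by exact_mod_cast h.card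
  have hC : Γᶜ.adjMatrix ℝ = J - 1 - A := by
    ext v w
    by_cases e : v = w
    · subst e; simp [hA, hJ]
    · by_cases ha : Γ.Adj v w <;> simp [hA, hJ, e, ha]
  have hAA : A * A = (k : ℝ) • (1 : Matrix V V ℝ) + (l : ℝ) • A + (m : ℝ) • (J - 1 - A) := by
    have := h.matrix_eq (α := ℝ)
    rw [hC, pow_two] at this
    rw [this]
    simp only [Nat.cast_smul_eq_nsmul]
    rfl
  have hdeg : ∀ v, (Γ.neighborFinset v).card = k := fun v => h.regular.degree_eq v
  have hAJ : A * J = (k : ℝ) • J := by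
    ext v w
    rw [hA, SimpleGraph.adjMatrix_mul_apply]
    simp [hJ, h.regular.degree_eq v]
  have hJA : J * A = (k : ℝ) • J := by
    ext v w
    rw [hA, SimpleGraph.mul_adjMatrix_apply]
    simp [hJ, h.regular.degree_eq w]
  have hJJ : J * J = (n : ℝ) • J := by
    ext v w
    simp [hJ, Matrix.mul_apply, hcard]
  obtain ⟨D, hD⟩ : ∃ D : ℕ, (D : ℤ) = ((l : ℤ) - m) ^ 2 + 4 * ((k : ℤ) - m) :=
    ⟨(((l : ℤ) - m) ^ 2 + 4 * ((k : ℤ) - m)).toNat, Int.toNat_of_nonneg (by
      have : (m : ℤ) < k := by exact_mod_cast hmk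
      positivity)⟩
  have hDr : (D : ℝ) = ((l : ℝ) - m) ^ 2 + 4 * ((k : ℝ) - m) := by exact_mod_cast hD
  have hkm : (m : ℝ) < k := by exact_mod_cast hmk
  set δ : ℝ := √D with hδ
  have hδ2 : δ ^ 2 = D := Real.sq_sqrt (Nat.cast_nonneg _)
  have hδ0 : 0 < δ := Real.sqrt_pos.2 (by rw [hDr]; have := sub_pos.2 hkm; positivity)
  set r : ℝ := ((l : ℝ) - m + δ) / 2 with hr
  have hn0 : (n : ℝ) ≠ 0 := by positivity
  set c : ℝ := ((k : ℝ) - r) / n with hcdef
  have hcn : c * n = k - r := by rw [hcdef]; field_simp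
  have hkl : (k : ℝ) * k = k + l * k + m * (n - 1 - k) := by
    obtain ⟨v⟩ : Nonempty V := Fintype.card_pos_iff.1 (h.card ▸ hn)
    have e : A * A * J = A * (A * J) := Matrix.mul_assoc _ _ _
    rw [hAA, hAJ] at e
    simp only [Matrix.add_mul, Matrix.smul_mul, Matrix.one_mul, Matrix.sub_mul, hAJ, hJJ,
      Matrix.mul_smul] at e
    have := congrFun (congrFun e v) v
    simp [hJ] at this
    linarith
  set F : Matrix V V ℝ := r • (1 : Matrix V V ℝ) - A + c • J with hF
  have hFF : F * F = δ • F := by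
    simp only [hF, Matrix.add_mul, Matrix.mul_add, Matrix.sub_mul, Matrix.mul_sub, Matrix.smul_mul,
      Matrix.mul_smul, Matrix.one_mul, Matrix.mul_one, hAA, hAJ, hJA, hJJ]
    have e1 : r * r + (k - m) = δ * r := by
      rw [hr]; nlinarith
    have e2 : (l : ℝ) - m - 2 * r = -δ := by rw [hr]; ring
    have e3 : (m : ℝ) + 2 * r * c - 2 * c * k + c * c * n = δ * c := by
      have : (n : ℝ) * (m + 2 * r * c - 2 * c * k + c * c * n) = n * (δ * c) := by
        have a1 : (n : ℝ) * (m + 2 * r * c - 2 * c * k + c * c * n) =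
            m * n + 2 * r * (c * n) - 2 * k * (c * n) + (c * n) * (c * n) := by ring
        have a2 : (n : ℝ) * (δ * c) = δ * (c * n) := by ring
        rw [a1, a2, hcn]
        have e2' : δ = 2 * r - l + m := by linarith
        have e1' : r * r + (k - m) = (2 * r - l + m) * r := by rw [← e2']; exact e1
        rw [e2']
        nlinarith
      exact mul_left_cancel₀ hn0 this
    ext v w
    simp only [Matrix.add_apply, Matrix.sub_apply, Matrix.smul_apply, smul_eq_mul]
    linear_combination (1 : Matrix V V ℝ) v w * e1 + A v w * e2 + J v w * e3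
  obtain ⟨g, hg⟩ := trace_nat (δ⁻¹ • F) (by
    rw [Matrix.smul_mul, Matrix.mul_smul, hFF, smul_smul, smul_smul]
    congr 1
    field_simp)
  have htr : F.trace = k + (n - 1) * r := by
    simp only [hF, Matrix.trace_add, Matrix.trace_sub, Matrix.trace_smul, Matrix.trace_one, hA,
      SimpleGraph.trace_adjMatrix, smul_eq_mul, hcard]
    have : J.trace = n := by simp [hJ, Matrix.trace, hcard]
    rw [this, hcn]; ring
  rw [Matrix.trace_smul, htr, smul_eq_mul] at hg
  have hg' : (k : ℝ) + (n - 1) * r = g * δ := by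
    rw [← hg]; field_simp
  have hc' : 2 * (k : ℝ) + ((n : ℝ) - 1) * ((l : ℝ) - m) ≠ 0 := by exact_mod_cast hc
  have hmain : δ * (2 * g - (n - 1)) = 2 * (k : ℝ) + ((n : ℝ) - 1) * ((l : ℝ) - m) := by
    rw [hr] at hg'; linarith
  have hne : (2 * (g : ℝ) - (n - 1)) ≠ 0 := fun e => hc' (by rw [← hmain, e, mul_zero])
  have hsq : IsSquare D := by
    by_contra hns
    apply irrational_sqrt_natCast_iff.2 hns
    refine ⟨(2 * (k : ℚ) + ((n : ℚ) - 1) * ((l : ℚ) - m)) / (2 * g - (n - 1)), ?_⟩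
    push_cast
    rw [← hmain, ← hδ]
    field_simp
  obtain ⟨d, hd⟩ := hsq
  have hδd : δ = d := by
    rw [hδ, hd]; push_cast; exact Real.sqrt_mul_self (Nat.cast_nonneg _)
  have hdz : (d : ℤ) * d = ((l : ℤ) - m) ^ 2 + 4 * ((k : ℤ) - m) := by
    rw [← hD, hd]; push_cast; ring
  have hkm' : (m : ℤ) < k := by exact_mod_cast hmk
  have hpar : Even ((l : ℤ) - m + d) := by
    have : Even (((l : ℤ) - m + d) * ((l : ℤ) - m + d)) := by
      refine ⟨((l : ℤ) - m) ^ 2 + 2 * ((k : ℤ) - m) + ((l : ℤ) - m) * d, ?_⟩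
      linear_combination hdz
    exact (Int.even_mul.1 this).elim id id
  obtain ⟨ρ, hρ⟩ := hpar
  have hd0 : (0 : ℤ) ≤ d := Int.natCast_nonneg d
  have hρ0 : 0 ≤ ρ := by
    by_contra hneg
    have : (d : ℤ) < m - l := by omega
    nlinarith
  have hσ0 : 0 ≤ (d : ℤ) - ρ := by
    by_contra hneg
    have : (d : ℤ) < l - m := by omega
    nlinarith
  obtain ⟨r0, hr0⟩ := Int.eq_ofNat_of_zero_le hρ0
  obtain ⟨s0, hs0⟩ := Int.eq_ofNat_of_zero_le hσ0
  have hrr : r = r0 := by
    have : ((l : ℝ) - m + d) = r0 + r0 := by rw [hr0] at hρ; exact_mod_cast hρ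
    rw [hr, hδd, this]; ring
  have hds : d = r0 + s0 := by omega
  refine ⟨r0, s0, by omega, ?_, ⟨g, ?_⟩⟩
  · have : (r0 : ℤ) * s0 + m = k := by
      have e1 : (l : ℤ) - m = r0 - s0 := by omega
      rw [e1, hds] at hdz
      push_cast at hdz
      nlinarith
    exact_mod_cast this
  · rw [hrr, hδd, hds] at hg'
    have : ((k + (n - 1) * r0 : ℕ) : ℝ) = ((r0 + s0) * g : ℕ) := by
      push_cast [Nat.cast_sub hn]
      push_cast at hg'
      linarith
    exact_mod_cast this

end Cfsg.Agent.Perm.SrgEig
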