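import Mathlib
import Cfsg.Agent.Perm.R3C
import Cfsg.Agent.Perm.R3N
import Cfsg.Agent.Perm.SrgEig

/-!
# Rank three groups with Frobenius stabilizer: the case `j0 = 1`
-/

set_option autoImplicit false
set_option linter.unusedSectionVars false

namespace Cfsg.Agent.Perm.R3

open MulAction Finset
open scoped Classical

theorem dc {α β : Type*} [Fintype α] [Fintype β] (P : α → β → Prop) [∀ a b, Decidable (P a b)] :
    ∑ a, (univ.filter fun b => P a b).card = ∑ b, (univ.filter fun a => P a b).card := by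
  simp only [card_filter]
  exact sum_comm

namespace Hyp

variable {G X : Type*} [Group G] [MulAction G X] (R : Hyp G X) [Fintype G] [Fintype X]

theorem sum_split (a : X) (F : X → ℕ) :
    ∑ x, F x = F a + ∑ x ∈ R.nb a, F x + ∑ x ∈ R.nn a, F x := by
  have h1 : (univ : Finset X) = insert a (R.nb a ∪ R.nn a) := by
    ext x
    simp only [mem_univ, mem_insert, mem_union, R.mem_nb, R.mem_nn, true_iff]
    exact (R.tri a x).imp Eq.symm id
  rw [h1, sum_insert (by simp), sum_union, add_assoc]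
  rw [disjoint_left]
  intro x hx hx'
  exact R.not_non (R.mem_nb.1 hx) (R.mem_nn.1 hx')

theorem sum_split' (a : X) (F : X → ℕ) {p q : ℕ} (h1 : ∀ x, R.Γ.Adj a x → F x = p)
    (h2 : ∀ x, R.Γᶜ.Adj a x → F x = q) : ∑ x, F x = F a + R.k * p + R.l * q := by
  rw [R.sum_split a, sum_congr rfl fun x hx => h1 x (R.mem_nb.1 hx),
    sum_congr rfl fun x hx => h2 x (R.mem_nn.1 hx), sum_const, sum_const, R.card_nb, R.card_nn,
    smul_eq_mul, smul_eq_mul]

/-- orbit of the kernel -/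
noncomputable def O (a x : X) : Finset X := univ.filter fun y => ∃ g ∈ R.K a, g • x = y

theorem mem_O {a x y : X} : y ∈ R.O a x ↔ ∃ g ∈ R.K a, g • x = y := by simp [O]

theorem self_mem_O (a x : X) : x ∈ R.O a x := R.mem_O.2 ⟨1, one_mem _, one_smul _ _⟩

theorem O_adj {a b : X} (h : R.Γ.Adj a b) : R.O a b = R.nb a := by
  ext y
  rw [R.mem_O, R.mem_nb]
  exact ⟨fun ⟨g, hg, e⟩ => e ▸ (R.adj_fix (R.K_fix hg)).2 h, fun hy => R.K_trans h hy⟩

theorem O_non {a c y : X} (h : R.Γᶜ.Adj a c) (hy : y ∈ R.O a c) : R.Γᶜ.Adj a y := by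
  obtain ⟨g, hg, rfl⟩ := R.mem_O.1 hy
  exact (R.non_fix (R.K_fix hg)).2 h

theorem O_eq {a c y : X} (hy : y ∈ R.O a c) : R.O a y = R.O a c := by
  obtain ⟨g, hg, rfl⟩ := R.mem_O.1 hy
  ext z
  simp only [R.mem_O]
  exact ⟨fun ⟨x, hx, e⟩ => ⟨x * g, mul_mem hx hg, by rw [mul_smul, e]⟩,
    fun ⟨x, hx, e⟩ => ⟨x * g⁻¹, mul_mem hx (inv_mem hg), by rw [mul_smul, inv_smul_smul, e]⟩⟩

theorem O_smul (g : G) {a c y : X} : g • y ∈ R.O (g • a) (g • c) ↔ y ∈ R.O a c := by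
  simp only [R.mem_O]
  constructor
  · rintro ⟨x, hx, e⟩
    obtain ⟨x, rfl⟩ : ∃ x', x = g * x' * g⁻¹ := ⟨g⁻¹ * x * g, by group⟩
    rw [conj_smul_smul] at e
    exact ⟨x, (R.K_conj g).1 hx, smul_left_cancel g e⟩
  · rintro ⟨x, hx, rfl⟩
    exact ⟨_, (R.K_conj g).2 hx, conj_smul_smul _ _ _⟩

theorem card_O (h0 : R.j0 = 1) {a c : X} (h : R.Γᶜ.Adj a c) : (R.O a c).card = R.k := by
  have := card_orb (R.K a) c (R.O a c) fun y => R.mem_O
  rwa [R.card_K_non h, h0, mul_one, R.card_K] at this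

/-- valency inside a kernel orbit -/
noncomputable def c0 : ℕ := ((R.O R.A R.C).filter (R.Γ.Adj R.C ·)).card

theorem card_O_adj {a c : X} (h : R.Γᶜ.Adj a c) :
    ((R.O a c).filter (R.Γ.Adj c ·)).card = R.c0 := by
  obtain ⟨g, rfl, rfl⟩ := R.ntr R.hAC h
  refine (Finset.card_equiv (MulAction.toPerm g) fun x => ?_).symm
  simp only [mem_filter, toPerm_apply, R.O_smul, R.adj_smul]

theorem split3 (S : Finset X) {x : X} (hx : x ∈ S) (F : X → ℕ) :
    ∑ y ∈ S, F y = F x + ∑ y ∈ S.filter (R.Γ.Adj x ·), F y +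
      ∑ y ∈ S.filter (R.Γᶜ.Adj x ·), F y := by
  have h1 : S = insert x (S.filter (R.Γ.Adj x ·) ∪ S.filter (R.Γᶜ.Adj x ·)) := by
    ext y
    simp only [mem_insert, mem_union, mem_filter]
    constructor
    · intro hy
      rcases R.tri x y with e | e | e
      · exact Or.inl e.symm
      · exact Or.inr (Or.inl ⟨hy, e⟩)
      · exact Or.inr (Or.inr ⟨hy, e⟩)
    · rintro (rfl | h | h)
      · exact hx
      · exact h.1
      · exact h.1
  conv_lhs => rw [h1]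
  rw [sum_insert (by simp), sum_union, add_assoc]
  rw [disjoint_left]
  intro y hy hy'
  exact R.not_non (mem_filter.1 hy).2 (mem_filter.1 hy').2

theorem card_O_non (h0 : R.j0 = 1) {a c : X} (h : R.Γᶜ.Adj a c) :
    ((R.O a c).filter (R.Γᶜ.Adj c ·)).card + R.c0 + 1 = R.k := by
  have := R.split3 _ (R.self_mem_O a c) fun _ => 1
  simp only [sum_const, smul_eq_mul, mul_one] at this
  rw [R.card_O h0 h, R.card_O_adj h] at this
  omega

theorem card_nb_non {a b : X} (h : R.Γ.Adj a b) :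
    ((R.nb a).filter (R.Γᶜ.Adj b ·)).card + R.lam + 1 = R.k := by
  have := R.split3 _ (R.mem_nb.2 h) fun _ => 1
  simp only [sum_const, smul_eq_mul, mul_one] at this
  have h2 : (R.nb a).filter (R.Γ.Adj b ·) = R.cm a b := by ext; simp
  rw [R.card_nb, h2, R.card_cm_adj h] at this
  omega

theorem eq_one_of_O (h0 : R.j0 = 1) {a c d : X} (h : R.Γᶜ.Adj a c) {y : G} (ha : y • a = a)
    (hc : y • c = c) (hd : d ∈ R.O a c) (hne : d ≠ c) (h3 : y • d = d) : y = 1 := by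
  obtain ⟨x, hx, e⟩ := R.mem_O.1 hd
  have h5 : x⁻¹ * (y * x * y⁻¹) = 1 := R.free_of_j0 h0 (mul_mem (inv_mem hx) (R.K_conj' ha hx))
    h.1 (by rw [mul_smul, inv_smul_eq_iff, mul_smul, mul_smul, inv_smul_eq_iff.2 hc.symm, e, h3])
  have h6 : y * x = x * y := by
    rw [inv_mul_eq_one] at h5
    exact (mul_inv_eq_iff_eq_mul.1 h5.symm)
  have hx1 : x ≠ 1 := by
    rintro rfl
    exact hne (by simpa using e.symm)
  exact R.free_of_j0 h0 (R.K_comm ha hx hx1 h6) h.1 hc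

theorem j_dvd_c0 (h0 : R.j0 = 1) : R.j ∣ R.c0 := by
  refine dvd_fin (stabilizer G R.A ⊓ stabilizer G R.C) _ (fun y hy x hx => ?_) fun y hy x hx e => ?_
  · rw [mem_filter] at hx ⊢
    refine ⟨?_, (R.adj_fix hy.2).2 hx.2⟩
    have := (R.O_smul y).2 hx.1
    rwa [show y • R.A = R.A from hy.1, show y • R.C = R.C from hy.2] at this
  · rw [mem_filter] at hx
    exact R.eq_one_of_O h0 R.hAC hy.1 hy.2 hx.1 hx.2.ne' e

theorem variance (h0 : R.j0 = 1) : ∃ e p Q w, R.l = w * R.k ∧ e + R.c0 + R.mu = R.k ∧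
    p + R.c0 + 1 = R.k ∧ R.mu ^ 2 + R.c0 ^ 2 + Q ≤ R.k + R.c0 * R.lam + p * R.mu ∧
    e ^ 2 ≤ (w - 1) * Q := by
  obtain ⟨w, hw⟩ := R.k_dvd_l h0
  set O := R.O R.A R.C with hO
  have hOn : ∀ x ∈ O, R.Γᶜ.Adj R.A x := fun x hx => R.O_non R.hAC hx
  have hOs : O ⊆ R.nn R.A := fun x hx => R.mem_nn.2 (hOn x hx)
  have hOc : O.card = R.k := R.card_O h0 R.hAC
  have hc : ∀ x ∈ O, (O.filter (R.Γ.Adj x ·)).card = R.c0 := fun x hx => by
    rw [hO, ← R.O_eq hx, R.card_O_adj (hOn x hx)]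
  obtain ⟨p, hp⟩ : ∃ p, p + R.c0 + 1 = R.k := ⟨_, R.card_O_non h0 R.hAC⟩
  have hp' : ∀ x ∈ O, (O.filter (R.Γᶜ.Adj x ·)).card = p := fun x hx => by
    have := R.card_O_non h0 (hOn x hx)
    rw [R.O_eq hx, ← hO] at this
    omega
  have he0 : ∀ x ∈ O, ((R.nn R.A \ O).filter (R.Γ.Adj x ·)).card + R.c0 + R.mu = R.k := by
    intro x hx
    rw [← R.card_nn_adj (hOn x hx), ← hc x hx, ← card_union_of_disjoint, ← filter_union,
      sdiff_union_of_subset hOs]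
    exact disjoint_filter_filter sdiff_disjoint
  obtain ⟨e, he⟩ : ∃ e, e + R.c0 + R.mu = R.k := ⟨_, he0 _ (R.self_mem_O _ _)⟩
  set d : X → ℕ := fun y => (O.filter fun x => R.Γ.Adj x y).card with hd
  have s1 : ∑ y ∈ R.nn R.A \ O, d y = R.k * e := by
    rw [hd, Spor.Srg.sum_card_adj_comm, sum_congr rfl (g := fun _ => e) fun x hx => by
      have := he0 x hx; omega, sum_const, hOc, smul_eq_mul]
  have s2 : ∑ y ∈ R.nb R.A, d y = R.k * R.mu := by
    rw [hd, Spor.Srg.sum_card_adj_comm, sum_congr rfl (g := fun _ => R.mu) fun x hx => by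
      rw [← R.card_cm_non (hOn x hx)]; congr 1; ext; simp, sum_const, hOc, smul_eq_mul]
  have s3 : ∑ y ∈ O, d y ^ 2 = R.k * R.c0 ^ 2 := by
    rw [sum_congr rfl (g := fun _ => R.c0 ^ 2) fun x hx => by
      rw [← hc x hx, hd]; simp only [R.Γ.adj_comm x], sum_const, hOc, smul_eq_mul]
  have s4 : ∑ y, d y ^ 2 = R.k * (R.k + R.c0 * R.lam + p * R.mu) := by
    rw [hd, Spor.Srg.sum_card_adj_sq,
      sum_congr rfl (g := fun _ => R.k + R.c0 * R.lam + p * R.mu) fun x hx => ?_, sum_const, hOc,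
      smul_eq_mul]
    change ∑ y ∈ O, (R.cm x y).card = _
    have a1 : ∑ y ∈ O.filter (R.Γ.Adj x ·), (R.cm x y).card = R.c0 * R.lam := by
      rw [sum_congr rfl fun y hy => R.card_cm_adj (mem_filter.1 hy).2, sum_const, hc x hx,
        smul_eq_mul]
    have a2 : ∑ y ∈ O.filter (R.Γᶜ.Adj x ·), (R.cm x y).card = p * R.mu := by
      rw [sum_congr rfl fun y hy => R.card_cm_non (mem_filter.1 hy).2, sum_const, hp' x hx,
        smul_eq_mul]
    have a3 : R.cm x x = R.nb x := by ext; simp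
    rw [R.split3 O hx, a1, a2, a3, R.card_nb]
  have s5 := R.sum_split R.A fun y => d y ^ 2
  rw [← sum_sdiff hOs, s3, s4] at s5
  have s6 := sq_sum_le_card_mul_sum_sq (s := R.nb R.A) (f := d)
  have s7 := sq_sum_le_card_mul_sum_sq (s := R.nn R.A \ O) (f := d)
  rw [s2, R.card_nb] at s6
  rw [s1, card_sdiff_of_subset hOs, hOc, R.card_nn, hw] at s7
  simp only [Nat.cast_id] at s6 s7
  generalize ∑ y ∈ R.nb R.A, d y ^ 2 = q1 at *
  generalize ∑ y ∈ R.nn R.A \ O, d y ^ 2 = q2 at *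
  have hk := R.k_pos
  have t1 : R.k * R.mu ^ 2 ≤ q1 := Nat.le_of_mul_le_mul_left (by linarith) hk
  have t2 : R.mu ^ 2 + R.c0 ^ 2 ≤ R.k + R.c0 * R.lam + p * R.mu :=
    Nat.le_of_mul_le_mul_left (by rw [s5]; nlinarith [Nat.zero_le (d R.A ^ 2)]) hk
  obtain ⟨Q, hQ⟩ := Nat.exists_eq_add_of_le t2
  refine ⟨e, p, Q, w, by rw [hw, mul_comm], he, hp, hQ.ge, ?_⟩
  have t3 : q2 ≤ R.k * Q := by
    rw [hQ] at s5
    nlinarith [Nat.zero_le (d R.A ^ 2)]
  have t4 : R.k * w - R.k = R.k * (w - 1) := by rw [Nat.mul_sub_one]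
  rw [t4] at s7
  refine Nat.le_of_mul_le_mul_left ?_ (Nat.mul_pos hk hk)
  calc R.k * R.k * e ^ 2 = (R.k * e) ^ 2 := by ring
    _ ≤ R.k * (w - 1) * q2 := s7
    _ ≤ R.k * (w - 1) * (R.k * Q) := Nat.mul_le_mul_left _ t3
    _ = _ := by ring

end Hyp

end Cfsg.Agent.Perm.R3
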