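import Mathlib
import Cfsg.Agent.Perm.R3D

/-!
# Rank three groups with Frobenius stabilizer: counting involutions, and the final parameters
-/

set_option autoImplicit false
set_option linter.unusedSectionVars false

namespace Cfsg.Agent.Perm.R3

open MulAction Finset
open scoped Classical

namespace Hyp

variable {G X : Type*} [Group G] [MulAction G X] (R : Hyp G X) [Fintype G] [Fintype X]

theorem card_inv_smul (h0 : R.j0 = 1) {a x : X} {u0 : G} (hu : IsInv u0 a) (e : u0 • x = x)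
    (hx : a ≠ x) (P : X → Prop) [DecidablePred P] :
    (univ.filter fun u : G => IsInv u a ∧ P (u • x)).card = ((R.O a x).filter P).card := by
  rw [R.card_inv_filter hu fun u => P (u • x)]
  refine card_nbij (fun g => g • x) (fun g hg => ?_) (fun g hg g' hg' e' => ?_) fun y hy => ?_
  · simp only [coe_filter, mem_univ, true_and, Set.mem_ofPred_eq, mul_smul, e, R.mem_O] at hg ⊢
    exact ⟨⟨g, hg.1, rfl⟩, hg.2⟩
  · simp only [coe_filter, mem_univ, true_and, Set.mem_ofPred_eq] at hg hg'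
    have := R.free_of_j0 h0 (mul_mem (inv_mem hg'.1) hg.1) hx
      (by rw [mul_smul, inv_smul_eq_iff]; exact e')
    exact (inv_mul_eq_one.1 this).symm
  · simp only [coe_filter, mem_univ, true_and, Set.mem_ofPred_eq, mul_smul, e, R.mem_O,
      Set.mem_image] at hy ⊢
    obtain ⟨⟨g, hg, rfl⟩, h2⟩ := hy
    exact ⟨g, ⟨hg, h2⟩, rfl⟩

include R in
theorem fix_const {a b : X} {u v : G} (hu : IsInv u a) (hv : IsInv v b) :
    (univ.filter fun e : X => IsInv u e).card = (univ.filter fun e : X => IsInv v e).card := by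
  obtain ⟨g, rfl⟩ := R.conj_inv hu hv
  exact card_smul g _ _ fun x => (inv_conj g).symm

include R in
theorem swap_count (ρ : X → X → Prop) [∀ a b, Decidable (ρ a b)]
    (hρ : ∀ (g : G) a b, ρ (g • a) (g • b) ↔ ρ a b) (a : X) :
    ∑ x, (univ.filter fun u : G => IsInv u a ∧ ρ x (u • x)).card =
      ∑ u : G, (univ.filter fun e : X => IsInv u e ∧ ρ a (u • a)).card := by
  have := R.prim
  rw [← sum_swap (G := G) (fun e x => (univ.filter fun u : G => IsInv u e ∧ ρ x (u • x)).card)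
    (fun g e x => ?_) a, dc]
  refine (card_conj_fin g _ _ fun u => ?_).symm
  rw [inv_conj, conj_smul_smul, hρ]

/-- number of involutions with fixed points mapping `a` to `y` -/
noncomputable def N (G : Type*) {X : Type*} [Group G] [MulAction G X] [Fintype G] [Fintype X]
    (a y : X) : ℕ :=
  (univ.filter fun u : G => (∃ e : X, IsInv u e) ∧ u • a = y).card

theorem N_smul (g : G) (a y : X) : N G (g • a) (g • y) = N G a y := by
  refine (card_conj_fin g _ _ fun u => ?_).symm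
  rw [conj_smul_smul, smul_left_cancel_iff]
  refine and_congr_left fun _ => ⟨fun ⟨e, he⟩ => ⟨g • e, (inv_conj g).2 he⟩, fun ⟨e, he⟩ =>
    ⟨g⁻¹ • e, (inv_conj g).1 (by rwa [smul_inv_smul])⟩⟩

theorem N_le (a y : X) : N G a y ≤ Nat.card ↥(stabilizer G a ⊓ stabilizer G y) := by
  have := fiber_le (univ.filter fun u : G => ∃ e : X, IsInv u e) a y fun u hu => by
    obtain ⟨e, he⟩ := (mem_filter.1 hu).2
    exact he.1
  rwa [filter_filter] at this

include R in
theorem sum_fix {a : X} {t : G} (ht : IsInv t a) (S : Finset X) (n : ℕ) (hS : ∀ y ∈ S, N G a y = n) :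
    ∑ u : G, (univ.filter fun e : X => IsInv u e ∧ u • a ∈ S).card =
      (univ.filter fun e : X => IsInv t e).card * (S.card * n) := by
  have h1 : (univ.filter fun u : G => (∃ e : X, IsInv u e) ∧ u • a ∈ S).card = S.card * n := by
    rw [card_eq_sum_card_fiberwise (f := fun u => u • a) (t := S) fun u hu => (mem_filter.1 hu).2.2,
      sum_congr rfl (g := fun _ => n) fun y hy => ?_, sum_const, smul_eq_mul]
    rw [← hS y hy, N, filter_filter]
    congr 1
    ext u
    simp only [mem_filter, mem_univ, true_and]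
    exact ⟨fun h => ⟨h.1.1, h.2⟩, fun h => ⟨⟨h.1, h.2 ▸ hy⟩, h.2⟩⟩
  rw [← h1, mul_comm, ← smul_eq_mul, ← sum_const, sum_filter]
  refine sum_congr rfl fun u _ => ?_
  split_ifs with h
  · obtain ⟨⟨e, he⟩, h2⟩ := h
    simp only [h2, and_true]
    exact R.fix_const he ht
  · rw [card_eq_zero, filter_eq_empty_iff]
    exact fun e _ he => h ⟨⟨e, he.1⟩, he.2⟩

theorem odd_j_bound (h0 : R.j0 = 1) (hh : Even R.h) (hj : ¬ Even R.j) :
    R.k + R.l ≤ 4 * R.h + 1 := by
  have h1 := R.swap_count (fun x y => x ≠ y) (fun g a b => (smul_left_cancel_iff g).not) R.A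
  obtain ⟨k', hk'⟩ : ∃ k', R.k = k' + 1 := ⟨R.k - 1, by have := R.k_pos; omega⟩
  rw [R.sum_split' R.A _ (p := k') (q := R.k) (fun x hx => ?_) fun x hx => ?_] at h1
  · have h2 := R.card_le_movers (univ.filter fun u : G => u * u = 1 ∧ u • R.A ≠ R.A) R.A
      (fun u hu => (mem_filter.1 hu).2.2) (fun u hu => (mem_filter.1 hu).2.1)
    have h3 : ∑ u : G, (univ.filter fun e : X => IsInv u e ∧ R.A ≠ u • R.A).card ≤
        (univ.filter fun u : G => u * u = 1 ∧ u • R.A ≠ R.A).card * 2 := by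
      rw [← smul_eq_mul, ← sum_const, sum_filter]
      refine sum_le_sum fun u _ => ?_
      split_ifs with h
      · by_contra hc
        obtain ⟨a, ha, b, hb, c, hc, h4, h5, h6⟩ := two_lt_card.1 (not_le.1 hc)
        have ha := (mem_filter.1 ha).2.1
        have hb := (mem_filter.1 hb).2.1
        have hc := (mem_filter.1 hc).2.1
        refine ha.2.1 (R.frob u ?_ ?_ h6 ha.2.2 hb.2.2 hc.2.2)
        · by_contra h7
          exact hj (R.even_j ⟨h4, h7⟩ ha hb.2.2)
        · by_contra h7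
          exact hj (R.even_j ⟨h5, h7⟩ ha hc.2.2)
      · rw [nonpos_iff_eq_zero, card_eq_zero, filter_eq_empty_iff]
        exact fun e _ he => h ⟨he.1.1, he.2.symm⟩
    have h4 : R.k * (k' + R.l) ≤ R.k * (4 * R.h) := by
      rw [← h1] at h3
      have := Nat.le_add_left (R.k * k') (univ.filter fun u : G => IsInv u R.A ∧ R.A ≠ u • R.A).card
      linarith
    have := Nat.le_of_mul_le_mul_left h4 R.k_pos
    omega
  · obtain ⟨u, h2, h3⟩ := R.exists_inv_adj hh hx
    rw [R.card_inv_smul h0 h2 h3 hx.ne (x ≠ ·), R.O_adj hx, filter_ne,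
      card_erase_of_mem (R.mem_nb.2 hx), R.card_nb]
    omega
  · rw [← R.card_inv hh R.A]
    congr 1
    ext u
    simp only [mem_filter, mem_univ, true_and, and_iff_left_iff_imp]
    exact fun hu e => hj (R.even_j hx hu e.symm)

theorem card_fix (h0 : R.j0 = 1) (hh : Even R.h) (hj : Even R.j) {t : G} (ht : IsInv t R.A) :
    (univ.filter fun e : X => IsInv t e).card * R.k = R.k + R.k + R.l := by
  have h1 := dc fun (x : X) (u : G) => IsInv u R.A ∧ u • x = x
  have key : ∀ x, R.A ≠ x → (∃ u : G, IsInv u R.A ∧ u • x = x) →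
      (univ.filter fun u : G => IsInv u R.A ∧ u • x = x).card = 1 := by
    rintro x hx ⟨u, h2, h3⟩
    rw [R.card_inv_smul h0 h2 h3 hx (· = x), card_eq_one]
    refine ⟨x, ?_⟩
    ext y
    simp only [mem_filter, mem_singleton, and_iff_right_iff_imp]
    rintro rfl
    exact R.self_mem_O _ _
  rw [R.sum_split' R.A _ (fun x hx => key x hx.ne (R.exists_inv_adj hh hx))
    fun x hx => key x hx.1 (R.exists_inv_non hj hx)] at h1
  have h2 : (univ.filter fun u : G => IsInv u R.A ∧ u • R.A = R.A).card = R.k := by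
    rw [← R.card_inv hh R.A]
    congr 1
    ext u
    simp only [mem_filter, mem_univ, true_and, and_iff_left_iff_imp]
    exact fun hu => hu.2.2
  rw [h2, mul_one, mul_one] at h1
  rw [h1, ← R.card_inv hh R.A, mul_comm, ← smul_eq_mul, ← sum_const, sum_filter]
  refine sum_congr rfl fun u _ => ?_
  split_ifs with h
  · rw [R.fix_const ht h]
    congr 1
    ext e
    simp only [mem_filter, mem_univ, true_and, h]
    exact ⟨fun he => he.2.2, fun he => ⟨h.1, h.2.1, he⟩⟩
  · rw [eq_comm, card_eq_zero, filter_eq_empty_iff]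
    exact fun e _ he => h he.1

theorem N1_eq (h0 : R.j0 = 1) (hh : Even R.h) (hj : Even R.j) {t : G} (ht : IsInv t R.A) :
    (univ.filter fun e : X => IsInv t e).card * (R.k * N G R.A R.B) =
      R.k * R.lam + R.l * R.c0 := by
  have h1 := R.swap_count R.Γ.Adj R.adj_smul R.A
  have h2 := R.sum_fix ht (R.nb R.A) (N G R.A R.B) fun y hy => by
    obtain ⟨g, h3, h4⟩ := R.etr R.hAB (R.mem_nb.1 hy)
    rw [← N_smul g R.A R.B, h3, h4]
  simp only [R.mem_nb] at h2
  rw [R.sum_split' R.A _ (p := R.lam) (q := R.c0) (fun x hx => ?_) fun x hx => ?_] at h1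
  · rw [R.card_nb] at h2
    rw [← h2, ← h1, card_eq_zero.2, zero_add]
    rw [filter_eq_empty_iff]
    exact fun u _ hu => R.Γ.irrefl (hu.1.2.2 ▸ hu.2)
  · obtain ⟨u, h3, h4⟩ := R.exists_inv_adj hh hx
    rw [R.card_inv_smul h0 h3 h4 hx.ne (R.Γ.Adj x ·), R.O_adj hx, ← R.card_cm_adj hx]
    congr 1
    ext
    simp
  · obtain ⟨u, h3, h4⟩ := R.exists_inv_non hj hx
    rw [R.card_inv_smul h0 h3 h4 hx.1 (R.Γ.Adj x ·), R.card_O_adj hx]

theorem N2_eq (h0 : R.j0 = 1) (hh : Even R.h) (hj : Even R.j) {t : G} (ht : IsInv t R.A)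
    {p q : ℕ} (hp : p + R.lam + 1 = R.k) (hq : q + R.c0 + 1 = R.k) :
    (univ.filter fun e : X => IsInv t e).card * (R.l * N G R.A R.C) = R.k * p + R.l * q := by
  have h1 := R.swap_count R.Γᶜ.Adj R.non_smul R.A
  have h2 := R.sum_fix ht (R.nn R.A) (N G R.A R.C) fun y hy => by
    obtain ⟨g, h3, h4⟩ := R.ntr R.hAC (R.mem_nn.1 hy)
    rw [← N_smul g R.A R.C, h3, h4]
  simp only [R.mem_nn] at h2
  rw [R.sum_split' R.A _ (p := p) (q := q) (fun x hx => ?_) fun x hx => ?_] at h1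
  · rw [R.card_nn] at h2
    rw [← h2, ← h1, card_eq_zero.2, zero_add]
    rw [filter_eq_empty_iff]
    exact fun u _ hu => hu.2.1 hu.1.2.2.symm
  · obtain ⟨u, h3, h4⟩ := R.exists_inv_adj hh hx
    rw [R.card_inv_smul h0 h3 h4 hx.ne (R.Γᶜ.Adj x ·), R.O_adj hx]
    have := R.card_nb_non hx
    omega
  · obtain ⟨u, h3, h4⟩ := R.exists_inv_non hj hx
    rw [R.card_inv_smul h0 h3 h4 hx.1 (R.Γᶜ.Adj x ·)]
    have := R.card_O_non h0 hx
    omega

theorem N2_quarter (h0 : R.j0 = 1) (hj : Even R.j)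
    (h : 3 * R.j < 4 * N G R.A R.C ∨ (R.j = 4 ∧ 2 < N G R.A R.C)) : R.j ≤ N G R.A R.C := by
  obtain ⟨u, hu⟩ := card_pos.1 (show 0 < N G R.A R.C by omega)
  obtain ⟨⟨e0, hu1⟩, hu2⟩ := (mem_filter.1 hu).2
  obtain ⟨t, ht1, ht2⟩ := R.exists_inv_non hj R.hAC
  set J := stabilizer G R.A ⊓ stabilizer G R.C with hJ
  set S := univ.filter fun x : G => (∃ e : X, IsInv (u * x) e) ∧ (u * x) • R.A = R.C with hSdef
  have hc : S.card = N G R.A R.C :=
    Finset.card_equiv (Equiv.mulLeft u) fun x => by simp [hSdef]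
  have hS : ∀ x ∈ S, x ∈ J ∧ u * x = x⁻¹ * u := by
    intro x hx
    obtain ⟨⟨e, h1⟩, h2⟩ := (mem_filter.1 hx).2
    have h3 := swap_back h1.1 h2
    refine ⟨Subgroup.mem_inf.2 ⟨?_, ?_⟩, ?_⟩
    · rw [mul_smul, ← hu2] at h2
      exact smul_left_cancel u h2
    · rw [mul_smul, ← swap_back hu1.1 hu2] at h3
      exact smul_left_cancel u h3
    · rw [← inv_eq_self h1.1, mul_inv_rev, inv_eq_self hu1.1]
  have hJc : Nat.card J = R.j := rfl
  have hab : ∀ x ∈ J, ∀ y ∈ J, x * y = y * x := by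
    rcases h with h | h
    · exact comm_of_quarter J u S hS (by omega)
    · have := IsPGroup.isMulCommutative_of_card_eq_prime_sq (G := J) (p := 2) (by rw [hJc, h.1]; rfl)
      intro x hx y hy
      exact congrArg Subtype.val (this.is_comm.comm (⟨x, hx⟩ : J) ⟨y, hy⟩)
  rw [← hc, ← hJc]
  refine full_of_comm J u t S hS (fun x hx y hy => ?_) (fun y hy h2 => ?_) hab (by omega)
  · obtain ⟨⟨e, h1⟩, h2⟩ := (mem_filter.1 hx).2
    refine mem_filter.2 ⟨mem_univ _, ?_⟩
    rw [mul_inv_cancel_left]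
    refine ⟨⟨y • e, (inv_conj y).2 h1⟩, ?_⟩
    conv_lhs => rw [← show y • R.A = R.A from hy.1]
    rw [conj_smul_smul, h2]
    exact hy.2
  · by_cases h1 : y = 1
    · exact Or.inl h1
    · have := R.free_of_j0 h0 (R.inv_mul_inv ⟨h2, h1, hy.1⟩ ht1) R.hAC.1
        (by rw [mul_smul, ht2, inv_smul_eq_iff]; exact Eq.symm hy.2)
      exact Or.inr (inv_mul_eq_one.1 this)

theorem small_j0 (h0 : R.j0 = 1) (hh : Even R.h) :
    (R.k = 3 ∧ R.h = 2 ∧ R.l = 6) ∨ (R.k = 5 ∧ R.h = 4 ∧ R.l = 10) := by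
  obtain ⟨e, p, Q, w, hw, he, hp, hv1, hv2⟩ := R.variance h0
  obtain ⟨a, b, a1, a2, a3, a4, a5⟩ := R.params
  have hk := R.k_pos
  have hw2 : 2 ≤ w := by
    have h1 := R.l_ne_k h0
    have h2 := R.l_pos
    rcases w with _ | _ | w <;> omega
  have hhw : R.h = w * R.j := by
    have := R.lj
    rw [hw] at this
    exact Nat.eq_of_mul_eq_mul_left hk (by rw [← this]; ring)
  obtain ⟨d, rfl⟩ : ∃ d, b = d + a := ⟨b - a, by omega⟩
  have hlam : R.lam = w * R.j * d := by rw [← hhw]; linarith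
  obtain ⟨r, s, hr, hs, hm⟩ := SrgEig.srg_eig R.srg (by omega) R.mu_lt (by
    intro h
    rw [hw] at h
    have h1 : (R.k : ℤ) * (2 + (w + 1) * ((R.lam : ℤ) - R.mu)) = 0 := by
      rw [← h]; push_cast; ring
    have h2 := (mul_eq_zero.1 h1).resolve_left (by exact_mod_cast hk.ne')
    have h3 : ((w : ℤ) + 1) ∣ 2 := ⟨(R.mu : ℤ) - R.lam, by linarith⟩
    have := Int.le_of_dvd (by norm_num) h3
    omega)
  have hn : 1 + R.k + R.l - 1 = (w + 1) * R.k := by rw [hw, add_mul]; omega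
  rw [hn] at hm
  rw [hhw] at a3
  by_cases hj : Even R.j
  · right
    obtain ⟨c, hc⟩ := R.j_dvd_c0 h0
    obtain ⟨t, ht⟩ := R.exists_inv hh R.A
    have f0 := R.card_fix h0 hh hj ht
    have f1 := R.N1_eq h0 hh hj ht
    have f2 := R.N2_eq h0 hh hj ht (p := w * R.j * a) (q := p) (by rw [hlam, a3]; ring) hp
    have f3 : (univ.filter fun e : X => IsInv t e).card = w + 2 :=
      Nat.eq_of_mul_eq_mul_right hk (by rw [f0, hw]; ring)
    rw [f3, hw] at f1 f2
    have g1 : (w + 2) * N G R.A R.B = w * R.j * (d + c) :=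
      Nat.eq_of_mul_eq_mul_left hk (by rw [hlam, hc] at f1; linarith)
    have g2 : (w + 2) * N G R.A R.C = R.j * a + p :=
      Nat.eq_of_mul_eq_mul_left (Nat.mul_pos hk (show 0 < w by omega)) (by linarith)
    have g3 : p + c * R.j = w * R.j * (d + a) := by rw [hc] at hp; linarith
    have n1 : N G R.A R.B ≤ w * R.j := hhw ▸ N_le R.A R.B
    have n2 : N G R.A R.C ≤ R.j := N_le R.A R.C
    have g4 : (w + 2) * N G R.A R.C + c * R.j = R.j * a + w * R.j * (d + a) := by linarith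
    rw [mul_comm R.j c] at hc
    rw [a5, hlam] at hr
    rw [a5, a3] at hs
    rw [a3] at hm
    rw [a5, hc, a3] at he
    rw [a5, hc, a3, hlam] at hv1
    obtain ⟨b1, b2, b3⟩ := num_even hw2 hj R.j_pos a1 rfl g1 g4 n1 n2
      (R.N2_quarter h0 hj) hr hs hm he g3 hv1 hv2
    rw [b1, b2, b3] at a3
    rw [b1, b2] at hhw
    rw [b1, a3] at hw
    exact ⟨a3, hhw, hw⟩
  · left
    have f1 := R.odd_j_bound h0 hh hj
    obtain ⟨b1, b2⟩ := num_odd hw2 (Nat.not_even_iff_odd.1 hj) (show 0 < d + a by omega)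
      (by rw [← a3, ← hhw, add_mul, ← hw]; omega)
    obtain ⟨rfl, rfl⟩ : a = 1 ∧ d = 0 := by omega
    subst b1
    rw [a5, hlam] at hr
    rw [a5, a3] at hs
    rw [a3] at hm
    have f2 := num_w2 (j := R.j) (r := r) (s := s) (by omega) (by simpa using hs)
      (by simpa using hm)
    have f3 := Nat.le_of_dvd (by norm_num) f2
    have f4 : R.j = 1 := by
      have := R.j_pos
      rw [Nat.not_even_iff_odd, Nat.odd_iff] at hj
      have : R.j ≤ 10 := by omega
      generalize R.j = j at *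
      interval_cases j <;> omega
    omega

include R in
theorem final (hG : Even (Nat.card G)) :
    (Fintype.card X = 10 ∧ Nat.card G = 60) ∨
      (Fintype.card X = 16 ∧ (Nat.card G = 320 ∨ Nat.card G = 576)) := by
  have hh := R.even_h hG
  rw [R.card_X, R.card_G]
  by_cases h0 : R.j0 = 1
  · rcases R.small_j0 h0 hh with ⟨h1, h2, h3⟩ | ⟨h1, h2, h3⟩ <;> simp [h1, h2, h3]
  · obtain ⟨h1, h2, h3⟩ := R.big_j0 h0 hh
    simp [h1, h2, h3]

end Hyp

end Cfsg.Agent.Perm.R3
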