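import Mathlib
import Cfsg.Agent.Cl.PSL2Struct
import Cfsg.Agent.Cl.PSL2Fields

/-!
Arithmetic for simple groups of degree `3p` with Sylow `p`-normalizer of order `2p`.
-/

set_option autoImplicit false
set_option linter.style.haveILetI false

namespace Cfsg.Agent.Perm.TP

open Subgroup MulAction Cfsg.Agent.Cl.L2
open scoped MatrixGroups

theorem dvd_of_cong {p n d m c : ℕ} (hp : 0 < p) (hn : n ≡ 1 [MOD p])
    (h : d * (2 * p * n) = p * m) (hm : (m : ZMod p) = c) : (p : ℤ) ∣ 2 * d - c := by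
  have h1 : d * (2 * n) = m := Nat.eq_of_mul_eq_mul_left hp (by rw [← h]; ring)
  have h2 : (n : ZMod p) = 1 := by simpa using (ZMod.natCast_eq_natCast_iff _ _ _).2 hn
  rw [← ZMod.intCast_zmod_eq_zero_iff_dvd]
  push_cast
  rw [← hm, ← h1]
  push_cast
  rw [h2]
  ring

theorem eq_zero_of_small {p : ℕ} (h5 : 5 ≤ p) {a : ℤ} (h : (p : ℤ) ∣ a) (h1 : -5 < a)
    (h2 : a < 5) : a = 0 :=
  Int.eq_zero_of_dvd_of_natAbs_lt_natAbs h (by omega)

theorem ar_u3 {p q g d : ℕ} (hp : p.Prime) (hq : 3 ≤ q) (hg : p ∣ g)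
    (h : d * g = q ^ 3 * ((q ^ 2 - 1) * (q ^ 3 + 1))) : p ≤ q + 1 ∨ p ∣ q ^ 2 - q + 1 := by
  obtain ⟨r, rfl⟩ : ∃ r, q = r + 1 := ⟨q - 1, by omega⟩
  have e1 : (r + 1) ^ 2 - 1 = r * (r + 2) := Nat.sub_eq_of_eq_add (by ring)
  have e2 : (r + 1) ^ 2 - (r + 1) + 1 = r ^ 2 + r + 1 := by
    rw [Nat.sub_eq_of_eq_add (show (r + 1) ^ 2 = r ^ 2 + r + (r + 1) by ring)]
  have e3 : (r + 1) ^ 3 + 1 = (r + 2) * (r ^ 2 + r + 1) := by ring
  have h1 : p ∣ (r + 1) ^ 3 * (r * (r + 2) * ((r + 2) * (r ^ 2 + r + 1))) := by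
    rw [← e1, ← e3, ← h]; exact hg.mul_left d
  rw [e2]
  simp only [hp.dvd_mul] at h1
  rcases h1 with h1 | (h1 | h1) | h1 | h1
  · have := Nat.le_of_dvd (by omega) (hp.dvd_of_dvd_pow h1); omega
  · have := Nat.le_of_dvd (by omega) h1; omega
  · have := Nat.le_of_dvd (by omega) h1; omega
  · have := Nat.le_of_dvd (by omega) h1; omega
  · exact Or.inr h1

theorem ar_l3 {p q n : ℕ} (hp : p.Prime) (h3 : 3 < p) (hq : 3 ≤ q) (hodd : Odd q)
    (hn : n ≡ 1 [MOD p]) (hi : (q ^ 3 - 1) / (q - 1) ≤ 3 * p)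
    (h : Nat.gcd 3 (q - 1) * (2 * p * n) = q ^ 3 * ((q ^ 2 - 1) * (q ^ 3 - 1))) : False := by
  have h5 : 5 ≤ p := hp.five_le_of_ne_two_of_ne_three (by omega) (by omega)
  obtain ⟨r, rfl⟩ : ∃ r, q = r + 1 := ⟨q - 1, by omega⟩
  have e1 : (r + 1) ^ 2 - 1 = r * (r + 2) := Nat.sub_eq_of_eq_add (by ring)
  have e2 : (r + 1) ^ 3 - 1 = r * (r ^ 2 + 3 * r + 3) := Nat.sub_eq_of_eq_add (by ring)
  rw [e2, Nat.add_sub_cancel, Nat.mul_div_cancel_left _ (by omega)] at hi
  rw [e1, e2, Nat.add_sub_cancel] at h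
  have h1 : p ∣ (r + 1) ^ 3 * (r * (r + 2) * (r * (r ^ 2 + 3 * r + 3))) := by
    rw [← h]; exact Dvd.intro (Nat.gcd 3 r * (2 * n)) (by ring)
  simp only [hp.dvd_mul] at h1
  have hlt : r + 2 < p := by nlinarith
  obtain ⟨k, hk⟩ : p ∣ r ^ 2 + 3 * r + 3 := by
    rcases h1 with h1 | (h1 | h1) | h1 | h1
    · have := Nat.le_of_dvd (by omega) (hp.dvd_of_dvd_pow h1); omega
    · have := Nat.le_of_dvd (by omega) h1; omega
    · have := Nat.le_of_dvd (by omega) h1; omega
    · have := Nat.le_of_dvd (by omega) h1; omega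
    · exact h1
  have hz : ((r : ZMod p) ^ 2 + 3 * r + 3) = 0 := by
    have := congrArg (Nat.cast : ℕ → ZMod p) hk
    simpa using this
  have h2 := dvd_of_cong (m := (r + 1) ^ 3 * (r * (r + 2) * (r * k))) (c := 3 * k) hp.pos hn
    (by rw [h, hk]; ring) (by
      push_cast
      linear_combination (k * (r ^ 4 + 2 * r ^ 3 + r - 1) : ZMod p) * hz)
  have hk3 : k ≤ 3 := by nlinarith
  obtain ⟨s, hs⟩ := hodd
  have hr : r = 2 * s := by omega
  have hk2 : k ≠ 2 := by
    rintro rfl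
    rw [hr] at hk
    have : (2 * s) ^ 2 = 2 * (2 * s ^ 2) := by ring
    omega
  have hk0 : k ≠ 0 := by rintro rfl; omega
  have hd : Nat.gcd 3 r = 1 ∨ Nat.gcd 3 r = 3 := (Nat.dvd_prime Nat.prime_three).1 (Nat.gcd_dvd_left _ _)
  have hk' : k = 1 ∨ k = 3 := by omega
  rcases hd with hd | hd <;> rcases hk' with rfl | rfl <;> rw [hd] at h2
  · have := eq_zero_of_small h5 h2 (by norm_num) (by norm_num); omega
  · have h7 : p ∣ 7 := by
      have : (p : ℤ) ∣ 7 := by simpa using h2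
      exact_mod_cast this
    obtain rfl : p = 7 := (Nat.prime_dvd_prime_iff_eq hp (by norm_num)).1 h7
    have : s < 3 := by omega
    subst hr
    interval_cases s <;> omega
  · have := eq_zero_of_small h5 h2 (by norm_num) (by norm_num); omega
  · have := eq_zero_of_small h5 h2 (by norm_num) (by norm_num); omega

theorem ar_l2 {p q n d : ℕ} (hp : p.Prime) (h3 : 3 < p) (hq : 4 ≤ q) (hd : d = 1 ∨ d = 2)
    (hn : n ≡ 1 [MOD p]) (hi : q + 1 ≤ 3 * p) (h : 2 * p * n * d = q * (q - 1) * (q + 1)) :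
    q = 5 ∨ q + 1 = d * p ∨ q = d * p + 1 := by
  have h5 : 5 ≤ p := hp.five_le_of_ne_two_of_ne_three (by omega) (by omega)
  obtain ⟨r, rfl⟩ : ∃ r, q = r + 1 := ⟨q - 1, by omega⟩
  rw [Nat.add_sub_cancel, mul_comm] at h
  have h1 : p ∣ (r + 1) * r * (r + 1 + 1) := by
    rw [← h]; exact Dvd.intro (d * (2 * n)) (by ring)
  simp only [hp.dvd_mul] at h1
  rcases h1 with (⟨k, hk⟩ | ⟨k, hk⟩) | ⟨k, hk⟩
  · have hz : ((r : ZMod p) + 1) = 0 := by
      simpa using congrArg (Nat.cast : ℕ → ZMod p) hk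
    have h2 := dvd_of_cong (m := k * r * (r + 1 + 1)) (c := k * (p - 1)) hp.pos hn
      (by rw [h]; nth_rw 1 [hk]; ring) (by
        rw [Nat.cast_mul k (p - 1), Nat.cast_pred hp.pos]
        push_cast
        rw [ZMod.natCast_self]
        linear_combination (k * (r + 1) : ZMod p) * hz)
    have h4 : (p : ℤ) ∣ 2 * d + k := by
      have := h2.add (Dvd.intro (k : ℤ) rfl : (p : ℤ) ∣ p * k)
      rw [Nat.cast_mul, Nat.cast_pred hp.pos] at this
      rwa [show 2 * (d : ℤ) - k * (p - 1) + p * k = 2 * d + k by ring] at this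
    have hk3 : k < 3 := by nlinarith
    have hk0 : k ≠ 0 := by rintro rfl; omega
    have h6 : p ∣ 2 * d + k := by exact_mod_cast h4
    have h7 := Nat.le_of_dvd (by omega) h6
    have : p = 5 ∨ p = 6 := by omega
    rcases this with rfl | rfl
    · omega
    · norm_num at hp
  · have hz : (r : ZMod p) = 0 := by simpa using congrArg (Nat.cast : ℕ → ZMod p) hk
    have h2 := dvd_of_cong (m := (r + 1) * k * (r + 1 + 1)) (c := 2 * k) hp.pos hn
      (by rw [h]; nth_rw 2 [hk]; ring) (by push_cast; rw [hz]; ring)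
    have hk3 : k < 3 := by nlinarith
    have hk0 : k ≠ 0 := by rintro rfl; omega
    have := eq_zero_of_small h5 h2 (by omega) (by omega)
    have : k = d := by omega
    subst this
    right; right; rw [hk, mul_comm]
  · have hz : ((r : ZMod p) + 1 + 1) = 0 := by
      simpa using congrArg (Nat.cast : ℕ → ZMod p) hk
    have h2 := dvd_of_cong (m := (r + 1) * r * k) (c := 2 * k) hp.pos hn
      (by rw [h, hk]; ring) (by push_cast; linear_combination (k * (r - 1) : ZMod p) * hz)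
    have hk3 : k ≤ 3 := by nlinarith
    have hk0 : k ≠ 0 := by rintro rfl; omega
    have := eq_zero_of_small h5 h2 (by omega) (by omega)
    have : k = d := by omega
    subst this
    right; left; rw [hk, mul_comm]

theorem l2_sub {F : Type*} [Field F] [Finite F] {q : ℕ} (hF : Nat.card F = q) (hq : 4 ≤ q)
    (H : Subgroup PSL(2, F))
    (h : 3 * Nat.card H = q * (q - 1) ∨ (6 ≤ q ∧ 3 * Nat.card H = q * (q + 1))) :
    3 * Nat.card H = q * (q - 1) ∧ (q = 9 ∨ (2 ∣ q ∧ ¬ IsCoatom H)) := by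
  haveI := Fintype.ofFinite F
  obtain ⟨l, hl⟩ := CharP.exists F
  obtain ⟨a, hl', ha⟩ := FiniteField.card F l
  haveI : Fact l.Prime := ⟨hl'⟩
  rw [← Nat.card_eq_fintype_card, hF] at ha
  have h4 : 2 ∣ q → 4 ∣ q := fun h2 => by
    obtain rfl : 2 = l := (Nat.prime_dvd_prime_iff_eq Nat.prime_two hl').1
      (Nat.prime_two.dvd_of_dvd_pow (ha ▸ h2))
    have : 2 ≤ (a : ℕ) := by
      by_contra h
      have : (a : ℕ) = 0 ∨ (a : ℕ) = 1 := by omega
      rcases this with e | e <;> rw [e] at ha <;> omega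
    rw [ha]
    exact pow_dvd_pow 2 this
  obtain ⟨r, rfl⟩ : ∃ r, q = r + 1 := ⟨q - 1, by omega⟩
  rw [Nat.add_sub_cancel] at h ⊢
  have hd : (Nat.gcd 2 r = 1 ∧ 2 ∣ r + 1) ∨ (Nat.gcd 2 r = 2 ∧ 2 ∣ r) := by
    rcases Nat.even_or_odd r with h | h
    · exact Or.inr ⟨Nat.gcd_eq_left h.two_dvd, h.two_dvd⟩
    · exact Or.inl ⟨Nat.coprime_two_left.2 h, h.add_one.two_dvd⟩
  have hsmall : Nat.card H ≤ 60 → r ≤ 13 := fun h1 => by rcases h with h | ⟨-, h⟩ <;> nlinarith
  have c12 : Nat.card (alternatingGroup (Fin 4)) = 12 := by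
    rw [nat_card_alternatingGroup]; simp; rfl
  have c24 : Nat.card (Equiv.Perm (Fin 4)) = 24 := by simp [Fintype.card_perm]; rfl
  have c60 : Nat.card (alternatingGroup (Fin 5)) = 60 := by
    rw [nat_card_alternatingGroup]; simp; rfl
  have n60 : Nat.card H ≠ 60 := fun e => by
    have := hsmall e.le
    rw [e] at h
    interval_cases r <;> omega
  rcases dickson_psl l H with ⟨x, hx⟩ | ⟨g, -, ht, hg⟩ | ⟨hu, ⟨⟨e⟩⟩ | ⟨⟨e⟩⟩ | ⟨⟨e⟩⟩⟩ | ⟨-, ⟨e⟩⟩ |
    ⟨k, c, hk⟩
  · obtain ⟨c, hc⟩ := card_dvd_of_le hx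
    have h1 := card_stabilizerS_mul x
    rw [hF, Nat.add_sub_cancel, hc] at h1
    rcases h with h | ⟨h6, h⟩
    · have h2 : c * Nat.gcd 2 r = 3 := Nat.eq_of_mul_eq_mul_left (Nat.card_pos (α := H))
        (by rw [← mul_assoc, h1, ← h, mul_comm])
      rcases hd with ⟨hd, hd'⟩ | ⟨hd, -⟩ <;> rw [hd] at h2
      · refine ⟨h, Or.inr ⟨hd', fun hH => ?_⟩⟩
        have h3 := index_stabilizerS x
        rcases hx.eq_or_lt with e | e
        · rw [← e] at hc
          have := Nat.card_pos (α := H)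
          nlinarith
        · rw [hH.2 _ e, index_top] at h3
          omega
      · omega
    · exfalso
      have h2 : c * Nat.gcd 2 r * (r + 2) = 3 * r := Nat.eq_of_mul_eq_mul_left (by omega : 0 < r + 1)
        (by rw [mul_left_comm, ← h]; linear_combination 3 * h1)
      generalize c * Nat.gcd 2 r = j at h2
      have : j < 3 := by nlinarith
      interval_cases j <;> omega
  · exfalso
    have h1 := card_dvd_of_le hg
    rw [card_ntorS ht] at h1
    have h2 := card_torS_mul_or ht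
    rw [hF, Nat.add_sub_cancel] at h2
    rcases hd with ⟨hd, hd'⟩ | ⟨hd, hd'⟩ <;> rw [hd] at h2
    · have h3 : 4 ∣ Nat.card H := by
        refine (Nat.Coprime.dvd_mul_left (by norm_num : Nat.Coprime 4 3)).1 ?_
        rcases h with h | ⟨-, h⟩ <;> rw [h] <;> exact (h4 hd').mul_right _
      have := h3.trans h1
      have := h4 hd'
      omega
    · have h3 := Nat.le_of_dvd (by omega) h1
      rcases h with h | ⟨-, h⟩ <;> rcases h2 with h2 | h2 <;> nlinarith [show 4 ≤ r by omega]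
  · have e' := (Nat.card_congr e.toEquiv).trans c12
    have := hsmall (by omega)
    rw [e'] at h
    interval_cases r <;> omega
  · have e' := (Nat.card_congr e.toEquiv).trans c24
    have := hsmall (by omega)
    by_cases h7 : r = 7
    · exfalso
      subst h7
      obtain rfl : 2 = l := (Nat.prime_dvd_prime_iff_eq Nat.prime_two hl').1
        (Nat.prime_two.dvd_of_dvd_pow (n := a) (by rw [← ha]; norm_num))
      obtain ⟨t, ht⟩ := exists_prime_orderOf_dvd_card' (G := H) 2 (by rw [e']; norm_num)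
      have ht' : orderOf (t : PSL(2, F)) = 2 := by rw [Subgroup.orderOf_coe, ht]
      exact hu t t.2 (fun e => by simp [e] at ht')
        (tauS_eq_four_of_orderOf_two (by exact_mod_cast CharP.cast_eq_zero F 2) ht')
    rw [e'] at h ⊢
    interval_cases r <;> omega
  · exact absurd ((Nat.card_congr e.toEquiv).trans c60) n60
  · exact absurd ((Nat.card_congr e.toEquiv).trans c60) n60
  obtain ⟨m, hm1, hm⟩ := card_subfield_pow k
  obtain ⟨e, he, hH⟩ : ∃ e, e ≤ 2 ∧
      Nat.card H * e = Nat.card k * (Nat.card k - 1) * (Nat.card k + 1) := by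
    rw [← card_map_of_injective (K := H) emb_injective]
    rcases hk with hk | hk <;> rw [hk, card_cj]
    · exact ⟨_, Nat.gcd_le_left _ two_pos, card_subPSL_mul k⟩
    · exact ⟨1, by norm_num, by rw [mul_one, card_subPGL]⟩
  have hk2 : 1 < Nat.card k := Finite.one_lt_card
  obtain ⟨s, hs⟩ : ∃ s, Nat.card k = s + 1 := ⟨Nat.card k - 1, by omega⟩
  rw [hs, hF] at hm
  rw [hs, Nat.add_sub_cancel] at hH
  have he0 : e ≠ 0 := by
    rintro rfl
    have : 0 < (s + 1) * s * (s + 1 + 1) := by positivity [show 0 < s by omega]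
    omega
  have hle : (r + 1) * r ≤ 3 * ((s + 1) * s * (s + 1 + 1)) := by
    rw [← hH]
    have : 3 * Nat.card H ≤ 3 * (Nat.card H * e) := by
      have := Nat.pos_of_ne_zero he0
      nlinarith
    rcases h with h | ⟨-, h⟩ <;> nlinarith
  rcases hm1.eq_or_lt with rfl | hm2
  · exfalso
    rw [pow_one] at hm
    obtain rfl : s = r := by omega
    have : 3 * ((s + 1) * s * (s + 1 + 1)) ≤ 2 * ((s + 1) * (s + 1 + 1)) := by
      rw [← hH]
      rcases h with h | ⟨-, h⟩ <;> nlinarith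
    nlinarith
  have h9 : (s + 1) ^ 2 ≤ r + 1 := hm ▸ Nat.pow_le_pow_right (by omega) hm2
  have hs2 : s ≤ 2 := by
    by_contra h
    have h1 : s * (s + 2) ≤ r := by nlinarith
    have h2 : (s + 1) ^ 2 * (s * (s + 2)) ≤ (r + 1) * r := Nat.mul_le_mul h9 h1
    have h3 : 0 < (s + 1) * s * (s + 2) := by positivity [show 0 < s by omega]
    nlinarith
  have hs' : s = 1 ∨ s = 2 := by omega
  rcases hs' with rfl | rfl
  · exfalso
    have : r = 3 := by nlinarith
    subst this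
    interval_cases e <;> omega
  · have : r = 8 := by nlinarith
    subst this
    interval_cases e <;> omega

end Cfsg.Agent.Perm.TP
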