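import Mathlib
import Cfsg.Agent.Ch.ClassPairs
import Cfsg.Agent.Ch.FT3Char
import Cfsg.Agent.Ch.Linear

/-!
A cyclic TI-subgroup of odd order with dihedral normalizer: one class of involutions.
-/

set_option autoImplicit false
set_option linter.style.haveILetI false

namespace Cfsg.Agent.Perm.TP

open scoped ComplexConjugate
open Subgroup Cfsg.Agent.Ch

variable {G : Type*} [Group G]

/-- `⟨x⟩` is a TI-subgroup of odd order whose normalizer is dihedral, generated by `x`, `τ`. -/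
structure SD (x τ : G) : Prop where
  odd : Odd (orderOf x)
  ne : x ≠ 1
  inv : τ * x * τ⁻¹ = x⁻¹
  ti : ∀ g : G, ∀ y ∈ zpowers x, y ≠ 1 → g * y * g⁻¹ ∈ zpowers x →
    g ∈ zpowers x ∨ τ⁻¹ * g ∈ zpowers x

namespace SD

variable {x τ : G} (h : SD x τ)
include h

theorem inv_of_mem {y : G} (hy : y ∈ zpowers x) : τ * y * τ⁻¹ = y⁻¹ := by
  obtain ⟨k, rfl⟩ := mem_zpowers_iff.1 hy
  rw [← conj_zpow, h.inv, inv_zpow]

theorem inv_of_mem' {y : G} (hy : y ∈ zpowers x) : τ⁻¹ * y * τ = y⁻¹ := by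
  have := h.inv_of_mem (inv_mem hy)
  rw [inv_inv] at this
  calc τ⁻¹ * y * τ = τ⁻¹ * (τ * y⁻¹ * τ⁻¹) * τ := by rw [this]
    _ = y⁻¹ := by group

theorem eq_one_of_sq {y : G} (hy : y ∈ zpowers x) (h2 : y * y = 1) : y = 1 := by
  have h1 : orderOf y ∣ 2 := orderOf_dvd_of_pow_eq_one (by rw [pow_two, h2])
  have h3 : orderOf y ∣ orderOf x := orderOf_dvd_of_mem_zpowers hy
  have := Nat.dvd_gcd h1 h3
  rw [(Nat.coprime_two_left.2 h.odd).gcd_eq_one] at this
  exact orderOf_eq_one_iff.1 (Nat.dvd_one.1 this)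

theorem not_mem : τ ∉ zpowers x := fun hτ => by
  obtain ⟨k, rfl⟩ := mem_zpowers_iff.1 hτ
  have := h.inv
  rw [← (Commute.zpow_left (Commute.refl x) k).symm.eq, mul_inv_cancel_right] at this
  exact h.ne (h.eq_one_of_sq (mem_zpowers x) (by nth_rw 2 [this]; exact mul_inv_cancel x))

theorem isConj_mul {z : G} (hz : z ∈ zpowers x) : IsConj τ (τ * z) := by
  obtain ⟨k, hk⟩ := h.odd
  obtain ⟨j, rfl⟩ := mem_zpowers_iff.1 hz
  have hw : (x ^ j) ^ (k + 1) ∈ zpowers x := pow_mem hz _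
  have hww : (x ^ j) ^ (k + 1) * (x ^ j) ^ (k + 1) = x ^ j := by
    rw [← pow_add, show k + 1 + (k + 1) = orderOf x + 1 by omega, pow_succ,
      orderOf_dvd_iff_pow_eq_one.1 (orderOf_dvd_of_mem_zpowers hz), one_mul]
  refine isConj_iff.2 ⟨((x ^ j) ^ (k + 1))⁻¹, ?_⟩
  have := h.inv_of_mem' (inv_mem hw)
  rw [inv_inv] at this ⊢
  calc _ = τ * (τ⁻¹ * ((x ^ j) ^ (k + 1))⁻¹ * τ) * (x ^ j) ^ (k + 1) := by group
    _ = _ := by rw [this, mul_assoc, hww]

theorem isConj_of_inverts {a y : G} (ha : a * a = 1) (ha1 : a ≠ 1) (hy : y ∈ zpowers x)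
    (hy1 : y ≠ 1) (hay : a * y * a⁻¹ = y⁻¹) : IsConj τ a := by
  rcases h.ti a y hy hy1 (hay ▸ inv_mem hy) with h1 | h1
  · exact absurd (h.eq_one_of_sq h1 ha) ha1
  · have := h.isConj_mul h1
    rwa [mul_inv_cancel_left] at this

theorem exists_char [Finite G] : ∃ f : zpowers x →* ℂˣ, f ≠ 1 ∧ f ≠ f⁻¹ := by
  letI : CommGroup (zpowers x) := IsCyclic.commGroup
  haveI : NeZero ((Monoid.exponent (zpowers x) : ℕ) : ℂ) :=
    ⟨Nat.cast_ne_zero.2 Monoid.exponent_ne_zero_of_finite⟩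
  obtain ⟨f, hf⟩ := CommGroup.exists_apply_ne_one_of_hasEnoughRootsOfUnity (zpowers x) ℂ
    (a := ⟨x, mem_zpowers x⟩) (fun e => h.ne (congrArg Subtype.val e))
  refine ⟨f, fun e => hf (by rw [e]; rfl), fun e => hf ?_⟩
  have h1 : f ⟨x, mem_zpowers x⟩ * f ⟨x, mem_zpowers x⟩ = 1 := by
    nth_rw 2 [e]; simp
  have h2 : f ⟨x, mem_zpowers x⟩ ^ orderOf x = 1 := by
    rw [← map_pow]
    convert map_one f
    exact Subtype.ext (pow_orderOf_eq_one x)
  obtain ⟨k, hk⟩ := h.odd
  rwa [hk, pow_succ, pow_mul, pow_two, h1, one_pow, one_mul] at h2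

theorem one_class [Finite G] [IsSimpleGroup G] {u : G} (hu : orderOf u = 2) : IsConj τ u := by
  classical
  haveI := Fintype.ofFinite G
  by_contra hne
  have hu2 : u * u = 1 := by rw [← pow_two, ← hu, pow_orderOf_eq_one]
  have hu1 : u ≠ 1 := fun e => by simp [e] at hu
  obtain ⟨f, hf1, hf2⟩ := h.exists_char
  let θ : zpowers x → ℂ := (fun g => ((1 : zpowers x →* ℂˣ) g : ℂ)) - fun g => (f g : ℂ)
  have hθ1 : θ 1 = 0 := by simp [θ]
  have hθ : IsClassFunction (zpowers x) θ := by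
    intro a b
    have : Commute a b := by
      letI : CommGroup (zpowers x) := IsCyclic.commGroup
      exact mul_comm a b
    first
      | rw [this.eq, mul_inv_cancel_right]
      | rw [← this.eq, mul_inv_cancel_right]
  let α := indFun (zpowers x) θ
  have hα : IsClassFunction G α := indFun_isClassFunction _ θ
  have hres : (fun g : zpowers x => α g) = θ + ((fun g => ((1 : zpowers x →* ℂˣ) g : ℂ)) -
      fun g => ((f⁻¹) g : ℂ)) := by
    funext g
    by_cases hg : g = 1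
    · subst hg
      simp only [α, OneMemClass.coe_one, indFun_one, hθ1, Pi.add_apply, Pi.sub_apply]
      simp
    have hg' : (g : G) ≠ 1 := fun e => hg (Subtype.ext e)
    have := TI.indFun_eq_add hθ (g : G) τ h.not_mem fun y z hz _ => by
      have h1 : y * z * y⁻¹ = g := by rw [hz]; group
      refine h.ti y z z.2 (fun e => hg' ?_) (h1 ▸ g.2)
      rw [← h1, e]; group
    simp only [α]
    rw [this, h.inv_of_mem' g.2, TI.ext_coe, ← Subgroup.coe_inv, TI.ext_coe]
    simp [θ]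
  have hint : ∀ χ : IrrCharacter G, ∃ v : ℤ, classInner α χ = v := fun χ => by
    have hχ : IsCharacter (zpowers x) fun g : zpowers x => (χ : G → ℂ) g :=
      χ.isCharacter.comp (zpowers x).subtype
    obtain ⟨m, hm⟩ :=
      (isIrrCharacter_monoidHom_units (1 : zpowers x →* ℂˣ)).isCharacter.exists_nat_classInner hχ
    obtain ⟨n, hn⟩ := (isIrrCharacter_monoidHom_units f).isCharacter.exists_nat_classInner hχ
    refine ⟨m - n, ?_⟩
    rw [TI.classInner_indFun _ _ χ.isCharacter.isClassFunction, classInner_sub_left, hm, hn]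
    push_cast; rfl
  choose v hv using hint
  have hnorm : classInner α α = 3 := by
    rw [TI.classInner_indFun _ _ hα, hres]
    simp only [θ, classInner_add_right, classInner_sub_left, classInner_sub_right,
      classInner_monoidHom_units, if_true, if_neg hf1, if_neg hf1.symm, if_neg hf2,
      if_neg (show (1 : zpowers x →* ℂˣ) ≠ f⁻¹ from fun e => hf1 (MonoidHom.ext fun g => by
        simpa using DFunLike.congr_fun e.symm g))]
    norm_num
  have hv1 : v (irrOne G) = 1 := by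
    have := hv (irrOne G)
    rw [TI.classInner_indFun _ _ (irrOne G).isCharacter.isClassFunction] at this
    have e : (fun g : zpowers x => (irrOne G : G → ℂ) g) =
      fun g => ((1 : zpowers x →* ℂˣ) g : ℂ) := by funext g; simp
    rw [e] at this
    simp only [θ, classInner_sub_left, classInner_monoidHom_units, if_true, if_neg hf1] at this
    exact_mod_cast (show ((v (irrOne G) : ℤ) : ℂ) = 1 by rw [← this]; simp)
  have hsq : ∑ χ, v χ * v χ = 3 := by
    rw [hα.classInner_eq_sum] at hnorm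
    simp only [hv, map_intCast] at hnorm
    exact_mod_cast hnorm
  have hval : ∀ g, α g = ∑ χ : IrrCharacter G, v χ * (χ : G → ℂ) g := fun g => by
    rw [hα.apply_eq_sum_irr g]; simp only [hv]
  have hdeg : ∑ χ : IrrCharacter G, (charDegree (χ : G → ℂ) : ℤ) * v χ = 0 := by
    have := hval 1
    simp only [α, indFun_one, hθ1, mul_zero,
      ← IsIrrCharacter.coe_charDegree (Subtype.property _)] at this
    have h2 : ((∑ χ : IrrCharacter G, (charDegree (χ : G → ℂ) : ℤ) * v χ : ℤ) : ℂ) = 0 := by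
      push_cast
      rw [this]
      exact Finset.sum_congr rfl fun _ _ => mul_comm _ _
    exact_mod_cast h2
  obtain ⟨χ, ψ, hχ, -, vχ, vψ, hs⟩ := FT3.three v (fun χ => charDegree (χ : G → ℂ)) (irrOne G)
    hv1 (by simp) (fun χ => by exact_mod_cast χ.2.charDegree_pos) hsq hdeg
  have hχ' : (χ : G → ℂ) ≠ fun _ => 1 := fun h => hχ (Subtype.ext h)
  have rel : ∀ g, α g = 0 → (ψ : G → ℂ) g = (χ : G → ℂ) g + 1 := fun g hg => by
    rw [hval, hs _ fun k hk => by rw [hk]; simp, hv1, vχ, vψ] at hg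
    simp only [coe_irrOne, Int.cast_one, Int.cast_neg] at hg
    linear_combination -hg
  have r1 := rel 1 (by simp only [α, indFun_one, hθ1, mul_zero])
  have ru := rel u (TI.indFun_eq_zero _ _ fun y z hz => by
    have : z = 1 := Subtype.ext (h.eq_one_of_sq z.2 (by
      rw [hz]
      calc y⁻¹ * u * y * (y⁻¹ * u * y) = y⁻¹ * (u * u) * y := by group
        _ = 1 := by rw [hu2]; group))
    rw [this, hθ1])
  have hpair : ∑ a ∈ TI.cls u, ∑ b ∈ TI.cls u, α (a * b) = 0 := by
    refine Finset.sum_eq_zero fun a ha => Finset.sum_eq_zero fun b hb => ?_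
    refine TI.indFun_eq_zero _ _ fun y z hz => ?_
    by_contra h0
    have hz1 : (z : G) ≠ 1 := fun e => h0 (by rw [show z = 1 from Subtype.ext e, hθ1])
    have ha2 := TI.cls_mul_self hu a ha
    have hb2 := TI.cls_mul_self hu b hb
    have hc : IsConj u (y⁻¹ * a * y) := (TI.mem_cls.1 ha).trans (isConj_iff.2 ⟨y⁻¹, by rw [inv_inv]⟩)
    refine hne (IsConj.trans (h.isConj_of_inverts (a := y⁻¹ * a * y) ?_ ?_ z.2 hz1 ?_) hc.symm)
    · calc y⁻¹ * a * y * (y⁻¹ * a * y) = y⁻¹ * (a * a) * y := by group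
        _ = 1 := by rw [ha2]; group
    · intro e
      rw [e] at hc
      exact hu1 (isConj_one_left.1 hc)
    · rw [hz]
      calc y⁻¹ * a * y * (y⁻¹ * (a * b) * y) * (y⁻¹ * a * y)⁻¹
          = y⁻¹ * ((a * a) * b * a⁻¹) * y := by group
        _ = y⁻¹ * (b⁻¹ * a⁻¹) * y := by rw [ha2, one_mul, inv_eq_of_mul_eq_one_right hb2]
        _ = _ := by group
  rw [TI.sum_cls_cls_classFunction hα] at hpair
  simp only [hv] at hpair
  rw [hs _ fun k hk => by rw [hk]; simp, hv1, vχ, vψ, r1, ru] at hpair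
  have hi : ((Subgroup.centralizer ({u} : Set G)).index : ℂ) ≠ 0 :=
    Nat.cast_ne_zero.2 Subgroup.index_ne_zero_of_finite
  have d1 : (χ : G → ℂ) 1 = charDegree (χ : G → ℂ) := χ.2.coe_charDegree.symm
  have d0 : (χ : G → ℂ) 1 ≠ 0 := by
    rw [d1]; exact Nat.cast_ne_zero.2 χ.2.charDegree_pos.ne'
  have d0' : (χ : G → ℂ) 1 + 1 ≠ 0 := by rw [d1]; exact Nat.cast_add_one_ne_zero _
  have h3 := (mul_eq_zero.1 hpair).resolve_left (mul_ne_zero hi hi)
  simp only [coe_irrOne, Int.cast_one, Int.cast_neg] at h3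
  field_simp at h3
  have h4 : ((χ : G → ℂ) 1 - (χ : G → ℂ) u) ^ 2 = 0 := by linear_combination h3
  have : u ∈ charKer (χ : G → ℂ) := χ.2.mem_charKer.2 (by
    have := pow_eq_zero_iff (two_ne_zero) |>.1 h4
    linear_combination -this)
  rw [χ.2.charKer_eq_bot_of_simple hχ', mem_bot] at this
  exact hu1 this

end SD

end Cfsg.Agent.Perm.TP
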