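import Mathlib
import Cfsg.Agent.Perm.ThreePCh
import Cfsg.Agent.Perm.ThreePLoc
import Cfsg.Agent.Perm.ThreePAr
import Cfsg.Agent.Inv.BrauerFowler
import Cfsg.Agent.S0254
import Cfsg.Agent.S0806

/-!
Simple groups of degree `3p` with Sylow `p`-normalizer of order `2p`: setup and the case `L₂(q)`.
-/

set_option autoImplicit false
set_option linter.style.haveILetI false

namespace Cfsg.Agent.Perm.TP

open Subgroup MulAction Cfsg.Agent.Cl.L2
open scoped MatrixGroups

variable {G : Type*} [Group G] [Finite G]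

theorem setup [IsSimpleGroup G] (hG : ¬ IsMulCommutative G) {p : ℕ} (hp : p.Prime) (hp2 : 2 < p)
    (P : Sylow p G) (hN : Nat.card (normalizer ((P : Subgroup G) : Set G)) = 2 * p) :
    ∃ x τ : G, orderOf x = p ∧ orderOf τ = 2 ∧ SD x τ ∧
      ∃ n, Nat.card G = 2 * p * n ∧ n ≡ 1 [MOD p] := by
  haveI : Fact p.Prime := ⟨hp⟩
  haveI : Fact (Nat.Prime 2) := ⟨Nat.prime_two⟩
  have hodd : Odd p := hp.odd_of_ne_two (by omega)
  set N := normalizer ((P : Subgroup G) : Set G) with hNd
  have hPN : (P : Subgroup G) ≤ N := le_normalizer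
  have hP : Nat.card P = p := by
    obtain ⟨k, hk⟩ := P.isPGroup'.exists_card_eq
    have h1 : p ^ k ∣ 2 * p := by rw [← hk, ← hN]; exact card_dvd_of_le hPN
    have h2 : p ^ k ∣ p ^ 1 := by
      rw [pow_one]
      exact (Nat.Coprime.pow_left k (Nat.coprime_two_right.2 hodd)).dvd_of_dvd_mul_left h1
    have h3 : p ∣ Nat.card P := P.dvd_card_of_dvd_card
      ((dvd_mul_left p 2).trans (hN ▸ card_subgroup_dvd_card N))
    rw [Nat.pow_dvd_pow_iff_le_right hp.one_lt] at h2
    interval_cases k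
    · rw [hk] at h3
      exact absurd (Nat.dvd_one.1 h3) hp.one_lt.ne'
    · rw [hk, pow_one]
  have hgen : ∀ y ∈ (P : Subgroup G), y ≠ 1 → orderOf y = p ∧ zpowers y = P := fun y hy h1 => by
    have h2 : orderOf y = p := ((Nat.dvd_prime hp).1 (hP ▸ Subgroup.orderOf_dvd_natCard _ hy)).resolve_left
      fun e => h1 (orderOf_eq_one_iff.1 e)
    exact ⟨h2, eq_of_le_of_card_ge (zpowers_le.2 hy) (by rw [Nat.card_zpowers, h2, hP])⟩
  obtain ⟨x, hx, hx1⟩ : ∃ x ∈ (P : Subgroup G), x ≠ 1 := by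
    by_contra h
    push Not at h
    rw [(eq_bot_iff_forall _).2 h, card_bot] at hP
    omega
  obtain ⟨hxo, hxP⟩ := hgen x hx hx1
  obtain ⟨t, ht⟩ := exists_prime_orderOf_dvd_card' (G := N) 2 (hN ▸ dvd_mul_right 2 p)
  have ht' : orderOf (t : G) = 2 := by rw [Subgroup.orderOf_coe, ht]
  have htP : (t : G) ∉ (P : Subgroup G) := fun h => by
    have := (hgen t h (fun e => by simp [e] at ht')).1
    omega
  have hidx : ((P : Subgroup G).subgroupOf N).index = 2 := by
    have := ((P : Subgroup G).subgroupOf N).card_mul_index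
    rw [Nat.card_congr (subgroupOfEquivOfLe hPN).toEquiv, hP, hN, mul_comm] at this
    exact Nat.eq_of_mul_eq_mul_right hp.pos this
  have hcos : ∀ g ∈ N, g ∈ (P : Subgroup G) ∨ (t : G)⁻¹ * g ∈ (P : Subgroup G) := fun g hg => by
    by_cases h : g ∈ (P : Subgroup G)
    · exact Or.inl h
    · exact Or.inr ((mul_mem_iff_of_index_two hidx (a := t⁻¹) (b := ⟨g, hg⟩)).2
        ⟨fun h' => absurd (inv_mem_iff.1 h') htP, fun h' => absurd h' h⟩)
  have hcomm : ∀ a ∈ (P : Subgroup G), ∀ b ∈ (P : Subgroup G), a * b = b * a := by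
    rw [← hxP]
    rintro _ ⟨i, rfl⟩ _ ⟨j, rfl⟩
    exact zpow_mul_comm x i j
  have htt : (t : G) * t = 1 := by rw [← pow_two, ← ht', pow_orderOf_eq_one]
  have hti : (t : G)⁻¹ = t := inv_eq_of_mul_eq_one_right htt
  refine ⟨x, t, hxo, ht', ⟨hxo ▸ hodd, hx1, ?_, fun g y hy hy1 hg => ?_⟩, N.index, ?_, ?_⟩
  · by_contra hne
    have h1 : (t : G) * x * (t : G)⁻¹ ∈ (P : Subgroup G) := (mem_normalizer_iff.1 t.2 x).1 hx
    have h2 := (hgen _ (mul_mem hx h1) fun e => hne (eq_inv_of_mul_eq_one_right e)).2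
    have h3 : ∀ a ∈ (P : Subgroup G), a * t = t * a := by
      rw [← h2]
      rintro _ ⟨i, rfl⟩
      refine (Commute.zpow_left ?_ i).eq
      change x * (t * x * (t : G)⁻¹) * t = t * (x * (t * x * (t : G)⁻¹))
      nth_rw 1 [hcomm x hx _ h1]
      rw [hti]
      group
    have hle : N ≤ centralizer (P : Set G) := fun g hg a ha => by
      rcases hcos g hg with h | h
      · exact hcomm a ha g h
      · calc a * g = a * t * ((t : G)⁻¹ * g) := by group
          _ = t * (((t : G)⁻¹ * g) * a) := by rw [h3 a ha, mul_assoc, hcomm a ha _ h]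
          _ = g * a := by group
    have hc := MonoidHom.ker_transferSylow_isComplement' P hle
    rcases (MonoidHom.transferSylow P hle).normal_ker.eq_bot_or_eq_top with e | e <;> rw [e] at hc
    · have := hc.sup_eq_top
      rw [bot_sup_eq] at this
      exact hG ⟨⟨fun a b => hcomm a (this ▸ mem_top a) b (this ▸ mem_top b)⟩⟩
    · have := hc.disjoint
      rw [top_disjoint] at this
      exact hx1 (mem_bot.1 (this ▸ hx))
  · rw [hxP] at hy hg ⊢
    refine hcos g (mem_normalizer_fintype fun a ha => ?_)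
    have ha' : a ∈ zpowers y := (hgen y hy hy1).2.symm ▸ ha
    obtain ⟨i, rfl⟩ := ha'
    change g * y ^ i * g⁻¹ ∈ (P : Subgroup G)
    rw [← conj_zpow]
    exact zpow_mem hg i
  · rw [← hN, card_mul_index]
  · have := card_sylow_modEq_one p G
    rwa [P.card_eq_index_normalizer] at this

theorem fix_count {Ω : Type*} [Finite Ω] [MulAction G Ω] [IsPretransitive G Ω] {p n : ℕ}
    (hp : p.Prime) (hΩ : Nat.card Ω = 3 * p) {x τ : G} (hx : orderOf x = p) (hτ : orderOf τ = 2)
    (h : SD x τ) (hG : Nat.card G = 2 * p * n) (hn : n ≡ 1 [MOD p]) :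
    (fixedBy Ω τ).ncard = 1 ∨ (fixedBy Ω τ).ncard = 3 := by
  haveI : Fact p.Prime := ⟨hp⟩
  haveI : Fact (Nat.Prime 2) := ⟨Nat.prime_two⟩
  have hodd : Odd p := hx ▸ h.odd
  have hfree : ∀ y ∈ zpowers x, ∀ a : Ω, y • a = a → y = 1 := fun y hy a hya => by
    by_contra h1
    have h2 : orderOf y = p := ((Nat.dvd_prime hp).1 (hx ▸ orderOf_dvd_of_mem_zpowers hy)).resolve_left
      fun e => h1 (orderOf_eq_one_iff.1 e)
    obtain ⟨c, hc⟩ : p ∣ Nat.card (stabilizer G a) := h2 ▸ Subgroup.orderOf_dvd_natCard _ hya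
    have h3 := (stabilizer G a).card_mul_index
    rw [index_stabilizer_of_transitive, hΩ, hG, hc] at h3
    have h4 : p ∣ 2 * n := ⟨3 * c, Nat.eq_of_mul_eq_mul_left hp.pos (by linear_combination -h3)⟩
    have h5 := (Nat.coprime_two_right.2 hodd).dvd_of_dvd_mul_left h4
    exact hp.one_lt.ne' (Nat.dvd_one.1 ((hn.dvd_iff dvd_rfl).1 h5))
  let f : zpowers x × fixedBy Ω τ → Ω := fun q => q.1.1 • q.2.1
  have hf : Function.Injective f := by
    rintro ⟨y, a⟩ ⟨z, b⟩ (e : y.1 • a.1 = z.1 • b.1)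
    have hw : z.1⁻¹ * y.1 ∈ zpowers x := mul_mem (inv_mem z.2) y.2
    have e1 : (z.1⁻¹ * y.1) • a.1 = b.1 := by rw [mul_smul, e, inv_smul_smul]
    have e2 : (z.1⁻¹ * y.1)⁻¹ • a.1 = b.1 := by
      rw [← h.inv_of_mem hw, mul_smul, mul_smul, inv_smul_eq_iff.2 a.2.symm, e1, b.2]
    have e3 := h.eq_one_of_sq hw (hfree _ (mul_mem hw hw) b.1 (by
      rw [mul_smul, ← e2, smul_inv_smul, e1, e2]))
    rw [e3, one_smul] at e1
    exact Prod.ext (Subtype.ext (inv_mul_eq_one.1 e3).symm) (Subtype.ext e1)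
  have h1 := Nat.card_le_card_of_injective f hf
  rw [Nat.card_prod, Nat.card_zpowers, hx, hΩ, Nat.card_coe_set_eq, mul_comm] at h1
  have h2 := Nat.le_of_mul_le_mul_right h1 hp.pos
  have h3 := (IsPGroup.of_card (p := 2) (n := 1) (G := zpowers τ)
    (by rw [Nat.card_zpowers, hτ, pow_one])).card_modEq_card_fixedPoints Ω
  have h4 : fixedPoints (zpowers τ) Ω = fixedBy Ω τ := by
    ext a
    refine ⟨fun ha => ha ⟨τ, mem_zpowers τ⟩, fun ha => ?_⟩
    rintro ⟨_, i, rfl⟩
    exact (stabilizer G a).zpow_mem ha i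
  rw [h4, Nat.card_coe_set_eq, hΩ, Nat.ModEq] at h3
  obtain ⟨k, rfl⟩ := hodd
  omega

theorem l2_main [IsSimpleGroup G] {F : Type} [Field F] [Fintype F] (hq : 4 ≤ Fintype.card F)
    (h5 : Fintype.card F ≠ 5) (e : G ≃* PSL(2, F)) {p n : ℕ} (hp : p.Prime) (h3 : 3 < p)
    (hG : Nat.card G = 2 * p * n) (hn : n ≡ 1 [MOD p]) {H : Subgroup G} (hH : H.index = 3 * p) :
    (IsCoatom H → p = 5 ∧ Nonempty (G ≃* alternatingGroup (Fin 6))) ∧
      (¬ IsCoatom H → ∃ (F : Type) (_ : Field F) (_ : Fintype F) (m : ℕ), Fintype.card F = 2 ^ m ∧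
        p = 2 ^ m + 1 ∧ Nonempty (G ≃* PSL(2, F))) := by
  have hp5 : 5 ≤ p := hp.five_le_of_ne_two_of_ne_three (by omega) (by omega)
  set q := Fintype.card F with hq'
  have hF : Nat.card F = q := Nat.card_eq_fintype_card
  let H' := H.map e.toMonoidHom
  have hH' : H'.index = 3 * p := by rw [← hH]; exact index_map_of_bijective e.bijective H
  have hco : IsCoatom H' ↔ IsCoatom H := e.mapSubgroup.isCoatom_iff H
  have hi : q + 1 ≤ 3 * p := by
    by_cases hs : q ∈ ({2, 3, 5, 7, 9, 11} : Finset ℕ)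
    · simp only [Finset.mem_insert, Finset.mem_singleton] at hs
      omega
    · exact hH' ▸ (Cfsg.Agent.S0806.result rfl hs).1 H' fun h => by
        rw [h, index_top] at hH'; omega
  have hc := card_PSL_mul (F := F)
  have hc' := H'.card_mul_index
  rw [← Nat.card_congr e.toEquiv, hG, hF] at hc
  rw [← Nat.card_congr e.toEquiv, hG, hH'] at hc'
  have hd : Nat.gcd 2 (q - 1) = 1 ∨ Nat.gcd 2 (q - 1) = 2 :=
    (Nat.dvd_prime Nat.prime_two).1 (Nat.gcd_dvd_left _ _)
  have hd0 : 0 < Nat.gcd 2 (q - 1) * p := Nat.mul_pos (by omega) hp.pos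
  have key : 3 * Nat.card H' * (Nat.gcd 2 (q - 1) * p) = q * (q - 1) * (q + 1) := by
    rw [← hc, ← hc']; ring
  rcases ar_l2 hp h3 hq hd hn hi hc with h | h | h
  · exact absurd h h5
  · rw [← h] at key
    have h1 := Nat.eq_of_mul_eq_mul_right (by omega) key
    rcases (l2_sub hF hq H' (Or.inl h1)).2 with h9 | ⟨h2, hH2⟩
    · rw [h9] at h hc
      norm_num at h hc
      obtain rfl : p = 5 := by omega
      have hco' : IsCoatom H := ⟨fun e => by rw [e, index_top] at hH; omega, fun K hK => by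
        by_contra hK'
        have h6 := Inv.card_dvd_factorial_index hK'
        have h7 := index_dvd_of_le hK.le
        have h8 : K.index ≠ 15 := fun e => hK.ne (eq_of_le_of_card_ge hK.le (by
          have e1 := K.card_mul_index
          have e2 := H.card_mul_index
          rw [e] at e1
          rw [hH] at e2
          omega))
        rw [hH] at h7
        rw [hG, show n = 36 by omega] at h6
        have := Nat.le_of_dvd (by norm_num) h7
        revert h6 h7 h8 this
        generalize K.index = i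
        intro h6 h7 h8 this
        interval_cases i <;> revert h6 h7 h8 <;> decide⟩
      obtain ⟨e'⟩ := Cfsg.Agent.S0254.result (F := F) h9
      exact ⟨fun _ => ⟨rfl, ⟨e.trans e'⟩⟩, fun h => absurd hco' h⟩
    · refine ⟨fun h => absurd (hco.2 h) hH2, fun _ => ?_⟩
      obtain ⟨l, hl⟩ := CharP.exists F
      obtain ⟨a, hl', ha⟩ := FiniteField.card F l
      obtain rfl : 2 = l := (Nat.prime_dvd_prime_iff_eq Nat.prime_two hl').1
        (Nat.prime_two.dvd_of_dvd_pow (n := a) (by rw [← ha]; exact h2))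
      refine ⟨F, inferInstance, inferInstance, a, ha, ?_, ⟨e⟩⟩
      have : Nat.gcd 2 (q - 1) = 1 := by
        refine hd.resolve_right fun h' => ?_
        have := h' ▸ Nat.gcd_dvd_right 2 (q - 1)
        omega
      rw [this] at h
      omega
  · exfalso
    have h' : Nat.gcd 2 (q - 1) * p = q - 1 := by omega
    rw [h', mul_right_comm q] at key
    have h1 := Nat.eq_of_mul_eq_mul_right (by omega) key
    have h6 : 6 ≤ q := by rcases hd with hd | hd <;> rw [hd] at h <;> omega
    have := (l2_sub hF hq H' (Or.inr ⟨h6, h1⟩)).1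
    rw [h1] at this
    have := Nat.eq_of_mul_eq_mul_left (by omega) this
    omega

end Cfsg.Agent.Perm.TP
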