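import Mathlib

/-!
A triply transitive group whose point stabilizer has a normal subgroup `U` regular on the
remaining points: the two-point stabilizer of the normal closure of `U` lies in the commutator
subgroup of the stabilizer of the unordered pair.
-/

set_option autoImplicit false

namespace Cfsg.Agent.Perm.TriN

open Subgroup MulAction
open scoped commutatorElement

variable {G Ω : Type*} [Group G] [MulAction G Ω]

variable (G) in
/-- The stabilizer of the unordered pair `{α, β}`. -/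
def pairStab (α β : Ω) : Subgroup G where
  carrier := {g | (g • α = α ∧ g • β = β) ∨ (g • α = β ∧ g • β = α)}
  one_mem' := Or.inl ⟨one_smul _ _, one_smul _ _⟩
  mul_mem' := by
    rintro a b (⟨h1, h2⟩ | ⟨h1, h2⟩) (⟨h3, h4⟩ | ⟨h3, h4⟩) <;> simp [mul_smul, h1, h2, h3, h4]
  inv_mem' := by
    rintro a (⟨h1, h2⟩ | ⟨h1, h2⟩)
    · exact Or.inl ⟨inv_smul_eq_iff.2 h1.symm, inv_smul_eq_iff.2 h2.symm⟩
    · exact Or.inr ⟨inv_smul_eq_iff.2 h2.symm, inv_smul_eq_iff.2 h1.symm⟩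

theorem commutator_pairStab_le (α β : Ω) :
    ⁅pairStab G α β, pairStab G α β⁆ ≤ stabilizer G α ⊓ stabilizer G β := by
  rw [commutator_le]
  intro a ha b hb
  have : ∀ x, x = α ∨ x = β → ⁅a, b⁆ • x = x := fun x hx => by
    rw [commutatorElement_def, mul_assoc, mul_smul, smul_eq_iff_eq_inv_smul, mul_inv_rev]
    rcases inv_mem ha with ⟨h1, h2⟩ | ⟨h1, h2⟩ <;> rcases inv_mem hb with ⟨h3, h4⟩ | ⟨h3, h4⟩ <;>
      rcases hx with rfl | rfl <;> simp only [mul_smul, h1, h2, h3, h4]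
  exact ⟨this α (Or.inl rfl), this β (Or.inr rfl)⟩

/-- `U` is a normal subgroup of the stabilizer of `α`, regular on the remaining points. -/
structure Root (U : Subgroup G) (α : Ω) : Prop where
  fix : ∀ u ∈ U, u • α = α
  norm : ∀ g : G, g • α = α → ∀ u ∈ U, g * u * g⁻¹ ∈ U
  trans : ∀ x y : Ω, x ≠ α → y ≠ α → ∃ u ∈ U, u • x = y
  free : ∀ u ∈ U, ∀ x : Ω, x ≠ α → u • x = x → u = 1

theorem Root.eq_of_smul {U : Subgroup G} {α : Ω} (h : Root U α) {u v : G} (hu : u ∈ U)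
    (hv : v ∈ U) {x : Ω} (hx : x ≠ α) (e : u • x = v • x) : u = v :=
  (inv_mul_eq_one.1 (h.free _ (mul_mem (inv_mem hv) hu) x hx
    (by rw [mul_smul, e, inv_smul_smul]))).symm

theorem Root.stab_le [Finite G] {U : Subgroup G} {α β γ : Ω} (h : Root U α) (hαβ : α ≠ β)
    (hγα : γ ≠ α) (hγβ : γ ≠ β) {t : G} (htα : t • α = β) (htβ : t • β = α)
    (h3 : ∀ x y : Ω, x ≠ α → x ≠ β → y ≠ α → y ≠ β → ∃ g : G, g • α = α ∧ g • β = β ∧ g • x = y) :
    normalClosure (U : Set G) ⊓ (stabilizer G α ⊓ stabilizer G β) ≤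
      ⁅pairStab G α β, pairStab G α β⁆ := by
  set N := pairStab G α β with hN
  set C := ⁅N, N⁆ with hC
  have hCX := commutator_pairStab_le (G := G) α β
  have hle : C ≤ N := commutator_le.2 fun a ha b hb =>
    mul_mem (mul_mem (mul_mem ha hb) (inv_mem ha)) (inv_mem hb)
  have hCn : ∀ n ∈ N, ∀ d ∈ C, n * d * n⁻¹ ∈ C := fun n hn d hd => by
    have := mul_mem (commutator_mem_commutator hn (hle hd)) hd
    rwa [commutatorElement_def, inv_mul_cancel_right] at this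
  have ti : t⁻¹ • β = α := inv_smul_eq_iff.2 htα.symm
  have ti' : t⁻¹ • α = β := inv_smul_eq_iff.2 htβ.symm
  let R : G → G → Prop := fun y n => n • α = β ∧ n • β = α ∧ ∃ u ∈ U, ∃ v ∈ U, n = u * y * v
  have hy : ∀ y, t⁻¹ * y * t ∈ U → y ≠ 1 → y • β = β ∧ y • α ≠ α ∧ y • α ≠ β := fun y hy h1 => by
    have e1 : y • β = β := by
      have := h.fix _ hy
      rwa [mul_smul, mul_smul, htα, inv_smul_eq_iff, htα] at this
    refine ⟨e1, fun e => h1 ?_, fun e => hαβ (smul_left_cancel y (e.trans e1.symm))⟩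
    have := h.free _ hy β hαβ.symm (by rw [mul_smul, mul_smul, htβ, e, ti'])
    rw [mul_assoc, inv_mul_eq_one] at this
    simpa using this
  have hex : ∀ y, t⁻¹ * y * t ∈ U → y ≠ 1 → ∃ n, R y n := fun y hyU h1 => by
    obtain ⟨u, hu, hu'⟩ := h.trans _ β (hy y hyU h1).2.1 hαβ.symm
    obtain ⟨v, hv, hv'⟩ := h.trans β (y⁻¹ • α) hαβ.symm fun e => (hy y hyU h1).2.1
      (inv_smul_eq_iff.1 e).symm
    exact ⟨u * y * v, by rw [mul_smul, h.fix v hv, mul_smul, hu'],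
      by rw [mul_smul, hv', mul_smul, smul_inv_smul, h.fix u hu], u, hu, v, hv, rfl⟩
  have huniq : ∀ y n n', y • α ≠ α → R y n → R y n' → n = n' := by
    rintro y _ _ h1 ⟨a1, a2, u, hu, v, hv, rfl⟩ ⟨b1, b2, u', hu', v', hv', rfl⟩
    rw [mul_smul, h.fix _ hv, mul_smul] at a1
    rw [mul_smul, h.fix _ hv', mul_smul] at b1
    obtain rfl := h.eq_of_smul hu hu' h1 (a1.trans b1.symm)
    rw [h.eq_of_smul hv hv' hαβ.symm (smul_left_cancel (u * y) (by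
      rw [← mul_smul, ← mul_smul, a2, b2]))]
  have hcong : ∀ y y' n n', t⁻¹ * y * t ∈ U → y ≠ 1 → t⁻¹ * y' * t ∈ U → y' ≠ 1 → R y n →
      R y' n' → n' * n⁻¹ ∈ C := fun y y' n n' hyU h1 hyU' h1' hn hn' => by
    obtain ⟨x, hxα, hxβ, hx⟩ := h3 _ _ (hy y hyU h1).2.1 (hy y hyU h1).2.2 (hy y' hyU' h1').2.1
      (hy y' hyU' h1').2.2
    have xi : x⁻¹ • α = α := inv_smul_eq_iff.2 hxα.symm
    have xi' : x⁻¹ • β = β := inv_smul_eq_iff.2 hxβ.symm
    have e : x * y * x⁻¹ = y' := by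
      have h4 := h.norm (t⁻¹ * x * t) (by rw [mul_smul, mul_smul, htα, hxβ, ti]) _ hyU
      have := h.eq_of_smul h4 hyU' hαβ.symm (by
        simp only [mul_inv_rev, inv_inv, mul_smul, smul_inv_smul, htβ, xi, hx])
      calc x * y * x⁻¹ = t * (t⁻¹ * x * t * (t⁻¹ * y * t) * (t⁻¹ * x * t)⁻¹) * t⁻¹ := by group
        _ = y' := by rw [this]; group
    obtain ⟨a1, a2, u, hu, v, hv, hn⟩ := hn
    have : R y' (x * n * x⁻¹) := ⟨by simp only [mul_smul, xi, a1, hxβ],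
      by simp only [mul_smul, xi', a2, hxα], _, h.norm x hxα u hu, _, h.norm x hxα v hv,
      by rw [← e, hn]; group⟩
    rw [huniq _ _ _ (hy y' hyU' h1').2.1 hn' this]
    exact commutator_mem_commutator (Or.inl ⟨hxα, hxβ⟩ : x ∈ N) (Or.inr ⟨a1, a2⟩ : n ∈ N)
  obtain ⟨u₀, hu₀, hu₀'⟩ := h.trans β γ hαβ.symm hγα
  have hy₀ : t⁻¹ * (t * u₀ * t⁻¹) * t ∈ U := by simpa [mul_assoc] using hu₀
  have hy₁ : t * u₀ * t⁻¹ ≠ 1 := fun e => hγβ (by
    rw [← hu₀', show u₀ = 1 by simpa using e, one_smul])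
  obtain ⟨μ, hμ⟩ := hex _ hy₀ hy₁
  have hμN : μ ∈ N := Or.inr ⟨hμ.1, hμ.2.1⟩
  have hμ2 : μ * μ ∈ C := by
    obtain ⟨a1, a2, u, hu, v, hv, hn⟩ := id hμ
    have := hcong (t * u₀ * t⁻¹)⁻¹ _ μ⁻¹ μ (by simpa [mul_assoc] using hu₀) (inv_ne_one.2 hy₁)
      hy₀ hy₁ ⟨inv_smul_eq_iff.2 a2.symm, inv_smul_eq_iff.2 a1.symm, _, inv_mem hv, _, inv_mem hu,
        by rw [hn]; group⟩ hμ
    rwa [inv_inv] at this
  let Q : G → Prop := fun g => (∃ u ∈ U, ∃ d ∈ C, g = u * d) ∨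
    ∃ u ∈ U, ∃ v ∈ U, ∃ d ∈ C, g = u * (d * μ) * v
  let S : Submonoid G :=
    { carrier := {g | ∀ k, Q k → Q (g * k)}
      one_mem' := fun k hk => by rwa [one_mul]
      mul_mem' := fun ha hb k hk => by rw [mul_assoc]; exact ha _ (hb k hk) }
  let T : Subgroup G := { S with
    inv_mem' := fun {g} hg => (Submonoid.powers_le.2 hg :)
      ((isOfFinOrder_of_finite g).mem_powers_iff_mem_zpowers.2 (inv_mem (mem_zpowers g))) }
  have hUT : U ≤ T := by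
    rintro w hw _ (⟨u, hu, d, hd, rfl⟩ | ⟨u, hu, v, hv, d, hd, rfl⟩)
    · exact Or.inl ⟨_, mul_mem hw hu, d, hd, by group⟩
    · exact Or.inr ⟨_, mul_mem hw hu, v, hv, d, hd, by group⟩
  have hμT : μ ∈ T := by
    rintro _ (⟨u, hu, d, hd, rfl⟩ | ⟨u, hu, v, hv, d, hd, rfl⟩)
    · exact Or.inr ⟨1, one_mem _, _, h.norm d⁻¹ (inv_smul_eq_iff.2 (hCX hd).1.symm) u hu, _, hCn μ hμN d hd,
        by group⟩
    have hd' : μ * d * μ ∈ C := by
      have := mul_mem (hCn μ hμN d hd) hμ2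
      rwa [show μ * d * μ⁻¹ * (μ * μ) = μ * d * μ by group] at this
    by_cases h1 : u = 1
    · exact Or.inl ⟨_, h.norm _ (hCX hd').1 v hv, _, hd', by rw [h1]; group⟩
    have hyU : t⁻¹ * (μ * u * μ⁻¹) * t ∈ U := by
      have := h.norm (t⁻¹ * μ) (by rw [mul_smul, hμ.1, ti]) u hu
      rwa [show t⁻¹ * μ * u * (t⁻¹ * μ)⁻¹ = t⁻¹ * (μ * u * μ⁻¹) * t by group] at this
    have hy1 : μ * u * μ⁻¹ ≠ 1 := fun e => h1 (by simpa using e)
    obtain ⟨n, hn⟩ := hex _ hyU hy1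
    have h5 := hcong _ _ _ _ hy₀ hy₁ hyU hy1 hμ hn
    obtain ⟨-, -, a, ha, b, hb, hn⟩ := hn
    refine Or.inr ⟨_, inv_mem ha, _, mul_mem (h.norm (μ * d * μ)⁻¹ (inv_smul_eq_iff.2 (hCX hd').1.symm) _
      (inv_mem hb)) hv, _, mul_mem h5 (hCn μ hμN _ hd'), ?_⟩
    rw [hn]
    group
  have hLT : normalClosure (U : Set G) ≤ T := by
    refine (closure_le T).2 fun y hy => ?_
    obtain ⟨u, hu, hc⟩ := Group.mem_conjugatesOfSet_iff.1 hy
    obtain ⟨g, rfl⟩ := isConj_iff.1 hc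
    by_cases hg : g • α = α
    · exact hUT (h.norm g hg u hu)
    obtain ⟨v, hv, hv'⟩ := h.trans β _ hαβ.symm hg
    have := h.norm (μ⁻¹ * v⁻¹ * g) (by
      rw [mul_smul, mul_smul, ← hv', inv_smul_smul, inv_smul_eq_iff, hμ.1]) u hu
    have h6 := mul_mem (mul_mem (mul_mem (hUT hv) hμT) (hUT this)) (inv_mem (mul_mem (hUT hv) hμT))
    change g * u * g⁻¹ ∈ T
    convert h6 using 1
    group
  rintro g ⟨hg, hgα, hgβ⟩
  have := hLT hg 1 (Or.inl ⟨1, one_mem _, 1, one_mem _, (mul_one 1).symm⟩)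
  rw [mul_one] at this
  rcases this with ⟨u, hu, d, hd, rfl⟩ | ⟨u, hu, v, hv, d, hd, rfl⟩
  · have e : (u * d) • β = β := hgβ
    rw [mul_smul, (hCX hd).2] at e
    rwa [h.free u hu β hαβ.symm e, one_mul]
  · have e : (u * (d * μ) * v) • α = α := hgα
    rw [mul_smul, h.fix v hv, mul_smul, mul_smul, hμ.1, (hCX hd).2] at e
    exact absurd (smul_left_cancel u ((h.fix u hu).trans e.symm)) hαβ

end Cfsg.Agent.Perm.TriN
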