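import Mathlib
import Cfsg.Agent.Chev.SzLocal

/-!
A perfect central extension of a Suzuki group cannot act non-trivially on a vector space of odd
characteristic with all line stabilizers of odd index.
-/

set_option autoImplicit false
set_option linter.style.haveILetI false

namespace Cfsg.Agent.Perm.TriN

open Subgroup MulAction Cfsg.Agent.Chev.Sz
open scoped commutatorElement

section
variable {K R V : Type*} [Group K] [Field R] [AddCommGroup V] [Module R V] (σ : K →* (V ≃ₗ[R] V))

/-- The stabilizer of the line through `v`. -/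
def lineStab (v : V) : Subgroup K where
  carrier := {k | ∃ a : Rˣ, σ k v = (a : R) • v}
  one_mem' := ⟨1, by simp⟩
  mul_mem' := by
    rintro k l ⟨a, ha⟩ ⟨b, hb⟩
    exact ⟨b * a, by simp [hb, ha, smul_smul]⟩
  inv_mem' := by
    rintro k ⟨a, ha⟩
    refine ⟨a⁻¹, ?_⟩
    rw [map_inv, LinearEquiv.coe_inv, LinearEquiv.symm_apply_eq, map_smul, ha, smul_smul]
    simp

theorem commutator_fix {v : V} {a b : K} (ha : a ∈ lineStab σ v) (hb : b ∈ lineStab σ v) :
    σ ⁅a, b⁆ v = v := by
  obtain ⟨s, hs⟩ := inv_mem ha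
  obtain ⟨t, ht⟩ := inv_mem hb
  have : σ (a⁻¹ * b⁻¹) v = σ (b⁻¹ * a⁻¹) v := by
    simp only [map_mul, LinearEquiv.mul_apply, hs, ht, map_smul, smul_smul, mul_comm]
  rw [commutatorElement_def, mul_assoc, map_mul, LinearEquiv.mul_apply, this,
    ← LinearEquiv.mul_apply, ← map_mul]
  simp

end

variable {F : Type*} [Field F] {m : ℕ} [SzF F m]

theorem exists_noncomm (P : Ov F m) : ∃ a ∈ sylAt P, ∃ b ∈ sylAt P, ⁅a, b⁆ ≠ 1 := by
  obtain ⟨x, rfl⟩ := exists_smul_eq (Cfsg.Sz F m) (inf : Ov F m) P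
  by_contra h
  push Not at h
  have h1 : ⁅sylU F m, sylU F m⁆ = ⊥ := by
    rw [eq_bot_iff, commutator_le]
    intro a ha b hb
    have := h (x * a * x⁻¹) (mem_sylAt_smul_inf.2 (by simpa [mul_assoc] using ha)) (x * b * x⁻¹)
      (mem_sylAt_smul_inf.2 (by simpa [mul_assoc] using hb))
    rw [← conjugate_commutatorElement] at this
    simpa using this
  have h2 := card_cenZ (F := F) (m := m)
  rw [← commutator_sylU, h1, card_bot] at h2
  have := even_card_F F (m := m)
  rw [← h2] at this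
  exact absurd this (by decide)

theorem exists_sylAt_le {Y : Subgroup (Cfsg.Sz F m)} (hY : Odd Y.index) :
    ∃ P : Ov F m, sylAt P ≤ Y := by
  haveI : Fact (Nat.Prime 2) := ⟨Nat.prime_two⟩
  obtain ⟨S⟩ : Nonempty (Sylow 2 Y) := inferInstance
  obtain ⟨T, hT⟩ := (S.isPGroup'.map Y.subtype).exists_le_sylow
  obtain ⟨P, hP⟩ := exists_sylAt T
  refine ⟨P, ?_⟩
  rw [← hP]
  have h1 : ¬ 2 ∣ ((S : Subgroup Y).map Y.subtype).index := by
    rw [index_map_subtype]
    exact fun h => (Nat.prime_two.dvd_mul.1 h).elim S.not_dvd_index hY.not_two_dvd_nat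
  have h2 : (S : Subgroup Y).map Y.subtype = T := by
    have := (IsPGroup.toSylow (S.isPGroup'.map Y.subtype) h1).is_maximal' T.isPGroup' hT
    exact this.symm
  rw [← h2]
  exact map_subtype_le _

theorem sz_no_action {K V : Type*} [Group K] [Finite K] {l : ℕ} [Fact l.Prime] (hl : l ≠ 2)
    [AddCommGroup V] [Module (ZMod l) V] [Finite V] (σ : K →* (V ≃ₗ[ZMod l] V))
    (hK : commutator K = ⊤) (π : K →* Cfsg.Sz F m) (hπ : Function.Surjective π)
    (hZ : π.ker ≤ center K) (hodd : ∀ v, Odd (lineStab σ v).index) (k : K) (v : V) :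
    σ k v = v := by
  classical
  haveI := Fintype.ofFinite V
  haveI := Fintype.ofFinite (Ov F m)
  let C : Submodule (ZMod l) V :=
    { carrier := {v | ∀ k, σ k v = v}
      zero_mem' := fun k => map_zero _
      add_mem' := fun ha hb k => by rw [map_add, ha k, hb k]
      smul_mem' := fun c x hx k => by rw [map_smul, hx k] }
  let W : Ov F m → Submodule (ZMod l) V := fun P =>
    { carrier := {v | ∀ a b, π a ∈ sylAt P → π b ∈ sylAt P → σ ⁅a, b⁆ v = v}
      zero_mem' := fun _ _ _ _ => map_zero _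
      add_mem' := fun hx hy a b ha hb => by rw [map_add, hx a b ha hb, hy a b ha hb]
      smul_mem' := fun c x hx a b ha hb => by rw [map_smul, hx a b ha hb] }
  have hCW : ∀ P, C ≤ W P := fun P v hv a b _ _ => hv _
  have hfix : ∀ v a b, π a ∈ (lineStab σ v).map π → π b ∈ (lineStab σ v).map π →
      σ ⁅a, b⁆ v = v := by
    rintro v a b ⟨y, hy, ha⟩ ⟨z, hz, hb⟩
    have h1 : y⁻¹ * a ∈ center K := hZ (by simp [MonoidHom.mem_ker, ha])
    have h2 : z⁻¹ * b ∈ center K := hZ (by simp [MonoidHom.mem_ker, hb])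
    have : ⁅a, b⁆ = ⁅y, z⁆ := by
      obtain ⟨c, rfl⟩ : ∃ c, a = y * c := ⟨y⁻¹ * a, by group⟩
      obtain ⟨d, rfl⟩ : ∃ d, b = z * d := ⟨z⁻¹ * b, by group⟩
      rw [inv_mul_cancel_left, mem_center_iff] at h1 h2
      simp only [commutatorElement_def]
      calc y * c * (z * d) * (y * c)⁻¹ * (z * d)⁻¹
          = y * (c * (z * d)) * c⁻¹ * (y⁻¹ * d⁻¹) * z⁻¹ := by group
        _ = y * (z * d) * (d⁻¹ * y⁻¹) * z⁻¹ := by
          rw [← h1 (z * d), ← mul_inv_rev d y, ← mul_inv_rev y d, h2 y]; group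
        _ = _ := by group
    rw [this]
    exact commutator_fix σ hy hz
  have hex : ∀ v, ∃ P, sylAt P ≤ (lineStab σ v).map π := fun v =>
    exists_sylAt_le ((hodd v).of_dvd_nat (index_map_dvd _ hπ))
  choose R hR using hex
  have huniq : ∀ v ∉ C, ∀ P, v ∈ W P → P = R v := fun v hv P hP => by
    by_cases h : (lineStab σ v).map π ≤ stabilizer _ (R v)
    · obtain ⟨a, ha, b, hb, hab⟩ := exists_noncomm P
      obtain ⟨a, rfl⟩ := hπ a
      obtain ⟨b, rfl⟩ := hπ b
      refine (eq_of_mem_sylAt (g := ⁅π a, π b⁆) ?_ hab (h ⟨⁅a, b⁆, ⟨1, ?_⟩, ?_⟩)).symm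
      · exact mul_mem (mul_mem (mul_mem ha hb) (inv_mem ha)) (inv_mem hb)
      · rw [hP a b ha hb]; simp
      · exact map_commutatorElement π a b
    · refine absurd (fun k => ?_) hv
      have h1 := eq_top_of_sylAt_le (hR v) h
      let S : Subgroup K :=
        { carrier := {k | σ k v = v}
          one_mem' := by simp
          mul_mem' := fun {a b} ha hb => by
            change σ (a * b) v = v
            rw [map_mul, LinearEquiv.mul_apply, hb, ha]
          inv_mem' := fun {a} ha => by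
            change σ a⁻¹ v = v
            rw [map_inv, LinearEquiv.coe_inv, LinearEquiv.symm_apply_eq, ha] }
      have h2 : commutator K ≤ S := commutator_le.2 fun a _ b _ =>
        hfix v a b (h1 ▸ mem_top _) (h1 ▸ mem_top _)
      exact h2 (hK ▸ mem_top k)
  have hmem : ∀ v, v ∈ W (R v) := fun v a b ha hb => hfix v a b (hR v ha) (hR v hb)
  have hcard : ∀ P, Nat.card (W P) = Nat.card (W inf) := fun P => by
    obtain ⟨x, rfl⟩ := exists_smul_eq (Cfsg.Sz F m) (inf : Ov F m) P
    obtain ⟨x, rfl⟩ := hπ x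
    have key : ∀ (y : K) (Q : Ov F m) (v : V), v ∈ W Q → σ y v ∈ W (π y • Q) :=
      fun y Q v hv a b ha hb => by
        have := hv (y⁻¹ * a * y) (y⁻¹ * b * y) (by simpa using mem_sylAt_smul.1 ha)
          (by simpa using mem_sylAt_smul.1 hb)
        rw [← LinearEquiv.mul_apply, ← map_mul, show ⁅a, b⁆ * y =
          y * ⁅y⁻¹ * a * y, y⁻¹ * b * y⁆ by simp only [commutatorElement_def]; group,
          map_mul, LinearEquiv.mul_apply, this]
    have le : ∀ (y : K) (Q : Ov F m), Nat.card (W Q) ≤ Nat.card (W (π y • Q)) := fun y Q =>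
      Nat.card_le_card_of_injective (fun v => (⟨σ y v.1, key y Q v.1 v.2⟩ : W (π y • Q)))
        fun v w h => Subtype.ext ((σ y).injective (congrArg Subtype.val h))
    refine le_antisymm ?_ (le x inf)
    have := le x⁻¹ (π x • inf)
    rwa [map_inv, inv_smul_smul] at this
  have hsd : ∀ U : Submodule (ZMod l) V, C ≤ U →
      (Finset.univ.filter fun v => v ∈ U ∧ v ∉ C).card + Nat.card C = Nat.card U := fun U hU => by
    rw [Nat.card_eq_fintype_card, Nat.card_eq_fintype_card, Fintype.card_subtype,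
      Fintype.card_subtype, ← Finset.card_union_of_disjoint (by
        simp only [Finset.disjoint_filter]; tauto)]
    congr 1
    ext v
    simp only [Finset.mem_union, Finset.mem_filter, Finset.mem_univ, true_and]
    exact ⟨fun h => h.elim And.left (fun h => hU h), fun h => by tauto⟩
  have hsum : (Finset.univ.filter fun v => v ∈ (⊤ : Submodule (ZMod l) V) ∧ v ∉ C).card =
      ∑ P : Ov F m, (Finset.univ.filter fun v => v ∈ W P ∧ v ∉ C).card := by
    rw [Finset.card_eq_sum_card_fiberwise (f := R) (t := Finset.univ) (fun _ _ => by simp)]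
    refine Finset.sum_congr rfl fun P _ => congrArg _ ?_
    ext v
    simp only [Finset.mem_filter, Finset.mem_univ, true_and, Submodule.mem_top]
    exact ⟨fun h => ⟨h.2 ▸ hmem v, h.1⟩, fun h => ⟨h.2, (huniq v h.2 P h.1).symm⟩⟩
  have h1 := hsd ⊤ le_top
  have h2 : ∀ P, (Finset.univ.filter fun v => v ∈ W P ∧ v ∉ C).card =
      Nat.card (W inf) - Nat.card C := fun P => by
    have := hsd _ (hCW P)
    rw [hcard] at this
    omega
  rw [hsum, Finset.sum_congr rfl fun P _ => h2 P, Finset.sum_const, Finset.card_univ,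
    ← Nat.card_eq_fintype_card, card_ov, smul_eq_mul] at h1
  have hpow : ∀ U : Submodule (ZMod l) V, Nat.card U = l ^ Module.finrank (ZMod l) U := fun U => by
    rw [Module.natCard_eq_pow_finrank (K := ZMod l), Nat.card_zmod]
  by_contra hne
  have hC : C < ⊤ := lt_top_iff_ne_top.2 fun e => hne ((e ▸ Submodule.mem_top : v ∈ C) k)
  have h3 := Submodule.finrank_lt_finrank_of_lt hC
  have h4 := Submodule.finrank_mono (hCW inf)
  rw [hpow, hpow, hpow] at h1
  obtain ⟨i, hi⟩ := Nat.exists_eq_add_of_lt h3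
  obtain ⟨j, hj⟩ := Nat.exists_eq_add_of_le h4
  rw [hi, hj] at h1
  have hl0 : 0 < l := (Fact.out : l.Prime).pos
  have h5 : (Nat.card F ^ 2 + 1) * (l ^ j - 1) + 1 = l ^ (i + 1) := by
    refine Nat.eq_of_mul_eq_mul_left (pow_pos hl0 (Module.finrank (ZMod l) C)) ?_
    rw [← pow_add, ← add_assoc, ← h1, pow_add, Nat.mul_add, Nat.mul_left_comm, Nat.mul_sub,
      mul_one]
  rcases j with _ | j
  · have := (Nat.one_lt_pow (Nat.succ_ne_zero i) (Fact.out : l.Prime).one_lt).ne
    rw [pow_zero, Nat.sub_self, mul_zero, zero_add] at h5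
    exact this h5
  · have h6 : l ∣ Nat.card F ^ 2 := by
      obtain ⟨n, hn⟩ : ∃ n, l ^ (j + 1) = n + 1 := ⟨l ^ (j + 1) - 1, by
        have := pow_pos hl0 (j + 1); omega⟩
      rw [hn, Nat.add_sub_cancel] at h5
      have e : Nat.card F ^ 2 + l ^ (i + 1) = (Nat.card F ^ 2 + 1) * l ^ (j + 1) := by
        rw [hn, ← h5]; ring
      exact (Nat.dvd_add_left (dvd_pow_self l (Nat.succ_ne_zero i))).1
        (e ▸ (dvd_pow_self l (Nat.succ_ne_zero j)).mul_left _)
    rw [SzF.card_eq (F := F) (m := m), ← pow_mul] at h6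
    exact hl ((Nat.prime_dvd_prime_iff_eq Fact.out Nat.prime_two).1
      ((Fact.out : l.Prime).dvd_of_dvd_pow h6))

end Cfsg.Agent.Perm.TriN
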