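import Mathlib
import Cfsg.Agent.Perm.Derange

/-!
# Two-point stabilizers in doubly transitive groups: lines of fixed points and short orbits
-/

namespace Cfsg.Agent.Perm.TwoLine

open MulAction Finset Cfsg.Agent.Perm.Der

variable {G Ω : Type*} [Group G] [MulAction G Ω]

/-- double transitivity, elementwise -/
def Two (G Ω : Type*) [Group G] [MulAction G Ω] : Prop :=
  ∀ a b c d : Ω, a ≠ b → c ≠ d → ∃ g : G, g • a = c ∧ g • b = d

/-- the fixed points of the stabilizer of `a` and `b` -/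
def line (G : Type*) [Group G] [MulAction G Ω] (a b : Ω) : Set Ω :=
  {x | ∀ g : G, g • a = a → g • b = b → g • x = x}

/-- the points whose orbit under the stabilizer of `a` and `b` has at least three points -/
def big (G : Type*) [Group G] [MulAction G Ω] (a b : Ω) : Set Ω :=
  {x | ∃ g h : G, (g • a = a ∧ g • b = b) ∧ (h • a = a ∧ h • b = b) ∧
    g • x ≠ x ∧ h • x ≠ x ∧ g • x ≠ h • x}

theorem left_mem_line (a b : Ω) : a ∈ line G a b := fun _ h _ => h

theorem right_mem_line (a b : Ω) : b ∈ line G a b := fun _ _ h => h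

theorem smul_mem_line (k : G) {a b x : Ω} (h : x ∈ line G a b) :
    k • x ∈ line G (k • a) (k • b) := by
  intro g ha hb
  have := h (k⁻¹ * g * k) (by rw [mul_smul, mul_smul, ha, inv_smul_smul])
    (by rw [mul_smul, mul_smul, hb, inv_smul_smul])
  rwa [mul_smul, mul_smul, inv_smul_eq_iff] at this

theorem line_subset {a b c d : Ω} (hc : c ∈ line G a b) (hd : d ∈ line G a b) :
    line G c d ⊆ line G a b := fun _ hx g ha hb => hx g (hc g ha hb) (hd g ha hb)

theorem ncard_line_eq [Finite Ω] (h2 : Two G Ω) {a b c d : Ω} (hab : a ≠ b) (hcd : c ≠ d) :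
    (line G a b).ncard = (line G c d).ncard := by
  have key : ∀ a b c d : Ω, a ≠ b → c ≠ d → (line G a b).ncard ≤ (line G c d).ncard := by
    intro a b c d hab hcd
    obtain ⟨k, rfl, rfl⟩ := h2 a b c d hab hcd
    exact Set.ncard_le_ncard_of_injOn (k • ·) (fun x hx => smul_mem_line k hx)
      (MulAction.injective k).injOn
  exact le_antisymm (key _ _ _ _ hab hcd) (key _ _ _ _ hcd hab)

theorem line_eq [Finite Ω] (h2 : Two G Ω) {a b c d : Ω} (hab : a ≠ b) (hcd : c ≠ d)
    (hc : c ∈ line G a b) (hd : d ∈ line G a b) : line G c d = line G a b :=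
  Set.eq_of_subset_of_ncard_le (line_subset hc hd) (ncard_line_eq h2 hab hcd).le

theorem two_le_ncard_line [Finite Ω] {a b : Ω} (hab : a ≠ b) : 2 ≤ (line G a b).ncard :=
  (Set.one_lt_ncard (Set.toFinite _)).mpr ⟨a, left_mem_line a b, b, right_mem_line a b, hab⟩

theorem fix_mul_le [Finite Ω] (h2 : Two G Ω) {a b : Ω} (hab : a ≠ b) {g : G} {x : Ω}
    (hx : g • x ≠ x) : fix Ω g * ((line G a b).ncard - 1) ≤ Nat.card Ω - 1 := by
  classical
  have := Fintype.ofFinite Ω
  let s : Finset Ω := univ.filter fun y => g • y = y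
  let t : Ω → Finset Ω := fun y => (univ.filter fun z => z ∈ line G x y).erase x
  have hne : ∀ y ∈ s, x ≠ y := fun y hy h => hx (h ▸ (mem_filter.mp hy).2)
  have h1 : (s.biUnion t).card = ∑ y ∈ s, (t y).card := by
    apply card_biUnion
    intro y hy y' hy' hyy
    rw [Function.onFun, Finset.disjoint_left]
    intro z hz hz'
    simp only [t, mem_erase, mem_filter, mem_univ, true_and] at hz hz'
    have e1 := line_eq h2 (hne y hy) hz.1.symm (left_mem_line _ _) hz.2
    have e2 := line_eq h2 (hne y' hy') hz.1.symm (left_mem_line _ _) hz'.2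
    have e3 := line_eq h2 (hne y hy) hyy (right_mem_line _ _)
      (by rw [← e1, e2]; exact right_mem_line _ _)
    exact hx ((e3.ge (left_mem_line _ _)) g (mem_filter.mp hy).2 (mem_filter.mp hy').2)
  have h3 : ∀ y ∈ s, (t y).card = (line G a b).ncard - 1 := by
    intro y hy
    rw [card_erase_of_mem (by simp [left_mem_line]), ncard_line_eq h2 hab (hne y hy),
      Set.ncard_eq_toFinset_card']
    congr 2
    ext; simp
  rw [Finset.sum_congr rfl h3, sum_const, smul_eq_mul] at h1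
  rw [fix_eq_card_filter, ← h1, Nat.card_eq_fintype_card, ← card_univ,
    ← card_erase_of_mem (mem_univ x)]
  apply card_le_card
  intro z hz
  obtain ⟨y, -, hy⟩ := mem_biUnion.mp hz
  exact mem_erase.mpr ⟨(mem_erase.mp hy).1, mem_univ _⟩

theorem smul_mem_big {a b x : Ω} {k : G} (ha : k • a = a) (hb : k • b = b) (hx : x ∈ big G a b) :
    k • x ∈ big G a b := by
  obtain ⟨g, h, hg, hh, h1, h2, h3⟩ := hx
  have ha' : k⁻¹ • a = a := by rw [inv_smul_eq_iff, ha]
  have hb' : k⁻¹ • b = b := by rw [inv_smul_eq_iff, hb]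
  refine ⟨k * g * k⁻¹, k * h * k⁻¹, ?_, ?_, ?_, ?_, ?_⟩ <;>
    simp [mul_smul, ha, hb, ha', hb', hg.1, hg.2, hh.1, hh.2, h1, h2, h3]

theorem sq_smul_of_not_big {a b x : Ω} {g : G} (ha : g • a = a) (hb : g • b = b)
    (hx : x ∉ big G a b) : g • g • x = x := by
  by_contra h
  apply hx
  have h1 : g • x ≠ x := fun e => h (by rw [e, e])
  refine ⟨g, g * g, ⟨ha, hb⟩, ⟨by rw [mul_smul, ha, ha], by rw [mul_smul, hb, hb]⟩, h1,
    by rwa [mul_smul], fun e => h1 ?_⟩
  rw [mul_smul] at e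
  exact (smul_left_cancel g e).symm

theorem smul_eq_of_not_big {a b x : Ω} {g h : G} (ha : g • a = a) (hb : g • b = b)
    (ha' : h • a = a) (hb' : h • b = b) (hx : x ∉ big G a b) (h1 : g • x ≠ x) (h2 : h • x ≠ x) :
    g • x = h • x := by
  by_contra e
  exact hx ⟨g, h, ⟨ha, hb⟩, ⟨ha', hb'⟩, h1, h2, e⟩

theorem four_le_ncard [Finite Ω] {S : Set Ω} {x y z w : Ω} (hx : x ∈ S) (hy : y ∈ S) (hz : z ∈ S)
    (hw : w ∈ S) (h1 : x ≠ y) (h2 : x ≠ z) (h3 : x ≠ w) (h4 : y ≠ z) (h5 : y ≠ w) (h6 : z ≠ w) :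
    4 ≤ S.ncard :=
  (Set.three_lt_ncard (Set.toFinite _)).mpr ⟨x, hx, y, hy, z, hz, w, hw, h1, h2, h3, h4, h5, h6⟩

/-- If no two-point stabilizer has four points in long orbits, there are no long orbits. -/
theorem big_eq_empty [Finite Ω] (h2 : Two G Ω) (hn : 7 ≤ Nat.card Ω)
    (hb : ∀ a b : Ω, a ≠ b → (big G a b).ncard ≤ 3) {a b : Ω} (hab : a ≠ b) (x : Ω) :
    x ∉ big G a b := by
  classical
  intro hx
  have h4 : ∀ {a b : Ω}, a ≠ b → ∀ {x y z w : Ω}, x ∈ big G a b → y ∈ big G a b → z ∈ big G a b →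
      w ∈ big G a b → x ≠ y → x ≠ z → y ≠ z → w = x ∨ w = y ∨ w = z := by
    intro a b hab x y z w hx hy hz hw h1 h2 h3
    by_contra hc
    push Not at hc
    have := four_le_ncard hx hy hz hw h1 h2 hc.1.symm h3 hc.2.1.symm hc.2.2.symm
    have := hb a b hab
    omega
  obtain ⟨e, hea, heb, he1, he2⟩ : ∃ e : G, e • a = a ∧ e • b = b ∧ e • x ≠ x ∧ e • e • x ≠ x := by
    obtain ⟨g, h, hg, hh, h1, h2, h3⟩ := id hx
    by_cases hg2 : g • g • x = x
    · by_cases hh2 : h • h • x = x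
      · have := h4 hab hx (smul_mem_big hg.1 hg.2 hx) (smul_mem_big hh.1 hh.2 hx)
          (smul_mem_big hg.1 hg.2 (smul_mem_big hh.1 hh.2 hx)) h1.symm h2.symm h3
        have e1 : g • h • x = h • x := by
          rcases this with e | e | e
          · exact (h3 (smul_left_cancel g (hg2.trans e.symm))).elim
          · exact (h2 (smul_left_cancel g e)).elim
          · exact e
        refine ⟨g * h, by rw [mul_smul, hh.1, hg.1], by rw [mul_smul, hh.2, hg.2], ?_, ?_⟩
        · rwa [mul_smul, e1]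
        · rwa [mul_smul, mul_smul, e1, hh2]
      · exact ⟨h, hh.1, hh.2, h2, hh2⟩
    · exact ⟨g, hg.1, hg.2, h1, hg2⟩
  have hy := smul_mem_big hea heb hx
  have hz := smul_mem_big hea heb hy
  have hyz : e • x ≠ e • e • x := fun h => he1 (smul_left_cancel e h).symm
  have he3 : e • e • e • x = x := by
    rcases h4 hab hx hy hz (smul_mem_big hea heb hz) he1.symm he2.symm hyz with h | h | h
    · exact h
    · exact (he2 (smul_left_cancel e h)).elim
    · exact (hyz (smul_left_cancel e h).symm).elim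
  have hc : ∀ w, w ≠ x → w ≠ e • x → w ≠ e • e • x → (e * e) • w = w := by
    intro w h1 h2 h3
    rw [mul_smul]
    refine sq_smul_of_not_big hea heb fun hw => ?_
    rcases h4 hab hx hy hz hw he1.symm he2.symm hyz with h | h | h <;> contradiction
  have hax : a ≠ x := fun h => he1 (h ▸ hea)
  have hay : a ≠ e • x := fun h => hax (smul_left_cancel e (hea.trans h))
  have haz : a ≠ e • e • x := fun h => hay (smul_left_cancel e (hea.trans h))
  obtain ⟨k, hk1, hk2⟩ := h2 x (e • e • x) x a he2.symm hax.symm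
  have := Fintype.ofFinite Ω
  let T : Finset Ω := {x, e • x, e • e • x, a, k • e • x}
  have hT : 1 < Tᶜ.card := by
    have : T.card ≤ 5 := card_le_five
    rw [card_compl, ← Nat.card_eq_fintype_card]
    omega
  obtain ⟨c, hc', d, hd', hcd⟩ := one_lt_card.mp hT
  simp only [T, mem_compl, mem_insert, mem_singleton, not_or] at hc' hd'
  have hk : ∀ w, w ≠ x → w ≠ a → w ≠ k • e • x → (k * (e * e) * k⁻¹) • w = w := by
    intro w h1 h2 h3
    rw [mul_smul, mul_smul, hc, smul_inv_smul]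
    · rwa [Ne, inv_smul_eq_iff, hk1]
    · rwa [Ne, inv_smul_eq_iff]
    · rwa [Ne, inv_smul_eq_iff, hk2]
  have c1 := hc c hc'.1 hc'.2.1 hc'.2.2.1
  have d1 := hc d hd'.1 hd'.2.1 hd'.2.2.1
  have c2 := hk c hc'.1 hc'.2.2.2.1 hc'.2.2.2.2
  have d2 := hk d hd'.1 hd'.2.2.2.1 hd'.2.2.2.2
  have e1 : (e * e) • x = e • e • x := mul_smul _ _ _
  have e2 : (e * e) • (e * e) • x = e • x := by rw [e1, mul_smul, he3]
  have e3 : (k * (e * e) * k⁻¹) • x = a := by
    rw [mul_smul, mul_smul, inv_smul_eq_iff.mpr hk1.symm, e1, hk2]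
  have hx' : x ∈ big G c d :=
    ⟨e * e, k * (e * e) * k⁻¹, ⟨c1, d1⟩, ⟨c2, d2⟩, by rwa [e1], by rwa [e3],
      by rw [e1, e3]; exact haz.symm⟩
  have m1 := smul_mem_big c1 d1 hx'
  have m2 := smul_mem_big c1 d1 m1
  have m3 := smul_mem_big c2 d2 hx'
  rw [e2] at m2
  rw [e1] at m1
  rw [e3] at m3
  rcases h4 hcd hx' m2 m1 m3 he1.symm he2.symm hyz with h | h | h <;> contradiction

section NoBig

variable (hb : ∀ a b : Ω, a ≠ b → ∀ x, x ∉ big G a b)
include hb

theorem comm_of_noBig {a b : Ω} (hab : a ≠ b) {g h : G} (ha : g • a = a) (hb1 : g • b = b)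
    (ha' : h • a = a) (hb' : h • b = b) (x : Ω) : g • h • x = h • g • x := by
  have h1 := sq_smul_of_not_big (g := g * h) (by rw [mul_smul, ha', ha]) (by rw [mul_smul, hb', hb1])
    (hb a b hab (h • g • x))
  rw [mul_smul, mul_smul, sq_smul_of_not_big ha' hb' (hb a b hab _),
    sq_smul_of_not_big ha hb1 (hb a b hab _)] at h1
  exact h1

theorem exists_fix_of_noBig {a b x y : Ω} (hab : a ≠ b) (hx : x ∉ line G a b) {g : G}
    (ha : g • a = a) (hb1 : g • b = b) (hgx : g • x = x) (hy : g • y ≠ y) :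
    ∃ c : G, c • a = a ∧ c • b = b ∧ c • y = y ∧ c • x ≠ x := by
  obtain ⟨h, ha', hb', hhx⟩ : ∃ h : G, h • a = a ∧ h • b = b ∧ h • x ≠ x := by
    by_contra hc
    push Not at hc
    exact hx hc
  by_cases hhy : h • y = y
  · exact ⟨h, ha', hb', hhy, hhx⟩
  refine ⟨g * h, by rw [mul_smul, ha', ha], by rw [mul_smul, hb', hb1], ?_, fun e => hhx ?_⟩
  · rw [mul_smul, smul_eq_of_not_big ha' hb' ha hb1 (hb a b hab y) hhy hy,
      sq_smul_of_not_big ha hb1 (hb a b hab y)]
  · rw [mul_smul] at e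
    exact smul_left_cancel g (e.trans hgx.symm)

theorem exists_move_of_noBig [Finite Ω] (h2 : Two G Ω) {a b x y : Ω} (hab : a ≠ b)
    (hx : x ∉ line G a b) {g : G}
    (ha : g • a = a) (hb1 : g • b = b) (hgx : g • x = x) (hy : g • y ≠ y) :
    ∃ c : G, c • a = a ∧ c • x = x ∧ c • y = y ∧ c • b ≠ b ∧ c • b ∈ line G a b := by
  have hax : a ≠ x := fun h => hx (h ▸ left_mem_line a b)
  have hay : a ≠ y := fun h => hy (h ▸ ha)
  have hb2 : b ∉ line G a x := fun h =>
    hx ((line_eq h2 hax hab (left_mem_line _ _) h).ge (right_mem_line _ _))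
  obtain ⟨d, d1, d2, d3, d4⟩ := exists_fix_of_noBig hb hab hx ha hb1 hgx hy
  obtain ⟨c, c1, c2, c3, c4⟩ := exists_fix_of_noBig hb hax hb2 ha hgx hb1 hy
  refine ⟨c, c1, c2, c3, c4, fun h h1 h3 => ?_⟩
  by_cases hx' : h • x = x
  · rw [comm_of_noBig hb hax h1 hx' c1 c2, h3]
  · have e : (d * h) • x = x := by
      rw [mul_smul, smul_eq_of_not_big h1 h3 d1 d2 (hb a b hab x) hx' d4,
        sq_smul_of_not_big d1 d2 (hb a b hab x)]
    have e1 := comm_of_noBig hb hax (g := d * h) (by rw [mul_smul, h1, d1]) e c1 c2 b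
    have e2 := comm_of_noBig hb hay d1 d3 c1 c3 b
    rw [mul_smul, mul_smul, h3, ← e2] at e1
    exact smul_left_cancel d e1

theorem mem_line_of_noBig [Finite Ω] (h2 : Two G Ω) {a b x y : Ω} (hab : a ≠ b) {g : G}
    (ha : g • a = a) (hb1 : g • b = b) (hgx : g • x = x) (hy : g • y ≠ y) : x ∈ line G a b := by
  by_contra hx
  have e : line G b a = line G a b :=
    line_eq h2 hab hab.symm (right_mem_line _ _) (left_mem_line _ _)
  have hxy : x ≠ y := fun h => hy (h ▸ hgx)
  obtain ⟨c, c1, c2, c3, c4, c5⟩ := exists_move_of_noBig hb h2 hab hx ha hb1 hgx hy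
  obtain ⟨d, d1, d2, d3, d4, -⟩ := exists_move_of_noBig hb h2 hab.symm (e ▸ hx) hb1 ha hgx hy
  have e1 := comm_of_noBig hb hxy d2 d3 c2 c3 b
  rw [d1] at e1
  have e2 := line_eq h2 hab c4.symm (right_mem_line _ _) c5
  exact d4 ((e2.ge (left_mem_line _ _)) d d1 e1)

theorem nine_le_of_noBig [Finite Ω] (h2 : Two G Ω) {a b y : Ω} (hab : a ≠ b) {g : G}
    (ha : g • a = a) (hb1 : g • b = b) (hy : g • y ≠ y) (h3 : (line G a b).ncard = 3) :
    9 ≤ Nat.card Ω := by
  classical
  have := Fintype.ofFinite Ω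
  have hsq := fun x => sq_smul_of_not_big ha hb1 (hb a b hab x)
  have hsym : ∀ x, g • x ≠ x → line G (g • x) x = line G x (g • x) := fun x hx =>
    line_eq h2 hx.symm hx (right_mem_line _ _) (left_mem_line _ _)
  obtain ⟨z, hz, hz1, hz2⟩ : ∃ z ∈ line G y (g • y), z ≠ y ∧ z ≠ g • y := by
    by_contra hc
    push Not at hc
    have : line G y (g • y) ⊆ {y, g • y} := fun z hz => by
      by_cases h : z = y
      · exact Or.inl h
      · exact Or.inr (hc z hz h)
    have h1 := Set.ncard_le_ncard this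
    rw [ncard_line_eq h2 hy.symm hab, h3, Set.ncard_pair hy.symm] at h1
    omega
  have hgz : g • z = z := by
    by_contra hc
    have h1 := smul_mem_line g hz
    rw [hsq, hsym y hy] at h1
    have := four_le_ncard (left_mem_line _ _) (right_mem_line _ _) hz h1 hy.symm hz1.symm
      (fun h => hz2 (by rw [h, hsq])) hz2.symm (fun h => hz1 (smul_left_cancel g h).symm)
      (Ne.symm hc)
    rw [ncard_line_eq h2 hy.symm hab] at this
    omega
  have hzL := mem_line_of_noBig hb h2 hab ha hb1 hgz hy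
  have hother : ∀ p ∈ line G a b, ∃ q ∈ line G a b, p ≠ q := fun p _ => by
    by_cases h : p = a
    · exact ⟨b, right_mem_line _ _, h ▸ hab⟩
    · exact ⟨a, left_mem_line _ _, h⟩
  let s : Finset Ω := univ.filter fun p => p ∈ line G a b
  let t : Ω → Finset Ω := fun p => univ.filter fun x => g • x ≠ x ∧ p ∈ line G x (g • x)
  have h1 : (s.biUnion t).card = ∑ p ∈ s, (t p).card := by
    apply card_biUnion
    intro p hp q hq hpq
    rw [Function.onFun, Finset.disjoint_left]
    intro x hx hx'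
    simp only [s, t, coe_filter, Set.mem_ofPred_eq, mem_filter, mem_univ, true_and] at hx hx' hp hq
    have e1 := line_eq h2 hx.1.symm hpq hx.2 hx'.2
    exact hx.1 ((e1.ge (left_mem_line _ _)) g (hp g ha hb1) (hq g ha hb1))
  have h4 : ∀ p ∈ s, 2 ≤ (t p).card := by
    intro p hp
    have hp := (mem_filter.mp hp).2
    obtain ⟨q, hq, hpq⟩ := hother p hp
    obtain ⟨w, hw, hzw⟩ := hother z hzL
    obtain ⟨k, rfl, rfl⟩ := h2 z w p q hzw hpq
    have eL := line_eq h2 hab hpq hp hq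
    have eL' := line_eq h2 hab hzw hzL hw
    have hk : ∀ x ∈ line G a b, (k * g * k⁻¹) • x = x := by
      intro x hx
      have := smul_mem_line k⁻¹ (eL.ge hx)
      rw [inv_smul_smul, inv_smul_smul, eL'] at this
      rw [mul_smul, mul_smul, this g ha hb1, smul_inv_smul]
    have hky : (k * g * k⁻¹) • k • y ≠ k • y := by simpa [mul_smul] using hy
    have hgy : g • k • y ≠ k • y := fun h =>
      hky (hk _ (mem_line_of_noBig hb h2 hab ha hb1 h hy))
    have e := smul_eq_of_not_big (hk a (left_mem_line _ _)) (hk b (right_mem_line _ _)) ha hb1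
      (hb a b hab _) hky hgy
    rw [mul_smul, mul_smul, inv_smul_smul] at e
    have m := smul_mem_line k hz
    rw [e] at m
    refine one_lt_card.mpr ⟨k • y, ?_, g • k • y, ?_, hgy.symm⟩
    · exact mem_filter.mpr ⟨mem_univ _, hgy, m⟩
    · refine mem_filter.mpr ⟨mem_univ _, fun h => hgy (smul_left_cancel g h), ?_⟩
      rwa [hsq, hsym _ hgy]
  have h5 : s.card = 3 := by
    rw [← h3, Set.ncard_eq_toFinset_card']
    congr 1
    ext; simp [s]
  have h6 : s.card * 2 ≤ ∑ p ∈ s, (t p).card := by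
    rw [← smul_eq_mul]; exact card_nsmul_le_sum _ _ _ h4
  have h7 : Disjoint s (s.biUnion t) := by
    rw [Finset.disjoint_left]
    intro x hx hx'
    obtain ⟨p, -, hp⟩ := mem_biUnion.mp hx'
    exact (mem_filter.mp hp).2.1 ((mem_filter.mp hx).2 g ha hb1)
  have h8 := card_le_univ (s ∪ s.biUnion t)
  rw [card_union_of_disjoint h7, ← Nat.card_eq_fintype_card] at h8
  omega

end NoBig

end Cfsg.Agent.Perm.TwoLine
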