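import Mathlib
import Cfsg.Agent.Perm.PermChar
import Cfsg.Agent.Perm.JordanSet
import Cfsg.Agent.Perm.Regular

/-! Primitive groups of degree `2 p`: coordinates and the projection of rank `p`. -/

set_option autoImplicit false

namespace Cfsg.Agent.Perm.TwoP

open MulAction
open scoped Matrix

variable {G Ω : Type*} [Group G] [MulAction G Ω] {p : ℕ} [hp : Fact p.Prime]

theorem exists_line {τ : G} (hτ : τ ^ p = 1) {x₀ : Ω} (hx₀ : τ • x₀ ≠ x₀) :
    ∃ f : ZMod p → Ω, Function.Injective f ∧ f 0 = x₀ ∧ ∀ z, τ • f z = f (z + 1) := by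
  have hper : period τ x₀ = p :=
    ((Nat.dvd_prime hp.out).1 (pow_smul_eq_iff_period_dvd.1 (by rw [hτ, one_smul]))).resolve_left
      fun h => hx₀ (by simpa [h] using pow_period_smul τ x₀)
  have hf : ∀ n : ℕ, τ ^ (n : ZMod p).val • x₀ = τ ^ n • x₀ := fun n => by
    rw [ZMod.val_natCast]
    conv_lhs => rw [← hper]
    exact pow_mod_period_smul n
  refine ⟨fun j => τ ^ j.val • x₀, fun i j hij => ?_, by simp, fun z => ?_⟩
  · have : τ ^ ((j.val : ℤ) - i.val) • x₀ = x₀ := by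
      rw [sub_eq_neg_add, zpow_add, mul_smul, zpow_neg, zpow_natCast, zpow_natCast,
        inv_smul_eq_iff]
      exact hij.symm
    rw [zpow_smul_eq_iff_period_dvd, hper, ← ZMod.intCast_eq_intCast_iff_dvd_sub] at this
    simpa using this
  · rw [show z + 1 = ((z.val + 1 : ℕ) : ZMod p) by simp]
    exact (by rw [pow_succ', mul_smul] : _ = τ ^ (z.val + 1) • x₀).trans (hf _).symm

theorem line_pow {τ : G} {f : ZMod p → Ω} (hf : ∀ z, τ • f z = f (z + 1)) (n : ℕ) (z : ZMod p) :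
    τ ^ n • f z = f (z + n) := by
  induction n with
  | zero => simp
  | succ n ih => rw [pow_succ', mul_smul, ih, hf, Nat.cast_succ, add_assoc]

theorem exists_coord [Fintype Ω] [DecidableEq Ω] [FaithfulSMul G Ω] (hΩ : Fintype.card Ω = 2 * p)
    (hG : IsPreprimitive G Ω) (h2 : ¬ IsMultiplyPretransitive G Ω 2) :
    ∃ (τ : G) (φ : Fin 2 × ZMod p ≃ Ω), ∀ i z, τ • φ (i, z) = φ (i, z + 1) := by
  haveI : Finite G := finite_of_faithful (X := Ω)
  have hp2 := hp.out.two_le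
  obtain ⟨a⟩ : Nonempty Ω := Fintype.card_pos_iff.1 (by omega)
  obtain ⟨τ, hτ⟩ := exists_prime_orderOf_dvd_card' (G := G) p (by
    rw [← card_mul_card_stabilizer a, Nat.card_eq_fintype_card, hΩ]
    exact (dvd_mul_left p 2).mul_right _)
  obtain ⟨x, hx⟩ := exists_smul_ne (X := Ω) (g := τ) (by
    rintro rfl
    exact hp.out.one_lt.ne (orderOf_one.symm.trans hτ))
  obtain ⟨f, hf, -, hf1⟩ := exists_line (hτ ▸ pow_orderOf_eq_one τ) hx
  obtain ⟨y, hy, hy1⟩ : ∃ y, y ∉ Finset.univ.image f ∧ τ • y ≠ y := by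
    by_contra hc
    push Not at hc
    have hcard : (Finset.univ.image f)ᶜ.card = p := by
      rw [Finset.card_compl, Finset.card_image_of_injective _ hf, Finset.card_univ, ZMod.card]
      omega
    refine h2 (IsJC.two_trans (Δ := (Finset.univ.image f)ᶜ) ?_ hG (by omega) (by omega))
    intro u hu v hv
    rw [Finset.notMem_compl, Finset.mem_image] at hu hv
    obtain ⟨u, -, rfl⟩ := hu
    obtain ⟨v, -, rfl⟩ := hv
    exact ⟨τ ^ (v - u).val, fun w hw => pow_mem (mem_stabilizer_iff.2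
      (hc w (Finset.mem_compl.1 hw))) _, by rw [line_pow hf1]; simp⟩
  obtain ⟨g, hg, rfl, hg1⟩ := exists_line (hτ ▸ pow_orderOf_eq_one τ) hy1
  have hfg : ∀ z w, f z ≠ g w := fun z w e => hy (by
    have := congrArg (τ ^ (-w).val • ·) e
    simp only [line_pow hf1, line_pow hg1, ZMod.natCast_zmod_val, add_neg_cancel] at this
    exact this ▸ Finset.mem_image_of_mem f (Finset.mem_univ _))
  refine ⟨τ, Equiv.ofBijective (fun x => ![f, g] x.1 x.2)
    ((Fintype.bijective_iff_injective_and_card _).2 ⟨?_, by simp [hΩ]⟩), fun i z => ?_⟩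
  · rintro ⟨i, z⟩ ⟨j, w⟩ e
    fin_cases i <;> fin_cases j
    exacts [congrArg _ (hf e), absurd e (hfg _ _), absurd e.symm (hfg _ _), congrArg _ (hg e)]
  · fin_cases i
    exacts [hf1 z, hg1 z]

/-- The rational group ring of the cyclic group of order `p`. -/
abbrev GR (p : ℕ) : Type := AddMonoidAlgebra ℚ (ZMod p)

theorem coeff_mul (x y : GR p) (z : ZMod p) :
    (x * y).coeff z = ∑ w, x.coeff w * y.coeff (-w + z) := by
  rw [AddMonoidAlgebra.coeff_mul_apply_left, Finsupp.sum_fintype _ _ (by simp)]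

theorem exists_ev : ∃ ev : GR p →+* ℂ, ∀ x, ev x = 0 → ∀ z, x.coeff z = x.coeff 0 := by
  refine ⟨(AddMonoidAlgebra.lift ℚ ℂ (ZMod p) ZMod.stdAddChar.toMonoidHom : GR p →ₐ[ℚ] ℂ),
    fun x hx z => ?_⟩
  rw [RingHom.coe_coe, AddMonoidAlgebra.lift_apply, Finsupp.sum_fintype _ _ (by simp)] at hx
  have := (IsPrimitiveRoot.sum_eq_zero_iff_forall_eq hp.out
    (Complex.isPrimitiveRoot_exp p hp.out.ne_zero) fun i => x.coeff (i.val : ZMod p)).1 (by
      rw [← hx]
      refine Fintype.sum_bijective (fun i => (i.val : ZMod p))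
        ((Fintype.bijective_iff_surjective_and_card _).2
          ⟨fun z => ⟨⟨z.val, z.val_lt⟩, by simp⟩, by simp⟩) _ _ fun i => ?_
      rw [← Complex.exp_nat_mul, Rat.smul_def, ← Int.cast_natCast (R := ZMod p)]
      exact congrArg _ ((congrArg _ (by push_cast; ring)).trans (ZMod.stdAddChar_coe _).symm)) ⟨z.val, z.val_lt⟩ ⟨0, hp.out.pos⟩
  simpa using this

theorem eq_trace_smul {R : Type*} [CommRing R] {b f : Matrix (Fin 2) (Fin 2) R}
    (hf : f.trace = 1) (h1 : b * f = b) (h2 : f * b = b) : b = b.trace • f := by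
  have e1 := fun i j => congrFun (congrFun h1 i) j
  have e2 := fun i j => congrFun (congrFun h2 i) j
  simp only [Matrix.mul_apply, Fin.sum_univ_two, Matrix.trace_fin_two] at e1 e2 hf ⊢
  ext i j
  fin_cases i <;> fin_cases j <;> simp only [Matrix.smul_apply, smul_eq_mul, Fin.zero_eta,
    Fin.mk_one]
  · linear_combination e2 1 1 - e1 0 0 - b 1 1 * hf
  · linear_combination -e1 0 1 - e2 0 1 + b 0 1 * hf
  · linear_combination -e1 1 0 - e2 1 0 + b 1 0 * hf
  · linear_combination e2 0 0 - e1 1 1 - b 0 0 * hf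

theorem idem_cases {e : Matrix (Fin 2) (Fin 2) ℂ} (h : e * e = e) :
    e.trace = 1 ∨ e = 0 ∨ e = 1 := by
  have e1 := fun i j => congrFun (congrFun h i) j
  simp only [Matrix.mul_apply, Fin.sum_univ_two] at e1
  refine or_iff_not_imp_left.2 fun ht => ?_
  rw [Matrix.trace_fin_two, ← ne_eq, ← sub_ne_zero] at ht
  have h1 : e 0 1 = 0 := (mul_eq_zero.1 (by linear_combination e1 0 1)).resolve_left ht
  have h2 : e 1 0 = 0 := (mul_eq_zero.1 (by linear_combination e1 1 0)).resolve_left ht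
  have h3 : e 1 1 = e 0 0 := sub_eq_zero.1 ((mul_eq_zero.1 (by
    linear_combination e1 1 1 - e1 0 0)).resolve_left ht)
  have h4 : e 0 0 * (e 0 0 - 1) = 0 := by linear_combination e1 0 0 - e 1 0 * h1
  refine (mul_eq_zero.1 h4).imp (fun h5 => ?_) fun h5 => ?_ <;> ext i j <;> fin_cases i <;>
    fin_cases j <;> simp_all [sub_eq_zero]

/-- The `2 × 2` matrix over the group ring attached to a matrix. -/
noncomputable def blk (φ : Fin 2 × ZMod p ≃ Ω) : Matrix Ω Ω ℚ →ₗ[ℚ] Matrix (Fin 2) (Fin 2) (GR p)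
    where
  toFun M i j := .ofCoeff (Finsupp.equivFunOnFinite.symm fun z => M (φ (i, 0)) (φ (j, z)))
  map_add' _ _ := by ext; rfl
  map_smul' _ _ := by ext; rfl

/-- Sum of the entries of a row of a block. -/
def al (φ : Fin 2 × ZMod p ≃ Ω) (M : Matrix Ω Ω ℚ) (i j : Fin 2) : ℚ :=
  ∑ z, M (φ (i, 0)) (φ (j, z))

/-- The eigenvalue on the difference of the two orbits. -/
def ev (φ : Fin 2 × ZMod p ≃ Ω) (M : Matrix Ω Ω ℚ) : ℚ := al φ M 0 0 - al φ M 0 1

variable {φ : Fin 2 × ZMod p ≃ Ω}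

theorem coeff_blk (M : Matrix Ω Ω ℚ) (i j : Fin 2) (z : ZMod p) :
    (blk φ M i j).coeff z = M (φ (i, 0)) (φ (j, z)) := rfl

theorem sum_eq [Fintype Ω] (φ : Fin 2 × ZMod p ≃ Ω) (f : Ω → ℚ) :
    ∑ x, f x = ∑ z, f (φ (0, z)) + ∑ z, f (φ (1, z)) := by
  rw [← φ.sum_comp, Fintype.sum_prod_type, Fin.sum_univ_two]

theorem blk_one [DecidableEq Ω] : blk φ 1 = 1 := by
  ext i j z
  rw [coeff_blk, Matrix.one_apply, Matrix.one_apply]
  by_cases h : i = j <;> by_cases h' : 0 = z <;>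
    simp [h, h', AddMonoidAlgebra.one_def]

variable {τ : G} (hφ : ∀ i z, τ • φ (i, z) = φ (i, z + 1)) {M N : Matrix Ω Ω ℚ}
include hφ

theorem shift (hM : IsInvMat G M) (i j : Fin 2) (w z : ZMod p) :
    M (φ (i, w)) (φ (j, z)) = M (φ (i, 0)) (φ (j, -w + z)) := by
  rw [← hM (τ ^ w.val) (φ (i, 0)), line_pow (f := fun z => φ (i, z)) (hφ i),
    line_pow (f := fun z => φ (j, z)) (hφ j)]
  simp

theorem sum_shift (hM : IsInvMat G M) (i j : Fin 2) (w : ZMod p) :
    ∑ z, M (φ (i, w)) (φ (j, z)) = al φ M i j :=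
  Fintype.sum_equiv (Equiv.addLeft (-w)) _ _ fun z => shift hφ hM i j w z

theorem al_transpose (hM : IsInvMat G M) (i j : Fin 2) : al φ Mᵀ i j = al φ M j i :=
  Fintype.sum_equiv (Equiv.neg _) _ _ fun z => by simp [shift hφ hM j i z]

variable [Fintype Ω]

theorem blk_mul (hN : IsInvMat G N) : blk φ (M * N) = blk φ M * blk φ N := by
  ext i j z
  simp only [coeff_blk, Matrix.mul_apply, sum_eq φ, Fin.sum_univ_two, AddMonoidAlgebra.coeff_add,
    Finsupp.add_apply, coeff_mul, shift hφ hN _ j _ z]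

variable [IsPretransitive G Ω]

omit hφ in
theorem sum_row (hM : IsInvMat G M) (x : Ω) : ∑ y, M x y = al φ M 0 0 + al φ M 0 1 := by
  obtain ⟨g, rfl⟩ := exists_smul_eq G (φ (0, 0)) x
  rw [← Equiv.sum_comp (MulAction.toPerm g)]
  exact (Finset.sum_congr rfl fun y _ => hM g _ y).trans (sum_eq φ _)

theorem al_symm (hM : IsInvMat G M) : al φ M 1 1 = al φ M 0 0 ∧ al φ M 1 0 = al φ M 0 1 := by
  have h1 := sum_row (φ := φ) hM (φ (1, 0))
  have h2 := sum_row (φ := φ) hM.transpose (φ (1, 0))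
  rw [sum_eq φ] at h1 h2
  change al φ M 1 0 + al φ M 1 1 = _ at h1
  change al φ Mᵀ 1 0 + al φ Mᵀ 1 1 = _ at h2
  simp only [al_transpose hφ hM] at h2
  constructor <;> linarith

theorem ev_transpose (hM : IsInvMat G M) : ev φ Mᵀ = ev φ M := by
  rw [ev, al_transpose hφ hM, al_transpose hφ hM, (al_symm hφ hM).2, ev]

/-- The invariant projection onto the submodule generated by the difference of the two orbits. -/
structure IsProj (G : Type*) [Group G] [MulAction G Ω] (φ : Fin 2 × ZMod p ≃ Ω)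
    (E : Matrix Ω Ω ℚ) : Prop where
  inv : IsInvMat G E
  symm : Eᵀ = E
  ev_eq : ev φ E = 1
  mul : ∀ M, IsInvMat G M → M * E = ev φ M • E

theorem exists_proj [Finite G] : ∃ E : Matrix Ω Ω ℚ, IsProj G φ E := by
  haveI := Fintype.ofFinite G
  let δ : Ω → ℚ := fun x => ![1, -1] (φ.symm x).1
  have hδ : ∀ M, IsInvMat G M → ∀ x, ∑ y, M x y * δ y = ev φ M * δ x := by
    intro M hM x
    obtain ⟨⟨i, w⟩, rfl⟩ := φ.surjective x
    simp only [sum_eq φ, δ, φ.symm_apply_apply, ← Finset.sum_mul, sum_shift hφ hM]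
    fin_cases i <;> simp [ev, al_symm hφ hM, sub_eq_add_neg, add_comm]
  let X : Matrix Ω Ω ℚ := Matrix.of fun x y => ∑ g : G, δ (g • x) * δ (g • y)
  have hX : IsInvMat G X := fun g x y =>
    Fintype.sum_equiv (Equiv.mulRight g) _ _ fun h => by simp [mul_smul]
  have hXt : Xᵀ = X := Matrix.ext fun x y => Finset.sum_congr rfl fun _ _ => mul_comm _ _
  have hMX : ∀ M, IsInvMat G M → M * X = ev φ M • X := by
    intro M hM
    ext x y
    simp only [Matrix.mul_apply, Matrix.smul_apply, X, Matrix.of_apply, Finset.mul_sum, smul_eq_mul]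
    rw [Finset.sum_comm]
    refine Finset.sum_congr rfl fun g _ => ?_
    rw [← mul_assoc, ← hδ M hM, Finset.sum_mul,
      ← Equiv.sum_comp (MulAction.toPerm g) fun w => M (g • x) w * δ w * δ (g • y)]
    exact Finset.sum_congr rfl fun w _ => by rw [← hM g, mul_assoc]; rfl
  have h0 : ev φ X ≠ 0 := by
    intro e
    have h1 := congrFun (congrFun (hMX X hX) (φ (0, 0))) (φ (0, 0))
    rw [e, zero_smul, Matrix.mul_apply, Matrix.zero_apply, Finset.sum_eq_zero_iff_of_nonneg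
      fun y _ => by rw [← Matrix.transpose_apply X y, hXt]; exact mul_self_nonneg _] at h1
    have h2 := mul_self_eq_zero.1 (h1 _ (Finset.mem_univ _))
    simpa [δ] using (Finset.sum_eq_zero_iff_of_nonneg fun _ _ => mul_self_nonneg _).1 h2 1
      (Finset.mem_univ _)
  refine ⟨(ev φ X)⁻¹ • X, fun g x y => congrArg _ (hX g x y), by rw [Matrix.transpose_smul, hXt],
    ?_, fun M hM => by rw [Matrix.mul_smul, hMX M hM, smul_comm]⟩
  rw [← inv_mul_cancel₀ h0]
  simp [ev, al, Finset.mul_sum, mul_sub]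

namespace IsProj

variable {E : Matrix Ω Ω ℚ} (hE : IsProj G φ E)
include hE

omit hφ [IsPretransitive G Ω] in
theorem mul_self : E * E = E := by rw [hE.mul E hE.inv, hE.ev_eq, one_smul]

omit hφ [IsPretransitive G Ω] in
theorem symm' (x y : Ω) : E x y = E y x := by rw [← Matrix.transpose_apply E, hE.symm]

theorem mul' (hM : IsInvMat G M) : E * M = ev φ M • E := by
  have := congrArg Matrix.transpose (hE.mul _ hM.transpose)
  rwa [Matrix.transpose_mul, Matrix.transpose_smul, hE.symm, ev_transpose hφ hM] at this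

theorem al_eq (i j : Fin 2) : al φ E i j = if i = j then 1 / 2 else -1 / 2 := by
  have h1 := congrFun (congrFun (hE.mul' hφ (M := Matrix.of fun _ _ => 1) fun _ _ _ => rfl)
    (φ (0, 0))) (φ (0, 0))
  simp only [Matrix.mul_apply, Matrix.of_apply, mul_one, sum_row (φ := φ) hE.inv, ev, al,
    sub_self, zero_smul, Matrix.zero_apply] at h1
  change al φ E 0 0 + al φ E 0 1 = 0 at h1
  have h2 := hE.ev_eq
  obtain ⟨h3, h4⟩ := al_symm hφ hE.inv
  rw [ev] at h2
  fin_cases i <;> fin_cases j <;> simp <;> linarith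

theorem apply_of_scalar [DecidableEq Ω] {d : ℚ}
    (h : ∀ i j z, (E - d • (1 : Matrix Ω Ω ℚ)) (φ (i, 0)) (φ (j, z)) =
      (E - d • (1 : Matrix Ω Ω ℚ)) (φ (i, 0)) (φ (j, 0))) (i j : Fin 2) (w z : ZMod p) :
    p * (E - d • (1 : Matrix Ω Ω ℚ)) (φ (i, w)) (φ (j, z)) =
      if i = j then 1 / 2 - d else -1 / 2 := by
  have h1 : IsInvMat G (E - d • (1 : Matrix Ω Ω ℚ)) := fun g x y => by
    simp [hE.inv g, Matrix.one_apply]
  have h2 : al φ (E - d • (1 : Matrix Ω Ω ℚ)) i j = al φ E i j - if i = j then d else 0 := by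
    by_cases e : i = j <;> simp [al, Matrix.one_apply, e]
  rw [hE.al_eq hφ, al, Finset.sum_congr rfl fun z _ => h i j z] at h2
  rw [shift hφ h1, h]
  split_ifs at h2 ⊢ <;> simpa [mul_sub] using h2

theorem trace_eq [DecidableEq Ω] (hG : IsPreprimitive G Ω)
    (h2 : ¬ IsMultiplyPretransitive G Ω 2) : (blk φ E).trace = 1 := by
  obtain ⟨χ, hχ⟩ := exists_ev (p := p)
  have hp0 : (0 : ℚ) < p := by exact_mod_cast hp.out.pos
  have hd : ∀ d : ℚ, (blk φ (E - d • (1 : Matrix Ω Ω ℚ))).map χ = 0 → ∀ i j w z,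
      p * (E - d • (1 : Matrix Ω Ω ℚ)) (φ (i, w)) (φ (j, z)) =
      if i = j then 1 / 2 - d else -1 / 2 := fun d h =>
    hE.apply_of_scalar hφ fun i j => hχ _ (congrFun (congrFun h i) j)
  rcases idem_cases (e := (blk φ E).map χ) (by
    rw [← Matrix.map_mul, ← blk_mul hφ hE.inv, hE.mul_self]) with h | h | h
  · have h1 := hχ ((blk φ E).trace - 1) (by rw [map_sub, AddMonoidHom.map_trace, h]; simp)
    have h3 : ∑ z, ((blk φ E).trace - 1).coeff z = 0 := by
      have h4 := hE.al_eq hφ 0 0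
      have h5 := hE.al_eq hφ 1 1
      simp only [al, if_true] at h4 h5
      simp [Matrix.trace_fin_two, coeff_blk, Finset.sum_add_distrib, h4, h5,
        AddMonoidAlgebra.one_def, Finsupp.single_apply]
      norm_num
    rw [Finset.sum_congr rfl fun z _ => h1 z, Finset.sum_const, Finset.card_univ, ZMod.card,
      nsmul_eq_mul, mul_eq_zero, or_iff_right hp0.ne'] at h3
    rw [← sub_eq_zero]
    ext z
    exact (h1 z).trans h3
  · exfalso
    have h1 := hd 0 (by simpa using h)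
    simp only [zero_smul, sub_zero] at h1
    have h3 : ∀ x y, (φ.symm x).1 = (φ.symm y).1 ↔ p * E x y = 1 / 2 := fun x y => by
      obtain ⟨⟨i, w⟩, rfl⟩ := φ.surjective x
      obtain ⟨⟨j, z⟩, rfl⟩ := φ.surjective y
      rw [h1]
      by_cases e : i = j <;> simp [e]
      norm_num
    rcases prim_rel hG (fun x y => (φ.symm x).1 = (φ.symm y).1) ⟨fun _ => rfl, Eq.symm, Eq.trans⟩
      (fun g x y => by rw [h3, h3, hE.inv]; exact id) with h4 | h4
    · simpa using h4 (φ (0, 0)) (φ (0, 1)) (by simp)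
    · simpa using h4 (φ (0, 0)) (φ (1, 0))
  · exfalso
    have h1 := hd 1 (by
      rw [map_sub, map_smul, one_smul, blk_one, Matrix.map_sub _ (map_sub χ), h]
      simp)
    have h3 : (p : ℚ) • E = (p : ℚ) • (1 : Matrix Ω Ω ℚ) - Matrix.of fun _ _ => (1 / 2 : ℚ) := by
      ext x y
      obtain ⟨⟨i, w⟩, rfl⟩ := φ.surjective x
      obtain ⟨⟨j, z⟩, rfl⟩ := φ.surjective y
      have := h1 i j w z
      simp only [one_smul, Matrix.sub_apply, Matrix.smul_apply, smul_eq_mul, Matrix.of_apply]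
        at this ⊢
      split_ifs at this <;> linarith
    refine h2 (is_two_pretransitive_iff.2 fun {a b c d} hab hcd => ?_)
    have h4 := congrArg ((p : ℚ) • ·) (hE.mul _ (isInvMat_orbMat ℚ a b))
    simp only [← Matrix.mul_smul, smul_comm (p : ℚ) (ev φ _), h3, Matrix.mul_sub] at h4
    have h5 := congrFun (congrFun h4 a) b
    have h6 := congrFun (congrFun h4 c) d
    simp only [Matrix.mul_smul, Matrix.mul_one, Matrix.sub_apply, Matrix.smul_apply,
      Matrix.mul_apply, Matrix.of_apply, ← Finset.sum_mul, sum_orbMat, Matrix.one_apply_ne hab,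
      Matrix.one_apply_ne hcd, orbMat_of_mem (⟨1, one_smul _ a, one_smul _ b⟩ : ∃ g : G, _),
      smul_eq_mul] at h5 h6
    by_contra h7
    rw [orbMat_of_not_mem h7] at h6
    linarith

variable [DecidableEq Ω] (ht : (blk φ E).trace = 1)
include ht

omit hφ hE [Fintype Ω] [IsPretransitive G Ω] [DecidableEq Ω] in
theorem add_eq (z : ZMod p) :
    E (φ (0, 0)) (φ (0, z)) + E (φ (1, 0)) (φ (1, z)) = if 0 = z then 1 else 0 := by
  simpa [Matrix.trace_fin_two, coeff_blk, AddMonoidAlgebra.one_def, Finsupp.single_apply] using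
    congrArg (fun x : GR p => x.coeff z) ht

omit hφ [DecidableEq Ω] in
theorem diag (x : Ω) : E x x = 1 / 2 := by
  have h1 := add_eq ht 0
  obtain ⟨g, hg⟩ := exists_smul_eq G x (φ (0, 0))
  obtain ⟨g', hg'⟩ := exists_smul_eq G x (φ (1, 0))
  rw [← hg, ← hg', hE.inv, hE.inv, if_pos rfl] at h1
  linarith

theorem blk_eq (hM : IsInvMat G M) : blk φ (M - ev φ M • E) =
    (blk φ (M - ev φ M • E)).trace • blk φ (1 - E) := by
  have h1 : IsInvMat G (1 - E) := fun g x y => by simp [hE.inv g, Matrix.one_apply]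
  have h2 : IsInvMat G (M - ev φ M • E) := fun g x y => by simp [hE.inv g, hM g]
  refine eq_trace_smul (by rw [map_sub, Matrix.trace_sub, blk_one, ht]; simp; norm_num) ?_ ?_
  · rw [← blk_mul hφ h1]
    simp [mul_sub, sub_mul, hE.mul M hM, hE.mul_self]
  · rw [← blk_mul hφ h2]
    simp [mul_sub, sub_mul, hE.mul' hφ hM, hE.mul_self]

omit hφ hE [Fintype Ω] [IsPretransitive G Ω] [DecidableEq Ω] in
theorem coeff_trace (s : ℚ) (z : ZMod p) : (blk φ (M - s • E)).trace.coeff z =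
    M (φ (0, 0)) (φ (0, z)) + M (φ (1, 0)) (φ (1, z)) - if 0 = z then s else 0 := by
  rw [map_sub, map_smul, Matrix.trace_sub, Matrix.trace_smul, ht]
  simp [Matrix.trace_fin_two, coeff_blk, AddMonoidAlgebra.one_def, Finsupp.single_apply]

theorem parseval (hM : IsInvMat G M) (h0 : ∀ x, M x x = 0) {k : ℚ}
    (hk : ∀ x, ∑ y, M x y * M x y = k) :
    2 * k = 2 * ev φ M ^ 2 + ∑ z, (M (φ (0, 0)) (φ (0, z)) + M (φ (1, 0)) (φ (1, z))) ^ 2 := by
  have h1 : IsInvMat G (1 - E) := fun g x y => by simp [hE.inv g, Matrix.one_apply]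
  have h2 : IsInvMat G (Mᵀ - ev φ M • E) := fun g x y => by simp [hE.inv g, hM g]
  have h3 : (1 - E) * (Mᵀ - ev φ M • E) = Mᵀ - ev φ M • E := by
    simp [mul_sub, sub_mul, hE.mul' hφ hM.transpose, hE.mul_self, ev_transpose hφ hM]
  have h4 : (M - ev φ M • E) * (Mᵀ - ev φ M • E) = M * Mᵀ - ev φ M ^ 2 • E := by
    simp [mul_sub, sub_mul, hE.mul' hφ hM.transpose, hE.mul_self, ev_transpose hφ hM, hE.mul M hM,
      smul_smul, sq]
  have h5 : (blk φ (M * Mᵀ - ev φ M ^ 2 • E)).trace =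
      (blk φ (M - ev φ M • E)).trace * (blk φ (Mᵀ - ev φ M • E)).trace := by
    rw [← h4, blk_mul hφ h2, hE.blk_eq hφ ht hM, Matrix.smul_mul, ← blk_mul hφ h2, h3,
      Matrix.trace_smul, ← hE.blk_eq hφ ht hM, smul_eq_mul]
  have h6 := congrArg (fun x : GR p => x.coeff 0) h5
  simp only [coeff_mul, coeff_trace ht, Matrix.mul_apply, Matrix.transpose_apply, hk, if_true,
    add_zero, eq_comm (a := (0 : ZMod p)), neg_eq_zero] at h6
  rw [Finset.sum_congr rfl (g := fun z => (M (φ (0, 0)) (φ (0, z)) + M (φ (1, 0)) (φ (1, z))) ^ 2 +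
    if z = 0 then ev φ M ^ 2 else 0) fun z _ => by
      split_ifs with e
      · simp [e, h0, sq]
      · simp [sq, shift hφ hM _ _ (-z)], Finset.sum_add_distrib, Finset.sum_ite_eq' , if_pos (Finset.mem_univ _)] at h6
  linarith

omit hφ hE ht [DecidableEq Ω] [IsPretransitive G Ω] [Fintype Ω] in
theorem orbMat_cases (a b x y : Ω) : orbMat G ℚ a b x y = 0 ∨
    (orbMat G ℚ a b x y = 1 ∧ ∃ g : G, g • a = x ∧ g • b = y) := by
  by_cases h : ∃ g : G, g • a = x ∧ g • b = y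
  exacts [Or.inr ⟨orbMat_of_mem h, h⟩, Or.inl (orbMat_of_not_mem h)]

omit hφ [DecidableEq Ω] in
theorem card_mul_entry (a b : Ω) :
    2 * Nat.card (orbit (stabilizer G a) b) * E a b = ev φ (orbMat G ℚ a b) := by
  have h1 := congrFun (congrFun (hE.mul _ (isInvMat_orbMat ℚ a b)) a) a
  rw [Matrix.mul_apply, Finset.sum_congr rfl (g := fun y => orbMat G ℚ a b a y * E a b)
    fun y _ => by
      rcases orbMat_cases (G := G) a b a y with e | ⟨-, g, e, rfl⟩
      · simp [e]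
      · rw [hE.symm' _ a, ← hE.inv g a b, e], ← Finset.sum_mul, sum_orbMat, Matrix.smul_apply,
    hE.diag ht, smul_eq_mul] at h1
  linarith

theorem sums {a b : Ω} (hab : b ≠ a) :
    ∑ z, (orbMat G ℚ a b (φ (0, 0)) (φ (0, z)) + orbMat G ℚ a b (φ (1, 0)) (φ (1, z))) =
      Nat.card (orbit (stabilizer G a) b) + ev φ (orbMat G ℚ a b) ∧
    ∑ z, (orbMat G ℚ a b (φ (0, 0)) (φ (0, z)) + orbMat G ℚ a b (φ (1, 0)) (φ (1, z))) ^ 2 =
      2 * Nat.card (orbit (stabilizer G a) b) - 2 * ev φ (orbMat G ℚ a b) ^ 2 := by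
  have hA := isInvMat_orbMat (G := G) ℚ a b
  constructor
  · rw [← sum_orbMat ℚ a b a, sum_row (φ := φ) hA, Finset.sum_add_distrib, ev]
    linarith [(al_symm hφ hA).1, show al φ (orbMat G ℚ a b) 0 0 = ∑ z, _ from rfl,
      show al φ (orbMat G ℚ a b) 1 1 = ∑ z, _ from rfl]
  · rw [hE.parseval hφ ht hA (orbMat_diag hab) fun x => (Finset.sum_congr rfl fun y _ => by
      rcases orbMat_cases (G := G) a b x y with e | ⟨e, -⟩ <;> simp [e]).trans
        (sum_orbMat ℚ a b x)]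
    ring

theorem card_eq {a b : Ω} (hab : b ≠ a) (h : ev φ (orbMat G ℚ a b) ≠ 0) :
    (Nat.card (orbit (stabilizer G a) b) : ℚ) =
      ev φ (orbMat G ℚ a b) * (2 * ev φ (orbMat G ℚ a b) + 1) := by
  obtain ⟨h1, h2⟩ := hE.sums hφ ht hab
  rw [Finset.sum_congr rfl fun z _ => ?_, h1] at h2
  · linarith
  rcases orbMat_cases (G := G) a b (φ (0, 0)) (φ (0, z)) with e | ⟨e, g, e1, e2⟩ <;>
    rcases orbMat_cases (G := G) a b (φ (1, 0)) (φ (1, z)) with e' | ⟨e', g', e1', e2'⟩ <;>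
    try simp [e, e']
  have h3 := add_eq ht z
  rw [← e1, ← e2, ← e1', ← e2', hE.inv, hE.inv, if_neg (by
    rintro rfl
    exact hab (smul_left_cancel g (e2.trans e1.symm)))] at h3
  have h4 := hE.card_mul_entry ht a b
  rw [show E a b = 0 by linarith, mul_zero] at h4
  exact absurd h4.symm h

theorem ev_ne_zero (h2 : ∀ a b : Ω, b ≠ a → 2 ≤ Nat.card (orbit (stabilizer G a) b)) {a b : Ω}
    (hab : b ≠ a) : ev φ (orbMat G ℚ a b) ≠ 0 := by
  intro h0
  obtain ⟨χ, hχ⟩ := exists_ev (p := p)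
  obtain ⟨h3, h4⟩ := hE.sums hφ ht hab
  have h5 := hE.blk_eq hφ ht (isInvMat_orbMat ℚ a b)
  rw [h0] at h3 h4 h5
  have h6 : blk φ (orbMat G ℚ a b) 0 0 = blk φ (orbMat G ℚ a b) 1 1 := by
    ext z
    have h7 : ∑ z, (orbMat G ℚ a b (φ (0, 0)) (φ (0, z)) -
        orbMat G ℚ a b (φ (1, 0)) (φ (1, z))) ^ 2 = 0 := by
      rw [Finset.sum_congr rfl (g := fun z => 2 * (orbMat G ℚ a b (φ (0, 0)) (φ (0, z)) +
        orbMat G ℚ a b (φ (1, 0)) (φ (1, z))) - (orbMat G ℚ a b (φ (0, 0)) (φ (0, z)) +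
          orbMat G ℚ a b (φ (1, 0)) (φ (1, z))) ^ 2) fun z _ => by
        rcases orbMat_cases (G := G) a b (φ (0, 0)) (φ (0, z)) with e | ⟨e, -⟩ <;>
          rcases orbMat_cases (G := G) a b (φ (1, 0)) (φ (1, z)) with e' | ⟨e', -⟩ <;>
          norm_num [e, e'], Finset.sum_sub_distrib, ← Finset.mul_sum, h3, h4]
      ring
    exact sub_eq_zero.1 (pow_eq_zero_iff two_ne_zero |>.1
      ((Finset.sum_eq_zero_iff_of_nonneg fun _ _ => sq_nonneg _).1 h7 z (Finset.mem_univ _)))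
  have h7 : χ (blk φ (orbMat G ℚ a b - (0 : ℚ) • E)).trace *
      χ (blk φ (1 - E) 0 0 - blk φ (1 - E) 1 1) = 0 := by
    rw [← map_mul, mul_sub, ← smul_eq_mul, ← smul_eq_mul, ← Matrix.smul_apply, ← Matrix.smul_apply,
      ← h5, zero_smul, sub_zero, h6, sub_self, map_zero]
  rcases mul_eq_zero.1 h7 with h8 | h8
  · have h9 := hχ _ h8
    simp only [coeff_trace ht, ite_self, sub_zero, orbMat_diag hab, add_zero] at h9
    rw [Finset.sum_eq_zero fun z _ => h9 z, add_zero, eq_comm, Nat.cast_eq_zero] at h3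
    have := h2 a b hab
    omega
  have h9 : ∀ i z, z ≠ 0 → E (φ (i, 0)) (φ (i, z)) = 0 := fun i z hz => by
    have e1 := hχ _ h8 z
    have e2 := add_eq ht z
    simp [coeff_blk, hE.diag ht, hz.symm] at e1 e2
    fin_cases i <;> simp <;> linarith
  obtain ⟨z, -, hz⟩ := Finset.exists_ne_zero_of_sum_ne_zero
    (show al φ E 0 1 ≠ 0 by rw [hE.al_eq hφ]; norm_num)
  have hne : φ (1, z) ≠ φ (0, 0) := by simp
  generalize φ (1, z) = d, hc : φ (0, 0) = c at hz hne
  have e1 := h2 c d hne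
  have e2 := hE.card_mul_entry ht c d
  have e3 : (2 : ℚ) ≤ Nat.card (orbit (stabilizer G c) d) := by exact_mod_cast e1
  have e4 := hE.card_eq hφ ht hne (e2 ▸ mul_ne_zero (by positivity) hz)
  have e5 := (hE.sums hφ ht hne).1
  have e6 : ∀ i z, orbMat G ℚ c d (φ (i, 0)) (φ (i, z)) = 0 := fun i z => by
    refine (orbMat_cases c d _ _).resolve_right fun ⟨_, g, e, e'⟩ => hz ?_
    rw [← hE.inv g, e, e']
    refine h9 i z ?_
    rintro rfl
    exact hne (smul_left_cancel g (e'.trans e.symm))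
  simp only [e6, add_zero, Finset.sum_const_zero] at e5
  nlinarith

end IsProj

omit hφ in
theorem two_le_card_orbit [FaithfulSMul G Ω] (hΩ : Fintype.card Ω = 2 * p)
    (hG : IsPreprimitive G Ω) (a b : Ω) (hab : b ≠ a) :
    2 ≤ Nat.card (orbit (stabilizer G a) b) := by
  haveI : Finite G := finite_of_faithful (X := Ω)
  haveI : Nontrivial Ω := ⟨a, b, hab.symm⟩
  by_contra hc
  haveI := Finite.card_le_one_iff_subsingleton.1 (Nat.le_of_lt_succ (not_le.1 hc))
  obtain ⟨-, h1, h2⟩ := prime_card_of_regular_primitive hG a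
    (stabilizer_eq_bot_of_stabilizer_eq hG hab.symm (stabilizer_eq_of_le fun g hg =>
      Subtype.ext_iff.1 (Subsingleton.elim (α := orbit (stabilizer G a) b)
        ⟨_, mem_orbit b (⟨g, hg⟩ : stabilizer G a)⟩ ⟨b, mem_orbit_self b⟩)) a)
  rw [h2, Nat.card_eq_fintype_card, hΩ] at h1
  exact Nat.not_prime_mul (by norm_num) hp.out.one_lt.ne' h1

omit hφ [IsPretransitive G Ω] [Fintype Ω] in
theorem exists_int_ev (a b : Ω) : ∃ s : ℤ, ∑ z, orbMat G ℚ a b (φ (0, 0)) (φ (0, z)) -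
    ∑ z, orbMat G ℚ a b (φ (0, 0)) (φ (1, z)) = s :=
  ⟨∑ z, orbMat G ℤ a b (φ (0, 0)) (φ (0, z)) - ∑ z, orbMat G ℤ a b (φ (0, 0)) (φ (1, z)), by
    simp [orbMat]⟩

end Cfsg.Agent.Perm.TwoP
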